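import Cfsg.Agent.Lib.H39.DA2
import Cfsg.Agent.Lib.H39.DAQ9bCore
import Cfsg.Agent.Lib.H65.Q9bPart

set_option autoImplicit false
set_option linter.unusedVariables false

/-! S3262 / S3219, piece Q9b: generic form (no assumption on the two-point stabilizer). -/

namespace H65.Q9bGen

open MulAction H39.DA

universe u v

theorem modr_gen {G : Type u} {Ω : Type v} [Group G] [Finite G] [MulAction G Ω] [Finite Ω]
    {a b : Ω} (hab : a ≠ b) {t : G} (ht : Inv t) (hts : t ∈ St G a b)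
    (hVcard : Nat.card (VV a b t) = 4) (hV2 : ∀ g ∈ VV a b t, g * g = 1)
    (hVc : ∀ g ∈ VV a b t, ∀ g' ∈ VV a b t, g * g' = g' * g)
    (hVx : ∀ s ∈ VV a b t, s ≠ 1 → ∃ x : G, x * t * x⁻¹ = s)
    (hL : Nat.card (Subgroup.centralizer ({t} : Set G)) = 4 * (fx G Ω t * (fx G Ω t - 1)))
    (witt : ∀ c d c' d' : Ω, c ≠ d → c' ≠ d' → t • c = c → t • d = d → t • c' = c' → t • d' = d' →
      ∃ g : G, g * t = t * g ∧ g • c = c' ∧ g • d = d')
    (hm : fS G Ω (VV a b t) * fS G Ω (VV a b t) = fx G Ω t) (hmo : Odd (fx G Ω t))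
    (r k : ℕ) (hr : r.Prime) (hrk : fx G Ω t = r ^ k)
    (lift : fS G Ω (VV a b t) < fx G Ω t → 1 ≤ k → ∃ Et : Subgroup G,
      Et ≤ Subgroup.centralizer ({t} : Set G) ∧ Nat.card Et = fx G Ω t ∧
      (∀ g : G, g * t = t * g → ∀ e ∈ Et, g * e * g⁻¹ ∈ Et) ∧
      (∀ e ∈ Et, ∀ e' ∈ Et, e * e' = e' * e) ∧ (∀ e ∈ Et, e ^ r = 1) ∧
      (∀ g : G, g * t = t * g → (∀ e ∈ Et, g * e = e * g) → g ∈ Et ∨ g * t ∈ Et) ∧
      (∀ g : G, g * t = t * g → Odd (orderOf g) → ∀ e ∈ Et, e ≠ 1 → g * e = e * g → g ∈ Et)) :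
    ∃ q : ℕ, (q = 1 ∨ r ∣ q) ∧ Nat.card {s : G // IsConj t s} ≡ q [MOD r] := by
  -- `2 ≤ m`
  have hm2 : 1 < fS G Ω (VV a b t) := by
    have h1 : Nontrivial {x : Ω // ∀ g ∈ VV a b t, g • x = x} :=
      ⟨⟨a, fun g hg => hg.1.1⟩, ⟨b, fun g hg => hg.1.2⟩, fun hh => hab (congrArg Subtype.val hh)⟩
    exact Finite.one_lt_card_iff_nontrivial.2 h1
  have hlt : fS G Ω (VV a b t) < fx G Ω t := by
    rw [← hm]
    calc fS G Ω (VV a b t) = fS G Ω (VV a b t) * 1 := (mul_one _).symm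
      _ < _ := Nat.mul_lt_mul_of_pos_left hm2 (by omega)
  have hk : 1 ≤ k := by
    rcases Nat.eq_zero_or_pos k with h0 | h0
    · rw [h0, pow_zero] at hrk; omega
    · exact h0
  have hr2 : r ≠ 2 := by
    rintro rfl
    rw [hrk] at hmo
    have := (Nat.odd_pow_iff (by omega)).1 hmo
    exact absurd this (by decide)
  obtain ⟨Et, h1, h2, h3, h4, h5, h6, h7⟩ := lift hlt hk
  -- an element `v` of `V`
  have htV : t ∈ VV a b t := ⟨hts, Subgroup.mem_centralizer_singleton_iff.2 rfl⟩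
  obtain ⟨v, hv, hv1, hvt⟩ : ∃ v ∈ VV a b t, v ≠ 1 ∧ v ≠ t := by
    by_contra hcon
    push Not at hcon
    have hle : VV a b t ≤ Subgroup.zpowers t := by
      intro v hv
      by_cases hv1 : v = 1
      · rw [hv1]; exact one_mem _
      · rw [hcon v hv hv1]; exact Subgroup.mem_zpowers t
    have h8 := Subgroup.card_le_of_le hle
    rw [hVcard, Nat.card_zpowers] at h8
    have h9 : orderOf t ≤ 2 := orderOf_le_of_pow_eq_one (by norm_num) (by rw [pow_two]; exact ht.2)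
    omega
  have htv : t * v = v * t := hVc t htV v hv
  have hr1 : ∀ s : G, s = t ∨ s = v ∨ s = t * v → ∀ y : G, Odd (orderOf y) →
      (∀ e ∈ Et, y * e = e * y) → y * s = s * y → y ^ r = 1 := by
    intro s hs y hy hye hys
    have hsV : s ∈ VV a b t := by
      rcases hs with rfl | rfl | rfl
      · exact htV
      · exact hv
      · exact mul_mem htV hv
    have hs1 : s ≠ 1 := by
      rcases hs with rfl | rfl | rfl
      · exact ht.1
      · exact hv1
      · intro hh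
        apply hvt
        have h8 : t * v = t * t := by rw [hh, ht.2]
        exact mul_left_cancel h8
    obtain ⟨x, hx⟩ := hVx s hsV hs1
    exact H65.Q9bPart.hr1 hab ht hts hr hr2 hk hrk hL hV2 witt
      Et h1 h2 h3 h5 h7 hsV hx y hy hye hys
  exact Q9b.core ht ⟨hv1, hV2 v hv⟩ hvt htv hr hr2 Et
    (fun e he => Subgroup.mem_centralizer_singleton_iff.1 (h1 he)) h4 h5 h6
    (fun e he => h3 v (Subgroup.mem_centralizer_singleton_iff.1 hv.2) e he) hr1

end H65.Q9bGen
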