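import Cfsg.Agent.Lib.H39.DBD7Core
import Cfsg.Agent.Lib.H65.Q9bPart

set_option autoImplicit false
set_option linter.unusedVariables false
set_option linter.unreachableTactic false
set_option linter.unusedTactic false

/-! S3219, piece BD7 (generic form). -/

open MulAction H39.DA
universe u v

namespace H65.Q9bGen4

theorem klein {G : Type u} [Group G] [Finite G] (V : Subgroup G) (hV : Nat.card V = 4) {t v : G}
    (ht : t ∈ V) (hv : v ∈ V) (ht1 : t ≠ 1) (hv1 : v ≠ 1) (hvt : v ≠ t) (htv : t * v ≠ 1) :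
    ∀ w ∈ V, w = 1 ∨ w = t ∨ w = v ∨ w = t * v := by
  classical
  intro w hw
  by_contra hcon
  push Not at hcon
  obtain ⟨w1, w2, w3, w4⟩ := hcon
  have h1 : t * v ≠ t := by
    intro h; exact hv1 (mul_eq_left.1 h)
  have h2 : t * v ≠ v := by
    intro h; exact ht1 (mul_eq_right.1 h)
  let f : Fin 5 → V := ![⟨1, one_mem V⟩, ⟨t, ht⟩, ⟨v, hv⟩, ⟨t * v, mul_mem ht hv⟩, ⟨w, hw⟩]
  have hf : Function.Injective f := by
    intro i j hij
    have hij' : ((f i : V) : G) = f j := congrArg Subtype.val hij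
    fin_cases i <;> fin_cases j <;> simp [f] at hij' <;>
      first
        | rfl
        | exact absurd hij' ht1
        | exact absurd hij' hv1
        | exact absurd hij' hvt
        | exact absurd hij' w1
        | exact absurd hij' w2
        | exact absurd hij' w3
        | exact absurd hij' w4
        | exact absurd hij' htv
        | exact absurd hij' h1
        | exact absurd hij' h2
        | exact absurd hij'.symm ht1
        | exact absurd hij'.symm hv1
        | exact absurd hij'.symm hvt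
        | exact absurd hij'.symm w1
        | exact absurd hij'.symm w2
        | exact absurd hij'.symm w3
        | exact absurd hij'.symm w4
        | exact absurd hij'.symm htv
        | exact absurd hij'.symm h1
        | exact absurd hij'.symm h2
        | (exfalso; simp_all)
  have h3 := Nat.card_le_card_of_injective f hf
  rw [hV] at h3
  simp at h3

theorem modr4_gen {G : Type u} {Ω : Type v} [Group G] [Finite G] [MulAction G Ω] [Finite Ω]
    {a b : Ω} (hab : a ≠ b) {t : G} (ht : Inv t) (hts : t ∈ St G a b)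
    (hVcard : Nat.card (VV a b t) = 4) (hV2 : ∀ g ∈ VV a b t, g * g = 1)
    (hVc : ∀ g ∈ VV a b t, ∀ g' ∈ VV a b t, g * g' = g' * g)
    (hVx : ∀ s ∈ VV a b t, s ≠ 1 → ∃ x : G, x * t * x⁻¹ = s)
    (hL : Nat.card (Subgroup.centralizer ({t} : Set G)) = 4 * (fx G Ω t * (fx G Ω t - 1)))
    (witt : ∀ c d c' d' : Ω, c ≠ d → c' ≠ d' → t • c = c → t • d = d → t • c' = c' → t • d' = d' →
      ∃ g : G, g * t = t * g ∧ g • c = c' ∧ g • d = d')
    (hm : fS G Ω (VV a b t) * fS G Ω (VV a b t) = fx G Ω t) (hmo : Odd (fx G Ω t))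
    (r k : ℕ) (hr : r.Prime) (hrk : fx G Ω t = r ^ k)
    (lift : fS G Ω (VV a b t) < fx G Ω t → 1 ≤ k → ∃ Et : Subgroup G,
      Et ≤ Subgroup.centralizer ({t} : Set G) ∧ Nat.card Et = fx G Ω t ∧
      (∀ g : G, g * t = t * g → ∀ e ∈ Et, g * e * g⁻¹ ∈ Et) ∧
      (∀ e ∈ Et, ∀ e' ∈ Et, e * e' = e' * e) ∧ (∀ e ∈ Et, e ^ r = 1) ∧
      (∀ g : G, g * t = t * g → (∀ e ∈ Et, g * e = e * g) → g ∈ Et ∨ g * t ∈ Et) ∧
      (∀ g : G, g * t = t * g → Odd (orderOf g) → ∀ e ∈ Et, e ≠ 1 → g * e = e * g → g ∈ Et)) :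
    ∃ q i : ℕ, q = r ^ i ∧ Nat.card {s : G // IsConj t s} ≡ q [MOD r] ∧ q * fx G Ω t ∣ Nat.card G ∧
      ((∃ σ ∈ NT (VV a b t) t, ∃ v ∈ VV a b t, σ * v ≠ v * σ) → ∃ c : ℕ, q = c * c) := by
  -- `2 ≤ m`
  have hm2 : 1 < fS G Ω (VV a b t) := by
    have h1 : Nontrivial {x : Ω // ∀ g ∈ VV a b t, g • x = x} :=
      ⟨⟨a, fun g hg => hg.1.1⟩, ⟨b, fun g hg => hg.1.2⟩, fun hh => hab (congrArg Subtype.val hh)⟩
    exact Finite.one_lt_card_iff_nontrivial.2 h1
  have hlt : fS G Ω (VV a b t) < fx G Ω t := by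
    rw [← hm]
    calc fS G Ω (VV a b t) = fS G Ω (VV a b t) * 1 := (mul_one _).symm
      _ < _ := Nat.mul_lt_mul_of_pos_left hm2 (by omega)
  have hk : 1 ≤ k := by
    rcases Nat.eq_zero_or_pos k with h0 | h0
    · rw [h0, pow_zero] at hrk; omega
    · exact h0
  have hr2 : r ≠ 2 := by
    rintro rfl
    rw [hrk] at hmo
    have := (Nat.odd_pow_iff (by omega)).1 hmo
    exact absurd this (by decide)
  obtain ⟨Et, h1, h2, h3, h4, h5, h6, h7⟩ := lift hlt hk
  -- an element `v` of `V`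
  have htV : t ∈ VV a b t := ⟨hts, Subgroup.mem_centralizer_singleton_iff.2 rfl⟩
  obtain ⟨v, hv, hv1, hvt⟩ : ∃ v ∈ VV a b t, v ≠ 1 ∧ v ≠ t := by
    by_contra hcon
    push Not at hcon
    have hle : VV a b t ≤ Subgroup.zpowers t := by
      intro v hv
      by_cases hv1 : v = 1
      · rw [hv1]; exact one_mem _
      · rw [hcon v hv hv1]; exact Subgroup.mem_zpowers t
    have h8 := Subgroup.card_le_of_le hle
    rw [hVcard, Nat.card_zpowers] at h8
    have h9 : orderOf t ≤ 2 := orderOf_le_of_pow_eq_one (by norm_num) (by rw [pow_two]; exact ht.2)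
    omega
  have htv : t * v = v * t := hVc t htV v hv
  have htv1 : t * v ≠ 1 := by
    intro hh
    apply hvt
    have h8 : t * v = t * t := by rw [hh, ht.2]
    exact mul_left_cancel h8
  have hr1 : ∀ s : G, s = t ∨ s = v ∨ s = t * v → ∀ y : G, Odd (orderOf y) →
      (∀ e ∈ Et, y * e = e * y) → y * s = s * y → y ^ r = 1 := by
    intro s hs y hy hye hys
    have hsV : s ∈ VV a b t := by
      rcases hs with rfl | rfl | rfl
      · exact htV
      · exact hv
      · exact mul_mem htV hv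
    have hs1 : s ≠ 1 := by
      rcases hs with rfl | rfl | rfl
      · exact ht.1
      · exact hv1
      · exact htv1
    obtain ⟨x, hx⟩ := hVx s hsV hs1
    exact H65.Q9bPart.hr1 hab ht hts hr hr2 hk hrk hL hV2 witt
      Et h1 h2 h3 h5 h7 hsV hx y hy hye hys
  obtain ⟨q, i, hq, hmod, hdvd, hsq⟩ := Q9b.core4 ht ⟨hv1, hV2 v hv⟩ hvt htv hr hr2 Et
    (fun e he => Subgroup.mem_centralizer_singleton_iff.1 (h1 he)) h4 h5 h6
    (fun e he => h3 v (Subgroup.mem_centralizer_singleton_iff.1 hv.2) e he) hr1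
  refine ⟨q, i, hq, hmod, by rw [← h2]; exact hdvd, ?_⟩
  rintro ⟨σ, hσ, v', hv', hne⟩
  have hσt : σ * t = t * σ := Subgroup.mem_centralizer_singleton_iff.1 hσ.2
  have hkl := klein (VV a b t) hVcard htV hv ht.1 hv1 hvt htv1
  apply hsq
  refine ⟨σ, hσt, ?_, fun e he => h3 σ hσt e he⟩
  have h8 : σ * v * σ⁻¹ ∈ VV a b t := (Subgroup.mem_normalizer_iff.1 hσ.1 v).1 hv
  have h9 : σ * v ≠ v * σ := by
    intro hc
    apply hne
    rcases hkl v' hv' with rfl | rfl | rfl | rfl
    · rw [mul_one, one_mul]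
    · exact hσt
    · exact hc
    · rw [← mul_assoc, hσt, mul_assoc, hc, mul_assoc]
  rcases hkl _ h8 with h | h | h | h
  · exfalso
    apply hv1
    have : v = σ⁻¹ * (σ * v * σ⁻¹) * σ := by group
    rw [this, h, mul_one, inv_mul_cancel]
  · exfalso
    apply hvt
    have : v = σ⁻¹ * (σ * v * σ⁻¹) * σ := by group
    rw [this, h, mul_assoc, ← hσt]; group
  · exfalso
    apply h9
    have : σ * v = (σ * v * σ⁻¹) * σ := by group
    rw [this, h]
  · exact h

end H65.Q9bGen4
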