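import Cfsg.Agent.Lib.H65.Bender
import Cfsg.Agent.Lib.H1.Solv
import Cfsg.Agent.Lib.H28.RelSyl
import Cfsg.Agent.Lib.H11.PStabApp

set_option autoImplicit false
set_option linter.style.haveILetI false
set_option linter.unusedSectionVars false

/-! The Fitting subgroup and chief factors. -/

namespace H65.Chief

open Subgroup Cfsg

variable {G : Type*} [Group G] [Finite G]

def IsChief (U V : Subgroup G) : Prop :=
  U.Normal ∧ V.Normal ∧ V < U ∧ ∀ W : Subgroup G, W.Normal → V ≤ W → W ≤ U → W = V ∨ W = U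

omit [Finite G] in
/-- a nilpotent normal subgroup centralizes every chief factor -/
theorem nilpotent_centralizes {F : Subgroup G} [F.Normal] (hF : Group.IsNilpotent F) {U V : Subgroup G}
    (h : IsChief U V) : ∀ u ∈ U, ∀ g ∈ F, u * g * u⁻¹ * g⁻¹ ∈ V := by
  obtain ⟨hU, hV, hVU, hmin⟩ := h
  have h1 := hmin (⁅U, F⁆ ⊔ V) inferInstance le_sup_right (sup_le (Subgroup.commutator_le_left U F) hVU.le)
  rcases h1 with h1 | h1
  · intro u hu g hg
    have h2 : ⁅U, F⁆ ≤ V := by rw [← h1]; exact le_sup_left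
    exact h2 (commutator_mem_commutator hu hg)
  · exfalso
    let f := QuotientGroup.mk' V
    have hf : Function.Surjective f := QuotientGroup.mk'_surjective V
    have hVf : V.map f = ⊥ := by
      rw [eq_bot_iff, Subgroup.map_le_iff_le_comap]
      intro x hx
      exact (QuotientGroup.eq_one_iff x).mpr hx
    have hUf : U.map f = ⁅U.map f, F.map f⁆ := by
      conv_lhs => rw [← h1]
      rw [Subgroup.map_sup, Subgroup.map_commutator, hVf, sup_bot_eq]
    haveI : (F.map f).Normal := Subgroup.Normal.map inferInstance f hf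
    have key : ∀ n, U.map f ≤ (F.map f).lowerCentralSeries n := by
      intro n
      induction n with
      | zero =>
        rw [hUf]
        exact Subgroup.commutator_le_right _ _
      | succ n ih =>
        rw [hUf, Subgroup.lowerCentralSeries_succ]
        exact commutator_mono ih le_rfl
    obtain ⟨n, hn⟩ := (Subgroup.isNilpotent_iff_lowerCentralSeries F).mp hF
    have h2 := key n
    rw [← map_lowerCentralSeries, hn, Subgroup.map_bot, le_bot_iff] at h2
    have h3 : U ≤ V := by
      intro u hu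
      have : f u ∈ U.map f := ⟨u, hu, rfl⟩
      rw [h2, mem_bot] at this
      exact (QuotientGroup.eq_one_iff u).mp this
    exact absurd h3 (not_le_of_gt hVU)

theorem commute_of_comm {Q : Subgroup G} {z p u : G} (hz : (orderOf z).Coprime (Nat.card Q)) (hu : u ∈ Q)
    (hzp : z * p * z⁻¹ * p⁻¹ = u) (hzu : z * u = u * z) : z * p = p * z := by
  have h1 : z * p * z⁻¹ = u * p := by rw [← hzp]; group
  have h2 : ∀ n : ℕ, z ^ n * p * (z ^ n)⁻¹ = u ^ n * p := by
    intro n
    induction n with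
    | zero => simp
    | succ n ih =>
      have h3 : z * u ^ n * z⁻¹ = u ^ n := by
        have : Commute z (u ^ n) := Commute.pow_right (show Commute z u from hzu) n
        rw [this.eq, mul_assoc, mul_inv_cancel, mul_one]
      have h4 : z ^ (n + 1) * p * (z ^ (n + 1))⁻¹ = z * (z ^ n * p * (z ^ n)⁻¹) * z⁻¹ := by
        rw [pow_succ']; group
      rw [h4, ih]
      have h5 : z * (u ^ n * p) * z⁻¹ = (z * u ^ n * z⁻¹) * (z * p * z⁻¹) := by group
      rw [h5, h3, h1, ← mul_assoc, ← pow_succ]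
  have h3 := h2 (orderOf z)
  rw [pow_orderOf_eq_one, one_mul, inv_one, mul_one] at h3
  have h4 : u ^ (orderOf z) = 1 := by
    have := congrArg (· * p⁻¹) h3
    simp only [mul_inv_cancel, mul_assoc, mul_one] at this
    exact this.symm
  have h5 : orderOf u ∣ Nat.gcd (orderOf z) (Nat.card Q) :=
    Nat.dvd_gcd (orderOf_dvd_of_pow_eq_one h4) (Subgroup.orderOf_dvd_natCard Q hu)
  rw [hz] at h5
  have h7 : u = 1 := orderOf_eq_one_iff.mp (Nat.dvd_one.mp h5)
  rw [h7, one_mul] at h1
  calc z * p = z * p * z⁻¹ * z := by group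
    _ = p * z := by rw [h1]

theorem centralizes_normal {F : Subgroup G} {c : G}
    (hc : ∀ U V : Subgroup G, IsChief U V → U ≤ F → ∀ u ∈ U, u * c * u⁻¹ * c⁻¹ ∈ V) :
    ∀ (n : ℕ) (U : Subgroup G), Nat.card U = n → U.Normal → U ≤ F → (orderOf c).Coprime (Nat.card U) →
      ∀ u ∈ U, c * u = u * c := by
  intro n
  induction n using Nat.strong_induction_on with
  | _ n ih =>
  intro U hn hU hUF hco u hu
  by_cases hb : U = ⊥
  · rw [hb, mem_bot] at hu
    rw [hu]; simp
  obtain ⟨V, hV⟩ := (Set.toFinite {V : Subgroup G | V.Normal ∧ V < U}).exists_maximal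
    ⟨⊥, inferInstance, bot_lt_iff_ne_bot.mpr hb⟩
  obtain ⟨⟨hVn, hVU⟩, hmax⟩ := hV
  have hchief : IsChief U V := by
    refine ⟨hU, hVn, hVU, fun W hW hVW hWU => ?_⟩
    by_cases h : W = U
    · exact Or.inr h
    · exact Or.inl (le_antisymm (hmax ⟨hW, lt_of_le_of_ne hWU h⟩ hVW) hVW)
  have hlt : Nat.card V < n := by
    rw [← hn]
    rcases Nat.lt_or_ge (Nat.card V) (Nat.card U) with h | h
    · exact h
    · exact absurd (Subgroup.eq_of_le_of_card_ge hVU.le h) hVU.ne
  have hcoV : (orderOf c).Coprime (Nat.card V) :=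
    Nat.Coprime.coprime_dvd_right (Subgroup.card_dvd_of_le hVU.le) hco
  have h1 : c * u * c⁻¹ * u⁻¹ ∈ V := by
    have := inv_mem (hc U V hchief hUF u hu)
    have h2 : (u * c * u⁻¹ * c⁻¹)⁻¹ = c * u * c⁻¹ * u⁻¹ := by group
    rwa [h2] at this
  exact commute_of_comm hcoV h1 rfl (ih _ hlt V rfl hVn (hVU.le.trans hUF) hcoV _ h1)

/-- elements of `N` centralizing the chief factors below `F` -/
def CF (N F : Subgroup G) : Subgroup G where
  carrier := {g | g ∈ N ∧ ∀ U V : Subgroup G, IsChief U V → U ≤ F → ∀ u ∈ U, u * g * u⁻¹ * g⁻¹ ∈ V}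
  one_mem' := ⟨one_mem _, fun U V _ _ u _ => by simp [one_mem]⟩
  mul_mem' := by
    rintro a b ⟨ha1, ha2⟩ ⟨hb1, hb2⟩
    refine ⟨mul_mem ha1 hb1, fun U V hUV hUF u hu => ?_⟩
    have h1 := ha2 U V hUV hUF u hu
    have h2 := hUV.2.1.conj_mem _ (hb2 U V hUV hUF u hu) a
    have h3 : u * (a * b) * u⁻¹ * (a * b)⁻¹ = (u * a * u⁻¹ * a⁻¹) * (a * (u * b * u⁻¹ * b⁻¹) * a⁻¹) := by group
    rw [h3]; exact mul_mem h1 h2
  inv_mem' := by
    rintro a ⟨ha1, ha2⟩
    refine ⟨inv_mem ha1, fun U V hUV hUF u hu => ?_⟩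
    have h2 := hUV.2.1.conj_mem _ (inv_mem (ha2 U V hUV hUF u hu)) a⁻¹
    have h3 : u * a⁻¹ * u⁻¹ * a⁻¹⁻¹ = a⁻¹ * (u * a * u⁻¹ * a⁻¹)⁻¹ * a⁻¹⁻¹ := by group
    rw [h3]; exact h2

omit [Finite G] in
theorem CF_normal (N F : Subgroup G) [N.Normal] : (CF N F).Normal := by
  constructor
  rintro g ⟨hg1, hg2⟩ x
  refine ⟨Normal.conj_mem inferInstance g hg1 x, fun U V hUV hUF u hu => ?_⟩
  have h1 : x⁻¹ * u * x ∈ U := by
    have := hUV.1.conj_mem u hu x⁻¹
    simpa using this
  have h2 := hUV.2.1.conj_mem _ (hg2 U V hUV hUF _ h1) x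
  have h3 : u * (x * g * x⁻¹) * u⁻¹ * (x * g * x⁻¹)⁻¹ =
      x * (x⁻¹ * u * x * g * (x⁻¹ * u * x)⁻¹ * g⁻¹) * x⁻¹ := by group
  rw [h3]; exact h2

theorem main (hG : Group.IsSolvable G) (N : Subgroup G) [N.Normal] :
    CF N ((fittingSubgroup N).map N.subtype) ≤ (fittingSubgroup N).map N.subtype := by
  classical
  set F := (fittingSubgroup N).map N.subtype with hF
  set C := CF N F with hC
  haveI hCn : C.Normal := CF_normal N F
  have hFN : F ≤ N := Subgroup.map_subtype_le _
  have hFeq : F = N ⊓ fittingSubgroup G := H1.Cores.map_subtype_fittingSubgroup N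
  haveI hFn : F.Normal := by rw [hFeq]; infer_instance
  have hsolN : Group.IsSolvable N :=
    Group.isSolvable_of_isSolvable_injective (f := N.subtype) N.subtype_injective
  have hcF : ∀ y ∈ N, (∀ x ∈ F, y * x = x * y) → y ∈ F := by
    intro y hy h
    have h1 : (⟨y, hy⟩ : N) ∈ centralizer (fittingSubgroup N : Set N) := by
      rw [mem_centralizer_iff]
      intro x hx
      exact Subtype.ext (h x ⟨x, hx, rfl⟩).symm
    exact ⟨_, H1.Solv.centralizer_fitting_le hsolN h1, rfl⟩
  -- p-elements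
  have key : ∀ (p : ℕ) [Fact p.Prime], ∀ x ∈ C, (∃ k, orderOf x = p ^ k) → x ∈ F := by
    intro p hp x hx ⟨k, hk⟩
    let Fp : Subgroup G := N ⊓ pCore p G
    let Fq : Subgroup G := F ⊓ (N ⊓ pPrimeCore p G)
    haveI : Fp.Normal := inferInstance
    haveI : Fq.Normal := inferInstance
    have hFpp : IsPGroup p Fp := (H1.Cores.isPGroup_pCore p).to_le inf_le_right
    have hFqc : (Nat.card Fq).Coprime p :=
      Nat.Coprime.coprime_dvd_left (Subgroup.card_dvd_of_le (inf_le_right.trans inf_le_right))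
        (H1.Cores.coprime_card_pPrimeCore p)
    have hFsup : F ≤ Fp ⊔ Fq := by
      have h1 := Subgroup.map_mono (f := N.subtype) (H65.Bender.fitting_le p N)
      rw [Subgroup.map_sup, H1.Cores.map_subtype_pCore, Subgroup.map_inf_eq _ _ _ N.subtype_injective,
        H1.Cores.map_subtype_pPrimeCore] at h1
      exact h1
    have hFpF : Fp ≤ F := by
      have h1 := Subgroup.map_mono (f := N.subtype) (H1.Cores.pCore_le_fittingSubgroup (G := N) p)
      rw [H1.Cores.map_subtype_pCore] at h1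
      exact h1
    let K : Subgroup G := C ⊓ centralizer (Fq : Set G)
    haveI hKn : K.Normal := inferInstance
    have hKN : K ≤ N := fun y hy => (mem_inf.mp hy).1.1
    have hxK : x ∈ K := by
      refine mem_inf.mpr ⟨hx, ?_⟩
      rw [mem_centralizer_iff]
      intro u hu
      refine (centralizes_normal hx.2 _ Fq rfl inferInstance inf_le_left ?_ u hu).symm
      rw [hk]
      exact Nat.Coprime.pow_left k hFqc.symm
    have hy : ∀ y ∈ K, (orderOf y).Coprime p → y ∈ Fq := by
      intro y hy hyo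
      have h1 : ∀ z ∈ Fp, y * z = z * y := by
        apply centralizes_normal (mem_inf.mp hy).1.2 _ Fp rfl inferInstance hFpF
        obtain ⟨j, hj⟩ := IsPGroup.iff_card.mp hFpp
        rw [hj]
        exact Nat.Coprime.pow_right j hyo
      have h2 : ∀ z ∈ Fq, y * z = z * y := fun z hz => (mem_centralizer_iff.mp (mem_inf.mp hy).2 z hz).symm
      have h3 : F ≤ centralizer {y} := by
        refine hFsup.trans (sup_le ?_ ?_)
        · intro z hz
          rw [mem_centralizer_singleton_iff]
          exact (h1 z hz).symm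
        · intro z hz
          rw [mem_centralizer_singleton_iff]
          exact (h2 z hz).symm
      have hyF : y ∈ F := hcF y (hKN hy) fun z hz => (mem_centralizer_singleton_iff.mp (h3 hz)).symm
      obtain ⟨a, ha, b, hb, hab⟩ := Subgroup.mem_sup_of_normal_right.mp (hFsup hyF)
      have hdis : Fp ⊓ Fq = ⊥ := H65.Bender.inf_eq_bot hFpp hFqc
      have hcomm : a * b = b * a :=
        H65.Bender.commute_of_normalize (by rw [Subgroup.normalizer_eq_top]; exact le_top)
          (by rw [Subgroup.normalizer_eq_top]; exact le_top) hdis ha hb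
      have h4 : a ^ (orderOf y) * b ^ (orderOf y) = 1 := by
        rw [← (show Commute a b from hcomm).mul_pow, hab, pow_orderOf_eq_one]
      have h5 : a ^ (orderOf y) ∈ Fp ⊓ Fq := by
        refine mem_inf.mpr ⟨pow_mem ha _, ?_⟩
        rw [eq_inv_of_mul_eq_one_left h4]
        exact inv_mem (pow_mem hb _)
      rw [hdis, mem_bot] at h5
      obtain ⟨j, hj⟩ := hFpp ⟨a, ha⟩
      have hj' : a ^ (p ^ j) = 1 := by
        have := congrArg Subtype.val hj
        simpa using this
      have h6 : orderOf a ∣ Nat.gcd (orderOf y) (p ^ j) :=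
        Nat.dvd_gcd (orderOf_dvd_of_pow_eq_one h5) (orderOf_dvd_of_pow_eq_one hj')
      rw [Nat.Coprime.pow_right j hyo] at h6
      have h7 : a = 1 := orderOf_eq_one_iff.mp (Nat.dvd_one.mp h6)
      rw [← hab, h7, one_mul]
      exact hb
    have hKnil : Group.IsNilpotent K := by
      apply Group.of_quotient_center_nilpotent
      have hpq : IsPGroup p (K ⧸ center K) := by
        intro q
        obtain ⟨c, rfl⟩ := QuotientGroup.mk_surjective q
        obtain ⟨j, hj⟩ := H11.PStabApp.exists_pow_coprime p (c : K)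
        refine ⟨j, ?_⟩
        rw [← QuotientGroup.mk_pow, QuotientGroup.eq_one_iff, mem_center_iff]
        intro d
        apply Subtype.ext
        have h8 := hy (c ^ p ^ j : K) (c ^ p ^ j : K).2 (by rwa [orderOf_coe])
        have hd := mem_centralizer_iff.mp (mem_inf.mp d.2).2 _ h8
        exact hd.symm
      exact hpq.isNilpotent
    have hKF : K ≤ F := by
      rw [hFeq]
      exact le_inf hKN (H1.Cores.le_fittingSubgroup hKn hKnil)
    exact hKF hxK
  -- `C ≤ F`
  have h1 : F.relIndex C = 1 := by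
    by_contra hne
    obtain ⟨p, hp, hpd⟩ := Nat.exists_prime_and_dvd hne
    haveI := Fact.mk hp
    obtain ⟨P, hP⟩ := H28.RelSyl.exists_isSyl p C
    have hPF : P ≤ F := by
      intro x hx
      apply key p x (hP.le hx)
      obtain ⟨j, hj⟩ := hP.isPGroup ⟨x, hx⟩
      have hj' : x ^ (p ^ j) = 1 := by
        have := congrArg Subtype.val hj
        simpa using this
      obtain ⟨k, -, hk⟩ := (Nat.dvd_prime_pow hp).mp (orderOf_dvd_of_pow_eq_one hj')
      exact ⟨k, hk⟩
    exact hP.not_dvd (hpd.trans (Subgroup.relIndex_dvd_of_le_left C hPF))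
  exact relIndex_eq_one.mp h1

end H65.Chief
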