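import Cfsg.Agent.Lib.H65.CopRep2
import Cfsg.Agent.Lib.H73.Nilp

set_option autoImplicit false
set_option linter.style.haveILetI false
set_option linter.unusedSectionVars false
set_option linter.unusedVariables false

/-! Hall-Higman type theorems: groups of prime order acting on groups acting on elementary abelian groups. -/

namespace H65.CopRep

open Subgroup Cfsg Module
open scoped commutatorElement

universe u

variable {X : Type u} [Group X] [Finite X]

/-- Sylow covering for subgroups cut out by a quotient -/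
theorem eq_of_isSylIn {K T : Subgroup X} (hT : T ≤ K)
    (h : ∀ q : ℕ, q.Prime → ∃ S, H1.Coprime2.IsSylIn q K S ∧ S ≤ T) : T = K := by
  apply H13.CoprimeHyper.relIndex_eq_one_of_sylow_le hT
  intro q hq
  haveI : Fact q.Prime := ⟨hq⟩
  obtain ⟨S, hS, hST⟩ := h q hq
  obtain ⟨P, hP⟩ := hS.exists_sylow
  exact ⟨P, by rw [hP]; exact hST⟩

theorem solvable_of_prime {R : Subgroup X} {r : ℕ} [hr : Fact r.Prime] (hR : Nat.card R = r) : Group.IsSolvable R := by
  have h1 : IsPGroup r R := IsPGroup.of_card (n := 1) (by rw [hR, pow_one])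
  have : Group.IsNilpotent R := h1.isNilpotent
  infer_instance

/-- `S3769` with `V` normal -/
theorem main69 {ℓ r : ℕ} [hℓ : Fact ℓ.Prime] [hr : Fact r.Prime] (K R V : Subgroup X) [V.Normal]
    (hV : IsElementaryAbelian ℓ V) (hKℓ : ¬ ℓ ∣ Nat.card K) (hodd : Odd (Nat.card K)) (hR : Nat.card R = r)
    (hrℓ : r ≠ ℓ) (hcop : (Nat.card K).Coprime r) (hRK : R ≤ normalizer (K : Set X))
    (hCV : V ⊓ centralizer (R : Set X) = ⊥) : ⁅R, K⁆ ≤ centralizer (V : Set X) := by
  classical
  obtain ⟨M, _, _, _, ρ, hker, -, hfc⟩ := H30.BaseCh.exists_rep_closed ℓ V hV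
  let F := AlgebraicClosure (ZMod ℓ)
  haveI : CharP F ℓ := charP_of_injective_algebraMap (algebraMap (ZMod ℓ) F).injective ℓ
  have hcast : ∀ n : ℕ, ¬ ℓ ∣ n → (n : F) ≠ 0 := by
    intro n hn h
    exact hn ((CharP.cast_eq_zero_iff F ℓ n).mp h)
  have hrF : (r : F) ≠ 0 := hcast r (fun h => hrℓ ((Nat.prime_dvd_prime_iff_eq hℓ.out hr.out).mp h).symm)
  have hfix : ∀ v : M, (∀ a ∈ R, ρ a v = v) → v = 0 := by
    intro v hv
    have h1 := hfc R (by rw [hR]; exact (Nat.coprime_primes hr.out hℓ.out).mpr hrℓ)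
    rw [hCV, Subgroup.card_bot] at h1
    have h2 : finrank F (H30.FixRep.fix ρ R) = 0 := by
      by_contra hne
      exact (Nat.one_lt_pow hne hℓ.out.one_lt).ne h1
    have h3 : H30.FixRep.fix ρ R = ⊥ := Submodule.finrank_eq_zero.mp h2
    have h4 : v ∈ H30.FixRep.fix ρ R := hv
    rw [h3, Submodule.mem_bot] at h4
    exact h4
  set π := QuotientGroup.mk' (centralizer (V : Set X)) with hπ
  have hπker : ∀ x : X, π x = 1 ↔ ρ x = 1 := by
    intro x
    rw [← MonoidHom.mem_ker, QuotientGroup.ker_mk', hker]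
  let T : Subgroup X := K ⊓ (centralizer ((R.map π : Subgroup _) : Set (X ⧸ centralizer (V : Set X)))).comap π
  have hTK : T = K := by
    apply eq_of_isSylIn inf_le_left
    intro q hq
    haveI : Fact q.Prime := ⟨hq⟩
    obtain ⟨S, hS, hSR⟩ := H1.Coprime2.exists_invariant_sylow R K hRK (by rw [hR]; exact hcop.symm)
      (Or.inl (solvable_of_prime hR)) q
    refine ⟨S, hS, le_inf hS.1 ?_⟩
    intro x hx
    rw [mem_comap, mem_centralizer_iff]
    rintro _ ⟨a, ha, rfl⟩
    by_cases hqK : q ∣ Nat.card K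
    · have hq2 : q ≠ 2 := by
        rintro rfl
        exact (Nat.not_even_iff_odd.mpr hodd) (even_iff_two_dvd.mpr hqK)
      have hqr : q ≠ r := by
        rintro rfl
        exact hq.one_lt.ne' (Nat.eq_one_of_dvd_coprimes hcop hqK dvd_rfl)
      have hqF : (q : F) ≠ 0 := hcast q (fun h => hKℓ (h.trans hqK))
      have h1 : ρ ⁅a, x⁆ = 1 := by
        by_contra hne
        exact hq2 (coreRep' ρ hqF hrF hqr R S hR hS.isPGroup hSR ⟨a, ha, x, hx, hne⟩ hfix).1
      rw [← hπker, map_commutatorElement, commutatorElement_eq_one_iff_mul_comm] at h1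
      exact h1
    · have h1 : Nat.card S = 1 := by
        rw [hS.2, Nat.factorization_eq_zero_of_not_dvd hqK, pow_zero]
      rw [Subgroup.card_eq_one] at h1
      rw [h1, mem_bot] at hx
      rw [hx, map_one, mul_one, one_mul]
  rw [commutator_le]
  intro a ha k hk
  rw [← hTK] at hk
  have h1 := mem_centralizer_iff.mp (mem_comap.mp hk.2) (π a) (mem_map_of_mem _ ha)
  rw [← hker, ← hπker, map_commutatorElement, commutatorElement_eq_one_iff_mul_comm]
  exact h1

/-- `S3770` with `V` normal -/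
theorem main70 {ℓ r : ℕ} [hℓ : Fact ℓ.Prime] [hr : Fact r.Prime] (K R V : Subgroup X) [V.Normal]
    (hV : IsElementaryAbelian ℓ V) (hKℓ : ¬ ℓ ∣ Nat.card K) (hK : Group.IsNilpotent K) (hR : Nat.card R = r)
    (hrℓ : r ≠ ℓ) (hcop : (Nat.card K).Coprime r) (hRK : R ≤ normalizer (K : Set X))
    (hKR : K ⊓ centralizer (R : Set X) = ⊥)
    (hCV : Nat.card (V ⊓ centralizer (R : Set X) : Subgroup X) = ℓ) : ⁅K, K⁆ ≤ centralizer (V : Set X) := by
  classical
  obtain ⟨M, _, _, _, ρ, hker, -, hfc⟩ := H30.BaseCh.exists_rep_closed ℓ V hV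
  let F := AlgebraicClosure (ZMod ℓ)
  haveI : CharP F ℓ := charP_of_injective_algebraMap (algebraMap (ZMod ℓ) F).injective ℓ
  have hcast : ∀ n : ℕ, ¬ ℓ ∣ n → (n : F) ≠ 0 := by
    intro n hn h
    exact hn ((CharP.cast_eq_zero_iff F ℓ n).mp h)
  have hrF : (r : F) ≠ 0 := hcast r (fun h => hrℓ ((Nat.prime_dvd_prime_iff_eq hℓ.out hr.out).mp h).symm)
  have hfix : ∀ u v : M, (∀ a ∈ R, ρ a u = u) → (∀ a ∈ R, ρ a v = v) → u ≠ 0 → ∃ c : F, v = c • u := by
    intro u v hu hv hu0
    have h1 := hfc R (by rw [hR]; exact (Nat.coprime_primes hr.out hℓ.out).mpr hrℓ)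
    rw [hCV] at h1
    have h2 : finrank F (H30.FixRep.fix ρ R) = 1 := by
      have h3 : ℓ ^ finrank F (H30.FixRep.fix ρ R) = ℓ ^ 1 := by rw [pow_one]; exact h1.symm
      exact Nat.pow_right_injective hℓ.out.two_le h3
    obtain ⟨c, hc⟩ := (finrank_eq_one_iff_of_nonzero' (⟨u, hu⟩ : H30.FixRep.fix ρ R)
      (fun h => hu0 (congrArg Subtype.val h))).mp h2 ⟨v, hv⟩
    exact ⟨c, (congrArg Subtype.val hc).symm⟩
  set π := QuotientGroup.mk' (centralizer (V : Set X)) with hπ
  have hπker : ∀ x : X, π x = 1 ↔ ρ x = 1 := by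
    intro x
    rw [← MonoidHom.mem_ker, QuotientGroup.ker_mk', hker]
  -- invariant Sylow subgroups with abelian images
  have hsyl : ∀ q : ℕ, q.Prime → ∃ S, H1.Coprime2.IsSylIn q K S ∧ ∀ x ∈ S, ∀ y ∈ S, π x * π y = π y * π x := by
    intro q hq
    haveI : Fact q.Prime := ⟨hq⟩
    obtain ⟨S, hS, hSR⟩ := H1.Coprime2.exists_invariant_sylow R K hRK (by rw [hR]; exact hcop.symm)
      (Or.inl (solvable_of_prime hR)) q
    refine ⟨S, hS, ?_⟩
    intro x hx y hy
    by_cases hqK : q ∣ Nat.card K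
    · have hqr : q ≠ r := by
        rintro rfl
        exact hq.one_lt.ne' (Nat.eq_one_of_dvd_coprimes hcop hqK dvd_rfl)
      have hqF : (q : F) ≠ 0 := hcast q (fun h => hKℓ (h.trans hqK))
      have h1 := abelRep' ρ hqF hrF hqr R S hR hS.isPGroup hSR (by
        rw [eq_bot_iff, ← hKR]; exact inf_le_inf hS.1 le_rfl) hfix x hx y hy
      rw [← hπker, map_commutatorElement, commutatorElement_eq_one_iff_mul_comm] at h1
      exact h1
    · have h1 : Nat.card S = 1 := by
        rw [hS.2, Nat.factorization_eq_zero_of_not_dvd hqK, pow_zero]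
      rw [Subgroup.card_eq_one] at h1
      rw [h1, mem_bot] at hx
      rw [hx, map_one, mul_one, one_mul]
  -- commuting with all of `K`
  have hcom : ∀ q : ℕ, q.Prime → ∀ S, H1.Coprime2.IsSylIn q K S → (∀ x ∈ S, ∀ y ∈ S, π x * π y = π y * π x) →
      ∀ x ∈ S, ∀ y ∈ K, π x * π y = π y * π x := by
    intro q hq S hS hSab x hx
    haveI : Fact q.Prime := ⟨hq⟩
    let T : Subgroup X := K ⊓ (centralizer ({π x} : Set (X ⧸ centralizer (V : Set X)))).comap π
    have hTK : T = K := by
      apply eq_of_isSylIn inf_le_left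
      intro p hp
      haveI : Fact p.Prime := ⟨hp⟩
      by_cases hpq : p = q
      · subst hpq
        refine ⟨S, hS, le_inf hS.1 ?_⟩
        intro y hy
        rw [mem_comap, mem_centralizer_singleton_iff]
        exact hSab y hy x hx
      · obtain ⟨S', hS'⟩ := H1.Coprime2.exists_isSylIn p K
        refine ⟨S', hS', le_inf hS'.1 ?_⟩
        intro y hy
        rw [mem_comap, mem_centralizer_singleton_iff]
        have h1 : y ∈ centralizer (S : Set X) := H73.Nilp.mem_centralizer_of_le hK hS.isPGroup hS.1 (hS'.1 hy) (by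
          obtain ⟨k, hk⟩ := (IsPGroup.iff_orderOf.mp hS'.isPGroup) ⟨y, hy⟩
          rw [Subgroup.orderOf_mk] at hk
          rw [hk]
          exact Nat.Coprime.pow_left _ ((Nat.coprime_primes hp hq).mpr hpq))
        have h2 := mem_centralizer_iff.mp h1 x hx
        rw [← map_mul, ← map_mul, h2]
    intro y hy
    rw [← hTK] at hy
    exact (mem_centralizer_singleton_iff.mp (mem_comap.mp hy.2)).symm
  have hall : K ⊓ (centralizer ((K.map π : Subgroup _) : Set (X ⧸ centralizer (V : Set X)))).comap π = K := by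
    apply eq_of_isSylIn inf_le_left
    intro q hq
    obtain ⟨S, hS, hSab⟩ := hsyl q hq
    refine ⟨S, hS, le_inf hS.1 ?_⟩
    intro x hx
    rw [mem_comap, mem_centralizer_iff]
    rintro _ ⟨y, hy, rfl⟩
    exact (hcom q hq S hS hSab x hx y hy).symm
  rw [commutator_le]
  intro x hx y hy
  rw [← hall] at hy
  have h1 := mem_centralizer_iff.mp (mem_comap.mp hy.2) (π x) (mem_map_of_mem _ hx)
  rw [← hker, ← hπker, map_commutatorElement, commutatorElement_eq_one_iff_mul_comm]
  exact h1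

end H65.CopRep
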