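import Mathlib
import Cfsg.Prelude.Def_Local
import Cfsg.Agent.Lib.H37.PSolv

set_option autoImplicit false

/-! Hall-Higman 1.2.3 in the dual form: if `O_p(G) = 1` then `C_G(O_{p'}(G)) ≤ O_{p'}(G)` (`p`-soluble `G`). -/

namespace H65.HH123

open Subgroup Cfsg H37.PSolv

variable {G : Type*} [Group G]

/-- A central `p'`-subgroup `Z` of `K` with `K / Z` a `p`-group, `O_p(K) = 1`: then `K = Z`. -/
theorem eq_of_central [Finite G] {p : ℕ} [hp : Fact p.Prime] (Z : Subgroup G) (hZ : Z ≤ center G)
    (hZp : (Nat.card Z).Coprime p) (hidx : ∃ n : ℕ, Z.index = p ^ n) (hcore : pCore p G = ⊥) : Z = ⊤ := by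
  haveI : Z.Normal := ⟨fun x hx g => by
    rw [(mem_center_iff.mp (hZ hx) g), mul_inv_cancel_right]; exact hx⟩
  obtain ⟨n, hn⟩ := hidx
  have hcop : (Nat.card Z).Coprime Z.index := by
    rw [hn]
    exact Nat.Coprime.pow_right n hZp
  obtain ⟨L, hL⟩ := Subgroup.exists_right_complement'_of_coprime hcop
  have hLn : L.Normal := by
    constructor
    intro x hx g
    obtain ⟨⟨z, l⟩, hzl, _⟩ := hL.existsUnique g
    simp only at hzl
    have hz : ∀ y : G, (z : G) * y = y * z := fun y => (mem_center_iff.mp (hZ z.2) y).symm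
    have : g * x * g⁻¹ = l * x * (l : G)⁻¹ := by
      rw [← hzl, mul_inv_rev]
      have : (z : G) * l * x * ((l : G)⁻¹ * (z : G)⁻¹) = (z : G) * (l * x * (l : G)⁻¹) * (z : G)⁻¹ := by group
      rw [this, hz, mul_inv_cancel_right]
    rw [this]
    exact mul_mem (mul_mem l.2 hx) (inv_mem l.2)
  have hLc : Nat.card L = p ^ n := by
    rw [← hn]
    have h1 := hL.card_mul_card
    have h2 := Z.card_mul_index
    rw [← h2] at h1
    exact Nat.eq_of_mul_eq_mul_left Nat.card_pos h1
  have hLbot : L = ⊥ := by
    rw [eq_bot_iff, ← hcore]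
    exact H1.Cores.le_pCore hLn (IsPGroup.of_card hLc)
  rw [hLbot] at hL
  exact isComplement'_bot_right.mp hL

/-- **Hall-Higman Lemma 1.2.3**, dual form. -/
theorem centralizer_pPrimeCore_le [Finite G] {p : ℕ} [hp : Fact p.Prime] (hG : IsPSolvable p G)
    (h : pCore p G = ⊥) : centralizer (pPrimeCore p G : Set G) ≤ pPrimeCore p G := by
  by_contra hnot
  set R := pPrimeCore p G with hR
  set C := centralizer (R : Set G) with hC
  have hCn : C.Normal := by rw [hC, hR]; infer_instance
  let Z : Subgroup C := R.subgroupOf C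
  haveI : Z.Normal := by
    show (R.subgroupOf C).Normal
    rw [hR]; infer_instance
  have hZcop : (Nat.card Z).Coprime p := by
    have h1 : Nat.card Z ∣ Nat.card R := by
      have e : (Z.map C.subtype) ≤ R := by
        rintro _ ⟨x, hx, rfl⟩
        exact mem_subgroupOf.mp hx
      have e2 : Nat.card (Z.map C.subtype) = Nat.card Z :=
        (Nat.card_congr (Z.equivMapOfInjective C.subtype C.subtype_injective).toEquiv).symm
      rw [← e2]
      exact Subgroup.card_dvd_of_le e
    exact Nat.Coprime.coprime_dvd_left h1 (H1.Cores.coprime_card_pPrimeCore p)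
  have hZcent : Z ≤ center C := by
    intro z hz
    rw [mem_center_iff]
    intro g
    apply Subtype.ext
    have h1 := mem_centralizer_iff.mp g.2 z (mem_subgroupOf.mp hz)
    exact h1.symm
  have hCps : IsPSolvable p C := subgroup hG C
  have hQps : IsPSolvable p (C ⧸ Z) := quotient hCps Z
  have hnt : Nontrivial (C ⧸ Z) := by
    by_contra hs
    rw [not_nontrivial_iff_subsingleton] at hs
    apply hnot
    intro x hx
    have : (⟨x, hx⟩ : C) ∈ Z := (QuotientGroup.eq_one_iff _).mp (Subsingleton.elim _ _)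
    exact mem_subgroupOf.mp this
  rcases core_ne_bot hQps with h1 | h1
  · -- O_p(C/Z) ≠ 1
    apply h1
    set K := (pCore p (C ⧸ Z)).comap (QuotientGroup.mk' Z) with hK
    have hZK : Z ≤ K := by
      intro z hz
      rw [hK, mem_comap]
      have : QuotientGroup.mk' Z z = 1 := (QuotientGroup.eq_one_iff z).mpr hz
      rw [this]; exact one_mem _
    have hcoreC : pCore p C = ⊥ := by
      have h2 : (pCore p C).map C.subtype ≤ ⊥ := by
        rw [H1.Cores.map_subtype_pCore, h, inf_bot_eq]
      rw [le_bot_iff, Subgroup.map_eq_bot_iff, C.ker_subtype, le_bot_iff] at h2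
      exact h2
    have hcoreK : pCore p K = ⊥ := by
      have h2 : (pCore p K).map K.subtype ≤ ⊥ := by
        rw [H1.Cores.map_subtype_pCore, hcoreC, inf_bot_eq]
      rw [le_bot_iff, Subgroup.map_eq_bot_iff, K.ker_subtype, le_bot_iff] at h2
      exact h2
    have hZKcard : Nat.card (Z.subgroupOf K) = Nat.card Z :=
      Nat.card_congr (Subgroup.subgroupOfEquivOfLe hZK).toEquiv
    have h5 := eq_of_central (G := K) (p := p) (Z.subgroupOf K)
      (by
        intro z hz
        rw [mem_center_iff]
        intro g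
        apply Subtype.ext
        exact mem_center_iff.mp (hZcent (mem_subgroupOf.mp hz)) g)
      (by rw [hZKcard]; exact hZcop)
      (by
        obtain ⟨n, hn⟩ := IsPGroup.iff_card.mp (H1.Cores.isPGroup_pCore (G := C ⧸ Z) p)
        refine ⟨n, ?_⟩
        have h6 : (Z.subgroupOf K).index = Nat.card (pCore p (C ⧸ Z)) := by
          have h7 : Nat.card K = Nat.card Z * Nat.card (pCore p (C ⧸ Z)) := H1.Cores.card_comap_mk' Z _
          have h8 : Nat.card Z * Z.relIndex K = Nat.card K := by
            have h9 := relIndex_mul_relIndex (⊥ : Subgroup C) Z K bot_le hZK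
            rwa [relIndex_bot_left, relIndex_bot_left] at h9
          rw [h7] at h8
          exact Nat.eq_of_mul_eq_mul_left Nat.card_pos h8
        rw [h6, hn])
      hcoreK
    rw [subgroupOf_eq_top] at h5
    rw [eq_bot_iff]
    intro x hx
    obtain ⟨y, rfl⟩ := QuotientGroup.mk'_surjective Z x
    exact (QuotientGroup.eq_one_iff y).mpr (h5 hx)
  · -- O_{p'}(C/Z) ≠ 1
    apply h1
    set K := (pPrimeCore p (C ⧸ Z)).comap (QuotientGroup.mk' Z) with hK
    have hKcop : (Nat.card K).Coprime p := by
      rw [hK, H1.Cores.card_comap_mk']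
      exact Nat.Coprime.mul_left hZcop (H1.Cores.coprime_card_pPrimeCore p)
    have hKle : K ≤ pPrimeCore p C := H1.Cores.le_pPrimeCore inferInstance hKcop
    have h2 : (pPrimeCore p C).map C.subtype ≤ R := by
      rw [H1.Cores.map_subtype_pPrimeCore]; exact inf_le_right
    have h3 : K ≤ Z := fun x hx => mem_subgroupOf.mpr (h2 ⟨x, hKle hx, rfl⟩)
    rw [eq_bot_iff]
    intro x hx
    obtain ⟨y, rfl⟩ := QuotientGroup.mk'_surjective Z x
    exact (QuotientGroup.eq_one_iff y).mpr (h3 hx)

end H65.HH123
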