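import Cfsg.Agent.Lib.H65.B1
import Cfsg.Agent.Lib.H28.RelSyl

set_option autoImplicit false

/-! The amalgam argument. -/

namespace H65.Amalg

open Subgroup Cfsg H65.Sect H65.Irr H65.SectGen H65.MaxLocal H65.TheoremB H65.Vert H28.Cj H28.RelSyl

universe u

variable {X : Type u} [Group X]

structure Tri (X : Type u) [Group X] where
  g : Subgroup X
  k : Subgroup X
  z : Subgroup X

def tj (x : X) (v : Tri X) : Tri X := ⟨cj x v.g, cj x v.k, cj x v.z⟩

theorem tj_one (v : Tri X) : tj 1 v = v := by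
  unfold tj; rw [cj_one, cj_one, cj_one]

theorem tj_tj (x y : X) (v : Tri X) : tj x (tj y v) = tj (x * y) v := by
  unfold tj; simp only [cj_cj]

structure Edge (u v : Tri X) : Prop where
  vert : Vert u.g u.z
  kg : u.k ≤ u.g
  kg' : u.k ≤ v.g
  nk : u.g ≤ normalizer (u.k : Set X)
  ok : opc 2 u.g ≤ u.k
  syl : ∃ T : Subgroup X, IsSyl 2 T u.g ∧ IsSyl 2 T v.g
  hK : ∀ N : Subgroup X, N ≤ u.g → u.g ≤ normalizer (N : Set X) → N ⊔ (u.g ⊓ v.g) ≠ u.g →
    ∀ P : Subgroup X, P ≤ N → IsPGroup 2 P → P ≤ u.k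
  hX : ∀ Y : Subgroup X, Y ≤ u.g → Y ≤ v.g → IsPGroup 2 Y → u.g ≤ normalizer (Y : Set X) →
    v.g ≤ normalizer (Y : Set X) → Y = ⊥

theorem le_norm_cj {H N : Subgroup X} {x : X} : cj x H ≤ normalizer (N : Set X) ↔
    H ≤ normalizer ((cj x⁻¹ N : Subgroup X) : Set X) := by
  rw [cj_le_iff, cj_normalizer]

theorem Edge.conj {u v : Tri X} (h : Edge u v) (x : X) : Edge (tj x u) (tj x v) := by
  refine ⟨h.vert.conj x, cj_le_cj.mpr h.kg, cj_le_cj.mpr h.kg', ?_, ?_, ?_, ?_, ?_⟩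
  · show cj x u.g ≤ normalizer ((cj x u.k : Subgroup X) : Set X)
    rw [← cj_normalizer]; exact cj_le_cj.mpr h.nk
  · show opc 2 (cj x u.g) ≤ cj x u.k
    rw [opc_map_conj]; exact cj_le_cj.mpr h.ok
  · obtain ⟨T, hT1, hT2⟩ := h.syl
    exact ⟨cj x T, hT1.cj x, hT2.cj x⟩
  · intro N hN hN2 hne P hP hPp
    have h1 := h.hK (cj x⁻¹ N) (by rw [cj_le_iff, inv_inv]; exact hN) (le_norm_cj.mp hN2) (by
      intro heq
      apply hne
      show N ⊔ (cj x u.g ⊓ cj x v.g) = cj x u.g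
      have := congrArg (cj x) heq
      rwa [cj_sup, cj_cj_inv, cj_inf] at this) (cj x⁻¹ P) (cj_le_cj.mpr hP) (isPGroup_cj.mpr hPp)
    show P ≤ cj x u.k
    rw [le_cj_iff]; exact h1
  · intro Y h1 h2 h3 h4 h5
    have h6 := h.hX (cj x⁻¹ Y) (by rw [cj_le_iff, inv_inv]; exact h1) (by rw [cj_le_iff, inv_inv]; exact h2)
      (isPGroup_cj.mpr h3) (le_norm_cj.mp h4) (le_norm_cj.mp h5)
    exact cj_eq_bot.mp h6

theorem Edge.zk {u v : Tri X} (h : Edge u v) : u.z ≤ u.k := h.vert.ZO.trans h.ok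

theorem Edge.tj_eq {u v : Tri X} (h : Edge u v) {x : X} (hx : x ∈ u.g) : tj x u = u := by
  have e : ∀ N : Subgroup X, u.g ≤ normalizer (N : Set X) → cj x N = N := fun N hN =>
    H65.Semi.map_conj_eq_of_mem_normalizer (hN hx)
  unfold tj
  rw [e _ le_normalizer, e _ h.nk, e _ h.vert.nZ]

variable (B : Bool → Tri X)

def Adj (u v : Tri X) : Prop := ∃ (x : X) (i : Bool), u = tj x (B i) ∧ v = tj x (B (!i))

variable {B}

theorem Adj.symm {u v : Tri X} (h : Adj B u v) : Adj B v u := by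
  obtain ⟨x, i, rfl, rfl⟩ := h
  exact ⟨x, !i, rfl, by rw [Bool.not_not]⟩

theorem Adj.tj {u v : Tri X} (h : Adj B u v) (y : X) : Adj B (tj y u) (tj y v) := by
  obtain ⟨x, i, rfl, rfl⟩ := h
  exact ⟨y * x, i, tj_tj _ _ _, tj_tj _ _ _⟩

theorem Adj.edge (hB : ∀ i, Edge (B i) (B (!i))) {u v : Tri X} (h : Adj B u v) : Edge u v := by
  obtain ⟨x, i, rfl, rfl⟩ := h
  exact (hB i).conj x

variable (B)

def P : ℕ → Tri X → Tri X → Prop
  | 0, u, v => u = v ∧ ∃ w, Adj B u w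
  | n + 1, u, v => ∃ w, Adj B u w ∧ P n w v

variable {B}

theorem P_snoc : ∀ {n : ℕ} {u v w : Tri X}, P B n u v → Adj B v w → P B (n + 1) u w := by
  intro n
  induction n with
  | zero =>
    rintro u v w ⟨rfl, -⟩ h
    exact ⟨w, h, rfl, _, h.symm⟩
  | succ n ih =>
    rintro u v w ⟨a, ha, hav⟩ h
    exact ⟨a, ha, ih hav h⟩

theorem P_unsnoc : ∀ {n : ℕ} {u w : Tri X}, P B (n + 1) u w → ∃ v, P B n u v ∧ Adj B v w := by
  intro n
  induction n with
  | zero =>
    rintro u w ⟨a, ha, rfl, -⟩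
    exact ⟨u, ⟨rfl, _, ha⟩, ha⟩
  | succ n ih =>
    rintro u w ⟨a, ha, hav⟩
    obtain ⟨v, hv1, hv2⟩ := ih hav
    exact ⟨v, ⟨a, ha, hv1⟩, hv2⟩

theorem P_symm : ∀ {n : ℕ} {u v : Tri X}, P B n u v → P B n v u := by
  intro n
  induction n with
  | zero =>
    rintro u v ⟨rfl, h⟩
    exact ⟨rfl, h⟩
  | succ n ih =>
    rintro u v ⟨a, ha, hav⟩
    exact P_snoc (ih hav) ha.symm

theorem P_tj : ∀ {n : ℕ} {u v : Tri X} (y : X), P B n u v → P B n (tj y u) (tj y v) := by
  intro n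
  induction n with
  | zero =>
    rintro u v y ⟨rfl, w, hw⟩
    exact ⟨rfl, _, hw.tj y⟩
  | succ n ih =>
    rintro u v y ⟨a, ha, hav⟩
    exact ⟨_, ha.tj y, ih y hav⟩

theorem P_add : ∀ {n m : ℕ} {u v w : Tri X}, P B n u v → P B m v w → P B (n + m) u w := by
  intro n
  induction n with
  | zero =>
    rintro m u v w ⟨rfl, -⟩ h
    rwa [zero_add]
  | succ n ih =>
    rintro m u v w ⟨a, ha, hav⟩ h
    have : n + 1 + m = (n + m) + 1 := by omega
    rw [this]
    exact ⟨a, ha, ih hav h⟩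

theorem P_left {n : ℕ} {u v : Tri X} (h : P B n u v) : ∃ w, Adj B u w := by
  cases n with
  | zero => exact h.2
  | succ n => exact ⟨_, h.choose_spec.1⟩

theorem P_right {n : ℕ} {u v : Tri X} (h : P B n u v) : ∃ w, Adj B v w := P_left (P_symm h)

theorem el_sSup {S : Set (Subgroup X)} (h1 : ∀ Z ∈ S, IsElementaryAbelian 2 Z)
    (h2 : ∀ Z ∈ S, ∀ Z' ∈ S, Z ≤ centralizer (Z' : Set X)) : IsElementaryAbelian 2 (sSup S : Subgroup X) := by
  have hc : (sSup S : Subgroup X) ≤ centralizer ((sSup S : Subgroup X) : Set X) := by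
    refine sSup_le fun Z hZ => ?_
    rw [le_centralizer_iff]
    exact sSup_le fun Z' hZ' => h2 Z' hZ' Z hZ
  have hcomm : ∀ x ∈ (sSup S : Subgroup X), ∀ y ∈ (sSup S : Subgroup X), x * y = y * x := by
    intro x hx y hy
    exact mem_centralizer_iff.mp (hc hy) x hx
  refine el_of_comm hcomm ?_
  let T : Subgroup X := 
    { carrier := {x | x ∈ (sSup S : Subgroup X) ∧ x * x = 1}
      one_mem' := ⟨one_mem _, by simp⟩
      mul_mem' := by
        rintro a b ⟨ha1, ha2⟩ ⟨hb1, hb2⟩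
        refine ⟨mul_mem ha1 hb1, ?_⟩
        have := hcomm b hb1 a ha1
        calc a * b * (a * b) = a * (b * a) * b := by group
          _ = a * (a * b) * b := by rw [this]
          _ = (a * a) * (b * b) := by group
          _ = 1 := by rw [ha2, hb2, one_mul]
      inv_mem' := by
        rintro a ⟨ha1, ha2⟩
        refine ⟨inv_mem ha1, ?_⟩
        rw [← mul_inv_rev, ha2, inv_one] }
  have hT : (sSup S : Subgroup X) ≤ T := by
    refine sSup_le fun Z hZ x hx => ⟨?_, sq_of_el (h1 Z hZ) x hx⟩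
    exact le_sSup hZ hx
  exact fun x hx => (hT hx).2

variable [Finite X]

theorem comm_z {g1 z1 g2 z2 : Subgroup X} (hu : Vert g1 z1) (hv : Vert g2 z2) (h1 : z1 ≤ g2) (h2 : z2 ≤ g1) :
    z1 ≤ centralizer (z2 : Set X) := by
  have triv1 : ∀ (Z' A : Subgroup X), IsElementaryAbelian 2 Z' →
      (∀ a ∈ Z', a * a ∈ A) ∧ (∀ a ∈ Z', ∀ b ∈ Z', a * b * a⁻¹ * b⁻¹ ∈ A) := by
    intro Z' A hZ'
    refine ⟨fun a ha => ?_, fun a ha b hb => ?_⟩
    · rw [sq_of_el hZ' a ha]; exact one_mem _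
    · rw [comm_of_el hZ' a ha b hb]
      simp [one_mem]
  have t1 := triv1 z1 (centralizer (z2 : Set X)) hu.Zel
  have t2 := triv1 z2 (centralizer (z1 : Set X)) hv.Zel
  have h3 := hv.strong0 h1 t1.1 t1.2
  have h4 := hu.strong0 h2 t2.1 t2.2
  set x := (z1 ⊓ centralizer (z2 : Set X)).relIndex z1
  set y := (z2 ⊓ centralizer (z1 : Set X)).relIndex z2
  have hx : 0 < x := relIndex_pos' _ _
  have hy : 0 < y := relIndex_pos' _ _
  have h5 : x = 1 := by
    by_contra hne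
    have hx2 : 2 ≤ x := by omega
    have h6 : x < y := by nlinarith
    have h7 : y ≤ y ^ 2 := by nlinarith
    omega
  exact (relIndex_eq_one.mp h5).trans inf_le_right

/-- no bad pair -/
theorem case2 (hB : ∀ i, Edge (B i) (B (!i))) (hgood : ∀ n u v, P B n u v → u.z ≤ v.k) : False := by
  have hb1 : Adj B (B true) (B false) := ⟨1, true, (tj_one _).symm, (tj_one _).symm⟩
  have e1 := hb1.edge hB
  have e2 := hb1.symm.edge hB
  let S : Set (Subgroup X) := {Z | ∃ n a, P B n a (B true) ∧ Z = a.z}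
  have hcomm : ∀ Z ∈ S, ∀ Z' ∈ S, Z ≤ centralizer (Z' : Set X) := by
    rintro _ ⟨n, a, ha, rfl⟩ _ ⟨m, b, hb, rfl⟩
    have hab : P B (n + m) a b := P_add ha (P_symm hb)
    obtain ⟨a', ha'⟩ := P_left hab
    obtain ⟨b', hb'⟩ := P_right hab
    have ea := ha'.edge hB
    have eb := hb'.edge hB
    exact comm_z ea.vert eb.vert ((hgood _ _ _ hab).trans eb.kg) ((hgood _ _ _ (P_symm hab)).trans ea.kg)
  have hel : IsElementaryAbelian 2 (sSup S : Subgroup X) := by
    apply el_sSup _ hcomm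
    rintro _ ⟨n, a, ha, rfl⟩
    obtain ⟨a', ha'⟩ := P_left ha
    exact (ha'.edge hB).vert.Zel
  have hk : (sSup S : Subgroup X) ≤ (B true).k := by
    apply sSup_le
    rintro _ ⟨n, a, ha, rfl⟩
    exact hgood _ _ _ ha
  have hnorm : ∀ x : X, (∀ Z ∈ S, cj x Z ∈ S) → cj x (sSup S : Subgroup X) ≤ sSup S := by
    intro x hx
    rw [cj_le_iff]
    refine sSup_le fun Z hZ => ?_
    rw [← cj_le_iff]
    exact le_sSup (hx Z hZ)
  have hn1 : (B true).g ≤ normalizer ((sSup S : Subgroup X) : Set X) := by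
    rw [H65.Semi.map_conj_le_iff]
    intro x hx
    apply hnorm
    rintro _ ⟨n, a, ha, rfl⟩
    refine ⟨n, tj x a, ?_, rfl⟩
    have := P_tj x ha
    rwa [e1.tj_eq hx] at this
  have hn2 : (B false).g ≤ normalizer ((sSup S : Subgroup X) : Set X) := by
    rw [H65.Semi.map_conj_le_iff]
    intro x hx
    apply hnorm
    rintro _ ⟨n, a, ha, rfl⟩
    refine ⟨n + 1 + 1, tj x a, ?_, rfl⟩
    have := P_tj x (P_snoc ha hb1)
    rw [e2.tj_eq hx] at this
    exact P_snoc this hb1.symm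
  have hbot := e1.hX _ (hk.trans e1.kg) (hk.trans e1.kg') (isPGroup_of_el hel) hn1 hn2
  apply e1.vert.Z1
  rw [eq_bot_iff, ← hbot]
  exact le_sSup ⟨0, B true, ⟨rfl, _, hb1⟩, rfl⟩

variable (B)

def V (a : Tri X) : Subgroup X := sSup {Z | ∃ b, Adj B a b ∧ Z = b.z}

variable {B}

theorem le_V {a b : Tri X} (h : Adj B a b) : b.z ≤ V B a := le_sSup ⟨b, h, rfl⟩

theorem V_le_g (hB : ∀ i, Edge (B i) (B (!i))) (a : Tri X) : V B a ≤ a.g := by
  apply sSup_le
  rintro _ ⟨b, hb, rfl⟩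
  have e := hb.symm.edge hB
  exact e.zk.trans e.kg'

theorem g_le_norm_V (hB : ∀ i, Edge (B i) (B (!i))) {a a' : Tri X} (ha : Adj B a a') :
    a.g ≤ normalizer ((V B a : Subgroup X) : Set X) := by
  rw [H65.Semi.map_conj_le_iff]
  intro x hx
  show cj x (V B a) ≤ V B a
  rw [cj_le_iff]
  apply sSup_le
  rintro _ ⟨b, hb, rfl⟩
  rw [← cj_le_iff]
  apply le_sSup
  refine ⟨tj x b, ?_, rfl⟩
  have := hb.tj x
  rwa [(ha.edge hB).tj_eq hx] at this

theorem V_el (hB : ∀ i, Edge (B i) (B (!i))) {a : Tri X}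
    (h : ∀ b c, Adj B a b → Adj B a c → b.z ≤ c.g) : IsElementaryAbelian 2 (V B a) := by
  apply el_sSup
  · rintro _ ⟨b, hb, rfl⟩
    exact (hb.symm.edge hB).vert.Zel
  · rintro _ ⟨b, hb, rfl⟩ _ ⟨c, hc, rfl⟩
    exact comm_z (hb.symm.edge hB).vert (hc.symm.edge hB).vert (h b c hb hc) (h c b hc hb)

/-- the hypothesis `hstar` of `Model.quad` for `V a` -/
theorem hstar (hB : ∀ i, Edge (B i) (B (!i))) {a : Tri X} (P R : Subgroup X) (hR : R ≤ a.g)
    (hRn : a.g ≤ normalizer (R : Set X)) (hR2 : Mod2 R (centralizer (V B a : Set X))) (hPR : P ≤ R)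
    (h1 : ∀ x ∈ P, x * x ∈ centralizer (V B a : Set X))
    (h2 : ∀ x ∈ P, ∀ y ∈ P, x * y * x⁻¹ * y⁻¹ ∈ centralizer (V B a : Set X)) :
    ((P ⊓ centralizer (V B a : Set X)).relIndex P) ^ 2 ≤
      (V B a ⊓ centralizer (P : Set X)).relIndex (V B a) := by
  refine chain (S := {Z | ∃ b, Adj B a b ∧ Z = b.z}) le_rfl (fun U hU => le_sSup hU) (Nat.card P) P rfl ?_
  rintro Q hQ _ ⟨b, hb, rfl⟩
  have hVb : centralizer (V B a : Set X) ≤ centralizer (b.z : Set X) := centralizer_le (le_V hb)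
  have eb := hb.symm.edge hB
  refine eb.vert.strong ?_ (fun x hx => hVb (h1 x (hQ hx))) (fun x hx y hy => hVb (h2 x (hQ hx) y (hQ hy)))
  obtain ⟨T, hT1, hT2⟩ := eb.syl
  -- `T` is Sylow in `a.g`, `b.g`
  have h3 : IsSyl 2 (T ⊓ R) R := hT2.inf_normal hRn hR
  have h4 : R ≤ (R ⊓ centralizer (V B a : Set X)) ⊔ (T ⊓ R) := by
    set C := R ⊓ centralizer (V B a : Set X) with hC
    have hag : R ≤ normalizer (V B a : Set X) := hR.trans (g_le_norm_V hB hb)
    have hCn : R ≤ normalizer (C : Set X) :=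
      H65.Semi.le_normalizer_inf le_normalizer (H1.Coprime2.le_normalizer_centralizer hag)
    -- index is a power of 2 and odd
    have h5 : (C ⊔ (T ⊓ R)).relIndex R = 1 := by
      by_contra hne
      obtain ⟨p, hp, hpd⟩ := Nat.exists_prime_and_dvd hne
      have h6 : p ∣ (T ⊓ R).relIndex R :=
        hpd.trans (Subgroup.relIndex_dvd_of_le_left R le_sup_right)
      have h7 : p ∣ C.relIndex R := hpd.trans (Subgroup.relIndex_dvd_of_le_left R le_sup_left)
      have h8 : p ≠ 2 := fun hp2 => h3.not_dvd (hp2 ▸ h6)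
      -- Cauchy in `R / C`
      have hCnorm : (C.subgroupOf R).Normal := by
        constructor
        intro n hn g
        rw [mem_subgroupOf] at hn ⊢
        exact (mem_normalizer_iff.mp (hCn g.2) n).mp hn
      haveI := Fact.mk hp
      have h9 : p ∣ Nat.card (R ⧸ C.subgroupOf R) := h7
      obtain ⟨q, hq⟩ := exists_prime_orderOf_dvd_card' p h9
      obtain ⟨r, rfl⟩ := QuotientGroup.mk_surjective q
      obtain ⟨k, hk⟩ := hR2 r r.2
      have h10 : ((r : R) : R ⧸ C.subgroupOf R) ^ (2 ^ k) = 1 := by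
        rw [← QuotientGroup.mk_pow, QuotientGroup.eq_one_iff, mem_subgroupOf]
        exact mem_inf.mpr ⟨SetLike.coe_mem _, by simpa using hk⟩
      have h11 := orderOf_dvd_of_pow_eq_one h10
      rw [hq] at h11
      exact h8 ((Nat.prime_dvd_prime_iff_eq hp Nat.prime_two).mp (hp.dvd_of_dvd_pow h11))
    exact relIndex_eq_one.mp h5
  refine (hQ.trans hPR).trans (h4.trans (sup_le (inf_le_right.trans (hVb.trans le_sup_right)) ?_))
  exact inf_le_left.trans (hT1.le.trans le_sup_left)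

theorem case1 (hB : ∀ i, Edge (B i) (B (!i))) {n : ℕ} {u v : Tri X} (huv : P B n u v) (hbad : ¬ u.z ≤ v.k)
    (hmin : ∀ m < n, ∀ a b, P B m a b → a.z ≤ b.k) : False := by
  match n, huv, hmin with
  | 0, huv, _ =>
    obtain ⟨rfl, w, hw⟩ := huv
    exact hbad (hw.edge hB).zk
  | 1, huv, _ =>
    obtain ⟨w, hw, rfl, -⟩ := huv
    have e := hw.edge hB
    have e' := hw.symm.edge hB
    exact hbad ((H65.B1.b1 e.vert e'.vert.sol e'.vert.free e'.vert.char2 (e.zk.trans e.kg') (e'.ok.trans e'.kg')).trans e'.ok)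
  | n + 2, huv, hmin =>
    have hzg : ∀ m < n + 3, ∀ a b, P B m a b → a.z ≤ b.g := by
      intro m hm a b hab
      rcases Nat.lt_or_ge m (n + 2) with h | h
      · obtain ⟨b', hb'⟩ := P_right hab
        exact (hmin m h a b hab).trans (hb'.edge hB).kg
      · have hm' : m = n + 1 + 1 := by omega
        subst hm'
        obtain ⟨c, hc1, hc2⟩ := P_unsnoc hab
        exact (hmin _ (by omega) _ _ hc1).trans (hc2.edge hB).kg'
    have hVel : ∀ a : Tri X, IsElementaryAbelian 2 (V B a) := fun a => V_el hB (fun b c hb hc =>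
      hzg 2 (by omega) b c ⟨a, hb.symm, c, hc, rfl, _, hc.symm⟩)
    obtain ⟨u', hu', huv1⟩ := huv
    obtain ⟨v', huv2, hv'⟩ := P_unsnoc (show P B (n + 1 + 1) u v from ⟨u', hu', huv1⟩)
    have eu' := hu'.symm.edge hB
    have ev := hv'.symm.edge hB
    have ev' := hv'.edge hB
    have hVv : V B v ≤ u'.g := by
      apply sSup_le
      rintro _ ⟨w, hw, rfl⟩
      exact hzg (n + 2) (by omega) w u' ⟨v, hw.symm, P_symm huv1⟩
    have hVu : V B u' ≤ v.g := by
      apply sSup_le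
      rintro _ ⟨w, hw, rfl⟩
      exact hzg (n + 2) (by omega) w v ⟨u', hw.symm, huv1⟩
    -- quadratic
    have hquad : ∀ a b : Tri X, V B a ≤ normalizer (V B b : Set X) → V B b ≤ normalizer (V B a : Set X) →
        ∀ x ∈ V B a, ∀ y ∈ V B a, ∀ w ∈ V B b, y * (x * w * x⁻¹ * w⁻¹) = (x * w * x⁻¹ * w⁻¹) * y := by
      intro a b _ hba x hx y hy w hw
      refine comm_of_el (hVel a) y hy _ ?_
      have h1 := (mem_normalizer_iff.mp (hba hw) x⁻¹).mp (inv_mem hx)
      have h2 : x * w * x⁻¹ * w⁻¹ = x * (w * x⁻¹ * w⁻¹) := by group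
      rw [h2]
      exact mul_mem hx h1
    have hn1 : V B v ≤ normalizer (V B u' : Set X) := hVv.trans (g_le_norm_V hB hu'.symm)
    have hn2 : V B u' ≤ normalizer (V B v : Set X) := hVu.trans (g_le_norm_V hB hv'.symm)
    have hne : ¬ V B u' ≤ centralizer (V B v : Set X) := by
      intro hle
      have h1 : u.z ≤ v.g ⊓ centralizer (V B v : Set X) :=
        le_inf (hzg (n + 1 + 1) (by omega) u v ⟨u', hu', huv1⟩) ((le_V hu'.symm).trans hle)
      by_cases h2 : (v.g ⊓ centralizer (V B v : Set X)) ⊔ (v.g ⊓ v'.g) = v.g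
      · have hCz : centralizer (V B v : Set X) ≤ normalizer (v'.z : Set X) :=
          (centralizer_le (le_V hv'.symm)).trans (centralizer_le_normalizer _)
        have h3 : v.g ≤ normalizer (v'.z : Set X) := by
          rw [← h2]
          exact sup_le (inf_le_right.trans hCz) (inf_le_right.trans ev'.vert.nZ)
        exact ev'.vert.Z1 (ev'.hX v'.z ev'.vert.ZH (ev'.zk.trans ev'.kg') (isPGroup_of_el ev'.vert.Zel)
          ev'.vert.nZ h3)
      · apply hbad
        obtain ⟨w, hw⟩ := P_left (show P B (n + 1 + 1) u v from ⟨u', hu', huv1⟩)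
        exact ev.hK _ inf_le_left (H65.Semi.le_normalizer_inf le_normalizer
          (H1.Coprime2.le_normalizer_centralizer (g_le_norm_V hB hv'.symm))) h2 u.z h1
          (isPGroup_of_el (hw.edge hB).vert.Zel)
    have hne' : ¬ V B v ≤ centralizer (V B u' : Set X) := by
      rwa [le_centralizer_iff]
    have q1 := fun hle => hne (H65.Model.quad ev.vert.sol ev.vert.free (V_le_g hB v) (hVel v)
      (g_le_norm_V hB hv'.symm) (fun P R hR hRn hR2 hPR h1 h2 => hstar hB P R hR hRn hR2 hPR h1 h2) hVu (hVel u')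
      (hquad u' v hn2 hn1) hle)
    have q2 := fun hle => hne' (H65.Model.quad eu'.vert.sol eu'.vert.free (V_le_g hB u') (hVel u')
      (g_le_norm_V hB hu'.symm) (fun P R hR hRn hR2 hPR h1 h2 => hstar hB P R hR hRn hR2 hPR h1 h2) hVv (hVel v)
      (hquad v u' hn1 hn2) hle)
    rcases le_total ((V B v ⊓ centralizer (V B u' : Set X)).relIndex (V B v))
      ((V B u' ⊓ centralizer (V B v : Set X)).relIndex (V B u')) with h | h
    · exact q1 h
    · exact q2 h

theorem main (hB : ∀ i, Edge (B i) (B (!i))) : False := by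
  classical
  by_cases hex : ∃ n u v, P B n u v ∧ ¬ u.z ≤ v.k
  · have h1 := Nat.find_spec hex
    obtain ⟨u, v, huv, hbad⟩ := h1
    refine case1 hB huv hbad ?_
    intro m hm a b hab
    by_contra hcon
    exact Nat.find_min hex hm ⟨a, b, hab, hcon⟩
  · push Not at hex
    exact case2 hB hex

end H65.Amalg
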