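import Mathlib
import Cfsg.Agent.Lib.H1.Coprime2
import Cfsg.Agent.Lib.H2.GenCent

set_option autoImplicit false

/-! Coprime action of an abelian group `A` on `K`: generation of `K` by the `C_K(B)` with `A/B` cyclic. -/

namespace H65.CoCyclic

open Subgroup
open scoped commutatorElement

variable {X : Type*} [Group X] [Finite X]

/-- Relative version of generation by centralizers: `B ≤ A` acts trivially on `K` and `A/B` is not cyclic. -/
theorem rel_gen (A B K : Subgroup X) (hAc : IsMulCommutative A) (hBA : B ≤ A)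
    (hncyc : ¬ ∃ a ∈ A, B ⊔ zpowers a = A) (hAK : A ≤ normalizer (K : Set X))
    (hcop : (Nat.card A).Coprime (Nat.card K)) (hBK : K ≤ centralizer (B : Set X)) (H : Subgroup X)
    (hH : ∀ x ∈ A, x ∉ B → K ⊓ centralizer {x} ≤ H) : K ≤ H := by
  classical
  let X₁ : Subgroup X := centralizer (B : Set X)
  have hcomm : ∀ x ∈ A, ∀ y ∈ A, x * y = y * x := fun x hx y hy =>
    congrArg Subtype.val (mul_comm' (⟨x, hx⟩ : A) ⟨y, hy⟩)
  have hAX : A ≤ X₁ := by
    intro x hx
    rw [mem_centralizer_iff]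
    intro y hy
    exact hcomm y (hBA hy) x hx
  have hBX : B ≤ X₁ := hBA.trans hAX
  let B₁ : Subgroup X₁ := B.subgroupOf X₁
  have hB₁n : B₁.Normal := by
    constructor
    intro b hb x
    have h1 : (x : X) * b = b * x := ((mem_centralizer_iff.mp x.2) b (mem_subgroupOf.mp hb)).symm
    have h2 : x * b * x⁻¹ = b := by
      apply Subtype.ext
      show (x : X) * b * (x : X)⁻¹ = b
      rw [h1, mul_inv_cancel_right]
    rw [h2]; exact hb
  have hdis : ∀ x : X, x ∈ B → x ∈ K → x = 1 := by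
    intro x hxB hxK
    have h1 : A ⊓ K = ⊥ := H1.Coprime.inf_eq_bot_of_coprime_card hcop
    have h2 : x ∈ A ⊓ K := mem_inf.mpr ⟨hBA hxB, hxK⟩
    rwa [h1, mem_bot] at h2
  let f : X₁ →* X₁ ⧸ B₁ := QuotientGroup.mk' B₁
  have hf : ∀ x : X₁, f x = 1 ↔ (x : X) ∈ B := by
    intro x
    show (QuotientGroup.mk' B₁) x = 1 ↔ _
    rw [QuotientGroup.mk'_apply, QuotientGroup.eq_one_iff, mem_subgroupOf]
  let A' : Subgroup (X₁ ⧸ B₁) := (A.subgroupOf X₁).map f
  let K' : Subgroup (X₁ ⧸ B₁) := (K.subgroupOf X₁).map f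
  have hA'c : IsMulCommutative A' := by
    refine ⟨⟨?_⟩⟩
    rintro ⟨_, x, hx, rfl⟩ ⟨_, y, hy, rfl⟩
    apply Subtype.ext
    show f x * f y = f y * f x
    rw [← map_mul, ← map_mul]
    congr 1
    apply Subtype.ext
    exact hcomm _ (mem_subgroupOf.mp hx) _ (mem_subgroupOf.mp hy)
  have hA'nc : ¬ IsCyclic A' := by
    intro hcyc
    obtain ⟨⟨_, a, ha, rfl⟩, hgen⟩ := hcyc.exists_generator
    apply hncyc
    refine ⟨a, mem_subgroupOf.mp ha, ?_⟩
    apply le_antisymm
    · exact sup_le hBA (zpowers_le.mpr (mem_subgroupOf.mp ha))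
    · intro x hx
      have h1 := hgen ⟨f ⟨x, hAX hx⟩, ⟨⟨x, hAX hx⟩, mem_subgroupOf.mpr hx, rfl⟩⟩
      obtain ⟨i, hi⟩ := mem_zpowers_iff.mp h1
      have h2 : (f a) ^ i = f ⟨x, hAX hx⟩ := by
        have := congrArg Subtype.val hi
        simpa using this
      rw [← map_zpow, ← inv_mul_eq_one, ← map_inv, ← map_mul, hf] at h2
      have h3 : x = (a : X) ^ i * ((a : X) ^ i)⁻¹ * x := by group
      rw [h3, mul_assoc]
      apply mul_mem
      · exact mem_sup_right (zpow_mem (mem_zpowers _) i)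
      · apply mem_sup_left
        simpa using h2
  have hAK' : A' ≤ normalizer (K' : Set (X₁ ⧸ B₁)) := by
    rw [le_normalizer_iff]
    rintro _ ⟨a, ha, rfl⟩ _ ⟨k, hk, rfl⟩
    refine ⟨a * k * a⁻¹, ?_, by simp⟩
    rw [SetLike.mem_coe, mem_subgroupOf] at ha hk ⊢
    exact (mem_normalizer_iff.mp (hAK ha) _).mp hk
  have hcop' : (Nat.card A').Coprime (Nat.card K') := by
    refine Nat.Coprime.of_dvd ?_ ?_ hcop
    · have h1 : Nat.card (A.subgroupOf X₁) = Nat.card A := H1.SZ.card_subgroupOf_of_le hAX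
      rw [← h1]; exact card_map_dvd _ f
    · have h1 : Nat.card (K.subgroupOf X₁) = Nat.card K := H1.SZ.card_subgroupOf_of_le hBK
      rw [← h1]; exact card_map_dvd _ f
  have hgen := H2.GenCent.main A' K' hA'c hA'nc hAK' hcop'
  -- K' ≤ image of H ⊓ K
  have hle : K' ≤ ((H ⊓ K).subgroupOf X₁).map f := by
    rw [← hgen]
    apply iSup₂_le
    rintro a' ⟨⟨a, ha, rfl⟩, ha1⟩
    rintro y hy
    obtain ⟨⟨k, hk, rfl⟩, hyc⟩ := mem_inf.mp hy
    rw [mem_centralizer_singleton_iff] at hyc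
    rw [SetLike.mem_coe, mem_subgroupOf] at ha hk
    have haB : (a : X) ∉ B := fun h => ha1 ((hf a).mpr h)
    -- [k, a] ∈ B ∩ K
    have h1 : f (k * a * k⁻¹ * a⁻¹) = 1 := by
      rw [map_mul, map_mul, map_mul, map_inv, map_inv, hyc]
      group
    rw [hf] at h1
    have h2 : (k : X) * a * (k : X)⁻¹ * (a : X)⁻¹ ∈ K := by
      have h3 : (a : X) * (k : X)⁻¹ * (a : X)⁻¹ ∈ K := (mem_normalizer_iff.mp (hAK ha) _).mp (K.inv_mem hk)
      have h4 : (k : X) * a * (k : X)⁻¹ * (a : X)⁻¹ = k * ((a : X) * (k : X)⁻¹ * (a : X)⁻¹) := by group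
      rw [h4]; exact K.mul_mem hk h3
    have h5 := hdis _ (by simpa using h1) h2
    refine ⟨k, ?_, rfl⟩
    rw [SetLike.mem_coe, mem_subgroupOf]
    refine mem_inf.mpr ⟨?_, hk⟩
    apply hH a ha haB
    refine mem_inf.mpr ⟨hk, ?_⟩
    rw [mem_centralizer_singleton_iff]
    have h6 := mul_inv_eq_one.mp h5
    exact (mul_inv_eq_iff_eq_mul.mp h6)
  intro k hk
  obtain ⟨h, hh, hhk⟩ := hle ⟨⟨k, hBK hk⟩, mem_subgroupOf.mpr hk, rfl⟩
  rw [SetLike.mem_coe, mem_subgroupOf] at hh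
  obtain ⟨hhH, hhK⟩ := mem_inf.mp hh
  have h1 : f (h⁻¹ * ⟨k, hBK hk⟩) = 1 := by
    rw [map_mul, map_inv, hhk, inv_mul_cancel]
  rw [hf] at h1
  have h2 : (h : X)⁻¹ * k = 1 := hdis _ (by simpa using h1) (K.mul_mem (K.inv_mem hhK) hk)
  rw [← inv_mul_eq_one.mp h2]
  exact hhH

/-- Coprime action of an abelian group: `K` is generated by the `C_K(B)` with `A/B` cyclic. -/
theorem gen_cocyclic (A K : Subgroup X) (hAc : IsMulCommutative A)
    (hAK : A ≤ normalizer (K : Set X)) (hcop : (Nat.card A).Coprime (Nat.card K)) (H : Subgroup X)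
    (hH : ∀ B : Subgroup X, B ≤ A → (∃ a ∈ A, B ⊔ zpowers a = A) → K ⊓ centralizer (B : Set X) ≤ H) :
    K ≤ H := by
  by_contra hcon
  obtain ⟨B, -, hB⟩ := Finite.exists_le_maximal
    (p := fun B : Subgroup X => B ≤ A ∧ ¬ K ⊓ centralizer (B : Set X) ≤ H) (a := ⊥)
    ⟨bot_le, fun h => hcon (by
      intro k hk
      apply h
      refine mem_inf.mpr ⟨hk, ?_⟩
      rw [mem_centralizer_iff]
      intro y hy
      rw [SetLike.mem_coe, mem_bot] at hy
      rw [hy, one_mul, mul_one])⟩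
  obtain ⟨⟨hBA, hBH⟩, hmax⟩ := hB
  apply hBH
  have hcomm : ∀ x ∈ A, ∀ y ∈ A, x * y = y * x := fun x hx y hy =>
    congrArg Subtype.val (mul_comm' (⟨x, hx⟩ : A) ⟨y, hy⟩)
  have hAB : A ≤ normalizer (B : Set X) := by
    rw [le_normalizer_iff]
    intro a ha b hb
    rw [hcomm a ha b (hBA hb), mul_inv_cancel_right]
    exact hb
  apply rel_gen A B (K ⊓ centralizer (B : Set X)) hAc hBA
  · intro hcyc
    exact hBH (hH B hBA hcyc)
  · exact H1.Coprime2.le_normalizer_inf hAK (H1.Coprime2.le_normalizer_centralizer hAB)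
  · exact hcop.of_dvd_right (card_dvd_of_le inf_le_left)
  · exact inf_le_right
  · intro x hx hxB
    by_contra hnot
    have h1 : B ⊔ zpowers x ≤ B := by
      apply hmax _ le_sup_left
      refine ⟨sup_le hBA (zpowers_le.mpr hx), ?_⟩
      intro h2
      apply hnot
      refine le_trans ?_ h2
      intro k hk
      obtain ⟨hk1, hk2⟩ := mem_inf.mp hk
      obtain ⟨hk3, hk4⟩ := mem_inf.mp hk1
      refine mem_inf.mpr ⟨hk3, ?_⟩
      have h5 : B ⊔ zpowers x ≤ centralizer ({k} : Set X) := by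
        apply sup_le
        · intro b hb
          rw [mem_centralizer_singleton_iff]
          exact (mem_centralizer_iff.mp hk4) b hb
        · rw [zpowers_le, mem_centralizer_singleton_iff]
          exact (mem_centralizer_singleton_iff.mp hk2).symm
      rw [mem_centralizer_iff]
      intro y hy
      exact mem_centralizer_singleton_iff.mp (h5 hy)
    exact hxB (h1 ((le_sup_right : zpowers x ≤ _) (mem_zpowers x)))

end H65.CoCyclic
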