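import Cfsg.Agent.Lib.H65.Sect
import Cfsg.Agent.Lib.H65.PBasic
import Cfsg.Agent.Lib.H1.Solv
import Cfsg.Agent.Lib.H51.Involves
import Cfsg.Agent.S3755

set_option autoImplicit false

/-! The strong inequality `|A / C_A(V/W)|² ≤ |V/W : C_{V/W}(A)|` on irreducible sections of solvable groups acting
without a section `S₃`. -/

namespace H65.Irr

open Subgroup Cfsg H65.Sect

theorem centralizer_pPrimeCore_le {G : Type*} [Group G] [Finite G] {p : ℕ} [Fact p.Prime]
    (hs : Group.IsSolvable G) (h : pCore p G = ⊥) :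
    centralizer (pPrimeCore p G : Set G) ≤ pPrimeCore p G := by
  have h1 : fittingSubgroup G ≤ pPrimeCore p G := by
    rw [H1.Cores.fittingSubgroup_eq_iSup_pCore]
    refine iSup_le fun q => ?_
    by_cases hq : (q : ℕ) = p
    · rw [hq, h]; exact bot_le
    · have := Fact.mk q.2
      apply H1.Cores.le_pPrimeCore inferInstance
      obtain ⟨n, hn⟩ := IsPGroup.iff_card.mp (H1.Cores.isPGroup_pCore (G := G) (q : ℕ))
      rw [hn]
      exact Nat.Coprime.pow_left n ((Nat.coprime_primes q.2 Fact.out).mpr hq)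
  exact (centralizer_le h1).trans ((H1.Solv.centralizer_fitting_le hs).trans h1)

variable {X : Type*} [Group X]

/-- no section of `L` over `L ∩ N` is isomorphic to `S₃` -/
def SF (L N : Subgroup X) : Prop :=
  ∀ K : Subgroup X, K ≤ L → ∀ f : K →* Equiv.Perm (Fin 3), (∀ k : K, (k : X) ∈ N → f k = 1) →
    ¬ Function.Surjective f

theorem SF.mono {L L' N N' : Subgroup X} (h : SF L N) (hL : L' ≤ L) (hN : N ≤ N') : SF L' N' :=
  fun K hK f hf => h K (hK.trans hL) f (fun k hk => hf k (hN hk))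

theorem sf_of_not_involves {L : Subgroup X} (h : ¬ Involves (Equiv.Perm (Fin 3)) L) (N : Subgroup X) : SF L N := by
  intro K hK f _ hsurj
  apply h
  exact H51.Involves.involves_of_injective (Subgroup.inclusion hK) (Subgroup.inclusion_injective hK)
    (H51.Involves.involves_of_surjective ⊤ (f.comp (Subgroup.topEquiv (G := K)).toMonoidHom)
      (hsurj.comp (Subgroup.topEquiv (G := K)).surjective))

section Construct

variable {L V W : Subgroup X} (h : Sec L V W)

/-- the action of `L` on `V` -/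
def psi : L →* MulAut V := (normalizerMonoidHom V).comp (Subgroup.inclusion h.nV)

theorem psi_apply (l : L) (v : V) : ((psi h l v : V) : X) = l * v * (l : X)⁻¹ := rfl

theorem normalW (h : Sec L V W) : (W.subgroupOf V).Normal :=
  (Subgroup.normal_subgroupOf_iff_le_normalizer h.le).mpr h.VW

theorem map_psi (l : L) : (W.subgroupOf V).map (psi h l : V →* V) = W.subgroupOf V := by
  have hl : (l : X) ∈ normalizer (W : Set X) := h.nW l.2
  ext v
  constructor
  · rintro ⟨w, hw, rfl⟩
    exact (mem_normalizer_iff.mp hl _).mp hw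
  · intro hv
    refine ⟨psi h l⁻¹ v, ?_, ?_⟩
    · exact (mem_normalizer_iff.mp (inv_mem hl) _).mp hv
    · show psi h l (psi h l⁻¹ v) = v
      rw [← MulAut.mul_apply, ← map_mul, mul_inv_cancel, map_one]; rfl

variable [hn : (W.subgroupOf V).Normal]

/-- the action of `L` on `V/W` -/
def phi : L →* MulAut (V ⧸ W.subgroupOf V) :=
  MonoidHom.mk' (fun l => QuotientGroup.congr _ _ (psi h l) (map_psi h l)) (by
    intro a b
    ext x
    induction x using QuotientGroup.induction_on with
    | H v =>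
      show (QuotientGroup.mk (psi h (a * b) v) : V ⧸ W.subgroupOf V) = QuotientGroup.mk (psi h a (psi h b v))
      rw [map_mul]; rfl)

theorem phi_mk (l : L) (v : V) : phi h l (QuotientGroup.mk v) = QuotientGroup.mk (psi h l v) := rfl

theorem phi_eq_one_iff (l : L) : phi h l = 1 ↔ (l : X) ∈ act V W := by
  constructor
  · intro h1
    refine ⟨h.nV l.2, h.nW l.2, fun v hv => ?_⟩
    have h2 : phi h l (QuotientGroup.mk ⟨v, hv⟩) = (QuotientGroup.mk ⟨v, hv⟩ : V ⧸ W.subgroupOf V) := by
      rw [h1]; rfl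
    rw [phi_mk, eq_comm, QuotientGroup.eq] at h2
    have h3 : v⁻¹ * (l * v * (l : X)⁻¹) ∈ W := h2
    have h4 := (mem_normalizer_iff.mp (h.VW hv) _).mp h3
    simpa [mul_assoc] using h4
  · intro h1
    ext x
    induction x using QuotientGroup.induction_on with
    | H v =>
      show phi h l (QuotientGroup.mk v) = (QuotientGroup.mk v : V ⧸ W.subgroupOf V)
      rw [phi_mk, eq_comm, QuotientGroup.eq]
      have h3 := (mem_normalizer_iff.mp (inv_mem (h.VW v.2)) _).mp (h1.2.2 v v.2)
      have h4 : (v : X)⁻¹ * (l * v * (l : X)⁻¹) ∈ W := by simpa [mul_assoc] using h3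
      exact h4

end Construct

universe u

/-- A model of `V/W` and `L/C_L(V/W)` inside one group. -/
theorem exists_model {X : Type u} [Group X] [Finite X] {L V W : Subgroup X} (h : Sec L V W) :
    ∃ (Y : Type u) (_ : Group Y) (_ : Finite Y) (i : V →* Y) (j : L →* Y),
      (∀ l v, j l * i v * (j l)⁻¹ = i (psi h l v)) ∧ (∀ v : V, i v = 1 ↔ (v : X) ∈ W) ∧
      (∀ l : L, j l = 1 ↔ (l : X) ∈ act V W) := by
  have := normalW h
  let Q := V ⧸ W.subgroupOf V
  have : Finite (MulAut Q) := Finite.of_injective (fun e : MulAut Q => (e : Q → Q)) DFunLike.coe_injective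
  let M : Subgroup (MulAut Q) := (phi h).range
  refine ⟨Q ⋊[M.subtype] M, inferInstance, Finite.of_equiv _ SemidirectProduct.equivProd.symm,
    SemidirectProduct.inl.comp (QuotientGroup.mk' _), SemidirectProduct.inr.comp (phi h).rangeRestrict, ?_, ?_, ?_⟩
  · intro l v
    simp only [MonoidHom.comp_apply]
    rw [← map_inv, ← SemidirectProduct.inl_aut]
    congr 1
  · intro v
    simp only [MonoidHom.comp_apply]
    rw [← map_one (SemidirectProduct.inl : Q →* Q ⋊[M.subtype] M), SemidirectProduct.inl_inj]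
    show (QuotientGroup.mk v : V ⧸ W.subgroupOf V) = 1 ↔ (v : X) ∈ W
    rw [QuotientGroup.eq_one_iff]
    rfl
  · intro l
    simp only [MonoidHom.comp_apply]
    rw [← map_one (SemidirectProduct.inr : M →* Q ⋊[M.subtype] M), SemidirectProduct.inr_inj,
      ← phi_eq_one_iff h l, Subtype.ext_iff]
    rfl

theorem irr {X : Type u} [Group X] [Finite X] {L V W A : Subgroup X} (h : Sec L V W)
    (hsol : Group.IsSolvable L) (hS3 : SF L (act V W))
    (hirr : ∀ U : Subgroup X, W ≤ U → U ≤ V → L ≤ normalizer (U : Set X) → U = W ∨ U = V)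
    (hAL : A ≤ L) (hA1 : ∀ a ∈ A, a * a ∈ act V W) (hA2 : ∀ a ∈ A, ∀ b ∈ A, a * b * a⁻¹ * b⁻¹ ∈ act V W) :
    ((A ⊓ act V W).relIndex A) ^ 2 ≤ (fix V W A).relIndex V := by
  classical
  have h2f : Fact (Nat.Prime 2) := ⟨Nat.prime_two⟩
  by_contra hlt
  push Not at hlt
  obtain ⟨Y, _, _, i, j, hij, hi, hj⟩ := exists_model h
  set V' := i.range with hV'
  set M' := j.range with hM'
  set A' := (A.subgroupOf L).map j with hA'
  have hVel : IsElementaryAbelian 2 V' := by
    refine ⟨⟨⟨?_⟩⟩, ?_⟩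
    · rintro ⟨_, v, rfl⟩ ⟨_, u, rfl⟩
      apply Subtype.ext
      show i v * i u = i u * i v
      have h1 : i (v * u * v⁻¹ * u⁻¹) = 1 := (hi _).mpr (h.comm v v.2 u u.2)
      rw [map_mul, map_mul, map_mul, map_inv, map_inv, mul_inv_eq_one, mul_inv_eq_iff_eq_mul] at h1
      exact h1
    · rintro _ ⟨v, rfl⟩
      rw [← map_pow, hi, pow_two]
      exact h.sq v v.2
  have hVp : IsPGroup 2 V' := by
    intro x
    exact ⟨1, by apply Subtype.ext; simpa using hVel.2 x x.2⟩
  have hMV : M' ≤ normalizer (V' : Set Y) := by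
    rw [le_normalizer_iff]
    rintro _ ⟨l, rfl⟩ _ ⟨v, rfl⟩
    rw [hij]
    exact ⟨_, rfl⟩
  have hfaith : M' ⊓ centralizer (V' : Set Y) = ⊥ := by
    rw [eq_bot_iff]
    rintro _ ⟨⟨l, rfl⟩, hl⟩
    rw [mem_bot, hj]
    refine ⟨h.nV l.2, h.nW l.2, fun v hv => ?_⟩
    have h1 : i ⟨v, hv⟩ * j l = j l * i ⟨v, hv⟩ := mem_centralizer_iff.mp hl _ ⟨_, rfl⟩
    have h2 : i (psi h l ⟨v, hv⟩ * (⟨v, hv⟩ : V)⁻¹) = 1 := by
      rw [map_mul, map_inv, ← hij, ← h1, mul_inv_cancel_right, mul_inv_cancel]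
    exact (hi _).mp h2
  have hsolM : Group.IsSolvable M' := by
    have := hsol
    exact Group.isSolvable_of_surjective j.rangeRestrict_surjective
  have hcore : pCore 2 M' = ⊥ := by
    by_contra hR
    set R' := (pCore 2 M').map M'.subtype with hR'
    have hR'p : IsPGroup 2 R' := (H1.Cores.isPGroup_pCore 2).map _
    have hR'M : R' ≤ M' := Subgroup.map_subtype_le _
    have hMR : M' ≤ normalizer (R' : Set Y) := by
      rw [le_normalizer_iff]
      rintro m hm _ ⟨x, hx, rfl⟩
      have hn : (pCore 2 M').Normal := inferInstance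
      exact ⟨⟨m, hm⟩ * x * ⟨m, hm⟩⁻¹, hn.conj_mem x hx ⟨m, hm⟩, rfl⟩
    have hR'ne : R' ≠ ⊥ := by
      intro hb
      apply hR
      rw [← Subgroup.map_eq_bot_iff_of_injective _ M'.subtype_injective]
      exact hb
    have hV'ne : V' ≠ ⊥ := by
      intro hb
      apply hR'ne
      rw [eq_bot_iff, ← hfaith]
      refine le_inf hR'M ?_
      rw [hb]
      intro x _
      rw [mem_centralizer_iff]
      rintro y hy
      rw [SetLike.mem_coe, mem_bot] at hy
      rw [hy, one_mul, mul_one]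
    have h1 := H65.PBasic.inf_centralizer_ne_bot R' V' hR'p hVp (hR'M.trans hMV) hV'ne
    let U : Subgroup X := ((centralizer (R' : Set Y)).comap i).map V.subtype
    have hWU : W ≤ U := by
      intro w hw
      refine ⟨⟨w, h.le hw⟩, ?_, rfl⟩
      show i _ ∈ centralizer (R' : Set Y)
      rw [(hi _).mpr hw]; exact one_mem _
    have hUV : U ≤ V := Subgroup.map_subtype_le _
    have hLU : L ≤ normalizer (U : Set X) := by
      rw [le_normalizer_iff]
      rintro l hl _ ⟨v, hv, rfl⟩
      refine ⟨psi h ⟨l, hl⟩ v, ?_, rfl⟩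
      show i _ ∈ centralizer (R' : Set Y)
      rw [← hij]
      have hv' : i v ∈ centralizer (R' : Set Y) := hv
      have hjl : j ⟨l, hl⟩ ∈ normalizer (R' : Set Y) := hMR ⟨_, rfl⟩
      rw [mem_centralizer_iff] at hv' ⊢
      intro r hr
      have h3 := hv' _ ((mem_normalizer_iff.mp (inv_mem hjl) r).mp hr)
      rw [inv_inv] at h3
      calc r * (j ⟨l, hl⟩ * i v * (j ⟨l, hl⟩)⁻¹)
          = j ⟨l, hl⟩ * (((j ⟨l, hl⟩)⁻¹ * r * j ⟨l, hl⟩) * i v) * (j ⟨l, hl⟩)⁻¹ := by group
        _ = j ⟨l, hl⟩ * (i v * ((j ⟨l, hl⟩)⁻¹ * r * j ⟨l, hl⟩)) * (j ⟨l, hl⟩)⁻¹ := by rw [h3]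
        _ = j ⟨l, hl⟩ * i v * (j ⟨l, hl⟩)⁻¹ * r := by group
    rcases hirr U hWU hUV hLU with hU | hU
    · apply h1
      rw [eq_bot_iff]
      rintro _ ⟨⟨v, rfl⟩, hv⟩
      have : (v : X) ∈ U := ⟨v, hv, rfl⟩
      rw [hU] at this
      rw [mem_bot, hi]; exact this
    · apply hR'ne
      rw [eq_bot_iff, ← hfaith]
      refine le_inf hR'M ?_
      rw [le_centralizer_iff]
      rintro _ ⟨v, rfl⟩
      have h2 : (v : X) ∈ U := by rw [hU]; exact v.2
      obtain ⟨v', hv', hvv⟩ := h2
      have : v' = v := Subtype.ext hvv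
      rw [← this]; exact hv'
  have hcon := centralizer_pPrimeCore_le hsolM hcore
  have hA'M : A' ≤ M' := by
    rintro _ ⟨l, _, rfl⟩
    exact ⟨l, rfl⟩
  have hA'el : IsElementaryAbelian 2 A' := by
    refine ⟨⟨⟨?_⟩⟩, ?_⟩
    · rintro ⟨_, a, ha, rfl⟩ ⟨_, b, hb, rfl⟩
      apply Subtype.ext
      show j a * j b = j b * j a
      have h1 : j (a * b * a⁻¹ * b⁻¹) = 1 := (hj _).mpr (hA2 a ha b hb)
      rw [map_mul, map_mul, map_mul, map_inv, map_inv, mul_inv_eq_one, mul_inv_eq_iff_eq_mul] at h1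
      exact h1
    · rintro _ ⟨a, ha, rfl⟩
      rw [← map_pow, hj, pow_two]
      exact hA1 a ha
  have hsmall : (V' ⊓ centralizer (A' : Set Y)).relIndex V' < Nat.card A' ^ 2 := by
    have e1 : (V' ⊓ centralizer (A' : Set Y)).relIndex V' = (fix V W A).relIndex V := by
      rw [inf_relIndex_left, hV', ← Subgroup.index_comap]
      show _ = ((fix V W A).subgroupOf V).index
      congr 1
      ext v
      rw [mem_comap, mem_subgroupOf, mem_fix, mem_centralizer_iff]
      constructor
      · intro hv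
        refine ⟨v.2, h.VW v.2, fun a ha => ?_⟩
        have h1 := hv (j ⟨a, hAL ha⟩) ⟨⟨a, hAL ha⟩, ha, rfl⟩
        have h2 : i (psi h ⟨a, hAL ha⟩ v * v⁻¹) = 1 := by
          rw [map_mul, map_inv, ← hij, h1, mul_inv_cancel_right, mul_inv_cancel]
        exact (hi _).mp h2
      · rintro ⟨-, -, hv⟩ _ ⟨a, ha, rfl⟩
        have h2 : i (psi h a v * v⁻¹) = 1 := (hi _).mpr (hv a ha)
        rw [map_mul, map_inv, ← hij, mul_inv_eq_one, mul_inv_eq_iff_eq_mul] at h2
        exact h2
    have e2 : Nat.card A' = (A ⊓ act V W).relIndex A := by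
      rw [hA', ← Subgroup.relIndex_ker, inf_relIndex_left]
      have : j.ker = (act V W).subgroupOf L := by
        ext l
        rw [MonoidHom.mem_ker, hj, mem_subgroupOf]
      rw [this, Subgroup.relIndex_subgroupOf hAL]
    rw [e1, e2]; exact hlt
  obtain ⟨K', f, hf⟩ := H51.Involves.exists_surjective
    (Cfsg.Agent.S3755.result M' V' hVel hMV hfaith hcon A' hA'M hA'el hsmall)
  let g : L →* M' := j.rangeRestrict
  have hg : Function.Surjective g := j.rangeRestrict_surjective
  let K := (K'.comap g).map L.subtype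
  let e : (K'.comap g) ≃* K := (K'.comap g).equivMapOfInjective L.subtype L.subtype_injective
  refine hS3 K (Subgroup.map_subtype_le _) (f.comp ((g.subgroupComap K').comp e.symm.toMonoidHom)) ?_ ?_
  · intro k hk
    have h1 : ((e.symm k : K'.comap g) : L) = (k : X) := by
      have : ((e (e.symm k) : K) : X) = (k : X) := by rw [e.apply_symm_apply]
      exact this
    have h2 : g.subgroupComap K' (e.symm k) = 1 := by
      apply Subtype.ext
      apply Subtype.ext
      show j ((e.symm k : K'.comap g) : L) = 1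
      rw [hj, h1]; exact hk
    show f (g.subgroupComap K' (e.symm k)) = 1
    rw [h2, map_one]
  · exact hf.comp ((g.subgroupComap_surjective_of_surjective K' hg).comp e.symm.surjective)

end H65.Irr
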