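import Cfsg.Agent.Lib.H65.CoCyclic
import Cfsg.Agent.Lib.H65.MaxLocal
import Cfsg.Agent.Lib.H65.PBasic2
import Cfsg.Agent.Lib.H65.Irr

set_option autoImplicit false

/-! Regular orbits of elementary abelian 2-groups on groups of odd order; two conjugates of an elementary abelian
2-subgroup of a solvable group generating a subgroup whose normal 2-subgroups meet them in `O₂`. -/

namespace H65.RegOrb

open Subgroup Cfsg

universe u

variable {X : Type u} [Group X]

theorem mem_or {A B : Subgroup X} {a : X} (hBn : B ≤ normalizer ((zpowers a : Subgroup X) : Set X))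
    (hBa : B ⊔ zpowers a = A) (ha2 : a * a = 1) {z : X} (hz : z ∈ A) : z ∈ B ∨ ∃ b ∈ B, z = b * a := by
  rw [← hBa] at hz
  obtain ⟨b, hb, w, hw, rfl⟩ := (H65.Semi.mem_sup_iff hBn).mp hz
  obtain ⟨i, rfl⟩ := mem_zpowers_iff.mp hw
  rcases Int.even_or_odd' i with ⟨k, rfl | rfl⟩
  · left
    have : a ^ (2 * k) = 1 := by rw [zpow_mul, zpow_two, ha2, one_zpow]
    rw [this, mul_one]; exact hb
  · right
    have : a ^ (2 * k + 1) = a := by rw [zpow_add, zpow_mul, zpow_two, ha2, one_zpow, one_mul, zpow_one]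
    exact ⟨b, hb, by rw [this]⟩

theorem regular_orbit [Finite X] : ∀ (n : ℕ) (A F : Subgroup X), Nat.card A = n → IsElementaryAbelian 2 A →
    A ≤ normalizer (F : Set X) → (Nat.card F).Coprime 2 → A ⊓ centralizer (F : Set X) = ⊥ →
    ∃ y ∈ F, A ⊓ centralizer {y} = ⊥ := by
  intro n
  induction n using Nat.strong_induction_on with
  | _ n ih =>
  intro A F hn hA hAF hF hAC
  have h2f : Fact (Nat.Prime 2) := ⟨Nat.prime_two⟩
  have hAc : ∀ x ∈ A, ∀ y ∈ A, x * y = y * x := fun x hx y hy =>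
    congrArg Subtype.val (hA.1.is_comm.comm (⟨x, hx⟩ : A) ⟨y, hy⟩)
  have hAp : IsPGroup 2 A := fun x => ⟨1, by apply Subtype.ext; simpa using hA.2 x x.2⟩
  by_cases hA1 : A = ⊥
  · exact ⟨1, one_mem _, by rw [hA1]; exact bot_inf_eq _⟩
  have hcop : (Nat.card A).Coprime (Nat.card F) := by
    obtain ⟨k, hk⟩ := IsPGroup.iff_card.mp hAp
    rw [hk]; exact Nat.Coprime.pow_left _ hF.symm
  have hAmul : IsMulCommutative A := hA.1
  obtain ⟨B, hBA, ⟨a, ha, hBa⟩, hBF⟩ : ∃ B : Subgroup X, B ≤ A ∧ (∃ a ∈ A, B ⊔ zpowers a = A) ∧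
      ¬ F ⊓ centralizer (B : Set X) ≤ centralizer (A : Set X) := by
    by_contra hcon2
    push Not at hcon2
    have h1 : F ≤ centralizer (A : Set X) := by
      apply H65.CoCyclic.gen_cocyclic A F hAmul hAF hcop
      rintro B hB ⟨a, ha, hBa⟩
      exact hcon2 B hB ⟨a, ha, hBa⟩
    rw [le_centralizer_iff] at h1
    apply hA1
    rw [← hAC, inf_eq_left.mpr h1]
  have hBne : B ≠ A := by
    intro h
    apply hBF
    rw [h]; exact inf_le_right
  have hBlt : Nat.card B < n := by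
    rw [← hn]
    rcases Nat.lt_or_ge (Nat.card B) (Nat.card A) with h | h
    · exact h
    · exact absurd (Subgroup.eq_of_le_of_card_ge hBA h) hBne
  have hBel : IsElementaryAbelian 2 B :=
    ⟨⟨⟨fun x y => Subtype.ext (hAc x (hBA x.2) y (hBA y.2))⟩⟩, fun x hx => hA.2 x (hBA hx)⟩
  obtain ⟨y2, hy2, hBy2⟩ := ih _ hBlt B F rfl hBel (hBA.trans hAF) hF (by
    rw [eq_bot_iff, ← hAC]; exact inf_le_inf_right _ hBA)
  have ha2 : a * a = 1 := by rw [← pow_two]; exact hA.2 a ha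
  have ha' : a⁻¹ = a := inv_eq_of_mul_eq_one_left ha2
  have hBn : B ≤ normalizer ((zpowers a : Subgroup X) : Set X) := by
    rw [le_normalizer_iff]
    intro b hb z hz
    have hzA : z ∈ A := (zpowers_le.mpr ha) hz
    rw [hAc b (hBA hb) z hzA, mul_inv_cancel_right]; exact hz
  have hcA : centralizer (B : Set X) ⊓ centralizer {a} ≤ centralizer (A : Set X) := by
    rw [← hBa, ← H65.PBasic2.centralizer_zpowers]
    rw [le_centralizer_iff]
    refine sup_le ?_ ?_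
    · rw [le_centralizer_iff]; exact inf_le_left
    · rw [le_centralizer_iff]; exact inf_le_right
  obtain ⟨k, hk, hkA⟩ := SetLike.not_le_iff_exists.mp hBF
  have hka : ¬ (k * a = a * k) := by
    intro h
    apply hkA
    exact hcA (mem_inf.mpr ⟨(mem_inf.mp hk).2, mem_centralizer_singleton_iff.mpr h⟩)
  set y1 := k * a * k⁻¹ * a⁻¹ with hy1
  have hy1F : y1 ∈ F := by
    have h1 : a * k⁻¹ * a⁻¹ ∈ F := (mem_normalizer_iff.mp (hAF ha) _).mp (inv_mem (mem_inf.mp hk).1)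
    have h2 := mul_mem (mem_inf.mp hk).1 h1
    simpa [hy1, mul_assoc] using h2
  have haB : a ∈ centralizer (B : Set X) := by
    rw [mem_centralizer_iff]
    intro b hb
    exact hAc b (hBA hb) a ha
  have hy1B : y1 ∈ centralizer (B : Set X) :=
    mul_mem (mul_mem (mul_mem (mem_inf.mp hk).2 haB) (inv_mem (mem_inf.mp hk).2)) (inv_mem haB)
  have hy1B' : ∀ b ∈ B, b * y1 = y1 * b := fun b hb => mem_centralizer_iff.mp hy1B b hb
  have hy1ne : y1 ≠ 1 := by
    intro h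
    rw [hy1, mul_inv_eq_one] at h
    exact hka (mul_inv_eq_iff_eq_mul.mp h)
  have hinv : a * y1 * a⁻¹ = y1⁻¹ := by
    rw [hy1, ha']
    have : (k * a * k⁻¹ * a)⁻¹ = a⁻¹ * k * a⁻¹ * k⁻¹ := by group
    rw [this, ha']
    calc a * (k * a * k⁻¹ * a) * a = a * k * a * k⁻¹ * (a * a) := by group
      _ = a * k * a * k⁻¹ := by rw [ha2, mul_one]
  by_contra hno
  push Not at hno
  obtain ⟨⟨x, hx⟩, hx1⟩ := Subgroup.ne_bot_iff_exists_ne_one.mp (hno y2 hy2)
  obtain ⟨⟨x', hx'⟩, hx1'⟩ := Subgroup.ne_bot_iff_exists_ne_one.mp (hno (y1 * y2) (mul_mem hy1F hy2))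
  have hx1 : x ≠ 1 := fun h => hx1 (Subtype.ext h)
  have hx1' : x' ≠ 1 := fun h => hx1' (Subtype.ext h)
  obtain ⟨hxA, hxc⟩ := mem_inf.mp hx
  obtain ⟨hxA', hxc'⟩ := mem_inf.mp hx'
  rw [mem_centralizer_singleton_iff] at hxc hxc'
  have hxB : x ∉ B := by
    intro h
    have : x ∈ B ⊓ centralizer {y2} := mem_inf.mpr ⟨h, mem_centralizer_singleton_iff.mpr hxc⟩
    rw [hBy2, mem_bot] at this
    exact hx1 this
  have hxB' : x' ∉ B := by
    intro h
    have h3 : x' * y2 = y2 * x' := by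
      have h4 : y1 * (x' * y2) = y1 * (y2 * x') := by
        calc y1 * (x' * y2) = (y1 * x') * y2 := by group
          _ = (x' * y1) * y2 := by rw [hy1B' x' h]
          _ = x' * (y1 * y2) := by group
          _ = (y1 * y2) * x' := hxc'
          _ = y1 * (y2 * x') := by group
      exact mul_left_cancel h4
    have : x' ∈ B ⊓ centralizer {y2} := mem_inf.mpr ⟨h, mem_centralizer_singleton_iff.mpr h3⟩
    rw [hBy2, mem_bot] at this
    exact hx1' this
  obtain ⟨b0, hb0, hxb0⟩ := (mem_or hBn hBa ha2 hxA).resolve_left hxB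
  obtain ⟨b1, hb1, hxb1⟩ := (mem_or hBn hBa ha2 hxA').resolve_left hxB'
  have e1 : x' * y1 * x'⁻¹ = y1⁻¹ := by
    rw [hxb1]
    calc b1 * a * y1 * (b1 * a)⁻¹ = b1 * (a * y1 * a⁻¹) * b1⁻¹ := by group
      _ = b1 * y1⁻¹ * b1⁻¹ := by rw [hinv]
      _ = (b1 * y1 * b1⁻¹)⁻¹ := by group
      _ = y1⁻¹ := by rw [hy1B' b1 hb1, mul_inv_cancel_right]
  have e2 : x' * y2 * x'⁻¹ = y1 * y1 * y2 := by
    calc x' * y2 * x'⁻¹ = (x' * y1 * x'⁻¹)⁻¹ * (x' * (y1 * y2) * x'⁻¹) := by group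
      _ = (y1⁻¹)⁻¹ * (y1 * y2) := by rw [e1, hxc', mul_inv_cancel_right]
      _ = _ := by group
  set b := x' * x⁻¹ with hb
  have hbB : b ∈ B := by
    have h3 : b = b1 * b0⁻¹ := by rw [hb, hxb0, hxb1]; group
    rw [h3]; exact mul_mem hb1 (inv_mem hb0)
  have e3 : b * y2 * b⁻¹ = y1 * y1 * y2 := by
    rw [← e2]
    have h3 : x⁻¹ * y2 * x = y2 := by
      have : x⁻¹ * (y2 * x) = y2 := by rw [← hxc]; group
      rw [mul_assoc]; exact this
    calc b * y2 * b⁻¹ = x' * (x⁻¹ * y2 * x) * x'⁻¹ := by rw [hb]; group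
      _ = _ := by rw [h3]
  have hb2 : b * b = 1 := by rw [← pow_two]; exact hA.2 b (hBA hbB)
  have e4 : y1 ^ 4 = 1 := by
    have h3 : y2 = y1 * y1 * (y1 * y1 * y2) := by
      calc y2 = (b * b) * y2 * (b * b)⁻¹ := by rw [hb2]; group
        _ = b * (b * y2 * b⁻¹) * b⁻¹ := by group
        _ = b * (y1 * y1 * y2) * b⁻¹ := by rw [e3]
        _ = (b * y1 * b⁻¹) * (b * y1 * b⁻¹) * (b * y2 * b⁻¹) := by group
        _ = y1 * y1 * (y1 * y1 * y2) := by rw [hy1B' b hbB, mul_inv_cancel_right, e3]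
    have h4 : y1 ^ 4 * y2 = 1 * y2 := by
      rw [one_mul]
      calc y1 ^ 4 * y2 = y1 * y1 * (y1 * y1 * y2) := by simp only [pow_succ, pow_zero, one_mul, mul_assoc]
        _ = y2 := h3.symm
    exact mul_right_cancel h4
  apply hy1ne
  have h5 : orderOf y1 ∣ 4 := orderOf_dvd_of_pow_eq_one e4
  have h6 : orderOf y1 ∣ Nat.card F := by
    rw [← Subgroup.orderOf_mk y1 hy1F]; exact orderOf_dvd_natCard _
  have h7 : Nat.Coprime (Nat.card F) 4 := by
    have := Nat.Coprime.pow_right 2 hF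
    norm_num at this
    exact this
  rw [← orderOf_eq_one_iff]
  exact Nat.eq_one_of_dvd_coprimes h7 h6 h5

/-- type-level version of `exists_T` -/
theorem exists_T' {M : Type u} [Group M] [Finite M] (hsol : Group.IsSolvable M) {A : Subgroup M}
    (hA : IsElementaryAbelian 2 A) : ∃ y : M, ∀ N : Subgroup M, IsPGroup 2 N →
      A ⊔ A.map (MulAut.conj y).toMonoidHom ≤ normalizer (N : Set M) →
      A ⊓ N ≤ pCore 2 M ∧ A.map (MulAut.conj y).toMonoidHom ⊓ N ≤ pCore 2 M := by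
  have h2f : Fact (Nat.Prime 2) := ⟨Nat.prime_two⟩
  let π := QuotientGroup.mk' (pCore 2 M)
  let F : Subgroup (M ⧸ pCore 2 M) := pPrimeCore 2 (M ⧸ pCore 2 M)
  have hFn : F.Normal := inferInstance
  have hsol' : Group.IsSolvable (M ⧸ pCore 2 M) := by
    have := hsol
    exact Group.isSolvable_of_surjective (QuotientGroup.mk'_surjective (pCore 2 M))
  have hCF := H65.Irr.centralizer_pPrimeCore_le (p := 2) hsol' (H1.Cores.pCore_quotient_pCore (G := M) 2)
  have hFc : (Nat.card F).Coprime 2 := H1.Cores.coprime_card_pPrimeCore 2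
  set A' := A.map π with hA'
  have hA'el : IsElementaryAbelian 2 A' := by
    refine ⟨⟨⟨?_⟩⟩, ?_⟩
    · rintro ⟨_, a, ha, rfl⟩ ⟨_, b, hb, rfl⟩
      apply Subtype.ext
      show π a * π b = π b * π a
      rw [← map_mul, ← map_mul]
      have : a * b = b * a := congrArg Subtype.val (hA.1.is_comm.comm (⟨a, ha⟩ : A) ⟨b, hb⟩)
      rw [this]
    · rintro _ ⟨a, ha, rfl⟩
      rw [← map_pow, hA.2 a ha, map_one]
  have hA'p : IsPGroup 2 A' := fun x => ⟨1, by apply Subtype.ext; simpa using hA'el.2 x x.2⟩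
  have hA'F : A' ⊓ centralizer (F : Set (M ⧸ pCore 2 M)) = ⊥ := by
    rw [eq_bot_iff]
    have h1 : A' ⊓ F = ⊥ := by
      apply (Subgroup.disjoint_of_coprime_natCard _).eq_bot
      obtain ⟨k, hk⟩ := IsPGroup.iff_card.mp hA'p
      rw [hk]; exact Nat.Coprime.pow_left _ hFc.symm
    rw [← h1]
    exact inf_le_inf_left _ hCF
  obtain ⟨y', hy'F, hy'⟩ := regular_orbit _ A' F rfl hA'el (by rw [normalizer_eq_top]; exact le_top) hFc hA'F
  obtain ⟨y, rfl⟩ := QuotientGroup.mk'_surjective (pCore 2 M) y'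
  refine ⟨y, fun N hN hLN => ?_⟩
  set N' := N.map π with hN'
  have hN'F : N' ⊓ F = ⊥ := by
    apply (Subgroup.disjoint_of_coprime_natCard _).eq_bot
    obtain ⟨k, hk⟩ := IsPGroup.iff_card.mp (hN.map π)
    rw [hN', hk]; exact Nat.Coprime.pow_left _ hFc.symm
  -- key computation
  have key : ∀ a ∈ A, ∀ x : M, x ∈ N → (x = a ∨ x = y * a * y⁻¹) → π a = 1 := by
    intro a ha x hxN hx
    have haa : π a * π a = 1 := by rw [← pow_two]; exact hA'el.2 _ ⟨a, ha, rfl⟩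
    have hai : (π a)⁻¹ = π a := inv_eq_of_mul_eq_one_left haa
    set c := a * y * a⁻¹ * y⁻¹ with hc
    have hcF : π c ∈ F := by
      rw [hc, map_mul, map_mul, map_mul, map_inv, map_inv]
      exact mul_mem (hFn.conj_mem _ hy'F _) (inv_mem hy'F)
    have hcL : c ∈ normalizer (N : Set M) := by
      apply hLN
      have h1 : y * a⁻¹ * y⁻¹ ∈ A.map (MulAut.conj y).toMonoidHom := ⟨a⁻¹, inv_mem ha, rfl⟩
      have h2 : c = a * (y * a⁻¹ * y⁻¹) := by rw [hc]; group
      rw [h2]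
      exact mul_mem (mem_sup_left ha) (mem_sup_right h1)
    have h3 : x * c * x⁻¹ * c⁻¹ ∈ N := by
      have h4 : c * x⁻¹ * c⁻¹ ∈ N := (mem_normalizer_iff.mp hcL _).mp (inv_mem hxN)
      have := mul_mem hxN h4
      simpa [mul_assoc] using this
    have h5 : π (x * c * x⁻¹ * c⁻¹) ∈ N' ⊓ F := by
      refine mem_inf.mpr ⟨⟨_, h3, rfl⟩, ?_⟩
      rw [map_mul, map_mul, map_mul, map_inv, map_inv]
      exact mul_mem (hFn.conj_mem _ hcF _) (inv_mem hcF)
    rw [hN'F, mem_bot, map_mul, map_mul, map_mul, map_inv, map_inv, mul_inv_eq_one] at h5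
    have hci : (π c)⁻¹ = π y * π a * (π y)⁻¹ * π a := by
      rw [hc, map_mul, map_mul, map_mul, map_inv, map_inv, hai]
      calc (π a * π y * π a * (π y)⁻¹)⁻¹ = π y * (π a)⁻¹ * (π y)⁻¹ * (π a)⁻¹ := by group
        _ = _ := by rw [hai]
    have h6 : π x * π c * (π x)⁻¹ = (π c)⁻¹ := by
      rcases hx with rfl | rfl
      · rw [hci, hc, map_mul, map_mul, map_mul, map_inv, map_inv, hai]
        calc π x * (π x * π y * π x * (π y)⁻¹) * π x = (π x * π x) * π y * π x * (π y)⁻¹ * π x := by group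
          _ = _ := by rw [haa, one_mul]
      · rw [hci, hc]
        simp only [map_mul, map_inv]
        rw [hai]
        calc π y * π a * (π y)⁻¹ * (π a * π y * π a * (π y)⁻¹) * (π y * π a * (π y)⁻¹)⁻¹
            = π y * π a * (π y)⁻¹ * π a * (π y * (π a * (π a)⁻¹) * (π y)⁻¹) := by group
          _ = _ := by group
    rw [h5] at h6
    have h7 : (π c) ^ 2 = 1 := by
      rw [pow_two]; nth_rewrite 1 [h6]; exact inv_mul_cancel _
    have h8 : π c = 1 := by
      rw [← orderOf_eq_one_iff]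
      have h9 : orderOf (π c) ∣ Nat.card F := by
        rw [← Subgroup.orderOf_mk (π c) hcF]; exact orderOf_dvd_natCard _
      exact Nat.eq_one_of_dvd_coprimes hFc h9 (orderOf_dvd_of_pow_eq_one h7)
    have h9 : π a ∈ A' ⊓ centralizer {π y} := by
      refine mem_inf.mpr ⟨⟨a, ha, rfl⟩, ?_⟩
      rw [mem_centralizer_singleton_iff]
      rw [hc, map_mul, map_mul, map_mul, map_inv, map_inv, mul_inv_eq_one, mul_inv_eq_iff_eq_mul] at h8
      exact h8
    have h10 : A' ⊓ centralizer {π y} = ⊥ := hy'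
    rw [h10, mem_bot] at h9
    exact h9
  constructor
  · intro a ha
    exact (QuotientGroup.eq_one_iff a).mp (key a (mem_inf.mp ha).1 a (mem_inf.mp ha).2 (Or.inl rfl))
  · rintro _ ⟨⟨a, ha, rfl⟩, hN2⟩
    have h1 := key a ha (y * a * y⁻¹) hN2 (Or.inr rfl)
    have h2 : a ∈ pCore 2 M := (QuotientGroup.eq_one_iff a).mp h1
    have hn : (pCore 2 M).Normal := inferInstance
    exact hn.conj_mem a h2 y

theorem exists_T [Finite X] {M A : Subgroup X} (hsol : Group.IsSolvable M) (hAM : A ≤ M)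
    (hA : IsElementaryAbelian 2 A) : ∃ y ∈ M, ∀ N : Subgroup X, IsPGroup 2 N →
      N ≤ A ⊔ A.map (MulAut.conj y).toMonoidHom → A ⊔ A.map (MulAut.conj y).toMonoidHom ≤ normalizer (N : Set X) →
      A ⊓ N ≤ H65.MaxLocal.opc 2 M ∧ A.map (MulAut.conj y).toMonoidHom ⊓ N ≤ H65.MaxLocal.opc 2 M := by
  have hA' : IsElementaryAbelian 2 (A.subgroupOf M) := by
    refine ⟨⟨⟨?_⟩⟩, ?_⟩
    · rintro ⟨a, ha⟩ ⟨b, hb⟩
      have h0 : (⟨a, ha⟩ : A) * ⟨b, hb⟩ = ⟨b, hb⟩ * ⟨a, ha⟩ := hA.1.is_comm.comm _ _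
      have h1 : (a : X) * b = b * a := congrArg (fun z : A => (z : X)) h0
      exact Subtype.ext (Subtype.ext h1)
    · intro a ha
      exact Subtype.ext (hA.2 a ha)
  obtain ⟨y, hy⟩ := exists_T' hsol hA'
  refine ⟨y, y.2, fun N hN hNL hLN => ?_⟩
  have hAyM : A.map (MulAut.conj (y : X)).toMonoidHom ≤ M := by
    rintro _ ⟨a, ha, rfl⟩
    exact mul_mem (mul_mem y.2 (hAM ha)) (inv_mem y.2)
  have hNM : N ≤ M := hNL.trans (sup_le hAM hAyM)
  have h1 := hy (N.subgroupOf M) (hN.comap_of_injective _ M.subtype_injective) (by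
    have key : ∀ x : M, (x : X) ∈ normalizer (N : Set X) → x ∈ normalizer ((N.subgroupOf M : Subgroup M) : Set M) := by
      intro x hx
      rw [mem_normalizer_iff] at hx ⊢
      intro n
      exact hx n
    refine sup_le ?_ ?_
    · intro x hx
      exact key x (hLN (mem_sup_left hx))
    · rintro _ ⟨a, ha, rfl⟩
      exact key _ (hLN (mem_sup_right ⟨a, ha, rfl⟩)))
  constructor
  · intro a ha
    have h2 : (⟨a, hAM (mem_inf.mp ha).1⟩ : M) ∈ A.subgroupOf M ⊓ N.subgroupOf M := ha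
    exact ⟨_, h1.1 h2, rfl⟩
  · rintro _ ⟨⟨a, ha, rfl⟩, hN2⟩
    have h2 : y * ⟨a, hAM ha⟩ * y⁻¹ ∈ (A.subgroupOf M).map (MulAut.conj y).toMonoidHom ⊓ N.subgroupOf M :=
      ⟨⟨⟨a, hAM ha⟩, ha, rfl⟩, hN2⟩
    exact ⟨_, h1.2 h2, rfl⟩

end H65.RegOrb
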