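import Cfsg.Agent.Lib.H65.Vert
import Cfsg.Agent.Lib.H65.RegOrb

set_option autoImplicit false

/-! The case `b = 1`. -/

namespace H65.B1

open Subgroup Cfsg H65.Sect H65.Irr H65.SectGen H65.MaxLocal H65.TheoremB H65.Vert

universe u

variable {X : Type u} [Group X] [Finite X]

theorem commute_of_comm {Q : Subgroup X} (hQ : IsPGroup 2 Q) {z p u : X} (hz : Odd (orderOf z)) (hu : u ∈ Q)
    (hzp : z * p * z⁻¹ * p⁻¹ = u) (hzu : z * u = u * z) : z * p = p * z := by
  have h1 : z * p * z⁻¹ = u * p := by rw [← hzp]; group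
  have h2 : ∀ n : ℕ, z ^ n * p * (z ^ n)⁻¹ = u ^ n * p := by
    intro n
    induction n with
    | zero => simp
    | succ n ih =>
      have h3 : z * u ^ n * z⁻¹ = u ^ n := by
        have : Commute z (u ^ n) := Commute.pow_right (show Commute z u from hzu) n
        rw [this.eq, mul_assoc, mul_inv_cancel, mul_one]
      have h4 : z ^ (n + 1) * p * (z ^ (n + 1))⁻¹ = z * (z ^ n * p * (z ^ n)⁻¹) * z⁻¹ := by
        rw [pow_succ']; group
      rw [h4, ih]
      have h5 : z * (u ^ n * p) * z⁻¹ = (z * u ^ n * z⁻¹) * (z * p * z⁻¹) := by group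
      rw [h5, h3, h1, ← mul_assoc, ← pow_succ]
  have h3 := h2 (orderOf z)
  rw [pow_orderOf_eq_one, one_mul, inv_one, mul_one] at h3
  have h4 : u ^ (orderOf z) = 1 := by
    have := congrArg (· * p⁻¹) h3
    simp only [mul_inv_cancel, mul_assoc, mul_one] at this
    exact this.symm
  obtain ⟨k, hk⟩ := hQ ⟨u, hu⟩
  have hk' : u ^ (2 ^ k) = 1 := by
    have := congrArg (fun x : Q => (x : X)) hk
    simpa using this
  have h5 : orderOf u ∣ Nat.gcd (orderOf z) (2 ^ k) :=
    Nat.dvd_gcd (orderOf_dvd_of_pow_eq_one h4) (orderOf_dvd_of_pow_eq_one hk')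
  have h6 : Nat.gcd (orderOf z) (2 ^ k) = 1 := by
    apply Nat.Coprime.pow_right
    exact Nat.coprime_two_right.mpr hz
  rw [h6] at h5
  have h7 : u = 1 := orderOf_eq_one_iff.mp (Nat.dvd_one.mp h5)
  rw [h7, one_mul] at h1
  calc z * p = z * p * z⁻¹ * z := by group
    _ = p * z := by rw [h1]

theorem half {M Z1 Z2 : Subgroup X} (hsol : Group.IsSolvable M) (hfree : ¬ Involves (Equiv.Perm (Fin 4)) M)
    (hchar : M ⊓ centralizer (opc 2 M : Set X) ≤ opc 2 M)
    (h1M : Z1 ≤ M) (h2M : Z2 ≤ M) (h1 : IsElementaryAbelian 2 Z1) (h2 : IsElementaryAbelian 2 Z2)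
    (hQ1 : opc 2 M ≤ normalizer (Z1 : Set X)) (hQ2 : opc 2 M ≤ normalizer (Z2 : Set X))
    (hT : ∀ N : Subgroup X, IsPGroup 2 N → N ≤ Z1 ⊔ Z2 → Z1 ⊔ Z2 ≤ normalizer (N : Set X) → Z1 ⊓ N ≤ opc 2 M) :
    ((Z1 ⊓ opc 2 M).relIndex Z1) ^ 2 ≤
      (Z2 ⊓ opc 2 M ⊓ centralizer (Z1 : Set X)).relIndex (Z2 ⊓ opc 2 M) := by
  set Q := opc 2 M with hQ
  set F1 := Z1 ⊓ Q with hF1
  set F2 := Z2 ⊓ Q with hF2
  set E := F1 ⊔ F2 with hE
  set L := Z1 ⊔ Z2 with hL
  set N := E ⊓ centralizer (L : Set X) with hN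
  have hQp : IsPGroup 2 Q := isPGroup_opc
  have hMQ : M ≤ normalizer (Q : Set X) := le_normalizer_opc
  have hLM : L ≤ M := sup_le h1M h2M
  have hEQ : E ≤ Q := sup_le inf_le_right inf_le_right
  have hQF1 : Q ≤ normalizer (F1 : Set X) := H65.Semi.le_normalizer_inf hQ1 le_normalizer
  have hQF2 : Q ≤ normalizer (F2 : Set X) := H65.Semi.le_normalizer_inf hQ2 le_normalizer
  have hQE : Q ≤ normalizer (E : Set X) := H65.Semi.le_normalizer_sup hQF1 hQF2
  have hQL : Q ≤ normalizer (L : Set X) := H65.Semi.le_normalizer_sup hQ1 hQ2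
  have key : ∀ Z F : Subgroup X, F = Z ⊓ Q → Z ≤ M → Q ≤ normalizer (Z : Set X) → F ≤ E → Z ≤ act Q E := by
    intro Z F hF hZM hQZ hFE z hz
    have hc : ∀ v ∈ Q, z * v * z⁻¹ * v⁻¹ ∈ E := by
      intro v hv
      apply hFE
      rw [hF]
      refine mem_inf.mpr ⟨?_, ?_⟩
      · have := (mem_normalizer_iff.mp (hQZ hv) z⁻¹).mp (inv_mem hz)
        have h3 : z * v * z⁻¹ * v⁻¹ = z * (v * z⁻¹ * v⁻¹) := by group
        rw [h3]; exact mul_mem hz this
      · exact mul_mem ((mem_normalizer_iff.mp (hMQ (hZM hz)) v).mp hv) (inv_mem hv)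
    refine ⟨hMQ (hZM hz), ?_, hc⟩
    have hc2 : ∀ z' ∈ Z, ∀ e ∈ E, z' * e * z'⁻¹ ∈ E := by
      intro z' hz' e he
      have hc' : z' * e * z'⁻¹ * e⁻¹ ∈ E := by
        apply hFE
        rw [hF]
        refine mem_inf.mpr ⟨?_, ?_⟩
        · have := (mem_normalizer_iff.mp (hQZ (hEQ he)) z'⁻¹).mp (inv_mem hz')
          have h3 : z' * e * z'⁻¹ * e⁻¹ = z' * (e * z'⁻¹ * e⁻¹) := by group
          rw [h3]; exact mul_mem hz' this
        · exact mul_mem ((mem_normalizer_iff.mp (hMQ (hZM hz')) e).mp (hEQ he)) (inv_mem (hEQ he))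
      have := mul_mem hc' he
      rwa [inv_mul_cancel_right] at this
    rw [mem_normalizer_iff]
    intro e
    constructor
    · exact hc2 z hz e
    · intro he
      have := hc2 z⁻¹ (inv_mem hz) _ he
      have h3 : z⁻¹ * (z * e * z⁻¹) * z⁻¹⁻¹ = e := by group
      rwa [h3] at this
  have hLact : L ≤ act Q E := sup_le (key Z1 F1 rfl h1M hQ1 le_sup_left) (key Z2 F2 rfl h2M hQ2 le_sup_right)
  have hLE : L ≤ normalizer (E : Set X) := fun x hx => (hLact hx).2.1
  have hcLn : ∀ x ∈ normalizer (L : Set X), x ∈ normalizer ((centralizer (L : Set X) : Subgroup X) : Set X) := by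
    exact fun x hx => H1.Coprime2.le_normalizer_centralizer le_rfl hx
  have hLN : L ≤ normalizer (N : Set X) :=
    H65.Semi.le_normalizer_inf hLE (fun x hx => hcLn x (le_normalizer hx))
  have hQN : Q ≤ normalizer (N : Set X) :=
    H65.Semi.le_normalizer_inf hQE (fun x hx => hcLn x (hQL hx))
  -- intersection
  have hW0 : F1 ⊓ F2 ≤ N := by
    refine le_inf (inf_le_left.trans le_sup_left) ?_
    rw [hL]
    rw [le_centralizer_iff]
    refine sup_le ?_ ?_
    · intro z hz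
      rw [mem_centralizer_iff]
      intro w hw
      exact comm_of_el h1 w (mem_inf.mp (mem_inf.mp hw).1).1 z hz
    · intro z hz
      rw [mem_centralizer_iff]
      intro w hw
      exact comm_of_el h2 w (mem_inf.mp (mem_inf.mp hw).2).1 z hz
  have hF12 : ∀ x ∈ F1, ∀ y ∈ F2, x * y * x⁻¹ * y⁻¹ ∈ F1 ⊓ F2 := by
    intro x hx y hy
    refine mem_inf.mpr ⟨?_, ?_⟩
    · have := (mem_normalizer_iff.mp (hQF1 (mem_inf.mp hy).2) x⁻¹).mp (inv_mem hx)
      have h3 : x * y * x⁻¹ * y⁻¹ = x * (y * x⁻¹ * y⁻¹) := by group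
      rw [h3]; exact mul_mem hx this
    · exact mul_mem ((mem_normalizer_iff.mp (hQF2 (mem_inf.mp hx).2) y).mp hy) (inv_mem hy)
  have hQW0 : Q ≤ normalizer ((F1 ⊓ F2 : Subgroup X) : Set X) := H65.Semi.le_normalizer_inf hQF1 hQF2
  have hEW0 : E ≤ normalizer ((F1 ⊓ F2 : Subgroup X) : Set X) := hEQ.trans hQW0
  have hcommE : ∀ x ∈ E, ∀ y ∈ E, x * y * x⁻¹ * y⁻¹ ∈ F1 ⊓ F2 := by
    have g1 : E ≤ fix E (F1 ⊓ F2) F1 := by
      refine sup_le ?_ ?_
      · intro x hx
        refine ⟨mem_sup_left hx, hEW0 (mem_sup_left hx), fun a ha => ?_⟩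
        rw [comm_of_el h1 a (mem_inf.mp ha).1 x (mem_inf.mp hx).1]
        simp [one_mem]
      · intro x hx
        exact ⟨mem_sup_right hx, hEW0 (mem_sup_right hx), fun a ha => hF12 a ha x hx⟩
    have g2 : E ≤ fix E (F1 ⊓ F2) F2 := by
      refine sup_le ?_ ?_
      · intro x hx
        refine ⟨mem_sup_left hx, hEW0 (mem_sup_left hx), fun a ha => ?_⟩
        have := inv_mem (hF12 x hx a ha)
        have h3 : (x * a * x⁻¹ * a⁻¹)⁻¹ = a * x * a⁻¹ * x⁻¹ := by group
        rwa [h3] at this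
      · intro x hx
        refine ⟨mem_sup_right hx, hEW0 (mem_sup_right hx), fun a ha => ?_⟩
        rw [comm_of_el h2 a (mem_inf.mp ha).1 x (mem_inf.mp hx).1]
        simp [one_mem]
    have g3 := (le_inf g1 g2).trans (fix_sup (hEW0.trans' le_sup_left) (hEW0.trans' le_sup_right))
    intro x hx y hy
    exact (g3 hy).2.2 x hx
  have hsec : Sec L E N := by
    refine ⟨inf_le_left, hLE, hLN, hEQ.trans hQN, fun x hx y hy => hW0 (hcommE x hx y hy), ?_⟩
    intro x hx
    have hF1n : F1 ≤ normalizer (F2 : Set X) := inf_le_right.trans hQF2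
    obtain ⟨f, hf, g, hg, rfl⟩ := (H65.Semi.mem_sup_iff hF1n).mp hx
    have e1 : f⁻¹ = f := by
      have := sq_of_el h1 f (mem_inf.mp hf).1
      exact inv_eq_of_mul_eq_one_left this
    have e2 : g⁻¹ = g := by
      have := sq_of_el h2 g (mem_inf.mp hg).1
      exact inv_eq_of_mul_eq_one_left this
    have h3 : f * g * (f * g) = f * g * f⁻¹ * g⁻¹ := by rw [e1, e2]; group
    rw [h3]
    exact hW0 (hF12 f hf g hg)
  have hRp : IsPGroup 2 (Rd L E N) := by
    have hodd : ∀ z ∈ Rd L E N, Odd (orderOf z) → z = 1 := by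
      intro z hz ho
      obtain ⟨k, hk⟩ := rd_mod2 hsec z hz
      have hz1 : z ∈ act E N := mem_of_pow ho hk
      have hzL : z ∈ L := rd_le hsec hz
      have hzE : ∀ e ∈ E, z * e = e * z := by
        intro e he
        have h3 := hz1.2.2 e he
        refine commute_of_comm hQp ho (hEQ (mem_inf.mp h3).1) rfl ?_
        exact mem_centralizer_iff.mp (mem_inf.mp h3).2 z hzL
      have hzQ : z ∈ centralizer (Q : Set X) := by
        rw [mem_centralizer_iff]
        intro q hq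
        have h3 := (hLact hzL).2.2 q hq
        exact (commute_of_comm hQp ho (hEQ h3) rfl (hzE _ h3)).symm
      have hzQ2 := hchar (mem_inf.mpr ⟨hLM hzL, hzQ⟩)
      obtain ⟨k, hk⟩ := hQp ⟨z, hzQ2⟩
      have hk' : z ^ (2 ^ k) ∈ (⊥ : Subgroup X) := by
        have := congrArg (fun x : Q => (x : X)) hk
        simpa using this
      exact mem_bot.mp (mem_of_pow ho hk')
    rw [IsPGroup.iff_card]
    by_contra hcon
    have h3 : ∃ q, q.Prime ∧ q ≠ 2 ∧ q ∣ Nat.card (Rd L E N) := by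
      by_contra hcon2
      push Not at hcon2
      apply hcon
      refine ⟨(Nat.card (Rd L E N)).primeFactorsList.length, ?_⟩
      apply Nat.eq_prime_pow_of_unique_prime_dvd Nat.card_pos.ne'
      intro q hq hq2
      by_contra hne
      exact hcon2 q hq hne hq2
    obtain ⟨q, hq, hq2, hqd⟩ := h3
    haveI := Fact.mk hq
    obtain ⟨x, hx⟩ := exists_prime_orderOf_dvd_card' q hqd
    have h4 := hodd x x.2 (by
      rw [orderOf_coe, hx]
      exact hq.odd_of_ne_two hq2)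
    have h5 : x = 1 := Subtype.ext h4
    rw [h5, orderOf_one] at hx
    exact hq.one_lt.ne hx
  have hZR : Z1 ⊓ Rd L E N ≤ F1 := le_inf inf_le_left (hT _ hRp (rd_le hsec) (le_normalizer_rd hsec))
  have hgen := gen_rd (A := Z1) (by
      have : Group.IsSolvable M := hsol
      exact Group.isSolvable_of_isSolvable_injective (f := Subgroup.inclusion hLM) (Subgroup.inclusion_injective _)) hsec
    (H65.S4Lem.sf_of_s4free hsec hLM ((hEQ.trans opc_le)) hfree) le_sup_left
    (fun a ha => by rw [sq_of_el h1 a ha]; exact one_mem _)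
    (fun a ha b hb => by
      rw [comm_of_el h1 a ha b hb]
      have : b * a * a⁻¹ * b⁻¹ = 1 := by group
      rw [this]; exact one_mem _)
  have hfin : (fix E N Z1).relIndex E ≤ (F2 ⊓ centralizer (Z1 : Set X)).relIndex F2 := by
    have hF1fix : F1 ≤ fix E N Z1 := by
      intro x hx
      refine ⟨mem_sup_left hx, hEQ.trans hQN (mem_sup_left hx), fun a ha => ?_⟩
      rw [comm_of_el h1 a ha x (mem_inf.mp hx).1]
      simp [one_mem]
    have hsup : fix E N Z1 ⊔ F2 = E := by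
      apply le_antisymm (sup_le (fix_le _ _ _) le_sup_right)
      exact sup_le (hF1fix.trans le_sup_left) le_sup_right
    have h3 := relIndex_sup_right' (F := fix E N Z1) (U := F2) ((fix_le _ _ _).trans (hEQ.trans hQF2))
    rw [hsup] at h3
    rw [h3]
    apply relIndex_anti
    intro x hx
    obtain ⟨hx1, hx2⟩ := mem_inf.mp hx
    refine ⟨mem_sup_right hx1, hEQ.trans hQN (mem_sup_right hx1), fun a ha => ?_⟩
    rw [mem_centralizer_iff.mp hx2 a ha]
    simp [one_mem]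
  refine le_trans ?_ (hgen.trans hfin)
  exact Nat.pow_le_pow_left (relIndex_anti hZR) 2

theorem b1 {H Z M : Subgroup X} (h : Vert H Z) (hsol : Group.IsSolvable M)
    (hfree : ¬ Involves (Equiv.Perm (Fin 4)) M)
    (hchar : M ⊓ centralizer (opc 2 M : Set X) ≤ opc 2 M) (hZM : Z ≤ M) (hQH : opc 2 M ≤ H) : Z ≤ opc 2 M := by
  obtain ⟨y, hy, hT⟩ := H65.RegOrb.exists_T hsol hZM h.Zel
  set Q := opc 2 M with hQ
  set Zy := Z.map (MulAut.conj y).toMonoidHom with hZy
  have hQZ : Q ≤ normalizer (Z : Set X) := hQH.trans h.nZ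
  have hMy : M.map (MulAut.conj y).toMonoidHom = M :=
    H65.Semi.map_conj_eq_of_mem_normalizer (le_normalizer hy)
  have hQy : Q.map (MulAut.conj y).toMonoidHom = Q :=
    H65.Semi.map_conj_eq_of_mem_normalizer (le_normalizer_opc hy)
  have hZyM : Zy ≤ M := by
    rw [← hMy]; exact Subgroup.map_mono hZM
  have hQZy : Q ≤ normalizer (Zy : Set X) := by
    rw [hZy, normalizer_map_conj, ← hQy]
    exact Subgroup.map_mono hQZ
  have hZyel : IsElementaryAbelian 2 Zy := el_map_conj h.Zel y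
  have h1 := half hsol hfree hchar hZM hZyM h.Zel hZyel hQZ hQZy (fun N hN hNL hLN => (hT N hN hNL hLN).1)
  have h2 := half hsol hfree hchar hZyM hZM hZyel h.Zel hQZy hQZ
    (fun N hN hNL hLN => (hT N hN (by rwa [sup_comm] at hNL) (by rwa [sup_comm] at hLN)).2)
  rw [← hQ] at h1 h2
  set F := Z ⊓ Q with hF
  set Fy := Zy ⊓ Q with hFy
  have hFyF : Fy = F.map (MulAut.conj y).toMonoidHom := by
    rw [hFy, hF, Subgroup.map_inf_eq _ _ _ (MulAut.conj y).injective, hQy]
  have htau : Fy.relIndex Zy = F.relIndex Z := by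
    rw [hFyF, hZy]
    exact Subgroup.relIndex_map_map_of_injective _ _ (MulAut.conj y).injective
  rw [htau] at h2
  have hvy := h.conj y
  have triv1 : ∀ (Z' A F' : Subgroup X), IsElementaryAbelian 2 Z' → F' ≤ Z' →
      (∀ a ∈ F', a * a ∈ A) ∧ (∀ a ∈ F', ∀ b ∈ F', a * b * a⁻¹ * b⁻¹ ∈ A) := by
    intro Z' A F' hZ' hF'
    refine ⟨fun a ha => ?_, fun a ha b hb => ?_⟩
    · rw [sq_of_el hZ' a (hF' ha)]; exact one_mem _
    · rw [comm_of_el hZ' a (hF' ha) b (hF' hb)]
      simp [one_mem]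
  have t1 := triv1 Zy (centralizer (Z : Set X)) Fy hZyel inf_le_left
  have t2 := triv1 Z (centralizer (Zy : Set X)) F h.Zel inf_le_left
  have h3 := h.strong0 (P := Fy) (inf_le_right.trans hQH) t1.1 t1.2
  have h4 := hvy.strong0 (P := F) (by
    rw [← hQy] at hF
    rw [hF]
    exact inf_le_right.trans (Subgroup.map_mono hQH)) t2.1 t2.2
  rw [← hZy] at h4
  have h5 : ∀ (A B F1 F2 : Subgroup X), F1 ≤ A → F2 ≤ B →
      (A ⊓ centralizer (F2 : Set X)).relIndex A ≤ (F1 ⊓ centralizer (B : Set X)).relIndex F1 * F1.relIndex A := by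
    intro A B F1 F2 h1' h2'
    rw [Subgroup.relIndex_mul_relIndex _ _ _ inf_le_left h1']
    exact relIndex_anti (inf_le_inf h1' (centralizer_le h2'))
  have h6 := h3.trans (h5 Z Zy F Fy inf_le_left inf_le_left)
  have h7 := h4.trans (h5 Zy Z Fy F inf_le_left inf_le_left)
  rw [htau] at h7
  set τ := F.relIndex Z with hτ
  set g1 := (F ⊓ centralizer (Zy : Set X)).relIndex F with hg1
  set g2 := (Fy ⊓ centralizer (Z : Set X)).relIndex Fy with hg2
  have hτ0 : 0 < τ := relIndex_pos' _ _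
  have hg10 : 0 < g1 := relIndex_pos' _ _
  have hg20 : 0 < g2 := relIndex_pos' _ _
  have h8 : g1 * g2 ≤ τ ^ 2 := by
    have h9 : (g1 * g2) * (g1 * g2) ≤ (g1 * g2) * τ ^ 2 := by
      calc (g1 * g2) * (g1 * g2) = g2 ^ 2 * g1 ^ 2 := by ring
        _ ≤ (g1 * τ) * (g2 * τ) := Nat.mul_le_mul h6 h7
        _ = (g1 * g2) * τ ^ 2 := by ring
    exact Nat.le_of_mul_le_mul_left h9 (Nat.mul_pos hg10 hg20)
  have h9 : τ ^ 2 * τ ^ 2 ≤ τ ^ 2 := (Nat.mul_le_mul h2 h1).trans h8
  have h10 : τ ^ 2 ≤ 1 := by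
    by_contra hcon
    push Not at hcon
    nlinarith
  have h11 : τ = 1 := by nlinarith
  exact (relIndex_eq_one.mp h11).trans inf_le_right

end H65.B1
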