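import Mathlib
import Cfsg.Prelude.Def_Local
import Cfsg.Agent.Lib.H65.MaxLocal
import Cfsg.Agent.Lib.H26.Components

set_option autoImplicit false
set_option linter.unusedSectionVars false

/-! Bender's theorem on primitive pairs. -/

namespace H65.Bender

open Subgroup Cfsg H65.MaxLocal
open scoped commutatorElement

variable {G : Type*} [Group G]

/-- `F*(M)` as a subgroup of `G` -/
def gf (M : Subgroup G) : Subgroup G := (generalizedFittingSubgroup M).map M.subtype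

/-- `E(M)` as a subgroup of `G` -/
def ec (M : Subgroup G) : Subgroup G := (layer M).map M.subtype

/-- `O_{p'}(F(M))` as a subgroup of `G` -/
def qc (p : ℕ) (M : Subgroup G) : Subgroup G := (fittingSubgroup M ⊓ pPrimeCore p M).map M.subtype

theorem le_normalizer_map_subtype {M : Subgroup G} (N : Subgroup M) (hn : N.Normal) :
    M ≤ normalizer ((N.map M.subtype : Subgroup G) : Set G) := by
  rw [le_normalizer_iff]
  rintro m hm _ ⟨x, hx, rfl⟩
  exact ⟨⟨m, hm⟩ * x * ⟨m, hm⟩⁻¹, hn.conj_mem x hx ⟨m, hm⟩, rfl⟩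

variable [Finite G]

theorem gf_le (M : Subgroup G) : gf M ≤ M := Subgroup.map_subtype_le _

theorem centralizer_gf_le (M : Subgroup G) : M ⊓ centralizer (gf M : Set G) ≤ gf M := by
  intro x hx
  have h1 : (⟨x, (mem_inf.mp hx).1⟩ : M) ∈ centralizer (generalizedFittingSubgroup M : Set M) := by
    rw [mem_centralizer_iff]
    intro y hy
    apply Subtype.ext
    exact (mem_centralizer_iff.mp (mem_inf.mp hx).2) y (Subgroup.mem_map_of_mem _ hy)
  exact ⟨_, H26.Components.centralizer_gFitting_le h1, rfl⟩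

theorem gf_normal_aux (M : Subgroup G) : M ≤ normalizer (gf M : Set G) :=
  le_normalizer_map_subtype _ inferInstance

theorem ec_normal_aux (M : Subgroup G) : M ≤ normalizer (ec M : Set G) :=
  le_normalizer_map_subtype _ inferInstance

theorem qc_normal_aux (p : ℕ) (M : Subgroup G) : M ≤ normalizer (qc p M : Set G) :=
  le_normalizer_map_subtype _ inferInstance

theorem ec_le_gf (M : Subgroup G) : ec M ≤ gf M := Subgroup.map_mono le_sup_left

/-- A component of `M₁` is contained in the layer of `M₂`. -/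
theorem comp_le {M₁ M₂ : Subgroup G} (h1 : gf M₁ ≤ M₂) (h2 : gf M₂ ≤ M₁) (K : Subgroup M₁)
    (hK : IsComponent K) : K.map M₁.subtype ≤ ec M₂ := by
  set K' : Subgroup G := K.map M₁.subtype with hK'def
  let D : Subgroup G := M₁ ⊓ M₂
  have hK'gf : K' ≤ gf M₁ := Subgroup.map_mono (H26.Components.component_le_gFitting hK)
  have hK'M : K' ≤ M₂ := hK'gf.trans h1
  have hK'D : K' ≤ D := le_inf (Subgroup.map_subtype_le _) hK'M
  have hqs : IsQuasisimple K' := (H26.Components.isQuasisimple_map M₁.subtype_injective).mpr hK.2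
  have hKD : IsComponent (K'.subgroupOf D) := by
    refine ⟨?_, (H26.Components.isQuasisimple_subgroupOf hK'D).mpr hqs⟩
    have h3 : K'.subgroupOf D = K.comap (Subgroup.inclusion (show D ≤ M₁ from inf_le_left)) := by
      ext x
      rw [mem_subgroupOf, mem_comap, hK'def]
      constructor
      · rintro ⟨y, hy, hyx⟩
        have : Subgroup.inclusion (show D ≤ M₁ from inf_le_left) x = y := Subtype.ext hyx.symm
        rw [this]; exact hy
      · intro hx
        exact ⟨_, hx, rfl⟩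
    rw [h3]
    exact hK.1.comap _
  have hDM2 : D ≤ M₂ := inf_le_right
  have hgfD : gf M₂ ≤ D := le_inf h2 (gf_le M₂)
  have hFD : ((gf M₂).subgroupOf D).Normal :=
    (Subgroup.normal_subgroupOf_iff_le_normalizer hgfD).mpr (hDM2.trans (gf_normal_aux M₂))
  have hle : K' ≤ gf M₂ := by
    rcases H26.Components.le_or_commutator_eq_bot_of_normal hKD (H := (gf M₂).subgroupOf D) with h | h
    · intro x hx
      exact h (show (⟨x, hK'D hx⟩ : D) ∈ K'.subgroupOf D from hx)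
    · have h3 : ∀ x ∈ K', ∀ y ∈ gf M₂, x * y = y * x := by
        intro x hx y hy
        have := H26.Basic.commute_of_commutator_eq_bot h (show (⟨x, hK'D hx⟩ : D) ∈ K'.subgroupOf D from hx)
          (show (⟨y, hgfD hy⟩ : D) ∈ (gf M₂).subgroupOf D from hy)
        exact congrArg Subtype.val this
      intro x hx
      apply centralizer_gf_le M₂
      refine mem_inf.mpr ⟨hK'M hx, ?_⟩
      rw [mem_centralizer_iff]
      intro y hy
      exact (h3 x hx y hy).symm
  -- K' is a component of M₂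
  have hcomp : IsComponent (K'.subgroupOf M₂) := by
    refine ⟨?_, (H26.Components.isQuasisimple_subgroupOf hK'M).mpr hqs⟩
    have h4 : K'.subgroupOf M₂ ≤ generalizedFittingSubgroup M₂ := by
      intro x hx
      obtain ⟨y, hy, hyx⟩ := hle (mem_subgroupOf.mp hx)
      have : y = x := Subtype.ext hyx
      rwa [← this]
    refine Subgroup.IsSubnormal.trans h4 ?_ (Subgroup.Normal.isSubnormal inferInstance)
    let φ : ↥(generalizedFittingSubgroup M₂) →* D :=
      { toFun := fun x => ⟨((x : M₂) : G), hgfD ⟨x, x.2, rfl⟩⟩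
        map_one' := rfl
        map_mul' := fun _ _ => rfl }
    have h5 : (K'.subgroupOf M₂).subgroupOf (generalizedFittingSubgroup M₂) = (K'.subgroupOf D).comap φ := by
      ext x; rfl
    rw [h5]
    exact hKD.1.comap φ
  have h6 := Subgroup.map_mono (f := M₂.subtype) (H26.Components.le_layer hcomp)
  rwa [Subgroup.map_subgroupOf_eq_of_le hK'M] at h6

theorem ec_le {M₁ M₂ : Subgroup G} (h1 : gf M₁ ≤ M₂) (h2 : gf M₂ ≤ M₁) : ec M₁ ≤ ec M₂ := by
  unfold ec
  rw [Subgroup.map_le_iff_le_comap]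
  refine sSup_le fun K hK => ?_
  rw [← Subgroup.map_le_iff_le_comap]
  exact comp_le h1 h2 K hK

/-- `F(M) = O_p(M) × O_{p'}(F(M))`. -/
theorem fitting_le (p : ℕ) [Fact p.Prime] (X : Type*) [Group X] [Finite X] :
    fittingSubgroup X ≤ pCore p X ⊔ (fittingSubgroup X ⊓ pPrimeCore p X) := by
  conv_lhs => rw [H1.Cores.fittingSubgroup_eq_iSup_pCore]
  refine iSup_le fun q => ?_
  by_cases hq : (q : ℕ) = p
  · rw [hq]; exact le_sup_left
  · refine le_trans ?_ le_sup_right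
    have : Fact (q : ℕ).Prime := ⟨q.2⟩
    refine le_inf (H1.Cores.pCore_le_fittingSubgroup _) (H1.Cores.le_pPrimeCore inferInstance ?_)
    obtain ⟨k, hk⟩ := IsPGroup.iff_card.mp (H1.Cores.isPGroup_pCore (G := X) (q : ℕ))
    rw [hk]
    exact Nat.Coprime.pow_left k ((Nat.coprime_primes q.2 (Fact.out : p.Prime)).mpr hq)

theorem gf_le_of_layer {p : ℕ} [Fact p.Prime] {M : Subgroup G} (hE : layer M = ⊥) :
    gf M ≤ opc p M ⊔ qc p M := by
  unfold gf
  rw [generalizedFittingSubgroup, hE, bot_sup_eq]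
  have h1 := Subgroup.map_mono (f := M.subtype) (fitting_le p M)
  rwa [Subgroup.map_sup] at h1

theorem coprime_card_qc (p : ℕ) (M : Subgroup G) : (Nat.card (qc p M)).Coprime p := by
  refine Nat.Coprime.coprime_dvd_left (Subgroup.card_map_dvd _ _) ?_
  exact Nat.Coprime.coprime_dvd_left (Subgroup.card_dvd_of_le inf_le_right) (H1.Cores.coprime_card_pPrimeCore p)

theorem opc_le_gf {p : ℕ} [Fact p.Prime] (M : Subgroup G) : opc p M ≤ gf M :=
  Subgroup.map_mono ((H1.Cores.pCore_le_fittingSubgroup p).trans le_sup_right)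

theorem qc_le_gf {p : ℕ} (M : Subgroup G) : qc p M ≤ gf M :=
  Subgroup.map_mono (inf_le_left.trans le_sup_right)

theorem commute_of_normalize {A B : Subgroup G} (h1 : A ≤ normalizer (B : Set G)) (h2 : B ≤ normalizer (A : Set G))
    (h : A ⊓ B = ⊥) {a b : G} (ha : a ∈ A) (hb : b ∈ B) : a * b = b * a := by
  have h3 : a * b * a⁻¹ * b⁻¹ ∈ A ⊓ B := by
    refine mem_inf.mpr ⟨?_, ?_⟩
    · have := (mem_normalizer_iff.mp (h2 hb) a⁻¹).mp (inv_mem ha)
      have h4 := mul_mem ha this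
      simpa [mul_assoc] using h4
    · exact mul_mem ((mem_normalizer_iff.mp (h1 ha) b).mp hb) (inv_mem hb)
  rw [h, mem_bot] at h3
  rw [mul_inv_eq_one] at h3
  exact mul_inv_eq_iff_eq_mul.mp h3

theorem inf_eq_bot {p : ℕ} [Fact p.Prime] {A B : Subgroup G} (hA : IsPGroup p A) (hB : (Nat.card B).Coprime p) :
    A ⊓ B = ⊥ := by
  obtain ⟨k, hk⟩ := IsPGroup.iff_card.mp hA
  apply disjoint_iff.mp
  apply Subgroup.disjoint_of_coprime_natCard
  rw [hk]
  exact Nat.Coprime.pow_left k hB.symm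

/-- The elementwise heart of Bender's theorem. -/
theorem commute_aux {p : ℕ} [Fact p.Prime] {b x u v : G} {m k : ℕ} (hm : m.Coprime p)
    (hx : x ^ m = 1) (hvx : (v * x) ^ m = 1) (hv : v ^ m = 1) (huv : u * v = v * u) (hux : u * x = x * u)
    (hu : u ^ p ^ k = 1) (hbv : b * v = v * b) (hb : b ^ p ^ k = 1) (h : b * x * b⁻¹ = u * v * x) :
    b * x = x * b := by
  have hc1 : Commute u (v * x) := Commute.mul_right huv hux
  have h1 : u ^ m = 1 := by
    have h2 : (b * x * b⁻¹) ^ m = 1 := by rw [conj_pow, hx, mul_one, mul_inv_cancel]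
    rw [h, mul_assoc, hc1.mul_pow, hvx, mul_one] at h2
    exact h2
  have hcop : (orderOf u) = 1 := by
    have h3 : orderOf u ∣ m := orderOf_dvd_of_pow_eq_one h1
    have h4 : orderOf u ∣ p ^ k := orderOf_dvd_of_pow_eq_one hu
    have h5 : Nat.Coprime m (p ^ k) := Nat.Coprime.pow_right k hm
    exact Nat.eq_one_of_dvd_coprimes h5 h3 h4
  have hu1 : u = 1 := orderOf_eq_one_iff.mp hcop
  rw [hu1, one_mul] at h
  -- b^i x b^-i = v^i x
  have hbv' : Commute b v := hbv
  have hi : ∀ i : ℕ, b ^ i * x * (b ^ i)⁻¹ = v ^ i * x := by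
    intro i
    induction i with
    | zero => simp
    | succ i ih =>
      have e1 : b ^ (i + 1) * x * (b ^ (i + 1))⁻¹ = b * (b ^ i * x * (b ^ i)⁻¹) * b⁻¹ := by
        rw [pow_succ']; group
      rw [e1, ih]
      have e2 : b * (v ^ i * x) * b⁻¹ = (b * v ^ i) * x * b⁻¹ := by group
      rw [e2, (hbv'.pow_right i).eq]
      have e3 : v ^ i * b * x * b⁻¹ = v ^ i * (b * x * b⁻¹) := by group
      rw [e3, h, ← mul_assoc, ← pow_succ]
  have h6 := hi (p ^ k)
  rw [hb, one_mul, inv_one, mul_one] at h6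
  have h7 : v ^ p ^ k = 1 := by
    have : v ^ p ^ k * x = 1 * x := by rw [one_mul]; exact h6.symm
    exact mul_right_cancel this
  have hcop' : (orderOf v) = 1 := by
    have h3 : orderOf v ∣ m := orderOf_dvd_of_pow_eq_one hv
    have h4 : orderOf v ∣ p ^ k := orderOf_dvd_of_pow_eq_one h7
    have h5 : Nat.Coprime m (p ^ k) := Nat.Coprime.pow_right k hm
    exact Nat.eq_one_of_dvd_coprimes h5 h3 h4
  have hv1 : v = 1 := orderOf_eq_one_iff.mp hcop'
  rw [hv1, one_mul] at h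
  exact mul_inv_eq_iff_eq_mul.mp h

/-- If `O_{p'}(F(M₁)) ≠ 1` controls then `O_p(M₁) ≤ O_p(M₂)`. -/
theorem opc_le_opc {p : ℕ} [Fact p.Prime] {M₁ M₂ : Subgroup G} (h1 : gf M₁ ≤ M₂) (h2 : gf M₂ ≤ M₁)
    (hE2 : layer M₂ = ⊥) (hN : M₂ ⊓ normalizer (qc p M₁ : Set G) ≤ M₁) : opc p M₁ ≤ opc p M₂ := by
  set P1 := opc p M₁ with hP1
  set P2 := opc p M₂ with hP2
  set Q1 := qc p M₁ with hQ1
  set Q2 := qc p M₂ with hQ2
  have hP1M2 : P1 ≤ M₂ := (opc_le_gf M₁).trans h1
  have hP2M1 : P2 ≤ M₁ := (opc_le_gf M₂).trans h2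
  have hQ1M2 : Q1 ≤ M₂ := (qc_le_gf M₁).trans h1
  have hQ2M1 : Q2 ≤ M₁ := (qc_le_gf M₂).trans h2
  have hP1M1 : P1 ≤ M₁ := opc_le
  have hP2M2 : P2 ≤ M₂ := opc_le
  have hQ1M1 : Q1 ≤ M₁ := Subgroup.map_subtype_le _
  have hQ2M2 : Q2 ≤ M₂ := Subgroup.map_subtype_le _
  have hP1p : IsPGroup p P1 := isPGroup_opc
  have hP2p : IsPGroup p P2 := isPGroup_opc
  have hnP1 : M₁ ≤ normalizer (P1 : Set G) := le_normalizer_opc
  have hnP2 : M₂ ≤ normalizer (P2 : Set G) := le_normalizer_opc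
  have hnQ1 : M₁ ≤ normalizer (Q1 : Set G) := qc_normal_aux p M₁
  have hnQ2 : M₂ ≤ normalizer (Q2 : Set G) := qc_normal_aux p M₂
  have hcQ1 := coprime_card_qc p M₁
  have hcQ2 := coprime_card_qc p M₂
  have c12 : ∀ a ∈ P1, ∀ y ∈ Q2, a * y = y * a := fun a ha y hy =>
    commute_of_normalize (hP1M2.trans hnQ2) (hQ2M1.trans hnP1) (inf_eq_bot hP1p hcQ2) ha hy
  have c21 : ∀ a ∈ P2, ∀ y ∈ Q1, a * y = y * a := fun a ha y hy =>
    commute_of_normalize (hP2M1.trans hnQ1) (hQ1M2.trans hnP2) (inf_eq_bot hP2p hcQ1) ha hy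
  have c22 : ∀ a ∈ P2, ∀ y ∈ Q2, a * y = y * a := fun a ha y hy =>
    commute_of_normalize (hP2M2.trans hnQ2) (hQ2M2.trans hnP2) (inf_eq_bot hP2p hcQ2) ha hy
  -- R = Q2 Q1 is a p'-group
  have hR : (Nat.card (Q2 ⊔ Q1 : Subgroup G)).Coprime p := by
    have hn : Q1 ≤ normalizer (Q2 : Set G) := hQ1M2.trans hnQ2
    have h3 : (Q2.subgroupOf (Q2 ⊔ Q1)).Normal :=
      (Subgroup.normal_subgroupOf_iff_le_normalizer le_sup_left).mpr (sup_le le_normalizer hn)
    have h4 := H1.Cores.card_sup_dvd_mul (Q1.subgroupOf (Q2 ⊔ Q1)) (Q2.subgroupOf (Q2 ⊔ Q1))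
    rw [← Subgroup.subgroupOf_sup le_sup_right le_sup_left, sup_comm Q1, subgroupOf_self, Subgroup.card_top,
      Nat.card_congr (Subgroup.subgroupOfEquivOfLe (le_sup_right : Q1 ≤ Q2 ⊔ Q1)).toEquiv,
      Nat.card_congr (Subgroup.subgroupOfEquivOfLe (le_sup_left : Q2 ≤ Q2 ⊔ Q1)).toEquiv] at h4
    exact Nat.Coprime.coprime_dvd_left h4 (Nat.Coprime.mul_left hcQ1 hcQ2)
  have hpow : ∀ z ∈ Q2 ⊔ Q1, z ^ Nat.card (Q2 ⊔ Q1 : Subgroup G) = 1 := by
    intro z hz
    have := pow_card_eq_one' (x := (⟨z, hz⟩ : (Q2 ⊔ Q1 : Subgroup G)))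
    exact congrArg Subtype.val this
  -- the main commutation
  have key : ∀ g ∈ M₂, ∀ a ∈ P1, ∀ x ∈ Q1, (g * a * g⁻¹) * x = x * (g * a * g⁻¹) := by
    intro g hg a ha x hx
    set b := g * a * g⁻¹ with hb
    have hbM2 : b ∈ M₂ := mul_mem (mul_mem hg (hP1M2 ha)) (inv_mem hg)
    have hbQ2 : ∀ y ∈ Q2, b * y = y * b := by
      intro y hy
      have h3 : g⁻¹ * y * g ∈ Q2 := by
        have := (mem_normalizer_iff.mp (hnQ2 (inv_mem hg)) y).mp hy
        rwa [inv_inv] at this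
      have h4 := c12 a ha _ h3
      have : b * y = g * (a * (g⁻¹ * y * g)) * g⁻¹ := by rw [hb]; group
      rw [this, h4, hb]
      group
    have hxM2 : x ∈ M₂ := hQ1M2 hx
    -- c = [b,x]
    have hcM2 : b * x * b⁻¹ * x⁻¹ ∈ M₂ := mul_mem (mul_mem (mul_mem hbM2 hxM2) (inv_mem hbM2)) (inv_mem hxM2)
    have hcQ2' : ∀ y ∈ Q2, Commute (b * x * b⁻¹ * x⁻¹) y := by
      intro y hy
      have h3 : x⁻¹ * y * x ∈ Q2 := by
        have := (mem_normalizer_iff.mp (hnQ2 (inv_mem hxM2)) y).mp hy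
        rwa [inv_inv] at this
      have e1 : Commute b y := hbQ2 y hy
      have e2 : Commute b (x⁻¹ * y * x) := hbQ2 _ h3
      have e3 : Commute (x * b⁻¹ * x⁻¹) y := by
        have e4 : Commute (x * b⁻¹ * x⁻¹) (x * (x⁻¹ * y * x) * x⁻¹) := (Commute.conj_iff x).mpr (e2.inv_left)
        rwa [show x * (x⁻¹ * y * x) * x⁻¹ = y by group] at e4
      have : b * x * b⁻¹ * x⁻¹ = b * (x * b⁻¹ * x⁻¹) := by group
      rw [this]
      exact e1.mul_left e3
    have hcP2 : ∀ y ∈ P2, Commute (b * x * b⁻¹ * x⁻¹) y := by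
      intro y hy
      have h3 : b⁻¹ * y * b ∈ P2 := by
        have := (mem_normalizer_iff.mp (hnP2 (inv_mem hbM2)) y).mp hy
        rwa [inv_inv] at this
      have e1 : Commute x y := (c21 y hy x hx).symm
      have e2 : Commute x (b⁻¹ * y * b) := (c21 _ h3 x hx).symm
      have e3 : Commute (b * x * b⁻¹) y := by
        have e4 : Commute (b * x * b⁻¹) (b * (b⁻¹ * y * b) * b⁻¹) := (Commute.conj_iff b).mpr e2
        rwa [show b * (b⁻¹ * y * b) * b⁻¹ = y by group] at e4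
      exact e3.mul_left e1.inv_left
    have hcgf : b * x * b⁻¹ * x⁻¹ ∈ P2 ⊔ Q2 := by
      apply gf_le_of_layer hE2
      apply centralizer_gf_le
      refine mem_inf.mpr ⟨hcM2, ?_⟩
      rw [mem_centralizer_iff]
      intro y hy
      have hy' := gf_le_of_layer (p := p) hE2 hy
      obtain ⟨y1, hy1, y2, hy2, rfl⟩ := (H65.Semi.mem_sup_iff (hP2M2.trans hnQ2)).mp hy'
      exact ((hcP2 y1 hy1).mul_right (hcQ2' y2 hy2)).eq.symm
    obtain ⟨u, hu, v, hv, huv⟩ := (H65.Semi.mem_sup_iff (hP2M2.trans hnQ2)).mp hcgf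
    obtain ⟨k, hk⟩ := IsPGroup.iff_card.mp hP1p
    obtain ⟨l, hl⟩ := IsPGroup.iff_card.mp hP2p
    have hapow : a ^ p ^ (k + l) = 1 := by
      have h3 : a ^ p ^ k = 1 := by
        rw [← hk]
        exact congrArg Subtype.val (pow_card_eq_one' (x := (⟨a, ha⟩ : P1)))
      rw [pow_add, pow_mul, h3, one_pow]
    have hupow : u ^ p ^ (k + l) = 1 := by
      have h3 : u ^ p ^ l = 1 := by
        rw [← hl]
        exact congrArg Subtype.val (pow_card_eq_one' (x := (⟨u, hu⟩ : P2)))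
      rw [pow_add, mul_comm, pow_mul, h3, one_pow]
    refine commute_aux (p := p) (u := u) (v := v) (m := Nat.card (Q2 ⊔ Q1 : Subgroup G)) (k := k + l) hR
      (hpow x (mem_sup_right hx)) (hpow _ (mul_mem (mem_sup_left hv) (mem_sup_right hx)))
      (hpow v (mem_sup_left hv)) (c22 u hu v hv) (c21 u hu x hx) hupow (hbQ2 v hv) ?_ ?_
    · rw [hb, conj_pow, hapow, mul_one, mul_inv_cancel]
    · rw [huv, inv_mul_cancel_right]
  -- the normal closure of P1 in M2
  let L : Subgroup M₂ := normalClosure ((P1.subgroupOf M₂ : Subgroup M₂) : Set M₂)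
  have hLQ : ∀ z ∈ L, (z : G) ∈ centralizer (Q1 : Set G) := by
    have : L ≤ (centralizer (Q1 : Set G)).subgroupOf M₂ := by
      show Subgroup.closure _ ≤ _
      rw [Subgroup.closure_le]
      intro z hz
      obtain ⟨a, ha, haz⟩ := Group.mem_conjugatesOfSet_iff.mp hz
      obtain ⟨g, hg⟩ := isConj_iff.mp haz
      rw [← hg]
      show (((g * a * g⁻¹ : M₂) : G)) ∈ centralizer (Q1 : Set G)
      rw [mem_centralizer_iff]
      intro x hx
      exact (key g g.2 a ha x hx).symm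
    intro z hz
    exact this hz
  have hLM1 : ∀ z ∈ L, (z : G) ∈ M₁ := by
    intro z hz
    exact hN (mem_inf.mpr ⟨z.2, Subgroup.centralizer_le_normalizer _ (hLQ z hz)⟩)
  have hsub : (P1.subgroupOf M₂).IsSubnormal := by
    have hLn : L.Normal := normalClosure_normal
    refine H26.Subnormal.of_normal_subgroupOf hLn.isSubnormal Subgroup.le_normalClosure ?_
    rw [Subgroup.normal_subgroupOf_iff_le_normalizer Subgroup.le_normalClosure]
    rw [le_normalizer_iff]
    intro z hz x hx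
    exact (mem_normalizer_iff.mp (hnP1 (hLM1 z hz)) _).mp hx
  have h5 := H26.Subnormal.le_pCore hsub (hP1p.comap_of_injective _ M₂.subtype_injective)
  have h6 := Subgroup.map_mono (f := M₂.subtype) h5
  rwa [Subgroup.map_subgroupOf_eq_of_le hP1M2] at h6

/-- The pair condition. -/
def PairCond (M₁ M₂ : Subgroup G) : Prop :=
  ∀ A : Subgroup G, A ≠ ⊥ → A ≤ M₁ ⊓ M₂ → (M₁ ≤ normalizer (A : Set G) → M₂ ⊓ normalizer (A : Set G) = M₁ ⊓ M₂) ∧
    (M₂ ≤ normalizer (A : Set G) → M₁ ⊓ normalizer (A : Set G) = M₁ ⊓ M₂)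

theorem eq_of_common {M₁ M₂ : Subgroup G} (hP : PairCond M₁ M₂) {A : Subgroup G} (hA : A ≠ ⊥)
    (hAM : A ≤ M₁ ⊓ M₂) (h1 : M₁ ≤ normalizer (A : Set G)) (h2 : M₂ ≤ normalizer (A : Set G)) : M₁ = M₂ := by
  obtain ⟨e1, e2⟩ := hP A hA hAM
  have f1 := e1 h1
  have f2 := e2 h2
  rw [inf_eq_left.mpr h2] at f1
  rw [inf_eq_left.mpr h1] at f2
  rw [f2, ← f1]

theorem main {M₁ M₂ : Subgroup G} (hne : M₁ ≠ M₂) (hP : PairCond M₁ M₂) (h1 : gf M₁ ≤ M₂) (h2 : gf M₂ ≤ M₁) :
    ∃ p : ℕ, p.Prime ∧ centralizer (pCore p M₁ : Set M₁) ≤ pCore p M₁ ∧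
      centralizer (pCore p M₂ : Set M₂) ≤ pCore p M₂ ∧ opc p M₁ ⊔ opc p M₂ ≤ M₁ ⊓ M₂ := by
  classical
  have hE : ec M₁ = ec M₂ := le_antisymm (ec_le h1 h2) (ec_le h2 h1)
  have hEbot : ec M₁ = ⊥ := by
    by_contra hb
    apply hne
    refine eq_of_common hP hb (le_inf ((ec_le_gf M₁).trans (gf_le M₁)) ((ec_le_gf M₁).trans h1)) (ec_normal_aux M₁) ?_
    rw [hE]; exact ec_normal_aux M₂
  have hE1 : layer M₁ = ⊥ := (Subgroup.map_eq_bot_iff_of_injective _ M₁.subtype_injective).mp hEbot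
  have hE2 : layer M₂ = ⊥ := by
    rw [hE] at hEbot
    exact (Subgroup.map_eq_bot_iff_of_injective _ M₂.subtype_injective).mp hEbot
  -- conclusion from triviality of the p'-parts
  have hself : ∀ (M : Subgroup G) (p : ℕ) (_ : Fact p.Prime), layer M = ⊥ → qc p M = ⊥ →
      centralizer (pCore p M : Set M) ≤ pCore p M := by
    intro M p hp hEM hq
    have h3 : gf M ≤ opc p M := by
      have := gf_le_of_layer (p := p) hEM
      rwa [hq, sup_bot_eq] at this
    have h4 : generalizedFittingSubgroup M ≤ pCore p M := by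
      intro x hx
      obtain ⟨y, hy, hyx⟩ := h3 ⟨x, hx, rfl⟩
      have : y = x := Subtype.ext hyx
      rwa [← this]
    exact ((centralizer_le h4).trans H26.Components.centralizer_gFitting_le).trans h4
  have hqbot : ∀ (M₁ M₂ : Subgroup G) (p : ℕ) (_ : Fact p.Prime), gf M₁ ≤ M₂ → gf M₂ ≤ M₁ → layer M₁ = ⊥ →
      qc p M₁ = ⊥ → qc p M₂ = ⊥ := by
    intro M₁ M₂ p hp h1 h2 hE1 hq
    have hle : gf M₁ ≤ opc p M₁ := by
      have := gf_le_of_layer (p := p) hE1
      rwa [hq, sup_bot_eq] at this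
    have hcom : qc p M₂ ≤ M₁ ⊓ centralizer (gf M₁ : Set G) := by
      intro y hy
      refine mem_inf.mpr ⟨h2 (qc_le_gf M₂ hy), ?_⟩
      rw [mem_centralizer_iff]
      intro a ha
      exact commute_of_normalize (((opc_le_gf M₁).trans h1).trans (qc_normal_aux p M₂))
        (((qc_le_gf M₂).trans h2).trans le_normalizer_opc) (inf_eq_bot isPGroup_opc (coprime_card_qc p M₂)) (hle ha) hy
    have h3 : qc p M₂ ≤ opc p M₁ := (hcom.trans (centralizer_gf_le M₁)).trans hle
    have h4 := inf_eq_bot (isPGroup_opc (p := p) (M := M₁)) (coprime_card_qc p M₂)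
    rwa [inf_eq_right.mpr h3] at h4
  -- M₁ is nontrivial
  have hgf1 : gf M₁ ≠ ⊥ := by
    intro hb
    have h3 : M₁ = ⊥ := by
      rw [eq_bot_iff, ← hb]
      intro x hx
      apply centralizer_gf_le M₁
      refine mem_inf.mpr ⟨hx, ?_⟩
      rw [hb, mem_centralizer_iff]
      intro y hy
      rw [SetLike.mem_coe, mem_bot] at hy
      rw [hy, one_mul, mul_one]
    have h4 : gf M₂ = ⊥ := le_bot_iff.mp (h3 ▸ h2)
    have h5 : M₂ = ⊥ := by
      rw [eq_bot_iff, ← h4]
      intro x hx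
      apply centralizer_gf_le M₂
      refine mem_inf.mpr ⟨hx, ?_⟩
      rw [h4, mem_centralizer_iff]
      intro y hy
      rw [SetLike.mem_coe, mem_bot] at hy
      rw [hy, one_mul, mul_one]
    exact hne (h3.trans h5.symm)
  have hex : ∃ p : ℕ, p.Prime ∧ opc p M₁ ≠ ⊥ := by
    by_contra hcon
    push Not at hcon
    apply hgf1
    unfold gf
    rw [generalizedFittingSubgroup, hE1, bot_sup_eq, H1.Cores.fittingSubgroup_eq_iSup_pCore, Subgroup.map_iSup,
      iSup_eq_bot]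
    intro q
    exact hcon q q.2
  obtain ⟨p, hp, hpne⟩ := hex
  have hpf : Fact p.Prime := ⟨hp⟩
  have hsup : opc p M₁ ⊔ opc p M₂ ≤ M₁ ⊓ M₂ :=
    sup_le (le_inf opc_le ((opc_le_gf M₁).trans h1)) (le_inf ((opc_le_gf M₂).trans h2) opc_le)
  by_cases hq1 : qc p M₁ = ⊥
  · exact ⟨p, hp, hself M₁ p hpf hE1 hq1, hself M₂ p hpf hE2 (hqbot M₁ M₂ p hpf h1 h2 hE1 hq1), hsup⟩
  · exfalso
    have hq2 : qc p M₂ ≠ ⊥ := fun h => hq1 (hqbot M₂ M₁ p hpf h2 h1 hE2 h)
    have hle1 : opc p M₁ ≤ opc p M₂ := by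
      apply opc_le_opc h1 h2 hE2
      have := (hP (qc p M₁) hq1 (le_inf ((qc_le_gf M₁).trans (gf_le M₁)) ((qc_le_gf M₁).trans h1))).1
        (qc_normal_aux p M₁)
      rw [this]; exact inf_le_left
    have hle2 : opc p M₂ ≤ opc p M₁ := by
      apply opc_le_opc h2 h1 hE1
      have := (hP (qc p M₂) hq2 (le_inf ((qc_le_gf M₂).trans h2) ((qc_le_gf M₂).trans (gf_le M₂)))).2
        (qc_normal_aux p M₂)
      rw [this]; exact inf_le_right
    have heq := le_antisymm hle1 hle2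
    apply hne
    refine eq_of_common hP hpne (le_sup_left.trans hsup) le_normalizer_opc ?_
    rw [heq]; exact le_normalizer_opc

end H65.Bender
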