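import Cfsg.Agent.Lib.H65.CopCrit2

set_option autoImplicit false
set_option linter.style.haveILetI false
set_option linter.unusedSectionVars false
set_option linter.unusedVariables false

/-! Hall-Higman type theorems: transfer to the normalizer of the module. -/

namespace H65.CopCrit

open Subgroup Cfsg
open scoped commutatorElement

variable {G : Type*} [Group G] {N : Subgroup G}

theorem disj_sub {A B : Subgroup G} (hB : B ≤ N) (h : A ⊓ centralizer (B : Set G) = ⊥) :
    A.subgroupOf N ⊓ centralizer (B.subgroupOf N : Set N) = ⊥ := by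
  rw [eq_bot_iff]
  rintro x ⟨hx, hxc⟩
  have h1 : (x : G) ∈ A ⊓ centralizer (B : Set G) := by
    refine ⟨hx, mem_centralizer_iff.mpr fun b hb => ?_⟩
    exact congrArg Subtype.val (mem_centralizer_iff.mp hxc ⟨b, hB hb⟩ hb)
  rw [h, mem_bot] at h1
  exact Subtype.ext h1

theorem norm_sub {A B : Subgroup G} (hAB : A ≤ normalizer (B : Set G)) :
    A.subgroupOf N ≤ normalizer (B.subgroupOf N : Set N) := by
  intro a ha
  rw [mem_normalizer_iff]
  intro x
  exact mem_normalizer_iff.mp (hAB ha) x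

theorem pgroup_sub {p : ℕ} {A : Subgroup G} (hA : IsPGroup p A) : IsPGroup p (A.subgroupOf N) := by
  intro x
  obtain ⟨k, hk⟩ := hA ⟨x, x.2⟩
  refine ⟨k, Subtype.ext (Subtype.ext ?_)⟩
  have h1 : ((x : N) : G) ^ p ^ k = 1 := congrArg Subtype.val hk
  exact h1

theorem card_sub {A : Subgroup G} (hA : A ≤ N) : Nat.card (A.subgroupOf N) = Nat.card A :=
  Nat.card_congr (subgroupOfEquivOfLe hA).toEquiv

variable [Finite G]

theorem final64 {p q r : ℕ} (hp : p.Prime) (hq : q.Prime) (hr : r.Prime) (hpq : p ≠ q) (hpr : p ≠ r) (hqr : q ≠ r)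
    (X Q V : Subgroup G) (hX : Nat.card X = r) (hQ : IsExtraspecial q ↥Q) (hXQ : X ≤ normalizer (Q : Set G))
    (hCQ : Q ⊓ centralizer (X : Set G) = (center ↥Q).map Q.subtype) (hV : IsElementaryAbelian p V)
    (hXV : X ≤ normalizer (V : Set G)) (hQV : Q ≤ normalizer (V : Set G))
    (hfaith : Q ⊓ centralizer (V : Set G) = ⊥) (hCV : V ⊓ centralizer (X : Set G) = ⊥) :
    q = 2 ∧ ∃ n : ℕ, r = 2 ^ n + 1 ∧ Nat.card Q = 2 ^ (2 * n + 1) := by
  haveI : Fact p.Prime := ⟨hp⟩
  haveI : Fact q.Prime := ⟨hq⟩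
  haveI : Fact r.Prime := ⟨hr⟩
  set N := normalizer (V : Set G) with hN
  have hVN : V ≤ N := le_normalizer
  haveI : (V.subgroupOf N).Normal := normal_in_normalizer
  have hVp : IsPGroup p V := fun v => ⟨1, by rw [pow_one]; exact Subtype.ext (hV.2 v v.2)⟩
  have h1 := main64 hpq hpr hqr (X.subgroupOf N) (Q.subgroupOf N) (V.subgroupOf N)
    (by rw [card_sub hXV]; exact hX) (H56.Heis.isExtraspecial_congr (subgroupOfEquivOfLe hQV).symm hQ)
    (norm_sub hXQ) (by
      ext x
      constructor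
      · rintro ⟨hx, hxc⟩
        have h2 : (x : G) ∈ Q ⊓ centralizer (X : Set G) := by
          refine ⟨hx, mem_centralizer_iff.mpr fun b hb => ?_⟩
          exact congrArg Subtype.val (mem_centralizer_iff.mp hxc ⟨b, hXV hb⟩ hb)
        rw [hCQ] at h2
        obtain ⟨y, hy, hyx⟩ := h2
        refine ⟨⟨x, hx⟩, ?_, rfl⟩
        rw [SetLike.mem_coe, mem_center_iff]
        intro w
        apply Subtype.ext
        apply Subtype.ext
        have h3 := congrArg Subtype.val (mem_center_iff.mp hy ⟨w, w.2⟩)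
        change ((w : N) : G) * (y : G) = (y : G) * ((w : N) : G) at h3
        have hyx' : (y : G) = (x : G) := hyx
        rw [hyx'] at h3
        exact h3
      · rintro ⟨y, hy, rfl⟩
        have h2 : ((y : N) : G) ∈ (center ↥Q).map Q.subtype := by
          refine ⟨⟨(y : N), y.2⟩, ?_, rfl⟩
          rw [SetLike.mem_coe, mem_center_iff]
          intro w
          apply Subtype.ext
          have h3 := mem_center_iff.mp hy ⟨⟨w, hQV w.2⟩, w.2⟩
          exact congrArg (fun t : Q.subgroupOf N => ((t : N) : G)) h3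
        rw [← hCQ] at h2
        refine ⟨y.2, mem_centralizer_iff.mpr fun b hb => Subtype.ext ?_⟩
        exact mem_centralizer_iff.mp h2.2 b hb)
    (pgroup_sub hVp) (disj_sub hVN hfaith) (disj_sub hXV hCV)
  rwa [card_sub hQV] at h1

theorem final65 {p q r : ℕ} (hp : p.Prime) (hq : q.Prime) (hr : r.Prime) (hpq : p ≠ q) (hpr : p ≠ r) (hqr : q ≠ r)
    (X Q V : Subgroup G) (hX : Nat.card X = r) (hQ : IsPGroup q ↥Q) (hXQ : X ≤ normalizer (Q : Set G))
    (hXc : ¬ X ≤ centralizer (Q : Set G)) (hV : IsElementaryAbelian p V)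
    (hXV : X ≤ normalizer (V : Set G)) (hQV : Q ≤ normalizer (V : Set G))
    (hfaith : Q ⊓ centralizer (V : Set G) = ⊥) (hCV : V ⊓ centralizer (X : Set G) = ⊥) :
    q = 2 ∧ (∃ n : ℕ, r = 2 ^ n + 1) ∧ ¬ IsMulCommutative Q := by
  haveI : Fact p.Prime := ⟨hp⟩
  haveI : Fact q.Prime := ⟨hq⟩
  haveI : Fact r.Prime := ⟨hr⟩
  set N := normalizer (V : Set G) with hN
  have hVN : V ≤ N := le_normalizer
  haveI : (V.subgroupOf N).Normal := normal_in_normalizer
  have hVp : IsPGroup p V := fun v => ⟨1, by rw [pow_one]; exact Subtype.ext (hV.2 v v.2)⟩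
  obtain ⟨h1, h2, h3⟩ := core hpq hpr hqr (X.subgroupOf N) (Q.subgroupOf N) (V.subgroupOf N)
    (by rw [card_sub hXV]; exact hX) (pgroup_sub hQ) (norm_sub hXQ) (by
      intro h
      apply hXc
      intro x hx
      refine mem_centralizer_iff.mpr fun b hb => ?_
      exact congrArg Subtype.val (mem_centralizer_iff.mp (h (show (⟨x, hXV hx⟩ : N) ∈ X.subgroupOf N from hx))
        ⟨b, hQV hb⟩ hb)) (pgroup_sub hVp) (disj_sub hVN hfaith) (disj_sub hXV hCV)
  refine ⟨h1, h2, fun hab => h3 fun x hx y hy => Subtype.ext ?_⟩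
  have h4 : (x : G) * y = y * x := congrArg Subtype.val (hab.is_comm.comm (⟨x, hx⟩ : Q) ⟨y, hy⟩)
  exact h4

end H65.CopCrit
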