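import Cfsg.Agent.Lib.H65.CopRep
import Cfsg.Agent.Lib.H29.PGrp

set_option autoImplicit false
set_option linter.style.haveILetI false
set_option linter.unusedSectionVars false
set_option linter.unusedVariables false

/-! Hall-Higman type theorems, representation form: reduction to faithful representations. -/

namespace H65.CopRep

open Subgroup Cfsg H66.Weights H66.Crit H66.MinQ H66.Rad H66.EigB Module H65.CopCrit
open scoped commutatorElement

variable {X : Type*} [Group X] [Finite X] {K M : Type*} [Field K] [IsAlgClosed K] [AddCommGroup M] [Module K M]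
    [FiniteDimensional K M] (ρ : Representation K X M)

/-- the quotient representation -/
def qrep : Representation K (X ⧸ MonoidHom.ker (ρ : X →* Module.End K M)) M :=
  QuotientGroup.lift _ (ρ : X →* Module.End K M) (le_refl _)

theorem qrep_mk (x : X) : qrep ρ (QuotientGroup.mk' _ x) = ρ x := rfl

theorem map_norm {Y : Type*} [Group Y] (f : X →* Y) {A B : Subgroup X} (h : A ≤ normalizer (B : Set X)) :
    A.map f ≤ normalizer (B.map f : Set Y) := by
  rintro _ ⟨a, ha, rfl⟩
  rw [mem_normalizer_iff]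
  intro y
  constructor
  · rintro ⟨b, hb, rfl⟩
    exact ⟨a * b * a⁻¹, (mem_normalizer_iff.mp (h ha) b).mp hb, by rw [map_mul, map_mul, map_inv]⟩
  · rintro ⟨b, hb, hby⟩
    refine ⟨a⁻¹ * b * a, ?_, ?_⟩
    · have := (mem_normalizer_iff.mp (inv_mem (h ha)) b).mp hb
      rwa [inv_inv] at this
    · rw [map_mul, map_mul, map_inv, hby]; group

theorem card_map_prime {Y : Type*} [Group Y] (f : X →* Y) {A : Subgroup X} {r : ℕ} [hr : Fact r.Prime]
    (hA : Nat.card A = r) (hne : A.map f ≠ ⊥) : Nat.card (A.map f) = r := by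
  have h1 : Nat.card (A.map f) ∣ r := by rw [← hA]; exact Subgroup.card_map_dvd _ _
  rcases (Nat.dvd_prime hr.out).mp h1 with h | h
  · exact absurd (Subgroup.card_eq_one.mp h) hne
  · exact h

/-- the core theorem, for representations -/
theorem coreRep' {q r : ℕ} [hq : Fact q.Prime] [hr : Fact r.Prime] (hqK : (q : K) ≠ 0)
    (hrK : (r : K) ≠ 0) (hqr : q ≠ r) (A Q0 : Subgroup X) (hA : Nat.card A = r) (hQ0 : IsPGroup q Q0)
    (hAQ0 : A ≤ normalizer (Q0 : Set X)) (hc : ∃ a ∈ A, ∃ x ∈ Q0, ρ ⁅a, x⁆ ≠ 1)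
    (hfix : ∀ v, (∀ a ∈ A, ρ a v = v) → v = 0) :
    q = 2 ∧ (∃ n : ℕ, r = 2 ^ n + 1) ∧ ¬ (∀ x ∈ Q0, ∀ y ∈ Q0, x * y = y * x) := by
  set π := QuotientGroup.mk' (MonoidHom.ker (ρ : X →* Module.End K M)) with hπ
  have hker : ∀ x : X, π x = 1 ↔ ρ x = 1 := by
    intro x
    rw [← MonoidHom.mem_ker, QuotientGroup.ker_mk', MonoidHom.mem_ker]
  obtain ⟨a, ha, x, hx, hax⟩ := hc
  have hAne : A.map π ≠ ⊥ := by
    intro h
    apply hax
    rw [← hker, map_commutatorElement]
    have h1 : π a ∈ A.map π := mem_map_of_mem _ ha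
    rw [h, mem_bot] at h1
    rw [h1, commutatorElement_one_left]
  obtain ⟨h1, h2, h3⟩ := coreRep (qrep ρ) hqK hrK hqr (A.map π) (Q0.map π) (card_map_prime π hA hAne)
    (hQ0.map π) (map_norm π hAQ0) (by
      intro h
      apply hax
      rw [← hker, map_commutatorElement, commutatorElement_eq_one_iff_mul_comm]
      exact (mem_centralizer_iff.mp (h (mem_map_of_mem _ ha)) (π x) (mem_map_of_mem _ hx)).symm) (by
      rintro _ ⟨y, hy, rfl⟩ h
      rw [hker]
      exact h) (by
      intro v hv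
      apply hfix v
      intro a ha
      exact hv (π a) (mem_map_of_mem _ ha))
  refine ⟨h1, h2, fun hab => h3 ?_⟩
  rintro _ ⟨y, hy, rfl⟩ _ ⟨w, hw, rfl⟩
  rw [← map_mul, ← map_mul, hab y hy w hw]

/-- fixed space of dimension at most one: `Q` is abelian -/
theorem abelRep {q r : ℕ} [hq : Fact q.Prime] [hr : Fact r.Prime] (hqK : (q : K) ≠ 0)
    (hrK : (r : K) ≠ 0) (hqr : q ≠ r) (A Q : Subgroup X) (hA : Nat.card A = r) (hQ : IsPGroup q Q)
    (hAQ : A ≤ normalizer (Q : Set X)) (hQA : Q ⊓ centralizer (A : Set X) = ⊥)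
    (hQR : ∀ x ∈ Q, ρ x = 1 → x = 1)
    (hfix : ∀ u v, (∀ a ∈ A, ρ a u = u) → (∀ a ∈ A, ρ a v = v) → u ≠ 0 → ∃ c : K, v = c • u) :
    ∀ x ∈ Q, ∀ y ∈ Q, x * y = y * x := by
  classical
  by_contra hnab
  have hAp : IsPGroup r A := IsPGroup.of_card (n := 1) (by rw [hA, pow_one])
  have hQ'ne : ⁅Q, Q⁆ ≠ ⊥ := by
    intro hcon
    rw [commutator_eq_bot_iff_le_centralizer] at hcon
    apply hnab
    intro x hx y hy
    exact mem_centralizer_iff.mp (hcon hy) x hx
  have hQ'Q : ⁅Q, Q⁆ ≤ Q := H1.Coprime2.commutator_le_left le_normalizer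
  have hQQ' : Q ≤ normalizer ((⁅Q, Q⁆ : Subgroup X) : Set X) := H1.Coprime2.le_normalizer_commutator_left Q Q
  set B := ⁅Q, Q⁆ ⊓ centralizer (Q : Set X) with hB
  have hBne : B ≠ ⊥ := H29.PGrp.inf_center_ne_bot hQ hQ'Q hQQ' hQ'ne
  have hBQ' : B ≤ ⁅Q, Q⁆ := inf_le_left
  have hBQ : B ≤ Q := hBQ'.trans hQ'Q
  have hQB : ∀ x ∈ Q, ∀ b ∈ B, x * b = b * x := fun x hx b hb => mem_centralizer_iff.mp hb.2 x hx
  have hAB : A ≤ normalizer (B : Set X) := by
    apply H1.Coprime2.le_normalizer_inf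
    · apply H1.Coprime.le_normalizer_of_conj_mem
      intro a ha y hy
      have h1 : ⁅Q, Q⁆ ≤ (⁅Q, Q⁆ : Subgroup X).comap (MulAut.conj a).toMonoidHom := by
        rw [commutator_le]
        intro x hx y hy
        show a * ⁅x, y⁆ * a⁻¹ ∈ (⁅Q, Q⁆ : Subgroup X)
        rw [conjugate_commutatorElement]
        exact commutator_mem_commutator ((mem_normalizer_iff.mp (hAQ ha) x).mp hx)
          ((mem_normalizer_iff.mp (hAQ ha) y).mp hy)
      exact h1 hy
    · exact H1.Coprime2.le_normalizer_centralizer hAQ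
  have hcast : ∀ B : Subgroup X, B ≤ Q → (Nat.card B : K) ≠ 0 := by
    intro B hB
    obtain ⟨n, hn⟩ := IsPGroup.iff_card.mp (hQ.to_le hB)
    rw [hn, Nat.cast_pow]
    exact pow_ne_zero _ hqK
  have hAK : (Nat.card A : K) ≠ 0 := by rw [hA]; exact hrK
  have hBA : ⁅B, A⁆ = B := by
    have h1 := H1.Coprime2.commutator_sup_centralizer A B hAB
      (IsPGroup.coprime_card_of_ne r q hqr.symm A B hAp (hQ.to_le hBQ)) (by
        have : Group.IsNilpotent B := (hQ.to_le hBQ).isNilpotent
        exact Or.inr inferInstance)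
    have h2 : B ⊓ centralizer (A : Set X) = ⊥ := by
      rw [eq_bot_iff, ← hQA]
      exact inf_le_inf hBQ le_rfl
    rwa [h2, sup_bot_eq] at h1
  -- the weight
  have hW : cmt ρ B ≠ ⊥ := by
    intro hcon
    apply hBne
    rw [eq_bot_iff]
    intro b hb
    refine hQR b (hBQ hb) (LinearMap.ext fun f => ?_)
    have := mem_cmt (ρ := ρ) hb f
    rw [hcon, Submodule.mem_bot, sub_eq_zero] at this
    exact this
  obtain ⟨χ, hχ⟩ := exists_weight (ρ := ρ) (B := B) hW (fun b hb w hw => cmt_invariant (le_normalizer hb) hw)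
    (fun b hb c hc w _ => by
      rw [← Module.End.mul_apply, ← map_mul, hQB b (hBQ hb) c hc, map_mul]; rfl)
  obtain ⟨v, hv, hv0⟩ := (Submodule.ne_bot_iff _).mp hχ
  have hchar := isChar_of_mem hv.1 hv0
  -- trivial stabilizer
  have hχne : ¬ ∀ b ∈ B, χ b = 1 := by
    intro htriv
    apply hv0
    apply eq_zero_of_mem_cmt (hcast B hBQ) hv.2
    intro b hb
    rw [hv.1 b hb, htriv b hb, one_smul]
  have hstb : stb A B hAB χ = ⊥ := by
    by_contra hne
    obtain ⟨⟨b, hb⟩, hb1'⟩ := Subgroup.ne_bot_iff_exists_ne_one.mp hne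
    have hb1 : b ≠ 1 := fun h' => hb1' (Subtype.ext h')
    have hAs : A ≤ stb A B hAB χ :=
      (gen_facts hA (stb_le hAB hb) hb1).1.ge.trans (zpowers_le.mpr hb)
    apply hχne
    intro b hb
    rw [← hBA] at hb
    exact trivial_on_commutator hchar hAB (fun d hd => (hAs hd).2) hb
  -- the norm
  letI := Fintype.ofFinite A
  let T : Module.End K M := ∑ a : A, ρ (a : X)
  have hTfix : ∀ w, ∀ a ∈ A, ρ a (T w) = T w := by
    intro w c hc
    show ρ c ((∑ a : A, ρ (a : X)) w) = (∑ a : A, ρ (a : X)) w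
    rw [LinearMap.sum_apply, map_sum]
    refine Fintype.sum_equiv (Equiv.mulLeft (⟨c, hc⟩ : A)) _ _ ?_
    intro a
    simp only [Equiv.coe_mulLeft, Subgroup.coe_mul, map_mul, Module.End.mul_apply]
  have hTA : ∀ c ∈ A, ∀ w, T (ρ c w) = T w := by
    intro c hc w
    show (∑ a : A, ρ (a : X)) (ρ c w) = (∑ a : A, ρ (a : X)) w
    rw [LinearMap.sum_apply, LinearMap.sum_apply]
    refine Fintype.sum_equiv (Equiv.mulRight (⟨c, hc⟩ : A)) _ _ ?_
    intro a
    simp only [Equiv.coe_mulRight, Subgroup.coe_mul, map_mul, Module.End.mul_apply]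
  have hinj : ∀ u ∈ wt ρ B χ, T u = 0 → u = 0 := by
    intro u hu hTu
    apply orbit hAB hAK (hcast B hBQ) (W := LinearMap.ker T) (fun a ha w hw => by
      rw [LinearMap.mem_ker] at hw ⊢
      rw [hTA a ha, hw]) (fun w hw hwf => by
      rw [LinearMap.mem_ker] at hw
      have h1 : T w = (Nat.card A : K) • w := by
        show (∑ a : A, ρ (a : X)) w = _
        rw [LinearMap.sum_apply, Finset.sum_congr rfl (fun (a : A) _ => hwf (a : X) a.2), Finset.sum_const,
          Finset.card_univ, ← Nat.card_eq_fintype_card, Nat.cast_smul_eq_nsmul]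
      rw [h1] at hw
      exact (smul_eq_zero.mp hw).resolve_left hAK) hu hTu
    intro a ha
    rw [hstb, mem_bot] at ha
    rw [ha, map_one]; rfl
  -- `Q` acts by scalars on `v`
  have hscal : ∀ y ∈ Q, ∃ c : K, ρ y v = c • v := by
    intro y hy
    have hu : ρ y v ∈ wt ρ B χ := by
      intro b hb
      rw [← Module.End.mul_apply, ← map_mul, ← hQB y hy b hb, map_mul, Module.End.mul_apply, hv.1 b hb, map_smul]
    have hTv : T v ≠ 0 := fun h => hv0 (hinj v hv.1 h)
    obtain ⟨c, hc⟩ := hfix (T v) (T (ρ y v)) (hTfix v) (hTfix _) hTv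
    refine ⟨c, ?_⟩
    have h1 := hinj (ρ y v - c • v) (sub_mem hu (Submodule.smul_mem _ c hv.1)) (by
      rw [map_sub, map_smul, hc, sub_self])
    exact sub_eq_zero.mp h1
  have hS : ∀ y ∈ Q, ∀ w ∈ Q, ρ ⁅y, w⁆ v = v := by
    intro y hy w hw
    obtain ⟨c, hc⟩ := hscal y hy
    obtain ⟨d, hd⟩ := hscal w hw
    have h1 : ρ (y * w) v = (d * c) • v := by
      rw [map_mul, Module.End.mul_apply, hd, map_smul, hc, smul_smul]
    have h2 : ρ (w * y) v = (d * c) • v := by
      rw [map_mul, Module.End.mul_apply, hc, map_smul, hd, smul_smul, mul_comm]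
    have h3 : y * w = ⁅y, w⁆ * (w * y) := by rw [commutatorElement_def]; group
    rw [h3, map_mul, Module.End.mul_apply, h2, map_smul] at h1
    have h4 : d * c ≠ 0 := by
      intro h0
      rw [h0, zero_smul] at h2
      apply hv0
      have h5 : ρ (w * y)⁻¹ (ρ (w * y) v) = v := by
        rw [← Module.End.mul_apply, ← map_mul, inv_mul_cancel, map_one]; rfl
      rw [← h5, h2, map_zero]
    exact smul_right_injective _ h4 h1
  apply hχne
  intro b hb
  let S : Subgroup X :=
    { carrier := {x | ρ x v = v}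
      one_mem' := by show ρ 1 v = v; rw [map_one]; rfl
      mul_mem' := by
        intro x y hx hy
        show ρ (x * y) v = v
        rw [map_mul, Module.End.mul_apply]
        rw [show ρ y v = v from hy, show ρ x v = v from hx]
      inv_mem' := by
        intro x hx
        show ρ x⁻¹ v = v
        conv_lhs => rw [← show ρ x v = v from hx]
        rw [← Module.End.mul_apply, ← map_mul, inv_mul_cancel, map_one]; rfl }
  have h1 : ⁅Q, Q⁆ ≤ S := by
    rw [commutator_le]
    intro y hy w hw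
    exact hS y hy w hw
  have h2 : ρ b v = v := h1 (hBQ' hb)
  rw [hv.1 b hb] at h2
  exact smul_right_cancel' hv0 (by rw [one_smul]; exact h2)

/-- fixed space of dimension at most one, general version -/
theorem abelRep' {q r : ℕ} [hq : Fact q.Prime] [hr : Fact r.Prime] (hqK : (q : K) ≠ 0)
    (hrK : (r : K) ≠ 0) (hqr : q ≠ r) (A Q : Subgroup X) (hA : Nat.card A = r) (hQ : IsPGroup q Q)
    (hAQ : A ≤ normalizer (Q : Set X)) (hQA : Q ⊓ centralizer (A : Set X) = ⊥)
    (hfix : ∀ u v, (∀ a ∈ A, ρ a u = u) → (∀ a ∈ A, ρ a v = v) → u ≠ 0 → ∃ c : K, v = c • u) :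
    ∀ x ∈ Q, ∀ y ∈ Q, ρ ⁅x, y⁆ = 1 := by
  set N := MonoidHom.ker (ρ : X →* Module.End K M) with hN
  set π := QuotientGroup.mk' N with hπ
  have hker : ∀ x : X, π x = 1 ↔ ρ x = 1 := by
    intro x
    rw [← MonoidHom.mem_ker, QuotientGroup.ker_mk', MonoidHom.mem_ker]
  have hAp : IsPGroup r A := IsPGroup.of_card (n := 1) (by rw [hA, pow_one])
  have hcop : (Nat.card A).Coprime (Nat.card Q) := IsPGroup.coprime_card_of_ne r q hqr.symm A Q hAp hQ
  have hQnil : Group.IsNilpotent Q := hQ.isNilpotent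
  have hQs : Group.IsSolvable Q := inferInstance
  by_cases hAbot : A.map π = ⊥
  · -- `A` acts trivially
    intro x hx y hy
    -- `Q = ⁅Q, A⁆` is in the kernel
    have h1 := H1.Coprime2.commutator_sup_centralizer A Q hAQ hcop (Or.inr hQs)
    rw [hQA, sup_bot_eq] at h1
    have h2 : Q ≤ N := by
      rw [← h1, commutator_le]
      intro x hx a ha
      have h3 : π a ∈ A.map π := mem_map_of_mem _ ha
      rw [hAbot, mem_bot] at h3
      have h4 : π ⁅x, a⁆ = 1 := by rw [map_commutatorElement, h3, commutatorElement_one_right]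
      exact (hker _).mp h4
    have h5 : ⁅x, y⁆ ∈ N := by
      rw [commutatorElement_def]
      exact mul_mem (mul_mem (mul_mem (h2 hx) (h2 hy)) (inv_mem (h2 hx))) (inv_mem (h2 hy))
    exact h5
  · have h := abelRep (qrep ρ) hqK hrK hqr (A.map π) (Q.map π) (card_map_prime π hA hAbot) (hQ.map π)
      (map_norm π hAQ) (by
        rw [eq_bot_iff]
        rintro _ ⟨⟨x, hx, rfl⟩, hxc⟩
        rw [mem_bot]
        -- the coset is fixed
        have hQN : Q ⊓ N ≤ Q := inf_le_left
        obtain ⟨c, hc, hxc'⟩ := H1.Coprime.exists_fixed_of_coset_fixed A Q hAQ hcop (Or.inr hQs) (Q ⊓ N) inf_le_left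
          (by
            apply H1.Coprime2.le_normalizer_inf le_normalizer
            rw [normalizer_eq_top]; exact le_top)
          (by
            apply H1.Coprime2.le_normalizer_inf hAQ
            rw [normalizer_eq_top]; exact le_top) x hx (by
            intro a ha
            refine ⟨?_, ?_⟩
            · exact Q.mul_mem ((mem_normalizer_iff.mp (hAQ ha) x).mp hx) (Q.inv_mem hx)
            · have h1 := mem_centralizer_iff.mp hxc (π a) (mem_map_of_mem _ ha)
              have h2 : π (a * x * a⁻¹ * x⁻¹) = 1 := by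
                rw [map_mul, map_mul, map_mul, map_inv, map_inv, h1]; group
              exact (hker _).mp h2)
        rw [hQA, mem_bot] at hc
        rw [hker]
        have h3 : x ∈ N := by
          have := hxc'.2
          rw [hc, mul_one] at this
          have h4 := N.inv_mem this
          rwa [inv_inv] at h4
        exact h3) (by
        rintro _ ⟨y, hy, rfl⟩ h
        rw [hker]; exact h) (by
        intro u v hu hv hu0
        exact hfix u v (fun a ha => hu (π a) (mem_map_of_mem _ ha)) (fun a ha => hv (π a) (mem_map_of_mem _ ha)) hu0)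
    intro x hx y hy
    rw [← hker, map_commutatorElement, commutatorElement_eq_one_iff_mul_comm]
    exact h _ (mem_map_of_mem _ hx) _ (mem_map_of_mem _ hy)

end H65.CopRep
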