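import Cfsg.Agent.Lib.H65.Tri1
import Cfsg.Agent.Lib.H1.Cores

set_option autoImplicit false

/-! Groups that are dihedral modulo a normal 2-subgroup. -/

namespace H65.MD

open Subgroup H28.Cj

variable {L : Type*} [Group L] [Finite L]

theorem class_card (z : L) : (centralizer ({z} : Set L)).index = Nat.card {w : L // ∃ g, g * z * g⁻¹ = w} := by
  have h1 := MulAction.index_stabilizer (ConjAct L) z
  have h2 : MulAction.orbit (ConjAct L) z = {w : L | ∃ g, g * z * g⁻¹ = w} := by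
    ext w
    rw [MulAction.mem_orbit_iff]
    constructor
    · rintro ⟨g, rfl⟩; exact ⟨ConjAct.ofConjAct g, rfl⟩
    · rintro ⟨g, rfl⟩; exact ⟨ConjAct.toConjAct g, rfl⟩
  rw [h2] at h1
  have h3 := Subgroup.nat_card_centralizer_nat_card_stabilizer z
  have h4 := (centralizer ({z} : Set L)).card_mul_index
  have h5 := (MulAction.stabilizer (ConjAct L) z).card_mul_index
  have h6 : Nat.card (ConjAct L) = Nat.card L := rfl
  rw [h3] at h4
  rw [h6, ← h4] at h5
  have hfin : Finite (ConjAct L) := inferInstanceAs (Finite L)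
  have h7 := Nat.eq_of_mul_eq_mul_left Nat.card_pos h5
  rw [← h7, h1]
  rfl

theorem even_of_invol {S : Set L} {e : L} (he : e ≠ 1) (he2 : e * e = 1) (hS : ∀ w ∈ S, e * w ∈ S) :
    Even (Nat.card S) := by
  classical
  have hf := Set.toFinite S
  have h1 : (∑ _w ∈ hf.toFinset, (1 : ZMod 2)) = 0 := by
    apply Finset.sum_involution (fun w _ => e * w)
    · intro w _; decide
    · intro w _ _ h
      exact he (mul_eq_right.mp h)
    · intro w hw
      rw [Set.Finite.mem_toFinset] at hw ⊢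
      exact hS w hw
    · intro w _
      rw [← mul_assoc, he2, one_mul]
  rw [Finset.sum_const, nsmul_eq_mul, mul_one, ZMod.natCast_eq_zero_iff_even] at h1
  rwa [Nat.card_coe_set_eq, Set.ncard_eq_toFinset_card S hf]

theorem class_three {Q E : Subgroup L} (nQ : Q.Normal) (sq : ∀ q ∈ Q, q * q = 1) (EQ : E ≤ Q)
    (Ec : ∀ e ∈ E, ∀ x, x * e = e * x) (cQ : Nat.card Q = 4 * Nat.card E) {z : L} (hz : z ∈ Q) (hzE : z ∉ E)
    (hodd : Odd (centralizer ({z} : Set L)).index) (h1 : (centralizer ({z} : Set L)).index ≠ 1) :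
    (centralizer ({z} : Set L)).index = 3 ∧ ∀ q ∈ Q, q ∉ E → ∃ e ∈ E, ∃ g, q = e * (g * z * g⁻¹) := by
  classical
  set O : Set L := {w : L | ∃ g, g * z * g⁻¹ = w} with hO
  have hOc : (centralizer ({z} : Set L)).index = Nat.card O := class_card z
  rw [hOc] at hodd h1 ⊢
  have hcon : ∀ e ∈ E, ∀ w ∈ O, e * w ∈ Q ∧ e * w ∉ E := by
    rintro e he _ ⟨g, rfl⟩
    refine ⟨mul_mem (EQ he) (nQ.conj_mem z hz g), fun h => hzE ?_⟩
    have h2 : g * z * g⁻¹ ∈ E := by
      have := mul_mem (inv_mem he) h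
      rwa [inv_mul_cancel_left] at this
    have h3 := Ec _ h2 g⁻¹
    have h4 : z = g * z * g⁻¹ := by
      have h5 : g⁻¹ * (g * z * g⁻¹) = z * g⁻¹ := by group
      rw [h5] at h3
      exact mul_right_cancel h3
    rw [h4]; exact h2
  let F : E × O → {q : L // q ∈ Q ∧ q ∉ E} := fun x => ⟨x.1 * x.2, hcon _ x.1.2 _ x.2.2⟩
  have hF : Function.Injective F := by
    rintro ⟨⟨e, he⟩, ⟨w, hw⟩⟩ ⟨⟨e', he'⟩, ⟨w', hw'⟩⟩ h
    have h2 : e * w = e' * w' := congrArg Subtype.val h
    have h3 : e'⁻¹ * e * w = w' := by rw [mul_assoc, h2, inv_mul_cancel_left]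
    have he'' : e'⁻¹ * e ∈ E := mul_mem (inv_mem he') he
    have h4 : e'⁻¹ * e = 1 := by
      by_contra hne
      have hev : Even (Nat.card O) := by
        apply even_of_invol hne (sq _ (EQ he''))
        rintro _ ⟨g, rfl⟩
        obtain ⟨a, rfl⟩ := hw
        obtain ⟨b, rfl⟩ := hw'
        refine ⟨g * a⁻¹ * b, ?_⟩
        have h5 : g * a⁻¹ * b * z * (g * a⁻¹ * b)⁻¹ = g * a⁻¹ * (b * z * b⁻¹) * a * g⁻¹ := by group
        rw [h5, ← h3]
        have h6 := Ec _ he'' (g * a⁻¹)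
        have h7 : g * a⁻¹ * (e'⁻¹ * e * (a * z * a⁻¹)) * a * g⁻¹ =
          (g * a⁻¹ * (e'⁻¹ * e)) * a * z * a⁻¹ * a * g⁻¹ := by group
        rw [h7, h6]
        group
      exact (Nat.not_even_iff_odd.mpr hodd) hev
    have h5 : e = e' := (inv_mul_eq_one.mp h4).symm
    subst h5
    have h6 : w = w' := mul_left_cancel h2
    subst h6
    rfl
  have hcc : Nat.card {q : L // q ∈ Q ∧ q ∉ E} = 3 * Nat.card E := by
    have h2 : Nat.card {q : L // q ∈ Q ∧ q ∉ E} = ((Q : Set L) \ (E : Set L)).ncard := rfl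
    rw [h2, Set.ncard_sdiff EQ]
    have h3 : (Q : Set L).ncard = Nat.card Q := rfl
    have h4 : (E : Set L).ncard = Nat.card E := rfl
    rw [h3, h4, cQ]
    omega
  have hle := Nat.card_le_card_of_injective F hF
  rw [hcc, Nat.card_prod, mul_comm] at hle
  have hO3 : Nat.card O ≤ 3 := Nat.le_of_mul_le_mul_right hle Nat.card_pos
  have hO3' : Nat.card O = 3 := by
    obtain ⟨k, hk⟩ := hodd
    omega
  refine ⟨hO3', ?_⟩
  have hbij : Function.Bijective F := by
    rw [Nat.bijective_iff_injective_and_card]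
    refine ⟨hF, ?_⟩
    rw [hcc, Nat.card_prod, hO3', mul_comm]
  intro q hq hqE
  obtain ⟨⟨⟨e, he⟩, ⟨_, g, rfl⟩⟩, h⟩ := hbij.2 ⟨q, hq, hqE⟩
  exact ⟨e, he, g, (congrArg Subtype.val h).symm⟩

/-- the complement to a central Sylow 2-subgroup -/
theorem compl {Q M : Subgroup L} (hQM : Q ≤ M) (hQ : IsPGroup 2 Q) (hc : M ≤ centralizer (Q : Set L))
    (hodd : Odd (Q.relIndex M)) : ∃ K : Subgroup L, K ≤ M ∧ Nat.card M = Nat.card Q * Nat.card K ∧ Odd (Nat.card K) ∧
      (∀ x, x ∈ K ↔ x ∈ M ∧ Odd (orderOf x)) ∧ (∀ x ∈ M, ∃ q ∈ Q, ∃ k ∈ K, x = q * k) := by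
  have hn : (Q.subgroupOf M).Normal := by
    rw [Subgroup.normal_subgroupOf_iff_le_normalizer hQM]
    exact hc.trans (Subgroup.centralizer_le_normalizer _)
  have hcard : Nat.card (Q.subgroupOf M) = Nat.card Q := Nat.card_congr (Subgroup.subgroupOfEquivOfLe hQM).toEquiv
  have : Fact (Nat.Prime 2) := ⟨Nat.prime_two⟩
  obtain ⟨m, hm⟩ := IsPGroup.iff_card.mp hQ
  have hcop : Nat.Coprime (Nat.card (Q.subgroupOf M)) (Q.subgroupOf M).index := by
    rw [hcard, hm]
    exact Nat.Coprime.pow_left _ (Nat.coprime_two_left.mpr hodd)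
  obtain ⟨H, hH⟩ := Subgroup.exists_right_complement'_of_coprime hcop
  have hHc : Nat.card H = Q.relIndex M := hH.symm.index_eq_card.symm
  have hKc : Nat.card (H.map M.subtype) = Nat.card H :=
    (Nat.card_congr (H.equivMapOfInjective _ M.subtype_injective).toEquiv).symm
  have hKo : Odd (Nat.card (H.map M.subtype)) := by rw [hKc, hHc]; exact hodd
  have hdec : ∀ x ∈ M, ∃ q ∈ Q, ∃ k ∈ H.map M.subtype, x = q * k := by
    intro x hx
    obtain ⟨⟨q, k⟩, hqk⟩ := hH.2 ⟨x, hx⟩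
    exact ⟨q.1, q.2, k.1, ⟨k.1, k.2, rfl⟩, (congrArg Subtype.val hqk).symm⟩
  have hdis : Q ⊓ H.map M.subtype = ⊥ := by
    rw [eq_bot_iff]
    rintro x ⟨hx1, ⟨y, hy, rfl⟩⟩
    have h1 : y ∈ Q.subgroupOf M ⊓ H := ⟨hx1, hy⟩
    rw [hH.disjoint.eq_bot] at h1
    rw [mem_bot] at h1 ⊢
    rw [h1]; rfl
  refine ⟨H.map M.subtype, Subgroup.map_subtype_le H, ?_, hKo, ?_, hdec⟩
  · have h1 := hH.card_mul_card
    rw [hcard] at h1
    rw [hKc, h1]
  · intro x
    constructor
    · intro hx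
      refine ⟨Subgroup.map_subtype_le H hx, ?_⟩
      have h1 : orderOf x ∣ Nat.card (H.map M.subtype) := Subgroup.orderOf_dvd_natCard _ hx
      exact hKo.of_dvd_nat h1
    · rintro ⟨hx, hxo⟩
      obtain ⟨q, hq, k, hk, rfl⟩ := hdec x hx
      have hkM : k ∈ M := Subgroup.map_subtype_le H hk
      have hcomm : Commute q k := mem_centralizer_iff.mp (hc hkM) q hq
      have h1 : q ^ orderOf (q * k) * k ^ orderOf (q * k) = 1 := by
        rw [← hcomm.mul_pow]; exact pow_orderOf_eq_one _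
      have h2 : q ^ orderOf (q * k) ∈ Q ⊓ H.map M.subtype := by
        refine mem_inf.mpr ⟨pow_mem hq _, ?_⟩
        rw [eq_inv_of_mul_eq_one_left h1]
        exact inv_mem (pow_mem hk _)
      rw [hdis, mem_bot] at h2
      have h3 : orderOf q ∣ orderOf (q * k) := orderOf_dvd_of_pow_eq_one h2
      have h4 : orderOf q ∣ Nat.card Q := Subgroup.orderOf_dvd_natCard _ hq
      rw [hm] at h4
      obtain ⟨j, -, hj⟩ := (Nat.dvd_prime_pow Nat.prime_two).mp h4
      have hj0 : j = 0 := by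
        by_contra hj0
        have h5 : 2 ∣ orderOf (q * k) := by
          refine dvd_trans ?_ h3
          rw [hj]; exact dvd_pow_self 2 hj0
        exact (Nat.not_even_iff_odd.mpr hxo) (even_iff_two_dvd.mpr h5)
      rw [hj0, pow_zero, orderOf_eq_one_iff] at hj
      rw [hj, one_mul]
      exact hk

open Cfsg in
theorem odd_oddCore : Odd (Nat.card (oddCore L)) := by
  have h := H1.Cores.coprime_card_pPrimeCore (G := L) 2
  rw [Nat.coprime_comm] at h
  exact Nat.coprime_two_left.mp h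

omit [Finite L] in
theorem comm_of_normal_coprime {A B : Subgroup L} (hA : A.Normal) (hB : B.Normal) (hAB : A ⊓ B = ⊥) :
    A ≤ centralizer (B : Set L) := by
  intro a ha
  rw [mem_centralizer_iff]
  intro b hb
  have h1 : a * b * a⁻¹ * b⁻¹ ∈ A ⊓ B := by
    refine mem_inf.mpr ⟨?_, mul_mem (hB.conj_mem b hb a) (inv_mem hb)⟩
    have h2 : a * b * a⁻¹ * b⁻¹ = a * (b * a⁻¹ * b⁻¹) := by group
    rw [h2]
    exact mul_mem ha (hA.conj_mem _ (inv_mem ha) b)
  rw [hAB, mem_bot, mul_inv_eq_one, mul_inv_eq_iff_eq_mul] at h1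
  exact h1.symm

theorem inf_oddCore {Q : Subgroup L} (hQ : IsPGroup 2 Q) : Q ⊓ Cfsg.oddCore L = ⊥ := by
  have : Fact (Nat.Prime 2) := ⟨Nat.prime_two⟩
  have h := odd_oddCore (L := L)
  rw [← disjoint_iff]
  apply Subgroup.disjoint_of_coprime_natCard
  obtain ⟨m, hm⟩ := IsPGroup.iff_card.mp hQ
  rw [hm]
  exact Nat.Coprime.pow_left _ (Nat.coprime_two_left.mpr h)

open Cfsg in
/-- The structure of `L / O(L)`: `Q` elementary abelian normal, `|L : Q| = 2 n` with `n` odd, etc. -/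
theorem fin_dat {Q E : Subgroup L} (nQ : Q.Normal) (sq : ∀ q ∈ Q, q * q = 1) (EQ : E ≤ Q)
    (Ec : ∀ e ∈ E, ∀ x, x * e = e * x) (cQ : Nat.card Q = 4 * Nat.card E) {z : L} (hz : z ∈ Q) (hzE : z ∉ E)
    (hodd : Odd (centralizer ({z} : Set L)).index) (hnn : ¬ (centralizer ({z} : Set L)).Normal)
    {n : ℕ} (hn : Odd n) (hL : Nat.card L = 2 * n * Nat.card Q) {t : L} (ht2 : t * t = 1) (htQ : t ∉ Q) :
    ∃ (Q' C' : Subgroup (L ⧸ oddCore L)) (t' : L ⧸ oddCore L), H65.DihIso.Dat Q' C' t' ∧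
      Nat.card C' = Nat.card E := by
  classical
  have hQ2 : IsPGroup 2 Q := by
    intro x
    refine ⟨1, ?_⟩
    apply Subtype.ext
    rw [pow_one, pow_two]
    exact sq x x.2
  have h1 : (centralizer ({z} : Set L)).index ≠ 1 := by
    intro h
    rw [Subgroup.index_eq_one] at h
    apply hnn
    rw [h]; infer_instance
  obtain ⟨h3, hex⟩ := class_three nQ sq EQ Ec cQ hz hzE hodd h1
  obtain ⟨M, -, hMz, hMn, hrel, h6, hmax, -⟩ := H65.Tri.core_data (T := centralizer ({z} : Set L)) (P := ⊤) le_top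
    (by rw [Subgroup.relIndex_top_right]; exact h3)
    (by rw [top_le_iff, Subgroup.normalizer_eq_top_iff]; exact hnn)
  have hMn' : M.Normal := by rwa [top_le_iff, Subgroup.normalizer_eq_top_iff] at hMn
  have hMQ : M ≤ centralizer (Q : Set L) := by
    intro m hm
    rw [mem_centralizer_iff]
    intro q hq
    by_cases hqE : q ∈ E
    · exact (Ec q hqE m).symm
    · obtain ⟨e, he, g, rfl⟩ := hex q hq hqE
      have h4 : g⁻¹ * m * g ∈ centralizer ({z} : Set L) := hMz (by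
        have := hMn'.conj_mem m hm g⁻¹
        rwa [inv_inv] at this)
      have h5 := mem_centralizer_iff.mp h4 z rfl
      have h6 : g * z * g⁻¹ * m = m * (g * z * g⁻¹) := by
        have h7 : g * z * g⁻¹ * m = g * (z * (g⁻¹ * m * g)) * g⁻¹ := by group
        rw [h7, h5]; group
      rw [mul_assoc, h6, ← mul_assoc, ← Ec e he m, mul_assoc]
  have hQM : centralizer (Q : Set L) ≤ M := by
    apply hmax
    · exact Subgroup.centralizer_le (by simpa using hz)
    · rw [top_le_iff, Subgroup.normalizer_eq_top_iff]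
      infer_instance
  have hQab : Q ≤ centralizer (Q : Set L) := by
    intro q hq
    rw [mem_centralizer_iff]
    intro r hr
    exact H65.Dih.comm_of_sq sq hr hq
  have hQleM : Q ≤ M := hQab.trans hQM
  have hLc : Nat.card (⊤ : Subgroup L) = Nat.card L := Nat.card_congr Subgroup.topEquiv.toEquiv
  rw [hLc, hL] at h6
  have hoddM : Odd (Q.relIndex M) := by
    have h7 := (Q.subgroupOf M).card_mul_index
    rw [Nat.card_congr (Subgroup.subgroupOfEquivOfLe hQleM).toEquiv] at h7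
    have h8 : 6 * (Q.relIndex M) = 2 * n := by
      apply Nat.eq_of_mul_eq_mul_left (Nat.card_pos (α := Q))
      have h9 : (Q.subgroupOf M).index = Q.relIndex M := rfl
      rw [h9] at h7
      calc Nat.card Q * (6 * Q.relIndex M) = 6 * (Nat.card Q * Q.relIndex M) := by ring
        _ = 6 * Nat.card M := by rw [h7]
        _ = Nat.card Q * (2 * n) := by rw [← h6]; ring
    obtain ⟨j, hj⟩ := hn
    rw [Nat.odd_iff]
    omega
  obtain ⟨K, hKM, hMc, hKo, hKm, hdec⟩ := compl hQleM hQ2 hMQ hoddM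
  have hKn : K.Normal := by
    constructor
    intro k hk g
    rw [hKm] at hk ⊢
    refine ⟨hMn'.conj_mem k hk.1 g, ?_⟩
    have : orderOf (g * k * g⁻¹) = orderOf k := by
      rw [← MulAut.conj_apply, MulEquiv.orderOf_eq]
    rw [this]; exact hk.2
  set R := oddCore L with hR
  have hQR : Q ⊓ R = ⊥ := inf_oddCore hQ2
  have hKR : K = R := by
    apply le_antisymm
    · exact H1.Cores.le_pPrimeCore hKn (Nat.coprime_comm.mp (Nat.coprime_two_left.mpr hKo))
    · intro r hr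
      rw [hKm]
      refine ⟨hQM (comm_of_normal_coprime (inferInstance : R.Normal) nQ (by rw [inf_comm]; exact hQR) hr), ?_⟩
      have h7 : orderOf r ∣ Nat.card R := Subgroup.orderOf_dvd_natCard _ hr
      exact odd_oddCore.of_dvd_nat h7
  set π := QuotientGroup.mk' R with hπ
  have hinj : ∀ a ∈ Q, ∀ b ∈ Q, π a = π b → a = b := by
    intro a ha b hb hab
    have h7 : a⁻¹ * b ∈ Q ⊓ R := mem_inf.mpr ⟨mul_mem (inv_mem ha) hb, QuotientGroup.eq.mp hab⟩
    rw [hQR, mem_bot] at h7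
    exact inv_mul_eq_one.mp h7
  have hcardmap : ∀ A : Subgroup L, A ≤ Q → Nat.card (A.map π) = Nat.card A := by
    intro A hA
    symm
    apply Nat.card_congr
    refine Equiv.ofBijective (fun a => ⟨π a, ⟨a, a.2, rfl⟩⟩) ⟨?_, ?_⟩
    · intro a b hab
      exact Subtype.ext (hinj a (hA a.2) b (hA b.2) (congrArg Subtype.val hab))
    · rintro ⟨_, a, ha, rfl⟩
      exact ⟨⟨a, ha⟩, rfl⟩
  refine ⟨Q.map π, E.map π, π t, ⟨?_, ?_, ?_, ?_, ?_, ?_, ?_, ?_, ?_⟩, hcardmap E EQ⟩
  · exact nQ.map π (QuotientGroup.mk'_surjective R)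
  · rintro _ ⟨q, hq, rfl⟩
    rw [← map_mul, sq q hq, map_one]
  · intro x hx
    obtain ⟨x, rfl⟩ := QuotientGroup.mk'_surjective R x
    have hxM : x ∈ M := by
      apply hQM
      rw [mem_centralizer_iff]
      intro q hq
      have h7 := hx (π q) ⟨q, hq, rfl⟩
      rw [← map_mul, ← map_mul] at h7
      have h8 : (q * x)⁻¹ * (x * q) ∈ R := QuotientGroup.eq.mp h7.symm
      have h9 : (q * x)⁻¹ * (x * q) ∈ Q := by
        have h10 : (q * x)⁻¹ * (x * q) = (x⁻¹ * q⁻¹ * x⁻¹⁻¹) * q := by group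
        rw [h10]
        exact mul_mem (nQ.conj_mem _ (inv_mem hq) _) hq
      have h11 : (q * x)⁻¹ * (x * q) ∈ Q ⊓ R := mem_inf.mpr ⟨h9, h8⟩
      rw [hQR, mem_bot] at h11
      exact inv_mul_eq_one.mp h11
    obtain ⟨q, hq, k, hk, rfl⟩ := hdec x hxM
    refine ⟨q, hq, ?_⟩
    rw [map_mul]
    have h7 : π k = 1 := (QuotientGroup.eq_one_iff k).mpr (by rw [← hKR]; exact hk)
    rw [h7, mul_one]
  · exact Subgroup.map_mono EQ
  · rintro _ ⟨c, hc, rfl⟩ x
    obtain ⟨x, rfl⟩ := QuotientGroup.mk'_surjective R x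
    rw [← map_mul, ← map_mul, Ec c hc x]
  · rw [hcardmap Q le_rfl, hcardmap E EQ, cQ]
  · rw [hcardmap Q le_rfl]
    have h7 : Nat.card (L ⧸ R) * Nat.card R = Nat.card L := by
      rw [mul_comm]; exact (R.card_mul_index)
    have hKc : Nat.card K = Nat.card R := by rw [hKR]
    apply Nat.eq_of_mul_eq_mul_right (Nat.card_pos (α := R))
    show Nat.card (L ⧸ R) * Nat.card R = _
    rw [h7, hL, h6, hMc, hKc]
    ring
  · rw [← map_mul, ht2, map_one]
  · rintro ⟨q, hq, hqt⟩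
    have h7 : q⁻¹ * t ∈ K := by rw [hKR]; exact QuotientGroup.eq.mp hqt
    have htM : t ∈ M := by
      have h8 : t = q * (q⁻¹ * t) := by group
      rw [h8]
      exact mul_mem (hQleM hq) (hKM h7)
    -- `k = q⁻¹ t` satisfies `k² = 1`
    have h8 : q * t = t * q := mem_centralizer_iff.mp (hMQ htM) q hq
    have h9 : (q⁻¹ * t) * (q⁻¹ * t) = 1 := by
      have h10 : (q⁻¹ * t) * (q⁻¹ * t) = q⁻¹ * (t * q⁻¹) * t := by group
      have h11 : t * q⁻¹ = q⁻¹ * t := by
        rw [mul_inv_eq_iff_eq_mul, mul_assoc, ← h8]; group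
      rw [h10, h11]
      have h12 : q⁻¹ * (q⁻¹ * t) * t = (q * q)⁻¹ * (t * t) := by group
      rw [h12, sq q hq, ht2, inv_one, one_mul]
    have h10 : q⁻¹ * t = 1 := by
      have h11 : orderOf (q⁻¹ * t) ∣ 2 := orderOf_dvd_of_pow_eq_one (by rw [pow_two]; exact h9)
      have h12 := (hKm _).mp h7
      rcases (Nat.dvd_prime Nat.prime_two).mp h11 with h | h
      · exact orderOf_eq_one_iff.mp h
      · rw [h] at h12
        exact absurd h12.2 (by decide)
    apply htQ
    rw [← inv_mul_eq_one.mp h10]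
    exact hq

end H65.MD
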