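import Cfsg.Agent.Lib.H65.MD1

set_option autoImplicit false

/-! Groups that are dihedral modulo a normal 2-subgroup: basic facts. -/

namespace H65.MD

open Subgroup H28.Cj Cfsg

variable {L : Type*} [Group L] [Finite L]

theorem odd_of_pCore {n : ℕ} (hn : 2 ≤ n) (h : pCore 2 (DihedralGroup n) = ⊥) : Odd n := by
  by_contra hodd
  rw [Nat.not_odd_iff_even] at hodd
  obtain ⟨k, hk⟩ := hodd
  have hkk : (k : ZMod n) + (k : ZMod n) = 0 := by
    rw [← Nat.cast_add, ← hk, ZMod.natCast_self]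
  have hneg : -(k : ZMod n) = k := by
    rw [neg_eq_iff_add_eq_zero]; exact hkk
  have hcen : ∀ x : DihedralGroup n, x * DihedralGroup.r (k : ZMod n) = DihedralGroup.r (k : ZMod n) * x := by
    intro x
    cases x with
    | r i => rw [DihedralGroup.r_mul_r, DihedralGroup.r_mul_r, add_comm]
    | sr i =>
      rw [DihedralGroup.sr_mul_r, DihedralGroup.r_mul_sr, sub_eq_add_neg, hneg]
  have hN : (zpowers (DihedralGroup.r (k : ZMod n))).Normal := by
    constructor
    rintro _ ⟨j, rfl⟩ g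
    have h1 : Commute g (DihedralGroup.r (k : ZMod n)) := hcen g
    have h2 : g * (DihedralGroup.r (k : ZMod n)) ^ j * g⁻¹ = (DihedralGroup.r (k : ZMod n)) ^ j := by
      rw [(h1.zpow_right j).eq, mul_inv_cancel_right]
    show g * (DihedralGroup.r (k : ZMod n)) ^ j * g⁻¹ ∈ _
    rw [h2]
    exact ⟨j, rfl⟩
  have hsq : DihedralGroup.r (k : ZMod n) * DihedralGroup.r (k : ZMod n) = 1 := by
    rw [DihedralGroup.r_mul_r, hkk]; rfl
  have hP : IsPGroup 2 (zpowers (DihedralGroup.r (k : ZMod n))) := by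
    rintro ⟨_, j, rfl⟩
    refine ⟨1, Subtype.ext ?_⟩
    show ((DihedralGroup.r (k : ZMod n)) ^ j) ^ (2 ^ 1) = 1
    rw [pow_one, ← zpow_natCast, ← zpow_mul, mul_comm, zpow_mul, zpow_natCast, pow_two, hsq, one_zpow]
  have h1 := H1.Cores.le_pCore hN hP
  rw [h] at h1
  have h2 := h1 (mem_zpowers _)
  rw [mem_bot, DihedralGroup.one_def] at h2
  have h3 : (k : ZMod n) = 0 := DihedralGroup.r.inj h2
  rw [ZMod.natCast_eq_zero_iff] at h3
  have := Nat.le_of_dvd (by omega) h3
  omega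

theorem setup {n : ℕ} (hn : 2 ≤ n) (hd : Nonempty (L ⧸ pCore 2 L ≃* DihedralGroup n)) {P : Subgroup L}
    (hP : IsPGroup 2 P) (hi : ¬ 2 ∣ P.index) :
    Odd n ∧ ∃ φ : L →* DihedralGroup n, Function.Surjective φ ∧ φ.ker = pCore 2 L ∧ pCore 2 L ≤ P ∧
      Nat.card L = 2 * n * Nat.card (pCore 2 L) ∧ Nat.card P = 2 * Nat.card (pCore 2 L) ∧
      ∃ d, ∀ x, x ∈ P ⊔ cj d P := by
  classical
  have h2f : Fact (Nat.Prime 2) := ⟨Nat.prime_two⟩
  obtain ⟨e⟩ := hd
  have hodd : Odd n := by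
    apply odd_of_pCore hn
    rw [← H52.PCore.map_pCore e, H1.Cores.pCore_quotient_pCore, Subgroup.map_bot]
  have hn0 : NeZero n := ⟨by omega⟩
  set φ : L →* DihedralGroup n := e.toMonoidHom.comp (QuotientGroup.mk' (pCore 2 L)) with hφ
  have hsurj : Function.Surjective φ := e.surjective.comp (QuotientGroup.mk'_surjective _)
  have hker : φ.ker = pCore 2 L := by
    ext x
    rw [MonoidHom.mem_ker, hφ, MonoidHom.comp_apply]
    show e _ = 1 ↔ _
    rw [MulEquiv.map_eq_one_iff]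
    exact QuotientGroup.eq_one_iff x
  have hQP : pCore 2 L ≤ P := H1.Cores.pCore_le_sylow (hP.toSylow hi)
  have hL : Nat.card L = 2 * n * Nat.card (pCore 2 L) := by
    have h1 := (pCore 2 L).card_mul_index
    have h2 : (pCore 2 L).index = 2 * n := by
      show Nat.card (L ⧸ pCore 2 L) = 2 * n
      rw [Nat.card_congr e.toEquiv, DihedralGroup.nat_card]
    rw [h2] at h1
    rw [← h1]; ring
  have hPc : Nat.card P = 2 * Nat.card (pCore 2 L) := by
    obtain ⟨a, ha⟩ := IsPGroup.iff_card.mp hP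
    obtain ⟨b, hb⟩ := IsPGroup.iff_card.mp (H1.Cores.isPGroup_pCore (G := L) 2)
    have h1 := P.card_mul_index
    rw [hL, ha, hb] at h1
    have h2 : 2 ^ a * P.index = 2 ^ (b + 1) * n := by rw [h1, pow_succ]; ring
    have hc1 : Nat.Coprime (2 ^ a) n := Nat.Coprime.pow_left _ (Nat.coprime_two_left.mpr hodd)
    have hc2 : Nat.Coprime (2 ^ (b + 1)) P.index :=
      Nat.Coprime.pow_left _ ((Nat.Prime.coprime_iff_not_dvd h2f.out).mpr hi)
    have h3 : 2 ^ a ∣ 2 ^ (b + 1) := hc1.dvd_of_dvd_mul_right ⟨_, h2.symm⟩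
    have h4 : 2 ^ (b + 1) ∣ 2 ^ a := hc2.dvd_of_dvd_mul_right ⟨_, h2⟩
    rw [ha, hb, Nat.dvd_antisymm h3 h4, pow_succ]; ring
  refine ⟨hodd, φ, hsurj, hker, hQP, hL, hPc, ?_⟩
  -- an element of `P` mapping to a reflection
  have hlt : ¬ P ≤ pCore 2 L := by
    intro h
    have h1 := le_antisymm h hQP
    have h2 : 0 < Nat.card P := Nat.card_pos
    rw [← h1] at hPc
    omega
  obtain ⟨p, hp, hpQ⟩ := Set.not_subset.mp hlt
  have hpr : ∃ i, φ p = DihedralGroup.sr i := by
    cases h : φ p with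
    | sr i => exact ⟨i, rfl⟩
    | r i =>
      exfalso
      apply hpQ
      show p ∈ pCore 2 L
      rw [← hker, MonoidHom.mem_ker]
      obtain ⟨k, hk⟩ := hP ⟨p, hp⟩
      have hk' : p ^ 2 ^ k = 1 := congrArg Subtype.val hk
      have h1 : orderOf (φ p) ∣ 2 ^ k := orderOf_dvd_of_pow_eq_one (by rw [← map_pow, hk', map_one])
      have h2 : orderOf (φ p) ∣ n := by
        rw [h]
        apply orderOf_dvd_of_pow_eq_one
        rw [DihedralGroup.r_pow, ZMod.natCast_self, mul_zero]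
        rfl
      have h3 : orderOf (φ p) ∣ 1 := by
        have hc : Nat.Coprime (2 ^ k) n := Nat.Coprime.pow_left _ (Nat.coprime_two_left.mpr hodd)
        rw [← hc.gcd_eq_one]
        exact Nat.dvd_gcd h1 h2
      exact orderOf_eq_one_iff.mp (Nat.dvd_one.mp h3)
  obtain ⟨i, hi'⟩ := hpr
  obtain ⟨k, hk⟩ := hodd
  obtain ⟨d, hd⟩ := hsurj (DihedralGroup.r ((k + 1 : ℕ) : ZMod n))
  have h2k : ((k + 1 : ℕ) : ZMod n) + ((k + 1 : ℕ) : ZMod n) = 1 := by
    have h1 : ((2 * k + 1 : ℕ) : ZMod n) = 0 := by rw [← hk]; exact ZMod.natCast_self n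
    have h2 : ((k + 1 : ℕ) : ZMod n) + ((k + 1 : ℕ) : ZMod n) = ((2 * k + 1 : ℕ) : ZMod n) + 1 := by
      push_cast; ring
    rw [h2, h1, zero_add]
  refine ⟨d, ?_⟩
  set W := P ⊔ cj d P with hW
  have hpW : p ∈ W := (le_sup_left : P ≤ W) hp
  have hpW' : d * p * d⁻¹ ∈ W := (le_sup_right : cj d P ≤ W) (conj_mem_cj.mpr hp)
  have hrot : φ (p * (d * p * d⁻¹)) = DihedralGroup.r (-1) ∨ φ (p * (d * p * d⁻¹)) = DihedralGroup.r 1 := by
    rw [map_mul, map_mul, map_mul, map_inv, hi', hd, DihedralGroup.r_mul_sr, DihedralGroup.inv_r,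
      DihedralGroup.sr_mul_r, DihedralGroup.sr_mul_sr]
    have h1 : i - ((k + 1 : ℕ) : ZMod n) + -((k + 1 : ℕ) : ZMod n) - i = -1 := by
      rw [← h2k]; ring
    left
    rw [h1]
  have hr1 : ∀ j : ZMod n, ∃ w ∈ W, φ w = DihedralGroup.r j := by
    intro j
    rcases hrot with h | h
    · refine ⟨(p * (d * p * d⁻¹)) ^ (-j).val, pow_mem (mul_mem hpW hpW') _, ?_⟩
      rw [map_pow, h, DihedralGroup.r_pow, ZMod.natCast_val, ZMod.cast_id]
      simp
    · refine ⟨(p * (d * p * d⁻¹)) ^ j.val, pow_mem (mul_mem hpW hpW') _, ?_⟩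
      rw [map_pow, h, DihedralGroup.r_pow, ZMod.natCast_val, ZMod.cast_id]
      simp
  have hall : ∀ y, ∃ w ∈ W, φ w = y := by
    intro y
    cases y with
    | r j => exact hr1 j
    | sr j =>
      obtain ⟨w, hw, hwj⟩ := hr1 (j - i)
      refine ⟨p * w, mul_mem hpW hw, ?_⟩
      rw [map_mul, hi', hwj, DihedralGroup.sr_mul_r]
      congr 1; ring
  intro x
  obtain ⟨w, hw, hwx⟩ := hall (φ x)
  have h1 : w⁻¹ * x ∈ φ.ker := by
    rw [MonoidHom.mem_ker, map_mul, map_inv, hwx, inv_mul_cancel]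
  rw [hker] at h1
  have h2 : w⁻¹ * x ∈ W := (le_sup_left : P ≤ W) (hQP h1)
  have h3 : x = w * (w⁻¹ * x) := by group
  rw [h3]
  exact mul_mem hw h2

theorem klein_iso {V : Type*} [Group V] [Finite V] (h4 : Nat.card V = 4) (h2 : ∀ x : V, x * x = 1) :
    Nonempty (V ≃* Multiplicative (ZMod 2) × Multiplicative (ZMod 2)) := by
  have h3 : IsKleinFour V := by
    refine ⟨h4, ?_⟩
    have h5 : Monoid.exponent V ∣ 2 := Monoid.exponent_dvd_of_forall_pow_eq_one fun g => by rw [pow_two]; exact h2 g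
    rcases (Nat.dvd_prime Nat.prime_two).mp h5 with h | h
    · exfalso
      have h6 : Subsingleton V := Monoid.exp_eq_one_iff.mp h
      have := Finite.card_le_one_iff_subsingleton.mpr h6
      omega
    · exact h
  have h4' : IsKleinFour (Multiplicative (ZMod 2) × Multiplicative (ZMod 2)) := by
    refine ⟨?_, ?_⟩
    · rw [Nat.card_prod, Nat.card_eq_fintype_card, Fintype.card_multiplicative, ZMod.card]
    · have h5 : Monoid.exponent (Multiplicative (ZMod 2) × Multiplicative (ZMod 2)) ∣ 2 :=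
        Monoid.exponent_dvd_of_forall_pow_eq_one (by decide)
      rcases (Nat.dvd_prime Nat.prime_two).mp h5 with h | h
      · exfalso
        have h6 := Monoid.exp_eq_one_iff.mp h
        have h7 := h6.elim ((Multiplicative.ofAdd (1 : ZMod 2), 1) :
          Multiplicative (ZMod 2) × Multiplicative (ZMod 2)) 1
        revert h7; decide
      · exact h
  exact IsKleinFour.nonempty_mulEquiv

theorem fin_klein {n : ℕ} (hn : Odd n) (φ : L →* DihedralGroup n) (hs : Function.Surjective φ)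
    (hk : Nat.card φ.ker = 2) {P : Subgroup L} (hQP : φ.ker ≤ P) (h4 : Nat.card P = 4) (h2 : ∀ x ∈ P, x * x = 1) :
    Nonempty (L ⧸ oddCore L ≃* Multiplicative (ZMod 2) × Multiplicative (ZMod 2)) := by
  classical
  have hn0 : n ≠ 0 := by rintro rfl; exact absurd hn (by decide)
  have hL : Nat.card L = 4 * n := by
    have h1 := φ.ker.card_mul_index
    have h2 : φ.ker.index = 2 * n := by
      rw [Subgroup.index_ker, MonoidHom.range_eq_top.mpr hs, Subgroup.card_top, DihedralGroup.nat_card]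
    rw [hk, h2] at h1
    rw [← h1]; ring
  set M := (zpowers (DihedralGroup.r (1 : ZMod n))).comap φ with hM
  have hMi : M.index = 2 := by
    rw [hM, Subgroup.index_comap_of_surjective _ hs]
    have h1 := (zpowers (DihedralGroup.r (1 : ZMod n))).card_mul_index
    rw [Nat.card_zpowers, DihedralGroup.orderOf_r_one, DihedralGroup.nat_card, mul_comm 2 n] at h1
    exact Nat.eq_of_mul_eq_mul_left (by omega) h1
  have hMn : M.Normal := Subgroup.normal_of_index_eq_two hMi
  have hMc : Nat.card M = 2 * n := by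
    have h1 := M.card_mul_index
    rw [hMi, hL] at h1
    omega
  have hQM : φ.ker ≤ M := Subgroup.ker_le_comap φ _
  have hcen : M ≤ centralizer (φ.ker : Set L) := by
    intro m _
    rw [mem_centralizer_iff]
    intro q hq
    obtain ⟨⟨z, hz⟩, hz1, hzu⟩ := (Nat.card_eq_two_iff' (1 : φ.ker)).mp hk
    have hel : ∀ x ∈ φ.ker, x ≠ 1 → x = z := fun x hx h1 =>
      congrArg Subtype.val (hzu ⟨x, hx⟩ fun h => h1 (congrArg Subtype.val h))
    by_cases hq1 : q = 1
    · rw [hq1, one_mul, mul_one]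
    · have h1 := hel q hq hq1
      have h3 := hel (m * q * m⁻¹) ((MonoidHom.normal_ker φ).conj_mem q hq m) (fun h => hq1 (conj_eq_one_iff.mp h))
      rw [← h1] at h3
      rw [mul_inv_eq_iff_eq_mul] at h3
      exact h3.symm
  have hQ2 : IsPGroup 2 φ.ker := IsPGroup.of_card (n := 1) (by rw [hk, pow_one])
  have hrel : φ.ker.relIndex M = n := by
    have h1 := (φ.ker.subgroupOf M).card_mul_index
    rw [Nat.card_congr (Subgroup.subgroupOfEquivOfLe hQM).toEquiv, hk, hMc] at h1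
    show (φ.ker.subgroupOf M).index = n
    omega
  obtain ⟨K, hKM, hMK, hKo, hKm, -⟩ := compl hQM hQ2 hcen (by rw [hrel]; exact hn)
  have hKc : Nat.card K = n := by
    rw [hMc, hk] at hMK
    omega
  have hKn : K.Normal := by
    constructor
    intro k hk g
    rw [hKm] at hk ⊢
    refine ⟨hMn.conj_mem k hk.1 g, ?_⟩
    have : orderOf (g * k * g⁻¹) = orderOf k := by
      rw [← MulAut.conj_apply, MulEquiv.orderOf_eq]
    rw [this]; exact hk.2
  set R := oddCore L with hR
  have hKR : K ≤ R := H1.Cores.le_pPrimeCore hKn (Nat.coprime_comm.mp (Nat.coprime_two_left.mpr hKo))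
  have hRc : Nat.card R = n := by
    have h1 : Nat.card R ∣ 4 * n := by rw [← hL]; exact Subgroup.card_subgroup_dvd_card R
    have h2 : Nat.Coprime (Nat.card R) 4 := by
      have : Nat.Coprime (Nat.card R) (2 ^ 2) :=
        Nat.Coprime.pow_right _ (Nat.coprime_comm.mp (Nat.coprime_two_left.mpr odd_oddCore))
      exact this
    have h3 := h2.dvd_of_dvd_mul_left h1
    apply Nat.dvd_antisymm h3
    rw [← hKc]
    exact Subgroup.card_dvd_of_le hKR
  have hLR : Nat.card (L ⧸ R) = 4 := by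
    have h1 := R.card_mul_index
    rw [hRc, hL, mul_comm 4 n] at h1
    exact Nat.eq_of_mul_eq_mul_left (by omega) h1
  have hP2 : IsPGroup 2 P := IsPGroup.of_card (n := 2) (by rw [h4]; rfl)
  have hPR : P ⊓ R = ⊥ := inf_oddCore hP2
  let F : P → L ⧸ R := fun p => QuotientGroup.mk' R p
  have hF : Function.Injective F := by
    intro a b hab
    have h5 : (a : L)⁻¹ * b ∈ P ⊓ R := mem_inf.mpr ⟨mul_mem (inv_mem a.2) b.2, QuotientGroup.eq.mp hab⟩
    rw [hPR, mem_bot] at h5
    exact Subtype.ext (inv_mul_eq_one.mp h5)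
  have hFb : Function.Bijective F := by
    rw [Nat.bijective_iff_injective_and_card]
    exact ⟨hF, by rw [h4, hLR]⟩
  apply klein_iso hLR
  intro x
  obtain ⟨p, rfl⟩ := hFb.2 x
  show QuotientGroup.mk' R p * QuotientGroup.mk' R p = 1
  rw [← map_mul, h2 p p.2, map_one]

end H65.MD
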