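import Cfsg.Agent.Lib.H65.MD2

set_option autoImplicit false

/-! Groups that are dihedral modulo a normal 2-subgroup: an outer element normalising the Sylow 2-subgroup. -/

namespace H65.MD

open Subgroup H28.Cj Cfsg H65.Dih

variable {G : Type*} [Group G] [Finite G]

theorem card_le_two {Q D T : Subgroup G} (hQ : Q ≤ T) (hD : D ≤ T) (hDc : Nat.card D = Nat.card Q)
    (hT : Nat.card T = 2 * Nat.card Q) (hQD : Q ⊓ D = ⊥) : Nat.card Q ≤ 2 := by
  have hinj : Function.Injective (fun z : Q × D => (⟨z.1 * z.2, mul_mem (hQ z.1.2) (hD z.2.2)⟩ : T)) := by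
    rintro ⟨a, b⟩ ⟨c, d⟩ h
    have h1 : (a : G) * b = c * d := congrArg Subtype.val h
    have h2 : (c : G)⁻¹ * a = d * (b : G)⁻¹ := by
      rw [inv_mul_eq_iff_eq_mul, ← mul_assoc, ← h1]; group
    have h3 : (c : G)⁻¹ * a = 1 := by
      have h5 : (c : G)⁻¹ * a ∈ Q := mul_mem (inv_mem c.2) a.2
      have h6 : (c : G)⁻¹ * a ∈ D := by rw [h2]; exact mul_mem d.2 (inv_mem b.2)
      have h4 : (c : G)⁻¹ * a ∈ Q ⊓ D := ⟨h5, h6⟩
      rw [hQD] at h4
      exact h4
    have h5 : (d : G) * (b : G)⁻¹ = 1 := by rw [← h2]; exact h3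
    have h6 : a = c := Subtype.ext (inv_mul_eq_one.mp h3).symm
    have h7 : b = d := Subtype.ext (mul_inv_eq_one.mp h5).symm
    rw [h6, h7]
  have h1 := Nat.card_le_card_of_injective _ hinj
  rw [Nat.card_prod, hDc, hT] at h1
  exact Nat.le_of_mul_le_mul_right h1 Nat.card_pos

theorem main (H : Subgroup G) (hO : pCore 2 ↥H ≠ ⊥) (n : ℕ) (hn : 2 ≤ n)
    (hdih : Nonempty (↥H ⧸ pCore 2 ↥H ≃* DihedralGroup n))
    (P : Subgroup G) (hPH : P ≤ H) (hP : IsPGroup 2 P) (hPsyl : ¬ 2 ∣ P.relIndex H) (y : G)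
    (hy2 : y * y ∈ P ⊔ centralizer (P : Set G)) (hyN : cj y P = P)
    (hyQ : ∀ Q : Subgroup G, Q ≤ P → H ≤ normalizer (Q : Set G) → cj y Q = Q → Q = ⊥) :
    (Nat.card P = 4 ∨ Nat.card P = 8 ∨ Nat.card P = 16) ∧
    (Nonempty (↥H ⧸ oddCore ↥H ≃* Multiplicative (ZMod 2) × Multiplicative (ZMod 2)) ∨
     Nonempty (↥H ⧸ oddCore ↥H ≃* Equiv.Perm (Fin 4)) ∨
     Nonempty (↥H ⧸ oddCore ↥H ≃* Equiv.Perm (Fin 4) × Multiplicative (ZMod 2))) := by
  classical
  have hP' : IsPGroup 2 (P.subgroupOf H) := hP.comap_subtype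
  obtain ⟨hodd, φ, hsurj, hker, hQP', hL, hPc', d, hd⟩ := setup hn hdih hP' hPsyl
  set Q : Subgroup G := pCoreOf 2 H with hQdef
  have hQcard : Nat.card Q = Nat.card (pCore 2 ↥H) :=
    (Nat.card_congr ((pCore 2 ↥H).equivMapOfInjective _ H.subtype_injective).toEquiv).symm
  have hQP : Q ≤ P := by
    rintro _ ⟨x, hx, rfl⟩
    exact hQP' hx
  have hPc : Nat.card P = 2 * Nat.card Q := by
    rw [hQcard, ← hPc']
    exact (Nat.card_congr (Subgroup.subgroupOfEquivOfLe hPH).toEquiv).symm
  have hnQ : H ≤ normalizer (Q : Set G) := H52.PCore.le_normalizer_pCoreOf H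
  have hgen : H ≤ P ⊔ cj (d : G) P := by
    intro x hx
    have h1 : H.subtype ⟨x, hx⟩ ∈ (P.subgroupOf H ⊔ cj d (P.subgroupOf H)).map H.subtype := ⟨_, hd ⟨x, hx⟩, rfl⟩
    rw [Subgroup.map_sup] at h1
    have h2 : (P.subgroupOf H).map H.subtype = P := Subgroup.map_subgroupOf_eq_of_le hPH
    have h3 : (cj d (P.subgroupOf H)).map H.subtype = cj (d : G) P := by
      ext w
      rw [mem_cj]
      constructor
      · rintro ⟨v, hv, rfl⟩
        rw [SetLike.mem_coe, mem_cj] at hv
        exact hv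
      · intro hw
        have hwH : w ∈ H := by
          have h4 : w = d * ((d : G)⁻¹ * w * d) * (d : G)⁻¹ := by group
          rw [h4]
          exact mul_mem (mul_mem d.2 (hPH hw)) (inv_mem d.2)
        refine ⟨⟨w, hwH⟩, ?_, rfl⟩
        rw [SetLike.mem_coe, mem_cj]
        exact hw
    rw [h2, h3] at h1
    exact h1
  have hyy : ∀ A : Subgroup G, A ≤ P → P ≤ normalizer (A : Set G) → cj (y * y) A = A := by
    intro A hA hPA
    rw [← mem_normalizer_iff_cj]
    refine (sup_le hPA ?_ : P ⊔ centralizer (P : Set G) ≤ _) hy2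
    exact (Subgroup.centralizer_le hA).trans (Subgroup.centralizer_le_normalizer _)
  have hyle : ∀ A : Subgroup G, A ≤ P → cj y A ≤ P := by
    intro A hA
    rw [← hyN]; exact cj_le_cj.mpr hA
  have hyle' : ∀ A : Subgroup G, A ≤ P → cj y⁻¹ A ≤ P := by
    intro A hA
    rw [cj_le_iff, inv_inv, hyN]; exact hA
  have core : ∀ N : Subgroup G, N ≤ P → H ≤ normalizer (N : Set G) → cj y H ≤ normalizer (N : Set G) → N = ⊥ := by
    intro N hN h1 h2
    have h3 : H ≤ normalizer ((cj y⁻¹ N : Subgroup G) : Set G) := by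
      rw [← cj_normalizer, le_cj_iff, inv_inv]; exact h2
    have h4 : cj y N = cj y⁻¹ N := by
      have h5 := hyy _ (hyle' N hN) (hPH.trans h3)
      rw [← h5, cj_cj]
      congr 1; group
    have h5 : N ⊔ cj y N = ⊥ := by
      apply hyQ
      · exact sup_le hN (hyle N hN)
      · rw [h4, le_normalizer_iff_forall_cj]
        intro g hg
        rw [cj_sup, le_normalizer_iff_forall_cj.mp h1 g hg, le_normalizer_iff_forall_cj.mp h3 g hg]
      · rw [cj_sup, cj_cj, hyy N hN (hPH.trans h1), sup_comm]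
    exact le_bot_iff.mp (le_sup_left.trans h5.le)
  have hQ1 : Q ≠ ⊥ := by
    intro h
    apply hO
    rw [← Subgroup.card_eq_one, ← hQcard, h, Subgroup.card_bot]
  have hyQQ : cj (y * y) Q = Q := hyy Q hQP (hPH.trans hnQ)
  have hDy : cj y (Q ⊓ cj y Q) = Q ⊓ cj y Q := by
    rw [cj_inf, cj_cj, hyQQ, inf_comm]
  have hPH' : P ≤ cj y H := by
    rw [← hyN]; exact cj_le_cj.mpr hPH
  have hnQ' : cj y H ≤ normalizer (cj y Q : Set G) := by
    rw [← cj_normalizer]; exact cj_le_cj.mpr hnQ
  have hztN : cj y (zt P) = zt P := by rw [H65.Tri.zt_cj, hyN]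
  have hrel : Q.relIndex P = 2 := by
    have h1 := (Q.subgroupOf P).card_mul_index
    rw [Nat.card_congr (Subgroup.subgroupOfEquivOfLe hQP).toEquiv, hPc, mul_comm 2] at h1
    exact Nat.eq_of_mul_eq_mul_left Nat.card_pos h1
  by_cases hzQ : zt P ≤ Q
  · -- main case
    let PP : Bool → Subgroup G := fun b => cond b H (cj y H)
    let QQ : Bool → Subgroup G := fun b => cond b Q (cj y Q)
    have hall : ∀ {p : Bool → Prop}, p true → p false → ∀ i, p i := by
      intro p h1 h2 i
      cases i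
      · exact h2
      · exact h1
    have hzQ' : zt P ≤ cj y Q := by rw [← hztN]; exact cj_le_cj.mpr hzQ
    have hPb : P ≠ ⊥ := by
      rintro rfl
      rw [Subgroup.card_bot] at hPc
      omega
    have hz1 : zt P ≠ ⊥ := zt_ne_bot hP hPb
    have hnz : ¬ H ≤ centralizer (zt P : Set G) := by
      intro h
      exact hz1 (hyQ _ zt_le (h.trans (Subgroup.centralizer_le_normalizer _)) hztN)
    have hnz' : ¬ cj y H ≤ centralizer (zt P : Set G) := by
      intro h
      apply hnz
      have h2 : cj y H ≤ cj y (centralizer (zt P : Set G)) := by rwa [cj_centralizer, hztN]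
      exact cj_le_cj.mp h2
    have hrel' : (cj y Q).relIndex P = 2 := by
      nth_rewrite 1 [← hyN]; rw [relIndex_cj]; exact hrel
    have hAm : Am PP QQ P := by
      refine ⟨hall hPH hPH', hall hQP (hyle Q hQP), hall hnQ hnQ', hall ?_ ?_, hall ?_ ?_, hall ?_ ?_, ?_,
        hall hzQ hzQ', hz1, hall hnz hnz'⟩
      · exact (idx_of_relIndex hrel).1
      · exact (idx_of_relIndex hrel').1
      · exact (idx_of_relIndex hrel).2
      · exact (idx_of_relIndex hrel').2
      · exact ⟨d, d.2, hgen⟩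
      · refine ⟨y * d * y⁻¹, conj_mem_cj.mpr d.2, ?_⟩
        have h1 : cj y H ≤ cj y (P ⊔ cj (d : G) P) := cj_le_cj.mpr hgen
        rw [cj_sup, hyN, cj_cj] at h1
        have h2 : cj (y * d * y⁻¹) P = cj (y * d) P := by
          rw [← cj_cj (y * d) y⁻¹ P]
          congr 1
          rw [cj_eq_iff, inv_inv, hyN]
        show cj y H ≤ P ⊔ cj (y * d * y⁻¹) P
        rw [h2]; exact h1
      · intro N hN h
        exact core N hN (h true) (h false)
    have hnY : ¬ H ≤ normalizer ((Q ⊓ cj y Q : Subgroup G) : Set G) := by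
      intro h
      have h1 := hyQ _ (inf_le_left.trans hQP) h hDy
      apply hz1
      rw [eq_bot_iff, ← h1]
      exact le_inf hzQ hzQ'
    have hY : ∀ l, ¬ YY PP QQ l := by
      apply hall
      · exact hnY
      · intro h
        have h1 : cj y H ≤ normalizer ((Q ⊓ cj y Q : Subgroup G) : Set G) := h
        rw [← hDy, ← cj_normalizer, cj_le_cj] at h1
        exact hnY h1
    have s := hAm.struct (hAm.b_one' hY)
    have hcz := s.card_Q hAm true
    have hcC := s.card_C hAm true
    have hcQ : Nat.card Q = 2 * Nat.card (zt P) := hcz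
    set C : Subgroup G := CC PP P true with hC
    have hCH : ∀ c ∈ C, ∀ x ∈ H, x * c = c * x := by
      intro c hc x hx
      exact mem_centralizer_iff.mp (mem_inf.mp hc).2 x hx
    have hCz : C ≤ zt P := inf_le_left
    obtain ⟨z, hz, hzC⟩ : ∃ z ∈ zt P, z ∉ C := by
      by_contra hcon
      push Not at hcon
      have h1 : C = zt P := le_antisymm hCz hcon
      rw [← h1] at hcC
      have : 0 < Nat.card C := Nat.card_pos
      omega
    obtain ⟨t, ht, htQ⟩ := Set.not_subset.mp (s.nle false)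
    have hzH : z ∈ H := hPH hz.1
    have htH : t ∈ H := hPH ((hyle Q hQP) ht)
    have hQs : (pCore 2 ↥H) = Q.subgroupOf H := (H52.PCore.pCoreOf_subgroupOf H).symm
    have hCs : Nat.card (C.subgroupOf H) = Nat.card C :=
      Nat.card_congr (Subgroup.subgroupOfEquivOfLe ((hCz.trans zt_le).trans hPH)).toEquiv
    have hPcent : P.subgroupOf H ≤ centralizer ({⟨z, hzH⟩} : Set H) := by
      intro x hx
      rw [mem_centralizer_singleton_iff]
      exact Subtype.ext (hz.2.1 x hx)
    obtain ⟨Q', C', t', hdat, hC'⟩ := fin_dat (L := H) (Q := pCore 2 ↥H) (E := C.subgroupOf H) inferInstance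
      (by
        intro q hq
        rw [hQs] at hq
        exact Subtype.ext (s.sq1 true q hq))
      (by
        rw [hQs]
        intro x hx
        exact hzQ (hCz hx))
      (fun e he x => Subtype.ext (hCH e he x x.2))
      (by rw [hCs, ← hQcard, hcQ, hcC]; ring)
      (z := ⟨z, hzH⟩) (by rw [hQs]; exact hzQ hz) hzC
      (by
        have h1 : (centralizer ({⟨z, hzH⟩} : Set H)).index ∣ (P.subgroupOf H).index :=
          Subgroup.index_dvd_of_le hPcent
        have h2 : ¬ 2 ∣ (P.subgroupOf H).index := hPsyl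
        rw [← Nat.not_even_iff_odd, even_iff_two_dvd]
        exact fun h => h2 (h.trans h1))
      (by
        intro hnor
        apply hzC
        have h1 : ∀ x, x ∈ centralizer ({⟨z, hzH⟩} : Set H) := by
          intro x
          refine (sup_le hPcent ?_ : _ ≤ _) (hd x)
          intro w hw
          rw [mem_cj] at hw
          have h2 := hnor.conj_mem _ (hPcent hw) d
          have h3 : d * (d⁻¹ * w * d) * d⁻¹ = w := by group
          rwa [h3] at h2
        refine mem_inf.mpr ⟨hz, mem_centralizer_iff.mpr ?_⟩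
        intro x hx
        have h4 := mem_centralizer_singleton_iff.mp (h1 ⟨x, hx⟩)
        exact congrArg Subtype.val h4)
      hodd hL (t := ⟨t, htH⟩) (Subtype.ext (s.sq1 false t ht)) (by rw [hQs]; exact htQ)
    rcases s.card hAm with ⟨h1, h2⟩ | ⟨h1, h2⟩
    · refine ⟨Or.inr (Or.inl ?_), Or.inr (Or.inl ?_)⟩
      · rw [hPc, hcQ, h1]
      · exact hdat.iso1 (by rw [hC', hCs]; exact h2 true)
    · refine ⟨Or.inr (Or.inr ?_), Or.inr (Or.inr ?_)⟩
      · rw [hPc, hcQ, h1]
      · exact hdat.iso2 (by rw [hC', hCs]; exact h2 true)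
  · obtain ⟨z, hz, hzQ⟩ := Set.not_subset.mp hzQ
    have hzH : z ∈ H ⊓ centralizer (Q : Set G) :=
      ⟨hPH hz.1, mem_centralizer_iff.mpr fun q hq => hz.2.1 q (hQP hq)⟩
    set W := Q ⊔ (H ⊓ centralizer (Q : Set G)) with hW
    have hHW : H ≤ normalizer (W : Set G) := by
      rw [le_normalizer_iff_forall_cj]
      intro g hg
      rw [hW, cj_sup, cj_inf, cj_centralizer, le_normalizer_iff_forall_cj.mp hnQ g hg, cj_eq_self_of_mem hg]
    have hPW : P ≤ W := by
      intro x hx
      rcases (idx_of_relIndex hrel).2 z hz.1 hzQ x hx with h | h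
      · exact (le_sup_left : Q ≤ W) h
      · have h1 : x = z * (z⁻¹ * x) := by group
        rw [h1]
        exact mul_mem ((le_sup_right : _ ≤ W) hzH) ((le_sup_left : Q ≤ W) h)
    have hHleW : H ≤ W := by
      refine hgen.trans (sup_le hPW ?_)
      rw [← le_normalizer_iff_forall_cj.mp hHW d d.2]
      exact cj_le_cj.mpr hPW
    have hPD : P ≤ normalizer ((Q ⊓ cj y Q : Subgroup G) : Set G) := by
      rw [le_normalizer_iff_forall_cj]
      intro g hg
      rw [cj_inf, le_normalizer_iff_forall_cj.mp hnQ g (hPH hg), le_normalizer_iff_forall_cj.mp hnQ' g (hPH' hg)]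
    have hD : Q ⊓ cj y Q = ⊥ := by
      apply hyQ _ (inf_le_left.trans hQP) _ hDy
      refine hHleW.trans (sup_le (hQP.trans hPD) ?_)
      refine (inf_le_right.trans (Subgroup.centralizer_le ?_)).trans (Subgroup.centralizer_le_normalizer _)
      exact fun x hx => hx.1
    have h2 : Nat.card Q ≤ 2 := card_le_two hQP (hyle Q hQP) (card_cj y Q) hPc hD
    have h2' : Nat.card Q = 2 := by
      have h3 : 0 < Nat.card Q := Nat.card_pos
      have h4 : Nat.card Q ≠ 1 := fun h => hQ1 (Subgroup.card_eq_one.mp h)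
      omega
    have hP4 : Nat.card P = 4 := by rw [hPc, h2']
    have hQsq : ∀ q ∈ Q, q * q = 1 := by
      intro q hq
      have h1 := pow_card_eq_one' (x := (⟨q, hq⟩ : Q))
      rw [h2', pow_two] at h1
      exact congrArg Subtype.val h1
    have hPsq : ∀ x ∈ P, x * x = 1 := by
      intro x hx
      rcases (idx_of_relIndex hrel).2 z hz.1 hzQ x hx with h | h
      · exact hQsq x h
      · have h1 := hQsq _ h
        have h3 := hz.2.1 x hx
        have h4 : x * x = (z * z) * ((z⁻¹ * x) * (z⁻¹ * x)) := by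
          have h5 : z⁻¹ * x = x * z⁻¹ := by
            rw [inv_mul_eq_iff_eq_mul, ← mul_assoc, ← h3]; group
          calc x * x = z * z * (z⁻¹ * (z⁻¹ * x)) * x := by group
            _ = z * z * (z⁻¹ * (x * z⁻¹)) * x := by rw [h5]
            _ = _ := by group
        rw [h4, h1, hz.2.2, one_mul]
    refine ⟨Or.inl hP4, Or.inl ?_⟩
    refine fin_klein hodd φ hsurj (by rw [hker, ← hQcard]; exact h2') (P := P.subgroupOf H) (by rw [hker]; exact hQP')
      ?_ ?_
    · rw [Nat.card_congr (Subgroup.subgroupOfEquivOfLe hPH).toEquiv]; exact hP4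
    · intro x hx
      exact Subtype.ext (hPsq x hx)

end H65.MD
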