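import Cfsg.Agent.Lib.H65.Irr
import Cfsg.Agent.Lib.H51.S4Section3

set_option autoImplicit false

/-! `S₄`-free groups act without section `S₃` on their elementary abelian 2-sections. -/

namespace H65.S4Lem

open Subgroup Cfsg H65.Sect H65.Irr

universe u

theorem sf_of_s4free {X : Type u} [Group X] [Finite X] {L V W Y : Subgroup X} (h : Sec L V W) (hLY : L ≤ Y)
    (hVY : V ≤ Y) (hfree : ¬ Involves (Equiv.Perm (Fin 4)) Y) : SF L (act V W) := by
  intro K hKL f hf hsurj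
  apply hfree
  let N : Subgroup X := L ⊔ V
  have hNY : N ≤ Y := sup_le hLY hVY
  refine H51.Involves.involves_of_injective (Subgroup.inclusion hNY) (Subgroup.inclusion_injective hNY) ?_
  have hNW : N ≤ normalizer (W : Set X) := sup_le h.nW h.VW
  have hWN : W ≤ N := h.le.trans le_sup_right
  have hVN : V ≤ N := le_sup_right
  have hLN : L ≤ N := le_sup_left
  have : (W.subgroupOf N).Normal := (Subgroup.normal_subgroupOf_iff_le_normalizer hWN).mpr hNW
  let π := QuotientGroup.mk' (W.subgroupOf N)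
  refine H51.Involves.involves_of_hom π (QuotientGroup.mk'_surjective _) ?_
  let T := (V.subgroupOf N).map π
  have hT : IsPGroup 2 T := by
    rintro ⟨_, v, hv, rfl⟩
    refine ⟨1, Subtype.ext ?_⟩
    show (π v) ^ (2 ^ 1) = 1
    rw [pow_one, ← map_pow]
    apply (QuotientGroup.eq_one_iff _).mpr
    rw [pow_two]
    exact h.sq v hv
  have hKT : ∀ k : K, π ⟨k, hLN (hKL k.2)⟩ ∈ normalizer (T : Set (N ⧸ W.subgroupOf N)) := by
    have key : ∀ k : K, ∀ t ∈ T, π ⟨k, hLN (hKL k.2)⟩ * t * (π ⟨k, hLN (hKL k.2)⟩)⁻¹ ∈ T := by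
      rintro k _ ⟨v, hv, rfl⟩
      refine ⟨⟨k, hLN (hKL k.2)⟩ * v * ⟨k, hLN (hKL k.2)⟩⁻¹, ?_, by simp⟩
      exact (mem_normalizer_iff.mp (h.nV (hKL k.2)) v).mp hv
    intro k
    rw [mem_normalizer_iff]
    intro t
    refine ⟨key k t, fun ht => ?_⟩
    have h2 := key k⁻¹ _ ht
    have h3 : π ⟨(k⁻¹ : K), hLN (hKL (k⁻¹).2)⟩ = (π ⟨k, hLN (hKL k.2)⟩)⁻¹ := rfl
    rw [h3] at h2
    simpa [mul_assoc] using h2
  let j : K →* normalizer (T : Set (N ⧸ W.subgroupOf N)) :=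
    (π.comp ((Subgroup.inclusion hLN).comp (Subgroup.inclusion hKL))).codRestrict _ hKT
  let φ := (QuotientGroup.mk' ((centralizer (T : Set (N ⧸ W.subgroupOf N))).subgroupOf
    (normalizer (T : Set (N ⧸ W.subgroupOf N))))).comp j
  have hker : φ.ker ≤ f.ker := by
    intro k hk
    rw [MonoidHom.mem_ker] at hk ⊢
    apply hf
    have h1 : j k ∈ (centralizer (T : Set (N ⧸ W.subgroupOf N))).subgroupOf
      (normalizer (T : Set (N ⧸ W.subgroupOf N))) := (QuotientGroup.eq_one_iff _).mp hk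
    have h2 : π ⟨k, hLN (hKL k.2)⟩ ∈ centralizer (T : Set (N ⧸ W.subgroupOf N)) := h1
    refine ⟨h.nV (hKL k.2), h.nW (hKL k.2), fun v hv => ?_⟩
    let k' : N := ⟨k, hLN (hKL k.2)⟩
    let v' : N := ⟨v, hVN hv⟩
    have h3 : π v' * π k' = π k' * π v' := mem_centralizer_iff.mp h2 (π v') ⟨v', hv, rfl⟩
    have h4 : π (k' * v' * k'⁻¹ * v'⁻¹) = 1 := by
      rw [map_mul, map_mul, map_mul, map_inv, map_inv, ← h3, mul_inv_cancel_right, mul_inv_cancel]
    have h5 : k' * v' * k'⁻¹ * v'⁻¹ ∈ W.subgroupOf N := (QuotientGroup.eq_one_iff _).mp h4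
    exact h5
  exact H51.S4Section3.backward hT (H51.S4Section3.involves_of_ker_le φ f hsurj hker)

end H65.S4Lem
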