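import Cfsg.Agent.Lib.H65.TheoremB2
import Cfsg.Agent.Lib.H65.S4Lem

set_option autoImplicit false

/-! Passing to the model of a section: strong inequality and quadratic offender theorem in a nonfaithful setting. -/

namespace H65.Model

open Subgroup Cfsg H65.Sect H65.Irr H65.SectGen H65.MaxLocal H65.TheoremB

universe u

section Mod

variable {X Y : Type u} [Group X] [Group Y] {L V W : Subgroup X} {h : Sec L V W} {i : V →* Y} {j : L →* Y}
  (hij : ∀ l v, j l * i v * (j l)⁻¹ = i (psi h l v)) (hi : ∀ v : V, i v = 1 ↔ (v : X) ∈ W)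
  (hj : ∀ l : L, j l = 1 ↔ (l : X) ∈ act V W)

include h hi in
theorem el_range : IsElementaryAbelian 2 i.range := by
  apply el_of_comm
  · rintro _ ⟨v, rfl⟩ _ ⟨u, rfl⟩
    have h1 : i (v * u * v⁻¹ * u⁻¹) = 1 := (hi _).mpr (h.comm v v.2 u u.2)
    rw [map_mul, map_mul, map_mul, map_inv, map_inv, mul_inv_eq_one, mul_inv_eq_iff_eq_mul] at h1
    exact h1
  · rintro _ ⟨v, rfl⟩
    rw [← map_mul, hi]
    exact h.sq v v.2

include hij in
theorem le_norm : j.range ≤ normalizer (i.range : Set Y) := by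
  rw [le_normalizer_iff]
  rintro _ ⟨l, rfl⟩ _ ⟨v, rfl⟩
  rw [hij]
  exact ⟨_, rfl⟩

include hij hi hj in
theorem faithful : j.range ⊓ centralizer (i.range : Set Y) = ⊥ := by
  rw [eq_bot_iff]
  rintro _ ⟨⟨l, rfl⟩, hl⟩
  rw [mem_bot, hj]
  refine ⟨h.nV l.2, h.nW l.2, fun v hv => ?_⟩
  have h1 : i ⟨v, hv⟩ * j l = j l * i ⟨v, hv⟩ := mem_centralizer_iff.mp hl _ ⟨_, rfl⟩
  have h2 : i (psi h l ⟨v, hv⟩ * (⟨v, hv⟩ : V)⁻¹) = 1 := by
    rw [map_mul, map_inv, ← hij, ← h1, mul_inv_cancel_right, mul_inv_cancel]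
  exact (hi _).mp h2

include hij hi in
theorem relIndex_fix {A : Subgroup X} (hAL : A ≤ L) :
    (i.range ⊓ centralizer (((A.subgroupOf L).map j : Subgroup Y) : Set Y)).relIndex i.range =
      (fix V W A).relIndex V := by
  rw [inf_relIndex_left, ← Subgroup.index_comap]
  show _ = ((fix V W A).subgroupOf V).index
  congr 1
  ext v
  rw [mem_comap, mem_subgroupOf, mem_fix, mem_centralizer_iff]
  constructor
  · intro hv
    refine ⟨v.2, h.VW v.2, fun a ha => ?_⟩
    have h1 := hv (j ⟨a, hAL ha⟩) ⟨⟨a, hAL ha⟩, ha, rfl⟩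
    have h2 : i (psi h ⟨a, hAL ha⟩ v * v⁻¹) = 1 := by
      rw [map_mul, map_inv, ← hij, h1, mul_inv_cancel_right, mul_inv_cancel]
    exact (hi _).mp h2
  · rintro ⟨-, -, hv⟩ _ ⟨a, ha, rfl⟩
    have h2 : i (psi h a v * v⁻¹) = 1 := (hi _).mpr (hv a ha)
    rw [map_mul, map_inv, ← hij, mul_inv_eq_one, mul_inv_eq_iff_eq_mul] at h2
    exact h2

include hj in
theorem card_map {A : Subgroup X} (hAL : A ≤ L) :
    Nat.card ((A.subgroupOf L).map j) = (A ⊓ act V W).relIndex A := by
  rw [← Subgroup.relIndex_ker, inf_relIndex_left]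
  have : j.ker = (act V W).subgroupOf L := by
    ext l
    rw [MonoidHom.mem_ker, hj, mem_subgroupOf]
  rw [this, Subgroup.relIndex_subgroupOf hAL]

include hj in
theorem sf_range (hS3 : SF L (act V W)) : SF j.range ⊥ := by
  intro K0 hK0 f _ hf
  let g : L →* j.range := j.rangeRestrict
  have hg : Function.Surjective g := j.rangeRestrict_surjective
  -- the preimage
  let K1 : Subgroup L := K0.comap j
  let K := K1.map L.subtype
  let e : K1 ≃* K := K1.equivMapOfInjective L.subtype L.subtype_injective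
  let q : K1 →* K0 := (j.comp K1.subtype).codRestrict K0 (fun x => x.2)
  have hq : Function.Surjective q := by
    rintro ⟨y, hy⟩
    obtain ⟨l, rfl⟩ := hK0 hy
    exact ⟨⟨l, hy⟩, rfl⟩
  refine hS3 K (Subgroup.map_subtype_le _) (f.comp (q.comp e.symm.toMonoidHom)) ?_ ?_
  · intro k hk
    have h1 : ((e.symm k : K1) : L) = (k : X) := by
      have : ((e (e.symm k) : K) : X) = (k : X) := by rw [e.apply_symm_apply]
      exact this
    have h2 : q (e.symm k) = 1 := by
      apply Subtype.ext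
      show j ((e.symm k : K1) : L) = 1
      rw [hj, h1]; exact hk
    show f (q (e.symm k)) = 1
    rw [h2, map_one]
  · exact hf.comp (hq.comp e.symm.surjective)

end Mod

variable {X : Type u} [Group X] [Finite X]

/-- Quadratic offender theorem in the nonfaithful setting. -/
theorem quad {H V : Subgroup X} (hsol : Group.IsSolvable H) (hfree : ¬ Involves (Equiv.Perm (Fin 4)) H)
    (hVH : V ≤ H) (hV : IsElementaryAbelian 2 V) (hHV : H ≤ normalizer (V : Set X))
    (hstar : ∀ P R : Subgroup X, R ≤ H → H ≤ normalizer (R : Set X) → Mod2 R (centralizer (V : Set X)) → P ≤ R →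
      (∀ a ∈ P, a * a ∈ centralizer (V : Set X)) →
      (∀ a ∈ P, ∀ b ∈ P, a * b * a⁻¹ * b⁻¹ ∈ centralizer (V : Set X)) →
      ((P ⊓ centralizer (V : Set X)).relIndex P) ^ 2 ≤ (V ⊓ centralizer (P : Set X)).relIndex V)
    {A : Subgroup X} (hAH : A ≤ H) (hA : IsElementaryAbelian 2 A)
    (hquad : ∀ a ∈ A, ∀ b ∈ A, ∀ v ∈ V, b * (a * v * a⁻¹ * v⁻¹) = (a * v * a⁻¹ * v⁻¹) * b)
    (hle : (V ⊓ centralizer (A : Set X)).relIndex V ≤ (A ⊓ centralizer (V : Set X)).relIndex A) :
    A ≤ centralizer (V : Set X) := by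
  have h2f : Fact (Nat.Prime 2) := ⟨Nat.prime_two⟩
  have hsec : Sec H V ⊥ := sec_bot hV hHV
  have hSF : SF H (act V ⊥) := H65.S4Lem.sf_of_s4free hsec le_rfl hVH hfree
  obtain ⟨Y, _, _, i, j, hij, hi, hj⟩ := exists_model hsec
  have hsolM : Group.IsSolvable j.range := by
    have := hsol
    exact Group.isSolvable_of_surjective j.rangeRestrict_surjective
  have hR : ∀ P' : Subgroup Y, P' ≤ opc 2 j.range → IsElementaryAbelian 2 P' →
      Nat.card P' ^ 2 ≤ (i.range ⊓ centralizer (P' : Set Y)).relIndex i.range := by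
    intro P' hP' hP'el
    have hP'j : P' ≤ j.range := hP'.trans opc_le
    let P : Subgroup X := (P'.comap j).map H.subtype
    let R : Subgroup X := ((opc 2 j.range).comap j).map H.subtype
    have hPH : P ≤ H := Subgroup.map_subtype_le _
    have hPsub : P.subgroupOf H = P'.comap j := by
      show (((P'.comap j).map H.subtype).comap H.subtype) = _
      exact Subgroup.comap_map_eq_self_of_injective H.subtype_injective _
    have hPmap : (P.subgroupOf H).map j = P' := by
      rw [hPsub]; exact Subgroup.map_comap_eq_self hP'j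
    have h1 := hstar P R (Subgroup.map_subtype_le _) (by
      rw [le_normalizer_iff]
      rintro x hx _ ⟨r, hr, rfl⟩
      refine ⟨⟨x, hx⟩ * r * ⟨x, hx⟩⁻¹, ?_, rfl⟩
      show j _ ∈ opc 2 j.range
      rw [map_mul, map_mul, map_inv]
      exact (mem_normalizer_iff.mp (le_normalizer_opc (show j ⟨x, hx⟩ ∈ j.range from ⟨_, rfl⟩)) _).mp hr) (by
      rintro _ ⟨r, hr, rfl⟩
      obtain ⟨k, hk⟩ := (isPGroup_opc (p := 2) (M := j.range)) ⟨j r, hr⟩
      refine ⟨k, ?_⟩
      have h2 : j r ^ (2 ^ k) = 1 := congrArg Subtype.val hk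
      rw [← map_pow, hj, act_bot] at h2
      exact h2) (Subgroup.map_mono (Subgroup.comap_mono hP')) (by
      rintro _ ⟨r, hr, rfl⟩
      have h2 : j (r * r) = 1 := by rw [map_mul]; exact sq_of_el hP'el _ hr
      rw [hj, act_bot] at h2
      exact h2) (by
      rintro _ ⟨r, hr, rfl⟩ _ ⟨s, hs, rfl⟩
      have h2 : j (r * s * r⁻¹ * s⁻¹) = 1 := by
        rw [map_mul, map_mul, map_mul, map_inv, map_inv, comm_of_el hP'el _ hr _ hs, mul_inv_cancel_right,
          mul_inv_cancel]
      rw [hj, act_bot] at h2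
      exact h2)
    have h3 := card_map hj hPH
    have h4 := relIndex_fix hij hi hPH
    rw [hPmap] at h3 h4
    rw [act_bot] at h3
    rw [fix_bot] at h4
    rw [h3, h4]; exact h1
  have hA' : IsElementaryAbelian 2 ((A.subgroupOf H).map j) := by
    apply el_of_comm
    · rintro _ ⟨a, ha, rfl⟩ _ ⟨b, hb, rfl⟩
      rw [← map_mul, ← map_mul]
      congr 1
      exact Subtype.ext (comm_of_el hA a ha b hb)
    · rintro _ ⟨a, ha, rfl⟩
      rw [← map_mul, ← map_one j]
      congr 1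
      exact Subtype.ext (sq_of_el hA a ha)
  have hA1 := H65.TheoremB2.main (el_range (h := hsec) hi) (le_norm hij) (faithful hij hi hj) hsolM (sf_range hj hSF) hR
    (A := (A.subgroupOf H).map j) (by rintro _ ⟨a, _, rfl⟩; exact ⟨a, rfl⟩) hA' (by
      rw [relIndex_fix hij hi hAH, card_map hj hAH, fix_bot, act_bot]
      exact hle) (by
      rintro _ ⟨a, ha, rfl⟩ _ ⟨b, hb, rfl⟩ _ ⟨v, rfl⟩
      rw [hij, ← map_inv i, ← map_mul i]
      have h1 := hij b (psi hsec a v * v⁻¹)
      have h2 : psi hsec b (psi hsec a v * v⁻¹) = psi hsec a v * v⁻¹ := by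
        apply Subtype.ext
        show (b : X) * (((a : X) * (v : X) * (a : X)⁻¹) * (v : X)⁻¹) * (b : X)⁻¹ =
          ((a : X) * (v : X) * (a : X)⁻¹) * (v : X)⁻¹
        rw [hquad a ha b hb v v.2, mul_inv_cancel_right]
      rw [h2] at h1
      exact mul_inv_eq_iff_eq_mul.mp h1)
  intro a ha
  have h1 : j ⟨a, hAH ha⟩ ∈ (A.subgroupOf H).map j := ⟨_, ha, rfl⟩
  rw [hA1, mem_bot, hj, act_bot] at h1
  exact h1

end H65.Model
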