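import Cfsg.Agent.Lib.H65.NX9

/-!
Class I: `z` is the only involution commuting with a nontrivial odd order element of `C(z)`.
-/
set_option autoImplicit false
set_option linter.unusedSectionVars false
set_option linter.style.haveILetI false

namespace H65.NX

open Subgroup
open scoped Pointwise

section gen

variable {G : Type*} [Group G]

theorem conj_into {M : Subgroup G} [Finite G] (T : Sylow 2 G) (hTM : (T : Subgroup G) ≤ M)
    {P : Subgroup G} (hP : IsPGroup 2 P)
    (hPM : P ≤ M) : ∃ h ∈ M, ∀ p ∈ P, h * p * h⁻¹ ∈ (T : Subgroup G) := by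
  haveI : Fact (Nat.Prime 2) := ⟨Nat.prime_two⟩
  have h2 : IsPGroup 2 ↥(P.subgroupOf M) := hP.of_equiv (Subgroup.subgroupOfEquivOfLe hPM).symm
  obtain ⟨R, hR⟩ := h2.exists_le_sylow
  obtain ⟨g, hg⟩ := MulAction.exists_smul_eq M R (T.subtype hTM)
  refine ⟨g, g.2, fun p hp => ?_⟩
  have h3 : (⟨p, hPM hp⟩ : M) ∈ R := hR hp
  have h4 : g * ⟨p, hPM hp⟩ * g⁻¹ ∈ T.subtype hTM := by
    rw [← hg]
    exact ⟨_, h3, rfl⟩
  exact h4

structure C1 (T : Subgroup G) (z : G) : Prop extends TwoC T z where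
  uniq : ∀ x i : G, x ≠ 1 → Odd (orderOf x) → x * z = z * x → i ≠ 1 → i * i = 1 →
    i * x = x * i → i = z

theorem inv_odd (hN : Nest G) {z r x : G} (hz1 : z ≠ 1) (hz2 : z * z = 1)
    (huniq : ∀ x i : G, x ≠ 1 → Odd (orderOf x) → x * z = z * x → i ≠ 1 → i * i = 1 →
      i * x = x * i → i = z)
    (hr : r * z = z * r) (hr1 : r ≠ 1) (hr2 : r * r = 1) (hrz : r ≠ z) (hxo : Odd (orderOf x))
    (hx : x * z = z * x) : r * x * r⁻¹ = x⁻¹ := by
  obtain ⟨k, hk⟩ := hN.odd' z x r hz1 hz2 hxo hx hr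
  have hk : x ^ k = r * x * r⁻¹ := hk
  have hri : r⁻¹ = r := inv_eq_of_mul_eq_one_left hr2
  set y := x * (r * x * r⁻¹) with hy
  have hyk : y = x ^ (1 + k) := by rw [hy, ← hk, zpow_add, zpow_one]
  have hry : r * y = y * r := by
    have h1 : r * y * r⁻¹ = y := by
      calc r * y * r⁻¹ = (r * x * r⁻¹) * (r * r * x * (r⁻¹ * r⁻¹)) := by rw [hy]; group
        _ = x ^ k * x := by rw [hri, hr2, hk, hri]; group
        _ = y := by rw [hyk, zpow_add, zpow_one]; exact (Commute.zpow_self x k).eq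
    exact mul_inv_eq_iff_eq_mul.mp h1
  have hyz : y * z = z * y := by
    rw [hyk]; exact (show Commute x z from hx).zpow_left _
  have hyo : Odd (orderOf y) := by
    apply Odd.of_dvd_nat hxo
    rw [hyk]; exact orderOf_dvd_of_mem_zpowers ⟨1 + k, rfl⟩
  by_cases hy1 : y = 1
  · rw [eq_comm, inv_eq_iff_mul_eq_one]; exact hy1
  · exact absurd (huniq y r hy1 hyo hyz hr1 hr2 hry) hrz

theorem comm_of_zmem (hN : Nest G) {z u x : G} (hz1 : z ≠ 1) (hz2 : z * z = 1)
    (hzu : z ∈ zpowers u) {k : ℕ} (hu : orderOf u = 2 ^ k) (hxo : Odd (orderOf x))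
    (hx : x * z = z * x) : u * x = x * u := by
  have huz : u * z = z * u := by
    obtain ⟨m, rfl⟩ := hzu
    exact (Commute.self_zpow u m)
  apply comm_of_coprime (hN.odd' z x u hz1 hz2 hxo hx huz) (hN.cyc z u x hz1 hz2 hzu hx)
  rw [hu]
  exact Nat.Coprime.pow_left _ (Nat.coprime_two_left.mpr hxo)

end gen

/-- the data obtained in class I -/
structure D1 {G : Type*} [Group G] (T : Subgroup G) (z x r : G) : Prop where
  one : C1 T z
  hp : (orderOf x).Prime
  hxo : Odd (orderOf x)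
  hxz : x * z = z * x
  hrT : r ∈ T
  hr1 : r ≠ 1
  hr2 : r * r = 1
  hrz : r ≠ z
  hT2 : IsPGroup 2 T

namespace D1

variable {G : Type*} [Group G] [Finite G] {T : Subgroup G} {z x r : G}

theorem x_ne (h : D1 T z x r) : x ≠ 1 := by
  rintro rfl
  have := h.hp
  rw [orderOf_one] at this
  exact Nat.not_prime_one this

theorem rx (hN : Nest G) (h : D1 T z x r) : r * x * r⁻¹ = x⁻¹ :=
  inv_odd hN h.one.ne h.one.sq h.one.uniq (h.one.cen r h.hrT) h.hr1 h.hr2 h.hrz h.hxo h.hxz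

theorem rx_ne (hN : Nest G) (h : D1 T z x r) : r * x ≠ x * r := by
  intro h1
  exact h.hrz (h.one.uniq x r h.x_ne h.hxo h.hxz h.hr1 h.hr2 h1)

theorem conjV (hN : Nest G) (h : D1 T z x r) {t v : G} (ht : t ∈ T) (hv : v * x = x * v) :
    (t * v * t⁻¹) * x = x * (t * v * t⁻¹) := by
  obtain ⟨k, hk⟩ := hN.odd' z x t⁻¹ h.one.ne h.one.sq h.hxo h.hxz (h.one.cen _ (inv_mem ht))
  have hk : x ^ k = t⁻¹ * x * t⁻¹⁻¹ := hk
  rw [inv_inv] at hk
  have h1 : v * (t⁻¹ * x * t) = (t⁻¹ * x * t) * v := by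
    rw [← hk]; exact (show Commute v x from hv).zpow_right k
  calc (t * v * t⁻¹) * x = t * (v * (t⁻¹ * x * t)) * t⁻¹ := by group
    _ = x * (t * v * t⁻¹) := by rw [h1]; group

theorem rv (hN : Nest G) (h : D1 T z x r) {v : G} (hvT : v ∈ T) (hv : v * x = x * v) :
    r * v * r⁻¹ = v⁻¹ := by
  have hri : r⁻¹ = r := inv_eq_of_mul_eq_one_left h.hr2
  by_contra hcon
  set u := v * r with hu
  have huT : u ∈ T := mul_mem hvT h.hrT
  have huu : u * u ≠ 1 := by
    intro h1
    apply hcon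
    rw [hri]
    have : v * (r * v * r) = 1 := by rw [← h1, hu]; group
    exact (inv_eq_of_mul_eq_one_right this).symm
  have hu1 : u ≠ 1 := by intro h1; apply huu; rw [h1, one_mul]
  obtain ⟨k, hk⟩ := exists_order h.hT2 huT hu1
  have hk0 : k ≠ 0 := by
    rintro rfl
    rw [zero_add, pow_one] at hk
    apply huu
    rw [← pow_two, ← hk, pow_orderOf_eq_one]
  obtain ⟨j, rfl⟩ := Nat.exists_eq_succ_of_ne_zero hk0
  have huux : (u * u) * x = x * (u * u) := by
    have h1 : u * u = v * (r * v * r⁻¹) := by rw [hu, hri]; group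
    rw [h1]
    exact (show Commute v x from hv).mul_left (h.conjV hN h.hrT hv)
  have hw : u ^ 2 ^ (j + 1) = z := by
    apply h.one.uniq x _ h.x_ne h.hxo h.hxz (pow_ne_one' hk) (pow_sq_one hk)
    rw [pow_succ, mul_comm, pow_mul, pow_two]
    exact (show Commute (u * u) x from huux).pow_left _
  have hux : u * x = x * u :=
    comm_of_zmem hN h.one.ne h.one.sq (by rw [← hw]; exact pow_mem (mem_zpowers u) _) hk h.hxo h.hxz
  apply h.rx_ne hN
  have : r = v⁻¹ * u := by rw [hu]; group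
  rw [this]
  exact ((show Commute v x from hv).inv_left).mul_left hux

theorem Vcomm (hN : Nest G) (h : D1 T z x r) {a b : G} (ha : a ∈ T) (hax : a * x = x * a)
    (hb : b ∈ T) (hbx : b * x = x * b) : a * b = b * a := by
  have h1 := h.rv hN ha hax
  have h2 := h.rv hN hb hbx
  have h3 := h.rv hN (mul_mem hb ha) ((show Commute b x from hbx).mul_left hax)
  have h4 : r * (b * a) * r⁻¹ = b⁻¹ * a⁻¹ := by
    rw [← h1, ← h2]; group
  rw [h3, mul_inv_rev] at h4
  calc a * b = (b⁻¹ * a⁻¹)⁻¹ := by group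
    _ = (a⁻¹ * b⁻¹)⁻¹ := by rw [h4]
    _ = b * a := by group

theorem Vcyc (hN : Nest G) (h : D1 T z x r) :
    IsCyclic (T ⊓ centralizer ({x} : Set G) : Subgroup G) := by
  have hV : ∀ v, v ∈ T ⊓ centralizer ({x} : Set G) ↔ v ∈ T ∧ v * x = x * v := fun v => by
    rw [mem_inf, mem_centralizer_singleton_iff]
  have hzV : z ∈ T ⊓ centralizer ({x} : Set G) := (hV z).mpr ⟨h.one.mem, h.hxz.symm⟩
  have huniq : ∀ u ∈ T ⊓ centralizer ({x} : Set G), u ≠ 1 → u * u = 1 → u = z := fun u hu h1 h2 =>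
    h.one.uniq x u h.x_ne h.hxo h.hxz h1 h2 ((hV u).mp hu).2
  by_cases he : ∃ e ∈ T ⊓ centralizer ({x} : Set G), e * e = z
  · obtain ⟨e, he, hee⟩ := he
    refine isCyclic_of_unique _ (h.hT2.to_le inf_le_left) hzV h.one.ne h.one.sq huniq he hee ?_
    intro c hc
    exact h.Vcomm hN ((hV c).mp hc).1 ((hV c).mp hc).2 ((hV e).mp he).1 ((hV e).mp he).2
  · push Not at he
    have h1 : T ⊓ centralizer ({x} : Set G) = zpowers z := by
      apply le_antisymm
      · intro v hv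
        by_cases hv1 : v = 1
        · rw [hv1]; exact one_mem _
        obtain ⟨k, hk⟩ := exists_order h.hT2 ((hV v).mp hv).1 hv1
        have hw : v ^ 2 ^ k = z := huniq _ (pow_mem hv _) (pow_ne_one' hk) (pow_sq_one hk)
        have hk0 : k = 0 := by
          by_contra h0
          obtain ⟨j, rfl⟩ := Nat.exists_eq_succ_of_ne_zero h0
          apply he (v ^ 2 ^ j) (pow_mem hv _)
          rw [← pow_two, ← pow_mul, ← pow_succ]; exact hw
        rw [hk0, pow_zero, pow_one] at hw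
        rw [hw]; exact mem_zpowers z
      · rw [zpowers_le]; exact hzV
    rw [h1]; infer_instance

end D1

end H65.NX
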