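import Cfsg.Agent.Lib.H65.NX10
import Cfsg.Agent.Lib.H5.Dihedral

/-!
Class II: the involutions commuting with an odd order element form a group of order at least 4.
-/
set_option autoImplicit false
set_option linter.unusedSectionVars false
set_option linter.style.haveILetI false

namespace H65.NX

open Subgroup
open scoped Pointwise

structure C2 {G : Type*} [Group G] (z x z' : G) : Prop where
  hz1 : z ≠ 1
  hz2 : z * z = 1
  hx1 : x ≠ 1
  hxo : Odd (orderOf x)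
  hxz : x * z = z * x
  hz'1 : z' ≠ 1
  hz'2 : z' * z' = 1
  hz'x : z' * x = x * z'
  hne : z' ≠ z

theorem two_of_three {G : Type*} [Group G] {y a b : G} (hp : (orderOf y).Prime)
    (ha2 : a * a = 1) (hb2 : b * b = 1) (ha : a * y * a⁻¹ ∈ zpowers y)
    (hb : b * y * b⁻¹ ∈ zpowers y) : a * y = y * a ∨ b * y = y * b ∨ (a * b) * y = y * (a * b) := by
  rcases conj_prime hp ha (by rw [ha2, one_mul, mul_one]) with h1 | h1
  · exact Or.inl h1
  rcases conj_prime hp hb (by rw [hb2, one_mul, mul_one]) with h2 | h2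
  · exact Or.inr (Or.inl h2)
  right; right
  apply mul_inv_eq_iff_eq_mul.mp
  calc a * b * y * (a * b)⁻¹ = a * (b * y * b⁻¹) * a⁻¹ := by group
    _ = (a * y * a⁻¹)⁻¹ := by rw [h2]; group
    _ = y := by rw [h1, inv_inv]

theorem inv_conj {G : Type*} [Group G] (g : G) {w : G} (h1 : w ≠ 1) (h2 : w * w = 1) :
    g * w * g⁻¹ ≠ 1 ∧ (g * w * g⁻¹) * (g * w * g⁻¹) = 1 := by
  constructor
  · intro h; apply h1
    calc w = g⁻¹ * (g * w * g⁻¹) * g := by group
      _ = 1 := by rw [h]; group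
  · calc (g * w * g⁻¹) * (g * w * g⁻¹) = g * (w * w) * g⁻¹ := by group
      _ = 1 := by rw [h2]; group

theorem comm_conj {G : Type*} [Group G] (g : G) {a b : G} (h : a * b = b * a) :
    (g * a * g⁻¹) * (g * b * g⁻¹) = (g * b * g⁻¹) * (g * a * g⁻¹) := by
  calc (g * a * g⁻¹) * (g * b * g⁻¹) = g * (a * b) * g⁻¹ := by group
    _ = (g * b * g⁻¹) * (g * a * g⁻¹) := by rw [h]; group

/-- moving a conjugation to the other side of a commutation -/
theorem comm_conj_iff {G : Type*} [Group G] (g : G) {a b : G} :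
    (g * a * g⁻¹) * b = b * (g * a * g⁻¹) ↔ a * (g⁻¹ * b * g) = (g⁻¹ * b * g) * a := by
  constructor
  · intro h
    calc a * (g⁻¹ * b * g) = g⁻¹ * ((g * a * g⁻¹) * b) * g := by group
      _ = (g⁻¹ * b * g) * a := by rw [h]; group
  · intro h
    calc (g * a * g⁻¹) * b = g * (a * (g⁻¹ * b * g)) * g⁻¹ := by group
      _ = b * (g * a * g⁻¹) := by rw [h]; group

namespace C2

variable {G : Type*} [Group G] {z x z' : G}

theorem cc (hN : Nest G) (h : C2 z x z') {i y : G} (hi1 : i ≠ 1) (hi2 : i * i = 1) (hy1 : y ≠ 1)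
    (hyo : Odd (orderOf y)) (hyz : y * z = z * y) (hyi : y * i = i * y) (c : G) :
    c * i = i * c ↔ c * z = z * c :=
  ⟨fun hc => eqC hN hi1 hi2 h.hz1 h.hz2 hy1 hyo hyi hyz hc,
    fun hc => eqC hN h.hz1 h.hz2 hi1 hi2 hy1 hyo hyz hyi hc⟩

theorem cw (hN : Nest G) (h : C2 z x z') {w : G} (h1 : w ≠ 1) (h2 : w * w = 1)
    (h3 : w * x = x * w) (c : G) : c * w = w * c ↔ c * z = z * c :=
  h.cc hN h1 h2 h.hx1 h.hxo h.hxz h3.symm c

theorem wcomm (hN : Nest G) (h : C2 z x z') {a b : G} (ha2 : a * a = 1)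
    (ha : a * x = x * a) (hb2 : b * b = 1) (hb : b * x = x * b) : a * b = b * a := by
  by_cases ha1 : a = 1
  · rw [ha1, one_mul, mul_one]
  by_cases hb1 : b = 1
  · rw [hb1, one_mul, mul_one]
  rw [h.cw hN hb1 hb2 hb a, ← h.cw hN ha1 ha2 ha a]

/-- the group of involutions centralizing `x` -/
def W (hN : Nest G) (h : C2 z x z') : Subgroup G where
  carrier := {w | w * w = 1 ∧ w * x = x * w}
  one_mem' := ⟨one_mul 1, by rw [one_mul, mul_one]⟩
  mul_mem' := by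
    rintro a b ⟨ha2, ha⟩ ⟨hb2, hb⟩
    have hab := h.wcomm hN ha2 ha hb2 hb
    refine ⟨?_, ?_⟩
    · calc a * b * (a * b) = a * (b * a) * b := by group
        _ = (a * a) * (b * b) := by rw [← hab]; group
        _ = 1 := by rw [ha2, hb2, one_mul]
    · exact (show Commute a x from ha).mul_left hb
  inv_mem' := by
    rintro a ⟨ha2, ha⟩
    exact ⟨by rw [← mul_inv_rev, ha2, inv_one], (show Commute a x from ha).inv_left⟩

theorem zW (hN : Nest G) (h : C2 z x z') : z ∈ h.W hN := ⟨h.hz2, h.hxz.symm⟩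

theorem z'W (hN : Nest G) (h : C2 z x z') : z' ∈ h.W hN := ⟨h.hz'2, h.hz'x⟩

theorem zz' (hN : Nest G) (h : C2 z x z') : z' * z = z * z' :=
  h.wcomm hN h.hz'2 h.hz'x h.hz2 h.hxz.symm

theorem zz'ne (h : C2 z x z') : z * z' ≠ 1 := by
  intro h'
  apply h.hne
  have := mul_eq_one_iff_eq_inv'.mp h'
  rw [this, inv_eq_of_mul_eq_one_left h.hz2]

theorem l2 (hN : Nest G) [Finite G] (h : C2 z x z') {t y : G} (ht1 : t ≠ 1) (ht2 : t * t = 1)
    (htz : t * z = z * t) (htx : ¬ t * x = x * t) (hy1 : y ≠ 1) (hyo : Odd (orderOf y))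
    (hyt : y * t = t * y) : False := by
  obtain ⟨n, hp, hno⟩ := exists_prime_pow hy1 hyo
  have hnt : y ^ n * t = t * y ^ n := (show Commute y t from hyt).pow_left n
  generalize y ^ n = y' at hp hno hnt
  have hy'1 : y' ≠ 1 := by rintro rfl; rw [orderOf_one] at hp; exact Nat.not_prime_one hp
  have htz' : t * z' = z' * t := (h.cw hN h.hz'1 h.hz'2 h.hz'x t).mpr htz
  have key : ∀ w, w ≠ 1 → w ∈ h.W hN → ¬ (w * y' = y' * w) := by
    intro w hw1 hw hwy
    have h1 : y' * z = z * y' := (h.cw hN hw1 hw.1 hw.2 y').mp hwy.symm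
    have h2 := (h.cc hN ht1 ht2 hy'1 hno h1 hnt x).mpr h.hxz
    exact htx h2.symm
  rcases two_of_three hp h.hz2 h.hz'2 (hN.odd' t y' z ht1 ht2 hno hnt htz.symm)
    (hN.odd' t y' z' ht1 ht2 hno hnt htz'.symm) with h1 | h1 | h1
  · exact key z h.hz1 (h.zW hN) h1
  · exact key z' h.hz'1 (h.z'W hN) h1
  · exact key (z * z') h.zz'ne (mul_mem (h.zW hN) (h.z'W hN)) h1

theorem l3 (hN : Nest G) [Finite G] (h : C2 z x z') {g : G}
    (hg : ∀ w ∈ h.W hN, (g * w * g⁻¹) * z = z * (g * w * g⁻¹)) :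
    ∀ w ∈ h.W hN, g * w * g⁻¹ ∈ h.W hN := by
  obtain ⟨n, hp, hno⟩ := exists_prime_pow h.hx1 h.hxo
  have hnz : x ^ n * z = z * x ^ n := (show Commute x z from h.hxz).pow_left n
  generalize x ^ n = x' at hp hno hnz
  have hx'1 : x' ≠ 1 := by rintro rfl; rw [orderOf_one] at hp; exact Nat.not_prime_one hp
  have h1 := inv_conj g h.hz1 h.hz2
  have h2 := inv_conj g h.hz'1 h.hz'2
  obtain ⟨w0, hw0, hw01, hw0x⟩ : ∃ w0 ∈ h.W hN, w0 ≠ 1 ∧ (g * w0 * g⁻¹) * x' = x' * (g * w0 * g⁻¹) := by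
    rcases two_of_three hp h1.2 h2.2 (hN.odd' z x' _ h.hz1 h.hz2 hno hnz (hg z (h.zW hN)))
      (hN.odd' z x' _ h.hz1 h.hz2 hno hnz (hg z' (h.z'W hN))) with h3 | h3 | h3
    · exact ⟨z, h.zW hN, h.hz1, h3⟩
    · exact ⟨z', h.z'W hN, h.hz'1, h3⟩
    · refine ⟨z * z', mul_mem (h.zW hN) (h.z'W hN), h.zz'ne, ?_⟩
      have : g * (z * z') * g⁻¹ = (g * z * g⁻¹) * (g * z' * g⁻¹) := by group
      rw [this]; exact h3
  have h3 := inv_conj g hw01 hw0.1
  have hstar : ∀ c, c * z = z * c → (g⁻¹ * c * g) * z = z * (g⁻¹ * c * g) := by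
    intro c hc
    have h4 := (h.cc hN h3.1 h3.2 hx'1 hno hnz hw0x.symm c).mpr hc
    rw [← h.cw hN hw01 hw0.1 hw0.2]
    exact ((comm_conj_iff g).mp h4.symm).symm
  intro w hw
  by_cases hw1 : w = 1
  · rw [hw1, mul_one, mul_inv_cancel]; exact one_mem _
  refine ⟨(inv_conj g hw1 hw.1).2, ?_⟩
  rw [comm_conj_iff]
  exact ((h.cw hN hw1 hw.1 hw.2 _).mpr (hstar x h.hxz)).symm

theorem odd_card (hN : Nest G) [Finite G] (h : C2 z x z') :
    ¬ 2 ∣ Nat.card ({w | w ∈ h.W hN ∧ w ≠ 1} : Set G) := by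
  classical
  haveI : Fact (Nat.Prime 2) := ⟨Nat.prime_two⟩
  have h1 : IsPGroup 2 (h.W hN) := isPGroup_two_of_sq fun w hw => hw.1
  obtain ⟨k, hk⟩ := IsPGroup.iff_card.mp h1
  have h2 : Nat.card ({w | w ∈ h.W hN ∧ w ≠ 1} : Set G) + 1 = Nat.card (h.W hN) := by
    have h3 : Nat.card ({w | w ∈ h.W hN ∧ w ≠ 1} : Set G) = Nat.card {w : h.W hN // w ≠ 1} := by
      refine Nat.card_congr ⟨fun w => ⟨⟨w.1, w.2.1⟩, fun h' => w.2.2 (congrArg Subtype.val h')⟩,
        fun w => ⟨w.1.1, w.1.2, fun h' => w.2 (Subtype.ext h')⟩, fun _ => rfl, fun _ => rfl⟩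
    have h4 : Fintype (h.W hN) := Fintype.ofFinite _
    rw [h3, Nat.card_eq_fintype_card, Nat.card_eq_fintype_card, Fintype.card_subtype_compl,
      Fintype.card_subtype_eq]
    have : 0 < Fintype.card (h.W hN) := Fintype.card_pos
    omega
  have h3 : k ≠ 0 := by
    rintro rfl
    rw [pow_zero] at hk
    have h4 : h.W hN = ⊥ := Subgroup.eq_bot_of_card_eq _ hk
    have h5 := h.zW hN
    rw [h4, mem_bot] at h5
    exact h.hz1 h5
  obtain ⟨j, rfl⟩ := Nat.exists_eq_succ_of_ne_zero h3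
  rw [hk, Nat.succ_eq_add_one, pow_succ] at h2
  omega

theorem l4 (hN : Nest G) [Finite G] (h : C2 z x z') {P : Subgroup G} (hP : IsPGroup 2 P)
    (hWP : h.W hN ≤ P) : ∀ p ∈ P, p * z = z * p := by
  haveI : Fact (Nat.Prime 2) := ⟨Nat.prime_two⟩
  by_contra hcon
  push Not at hcon
  obtain ⟨p, hpP, hpz⟩ := hcon
  set Q := P ⊓ centralizer ({z} : Set G) with hQ
  have hQm : ∀ q, q ∈ Q ↔ q ∈ P ∧ q * z = z * q := fun q => by
    rw [hQ, mem_inf, mem_centralizer_singleton_iff]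
  have hlt : Q < P := by
    refine lt_of_le_of_ne inf_le_left fun h' => hpz ?_
    rw [← h'] at hpP
    exact ((hQm p).mp hpP).2
  obtain ⟨n, hnP, hnQ, hnN⟩ := H14.PBasic.exists_mem_normalizer_of_lt hP hlt
  have hWz : ∀ w ∈ h.W hN, w * z = z * w := fun w hw =>
    h.wcomm hN hw.1 hw.2 h.hz2 h.hxz.symm
  have h1 : ∀ w ∈ h.W hN, (n * w * n⁻¹) * z = z * (n * w * n⁻¹) := by
    intro w hw
    have h2 := (mem_normalizer_iff.mp hnN w).mp ((hQm w).mpr ⟨hWP hw, hWz w hw⟩)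
    exact ((hQm _).mp h2).2
  have h2 := h.l3 hN h1
  obtain ⟨k, hk⟩ := orderOf_of_mem_two hP hnP
  obtain ⟨w, hw, hwn⟩ := exists_fixed (p := 2) (d := n) (n := k) (by rw [← hk, pow_orderOf_eq_one])
    ({w | w ∈ h.W hN ∧ w ≠ 1} : Set G) (fun s hs => ⟨h2 s hs.1, fun h' => hs.2 (by
      calc s = n⁻¹ * (n * s * n⁻¹) * n := by group
        _ = 1 := by rw [h']; group)⟩) (h.odd_card hN)
  apply hnQ
  rw [hQm]
  exact ⟨hnP, (h.cw hN hw.2 hw.1.1 hw.1.2 n).mp hwn⟩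

theorem l5 (hN : Nest G) [Finite G] (h : C2 z x z') {i : G} (hi1 : i ≠ 1) (hi2 : i * i = 1)
    (hiz : i * z = z * i) {c : G} (hc : c * i = i * c) : c * z = z * c := by
  by_cases hix : i * x = x * i
  · exact (h.cw hN hi1 hi2 hix c).mp hc
  · have h2 : IsPGroup 2 (centralizer ({i} : Set G)) := by
      apply isPGroup_centralizer
      intro y hy hyo
      by_contra hy1
      exact h.l2 hN hi1 hi2 hiz hix hy1 hyo hy
    refine h.l4 hN h2 ?_ c (mem_centralizer_singleton_iff.mpr hc)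
    intro w hw
    rw [mem_centralizer_singleton_iff]
    by_cases hw1 : w = 1
    · rw [hw1, one_mul, mul_one]
    · exact ((h.cw hN hw1 hw.1 hw.2 i).mpr hiz).symm

end C2

end H65.NX
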