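import Cfsg.Agent.Lib.H65.NX7
import Cfsg.Agent.Lib.H5.ZStar
import Cfsg.Agent.Lib.H1.Cores

/-!
Class III: case B and conclusion.
-/
set_option autoImplicit false
set_option linter.unusedSectionVars false
set_option linter.style.haveILetI false

namespace H65.NX

open Subgroup
open scoped Pointwise

section gen

variable {G : Type*} [Group G] [Finite G]

/-- case B: no element of order 4 -/
theorem case_b (hN : Nest G) (h3 : C3 G)
    (hB : ∀ (T : Sylow 2 G) (z : G), TwoC (T : Subgroup G) z → ∀ e : G, e * e ≠ z) :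
    ∀ x : G, (x * x) * (x * x) = 1 → x * x = 1 := by
  haveI : Fact (Nat.Prime 2) := ⟨Nat.prime_two⟩
  by_contra hcon
  push Not at hcon
  let Q : Set G := {s | s ≠ 1 ∧ s * s = 1 ∧ ∃ x, x * x = s}
  have hQ : Q.Nonempty := by
    obtain ⟨x, h1, h2⟩ := hcon
    exact ⟨x * x, h2, h1, x, rfl⟩
  obtain ⟨s, ⟨hs1, hs2, x, hx⟩, hmax⟩ := Set.exists_max_image Q
    (fun s => Nat.card (centralizer ({s} : Set G))) (Set.toFinite Q) hQ
  have hxs : x * s = s * x := comm_sq hx
  have hx4 : (x * x) * (x * x) = 1 := by rw [hx, hs2]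
  have hxz : IsPGroup 2 (zpowers x) := by
    apply IsPGroup.of_card (n := (Nat.factorization (orderOf x)) 2)
    rw [Nat.card_zpowers]
    have h1 : orderOf x ∣ 2 ^ 2 := by
      apply orderOf_dvd_of_pow_eq_one
      rw [show (2 : ℕ) ^ 2 = 2 + 2 from rfl, pow_add, pow_two, hx4]
    obtain ⟨k, -, hk⟩ := (Nat.dvd_prime_pow Nat.prime_two).mp h1
    rw [hk, Nat.Prime.factorization_pow Nat.prime_two, Finsupp.single_eq_same]
  set C := centralizer ({s} : Set G) with hC
  have memC : ∀ c, c ∈ C ↔ c * s = s * c := fun c => mem_centralizer_singleton_iff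
  have h2 : IsPGroup 2 C := by
    apply isPGroup_centralizer
    intro y hys hyo
    by_contra hy1
    obtain ⟨z, -, -, -, -, -, hno, -⟩ := lemQ hN h3 hs1 hs2 hy1 hyo hys (zpowers x) hxz (by
      rintro a ⟨k, rfl⟩
      exact (show Commute x s from hxs).zpow_left k)
    exact hno x (mem_zpowers x) hx
  obtain ⟨T, hCT⟩ := h2.exists_le_sylow
  have hsT : s ∈ (T : Subgroup G) := hCT ((memC s).mpr rfl)
  have hlt : C < (T : Subgroup G) := by
    refine lt_of_le_of_ne hCT fun h => ?_
    refine hB T s ⟨hsT, hs1, hs2, fun t ht => ?_⟩ x hx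
    rw [← h] at ht
    exact (memC t).mp ht
  obtain ⟨h0, hh0T, hh0C, hh0N⟩ := H14.PBasic.exists_mem_normalizer_of_lt T.2 hlt
  -- choose `h` with `h² ∈ C`
  obtain ⟨h, hhT, hhC, hhN, hhh⟩ : ∃ h ∈ (T : Subgroup G), h ∉ C ∧
      h ∈ normalizer (C : Set G) ∧ h * h ∈ C := by
    obtain ⟨k, hk⟩ := orderOf_of_mem_two T.2 hh0T
    have hex : ∃ j, h0 ^ 2 ^ j ∈ C := ⟨k, by rw [← hk, pow_orderOf_eq_one]; exact one_mem _⟩
    classical
    have hf := Nat.find_spec hex
    have hf0 : Nat.find hex ≠ 0 := by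
      intro h
      rw [h, pow_zero, pow_one] at hf
      exact hh0C hf
    obtain ⟨j, hj⟩ := Nat.exists_eq_succ_of_ne_zero hf0
    refine ⟨h0 ^ 2 ^ j, pow_mem hh0T _, Nat.find_min hex (by omega), pow_mem hh0N _, ?_⟩
    rw [hj, Nat.succ_eq_add_one, pow_succ, pow_mul, pow_two] at hf
    exact hf
  have cjm : ∀ a x y : G, a * (x * y) * a⁻¹ = (a * x * a⁻¹) * (a * y * a⁻¹) := by
    intro a x y; group
  set s' := h * s * h⁻¹ with hs'
  have hs's : s' ≠ s := fun h' => hhC ((memC h).mpr (mul_inv_eq_iff_eq_mul.mp h'))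
  have hs'1 : s' ≠ 1 := by
    intro h'
    apply hs1
    calc s = h⁻¹ * s' * h := by rw [hs']; group
      _ = 1 := by rw [h']; group
  have hs'2 : s' * s' = 1 := by rw [hs', ← cjm, hs2, mul_one, mul_inv_cancel]
  have hCs' : ∀ c, c ∈ C → c * s' = s' * c := by
    intro c hc
    have h4 : h⁻¹ * c * h ∈ C := by
      have := (mem_normalizer_iff.mp hhN (h⁻¹ * c * h)).mpr (by simpa [mul_assoc] using hc)
      exact this
    have h5 := (memC _).mp h4
    calc c * s' = h * ((h⁻¹ * c * h) * s) * h⁻¹ := by rw [hs']; group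
      _ = s' * c := by rw [h5, hs']; group
  have hsC : s ∈ C := (memC s).mpr rfl
  have hs'C : s' ∈ C := (mem_normalizer_iff.mp hhN s).mp hsC
  have hxC : x ∈ C := (memC x).mpr hxs
  have hx'C : h * x * h⁻¹ ∈ C := (mem_normalizer_iff.mp hhN x).mp hxC
  have hx's : (h * x * h⁻¹) * (h * x * h⁻¹) = s' := by rw [← cjm, hx]
  have hxx' : x * (h * x * h⁻¹) = (h * x * h⁻¹) * x :=
    b2 hN hs1 hs2 hs'1 hs'2 hs's.symm hx hx's (hCs' x hxC) ((memC _).mp hx'C)
  have hss' : s' * s = s * s' := (memC s').mp hs'C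
  have hi1 : s * s' ≠ 1 := by
    intro h'
    apply hs's
    rw [eq_comm, mul_eq_one_iff_eq_inv.mp h', inv_eq_of_mul_eq_one_left hs'2]
  have hi2 : (s * s') * (s * s') = 1 := by
    rw [← pow_two, (show Commute s s' from hss'.symm).mul_pow, pow_two, pow_two, hs2, hs'2, one_mul]
  have hiQ : s * s' ∈ Q := by
    refine ⟨hi1, hi2, x * (h * x * h⁻¹), ?_⟩
    rw [← pow_two, (show Commute x _ from hxx').mul_pow, pow_two, pow_two, hx, hx's]
  have hle := hmax _ hiQ
  have hlt2 : C < centralizer ({s * s'} : Set G) := by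
    refine lt_of_le_of_ne ?_ fun heq => hhC ?_
    · intro c hc
      rw [mem_centralizer_singleton_iff]
      exact (show Commute c s from (memC c).mp hc).mul_right (hCs' c hc)
    · rw [heq, mem_centralizer_singleton_iff]
      apply mul_inv_eq_iff_eq_mul.mp
      rw [cjm, ← hs']
      have h5 : h * s' * h⁻¹ = s := by
        calc h * s' * h⁻¹ = (h * h) * s * (h * h)⁻¹ := by rw [hs']; group
          _ = s := mul_inv_eq_iff_eq_mul.mpr ((memC _).mp hhh)
      rw [h5, hss']
  have h6 : Nat.card C < Nat.card (centralizer ({s * s'} : Set G)) := by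
    apply lt_of_le_of_ne (Subgroup.card_le_of_le hlt2.le)
    intro h'
    exact hlt2.ne (Subgroup.eq_of_le_of_card_ge hlt2.le h'.ge)
  exact absurd hle (not_le.mpr h6)

/-- hypothesis supplied by the `Z*`-theorem in a simple group -/
def ZS (G : Type*) [Group G] : Prop := ∀ (T : Sylow 2 G) (z : G), z ∈ (T : Subgroup G) → z ≠ 1 →
  z * z = 1 → ∃ g : G, g * z * g⁻¹ ∈ (T : Subgroup G) ∧ g * z * g⁻¹ ≠ z

theorem class3 (hN : Nest G) (h3 : C3 G) (hZ : ZS G) (h2 : 2 ∣ Nat.card G) :
    (∃ (T : Sylow 2 G) (n : ℕ), 2 ≤ n ∧ Nonempty ((T : Subgroup G) ≃* DihedralGroup n)) ∨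
    (∀ T : Sylow 2 G, ∀ u ∈ (T : Subgroup G), u * u = 1 → ∀ c ∈ (T : Subgroup G), c * u = u * c) := by
  haveI : Fact (Nat.Prime 2) := ⟨Nat.prime_two⟩
  -- transport of the second alternative to all Sylow subgroups
  have htr : ∀ T : Sylow 2 G, (∀ u ∈ (T : Subgroup G), u * u = 1 → ∀ c ∈ (T : Subgroup G),
      c * u = u * c) → ∀ T' : Sylow 2 G, ∀ u ∈ (T' : Subgroup G), u * u = 1 →
      ∀ c ∈ (T' : Subgroup G), c * u = u * c := by
    intro T hT T'
    obtain ⟨h, rfl⟩ := MulAction.exists_smul_eq G T T'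
    have hmem : ∀ c, c ∈ ((h • T : Sylow 2 G) : Subgroup G) → h⁻¹ * c * h ∈ (T : Subgroup G) := by
      intro c hc
      have h5 : c ∈ (MulAut.conj h • (T : Subgroup G)) := hc
      rw [Subgroup.mem_pointwise_smul_iff_inv_smul_mem] at h5
      have h6 : (MulAut.conj h)⁻¹ • c = h⁻¹ * c * h := by
        rw [← map_inv]; simp [MulAut.smul_def]
      rwa [h6] at h5
    intro u hu hu2 c hc
    have h7 := hT _ (hmem u hu) (by
      calc h⁻¹ * u * h * (h⁻¹ * u * h) = h⁻¹ * (u * u) * h := by group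
        _ = 1 := by rw [hu2]; group) _ (hmem c hc)
    calc c * u = h * (h⁻¹ * c * h * (h⁻¹ * u * h)) * h⁻¹ := by group
      _ = u * c := by rw [h7]; group
  by_cases hB : ∀ (T : Sylow 2 G) (z : G), TwoC (T : Subgroup G) z → ∀ e : G, e * e ≠ z
  · right
    have h4 := case_b hN h3 hB
    intro T
    have hexp : ∀ u ∈ (T : Subgroup G), u * u = 1 := by
      intro u hu
      by_contra huu
      have hle : zpowers (u * u) ≤ T := by rw [zpowers_le]; exact mul_mem hu hu
      obtain ⟨k, hk⟩ := orderOf_of_mem_two T.2 hu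
      have hk2 : 2 ≤ k := by
        by_contra hlt
        apply huu
        have h5 : k = 0 ∨ k = 1 := by omega
        rcases h5 with h5 | h5
        · rw [h5, pow_zero, orderOf_eq_one_iff] at hk; rw [hk, one_mul]
        · rw [h5, pow_one] at hk; rw [← pow_two, ← hk, pow_orderOf_eq_one]
      obtain ⟨j, rfl⟩ := Nat.exists_eq_add_of_le hk2
      have h5 : (u ^ 2 ^ j * u ^ 2 ^ j) * (u ^ 2 ^ j * u ^ 2 ^ j) = 1 := by
        rw [← pow_two, ← pow_two, ← pow_mul, ← pow_mul]
        have : 2 ^ j * (2 * 2) = orderOf u := by rw [hk, pow_add]; ring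
        rw [this, pow_orderOf_eq_one]
      have h6 := h4 _ h5
      rw [← pow_two, ← pow_mul] at h6
      have h7 := orderOf_dvd_of_pow_eq_one h6
      rw [hk] at h7
      have h8 := Nat.le_of_dvd (by positivity) h7
      have h9 : 2 ^ (2 + j) = 2 ^ j * 2 * 2 := by rw [pow_add]; ring
      have h10 : 0 < 2 ^ j := by positivity
      omega
    intro u hu _ c hc
    have h5 := hexp _ (mul_mem hc hu)
    have h6 : c⁻¹ = c := inv_eq_of_mul_eq_one_left (hexp c hc)
    have h7 : u⁻¹ = u := inv_eq_of_mul_eq_one_left (hexp u hu)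
    have h8 : (c * u)⁻¹ = c * u := inv_eq_of_mul_eq_one_left h5
    rw [mul_inv_rev, h6, h7] at h8
    exact h8.symm
  · push Not at hB
    obtain ⟨T, z, hz, e, he⟩ := hB
    obtain ⟨g, hgT, hne⟩ := hZ T z hz.mem hz.ne hz.sq
    by_cases hii : ∀ k e' : G, e' * e' = z → k * z * k⁻¹ ≠ z →
        ¬ ((k * z * k⁻¹) * e' = e' * (k * z * k⁻¹))
    · left
      obtain ⟨n, hn, hd⟩ := dihedral_of_inverts hN h3 hz he hne hgT hii
      exact ⟨T, n, hn, hd⟩
    · right
      push Not at hii
      obtain ⟨k, e', he', hk, hke⟩ := hii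
      exact htr T (ti_of_comm hN h3 hz he' hk hke)

end gen

universe u

/-- the `Z*`-theorem in a simple group -/
theorem zs_of_simple {G : Type u} [Group G] [Finite G] [IsSimpleGroup G]
    (hna : ∃ a b : G, a * b ≠ b * a) : ZS G := by
  intro T z hzT hz1 hz2
  by_contra hcon
  push Not at hcon
  have h2 := orderOf_inv_two hz1 hz2
  have h := H5.ZStar.sylow_form T z h2 (fun g hg => hcon g hg)
  have hcore : Cfsg.pPrimeCore 2 G = ⊥ := by
    rcases IsSimpleGroup.eq_bot_or_eq_top_of_normal (Cfsg.pPrimeCore 2 G) inferInstance with h' | h'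
    · exact h'
    · exfalso
      have hc := H1.Cores.coprime_card_pPrimeCore (G := G) 2
      rw [h', Subgroup.card_top] at hc
      have h4 : 2 ∣ Nat.card G := by rw [← h2]; exact orderOf_dvd_natCard z
      have := Nat.dvd_gcd h4 (dvd_refl 2)
      rw [hc] at this
      omega
  have hzc : z ∈ center G := by
    rw [mem_center_iff]
    intro g
    have h4 := h g
    rw [hcore, mem_bot] at h4
    have h5 : z * g = g * z := by
      calc z * g = (z * g * z⁻¹ * g⁻¹) * (g * z) := by group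
        _ = g * z := by rw [h4, one_mul]
    exact h5.symm
  rcases IsSimpleGroup.eq_bot_or_eq_top_of_normal (center G) inferInstance with h' | h'
  · rw [h', mem_bot] at hzc; exact hz1 hzc
  · obtain ⟨a, b, hab⟩ := hna
    apply hab
    have : b ∈ center G := by rw [h']; trivial
    exact (mem_center_iff.mp this a)

end H65.NX
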