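import Cfsg.Agent.Lib.H65.NY2

/-!
No simple group has an abelian TI subgroup `K` with Frobenius normalizer, with `K` of even order,
all involutions of `K` conjugate, and `K` not elementary abelian: the character theory.
-/
set_option autoImplicit false
set_option linter.unusedSectionVars false
set_option linter.style.haveILetI false

namespace H65.NY

open Cfsg H21.BrauerDeg H18.CharBasic H18.CharOrtho H18.CharInd H18.CharQuot H18.TICoh
open scoped ComplexConjugate

universe u

variable {G : Type u} [Group G] [Fintype G] (K : Subgroup G)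
  [Fintype (Subgroup.normalizer (K : Set G))] [Fintype (KN K)]
  (hTI : ∀ g : G, g ∉ Subgroup.normalizer (K : Set G) → ∀ k ∈ K, g * k * g⁻¹ ∈ K → k = 1)
  (hC : ∀ k ∈ K, k ≠ 1 → Subgroup.centralizer ({k} : Set G) ≤ K)
  (hab : ∀ a b : K, a * b = b * a)
  {z : G} (hzK : z ∈ K) (hz1 : z ≠ 1) (hz2 : z * z = 1)
  (hfus : ∀ w ∈ K, w ≠ 1 → w * w = 1 → ∃ g ∈ Subgroup.normalizer (K : Set G), g * z * g⁻¹ = w)

/-- `z` as an element of the normalizer -/
def zN {K : Subgroup G} {z : G} (hzK : z ∈ K) : Subgroup.normalizer (K : Set G) :=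
  ⟨z, Subgroup.le_normalizer hzK⟩

include hfus in
omit [Fintype G] [Fintype (Subgroup.normalizer (K : Set G))] [Fintype (KN K)] in
theorem fusN : ∀ w ∈ KN K, w ≠ 1 → w * w = 1 → IsConj (zN hzK) w := by
  intro w hw hw1 hw2
  obtain ⟨g, hg, hgw⟩ := hfus w (Subgroup.mem_subgroupOf.1 hw) (fun h => hw1 (Subtype.ext h))
    (congrArg Subtype.val hw2)
  exact isConj_iff.2 ⟨⟨g, hg⟩, Subtype.ext hgw⟩

include hC hab hzK hz1 hz2 hfus in
theorem card_inv : Nat.card {w : G // w ∈ K ∧ w * w = 1} = (KN K).index + 1 := by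
  rw [← card_WW (KN K) (hC_KN K hC) (hab_KN K hab) (z := zN hzK) (Subgroup.mem_subgroupOf.2 hzK)
    (fun h => hz1 (congrArg Subtype.val h)) (Subtype.ext hz2) (fusN K hzK hfus)]
  refine Nat.card_congr ⟨fun w => ⟨⟨w.1, Subgroup.le_normalizer w.2.1⟩,
    Subgroup.mem_subgroupOf.2 w.2.1, Subtype.ext w.2.2⟩,
    fun w => ⟨w.1.1, Subgroup.mem_subgroupOf.1 w.2.1, congrArg Subtype.val w.2.2⟩,
    fun _ => rfl, fun _ => rfl⟩

include hC hab hzK hz1 hz2 hfus in
theorem index_odd : Odd (KN K).index := by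
  have h1 := card_WW (KN K) (hC_KN K hC) (hab_KN K hab) (z := zN hzK) (Subgroup.mem_subgroupOf.2 hzK)
    (fun h => hz1 (congrArg Subtype.val h)) (Subtype.ext hz2) (fusN K hzK hfus)
  have h2 : orderOf (⟨zN hzK, Subgroup.mem_subgroupOf.2 hzK, Subtype.ext hz2⟩ :
      WW (KN K) (hab_KN K hab)) = 2 := by
    apply orderOf_eq_prime
    · rw [pow_two]; exact Subtype.ext (Subtype.ext hz2)
    · intro h; exact hz1 (congrArg (fun t : WW (KN K) (hab_KN K hab) => (t.1.1 : G)) h)
  have h3 := orderOf_dvd_natCard (⟨zN hzK, Subgroup.mem_subgroupOf.2 hzK, Subtype.ext hz2⟩ :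
      WW (KN K) (hab_KN K hab))
  rw [h2, h1] at h3
  rw [Nat.odd_iff]
  omega

include hC hab hzK hz1 hz2 hfus in
theorem hodd : ∀ i ∈ Subgroup.normalizer (K : Set G), i * i = 1 → i ∈ K := by
  intro i hi hi2
  obtain ⟨k, hk⟩ := index_odd K hC hab hzK hz1 hz2 hfus
  have h1 := Subgroup.pow_index_mem (KN K) (⟨i, hi⟩ : Subgroup.normalizer (K : Set G))
  rw [hk, pow_succ, pow_mul, pow_two] at h1
  have h2 : (⟨i, hi⟩ : Subgroup.normalizer (K : Set G)) * ⟨i, hi⟩ = 1 := Subtype.ext hi2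
  rw [h2, one_pow, one_mul] at h1
  exact Subgroup.mem_subgroupOf.1 h1

include hC hab hzK hz1 hz2 hfus in
/-- the arithmetic of the orders -/
theorem size {s : ℕ} (hs : s * (KN K).index + 1 = Nat.card K) {x : G} (hx : x ∈ K)
    (hxx : x * x ≠ 1) : (KN K).index + 2 ≤ s := by
  have h1 := card_WW (KN K) (hC_KN K hC) (hab_KN K hab) (z := zN hzK) (Subgroup.mem_subgroupOf.2 hzK)
    (fun h => hz1 (congrArg Subtype.val h)) (Subtype.ext hz2) (fusN K hzK hfus)
  have h2 : WW (KN K) (hab_KN K hab) ≤ KN K := fun w hw => hw.1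
  obtain ⟨t, ht⟩ := Subgroup.card_dvd_of_le h2
  rw [h1, card_KN] at ht
  have ht2 : 2 ≤ t := by
    by_contra hlt
    have h3 : t = 0 ∨ t = 1 := by omega
    rcases h3 with rfl | rfl
    · rw [mul_zero] at ht; exact (Nat.card_pos (α := K)).ne' ht
    · have h4 : WW (KN K) (hab_KN K hab) = KN K := by
        apply Subgroup.eq_of_le_of_card_ge h2
        rw [h1, card_KN, ht, mul_one]
      have h5 : (⟨x, Subgroup.le_normalizer hx⟩ : Subgroup.normalizer (K : Set G)) ∈
          WW (KN K) (hab_KN K hab) := by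
        rw [h4]; exact Subgroup.mem_subgroupOf.2 hx
      exact hxx (congrArg Subtype.val h5.2)
  exact arith1 hs ht ht2

include hTI in
/-- `|K|² ≤ |G|` -/
theorem card_sq_le {g : G} (hg : g ∉ Subgroup.normalizer (K : Set G)) :
    Nat.card K * Nat.card K ≤ Nat.card G := by
  rw [← Nat.card_prod]
  apply Nat.card_le_card_of_injective (fun p : K × K => (p.1 : G) * (g * (p.2 : G) * g⁻¹))
  rintro ⟨a, b⟩ ⟨c, d⟩ h
  simp only at h
  have h1 : g * ((b : G) * (d : G)⁻¹) * g⁻¹ = (a : G)⁻¹ * c := by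
    calc g * ((b : G) * (d : G)⁻¹) * g⁻¹ = (a : G)⁻¹ * (a * (g * b * g⁻¹)) * (g * d * g⁻¹)⁻¹ := by group
      _ = (a : G)⁻¹ * c := by rw [h]; group
  have h2 := hTI g hg _ (mul_mem b.2 (inv_mem d.2)) (by
    rw [h1]; exact mul_mem (inv_mem a.2) c.2)
  have h3 : b = d := Subtype.ext (mul_inv_eq_one.mp h2)
  subst h3
  rw [mul_left_inj] at h
  rw [Subtype.ext h]

include hC hab hzK hz1 hz2 hfus in
/-- the inner product of the structure constants with differences of characters -/
theorem inner_conv_N {D : Subgroup.normalizer (K : Set G) → ℂ} (hD : IsClassFunction _ D)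
    (hD0 : ∀ x : Subgroup.normalizer (K : Set G), (x : G) ∉ K → D x = 0) (hD1 : D 1 = 0) :
    classInner (fun x : Subgroup.normalizer (K : Set G) =>
      H18.CharCentral.conv (classInd z) (classInd z) (x : G)) D =
      (((KN K).index : ℂ) - 1) * ((Nat.card K : ℂ)⁻¹ * conj (D (zN hzK))) := by
  classical
  have hod := hodd K hC hab hzK hz1 hz2 hfus
  have hfusN := fusN K hzK hfus
  have hfusG : ∀ w ∈ K, w ≠ 1 → w * w = 1 → IsConj z w := by
    intro w h1 h2 h3
    obtain ⟨g, -, hg⟩ := hfus w h1 h2 h3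
    exact isConj_iff.2 ⟨g, hg⟩
  have hcen : Subgroup.centralizer ({zN hzK} : Set (Subgroup.normalizer (K : Set G))) = KN K :=
    centralizer_eq (KN K) (hC_KN K hC) (hab_KN K hab) (Subgroup.mem_subgroupOf.2 hzK)
      (fun h => hz1 (congrArg Subtype.val h))
  have h1 := inner_classInd (zN hzK) hD
  rw [hcen, card_KN] at h1
  rw [← h1, ← H18.CharOrtho.inner_smul_left]
  unfold classInner
  congr 1
  refine Finset.sum_congr rfl fun y _ => ?_
  by_cases hyK : (y : G) ∈ K
  swap
  · rw [hD0 y hyK]; simp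
  by_cases hy1 : y = 1
  · rw [hy1, hD1]; simp
  have hy1' : (y : G) ≠ 1 := fun h => hy1 (Subtype.ext h)
  change H18.CharCentral.conv (classInd z) (classInd z) (y : G) * conj (D y) = _
  rw [← H18.CharCentral.card_pairs_eq_conv]
  by_cases hy2 : (y : G) * y = 1
  · have h2 := count_inv K hC hab hz1 hz2 hod hfusG hyK hy1' hy2
    rw [card_inv K hC hab hzK hz1 hz2 hfus] at h2
    have h3 : ((Nat.card {p : G × G // IsConj z p.1 ∧ IsConj z p.2 ∧ p.1 * p.2 = (y : G)} : ℕ) : ℂ)
        = ((KN K).index : ℂ) - 1 := by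
      have : ((Nat.card {p : G × G // IsConj z p.1 ∧ IsConj z p.2 ∧ p.1 * p.2 = (y : G)} + 2 : ℕ) : ℂ)
        = (((KN K).index + 1 : ℕ) : ℂ) := by rw [h2]
      push_cast at this
      linear_combination this
    rw [h3, Pi.smul_apply, classInd_of_isConj (hfusN y (Subgroup.mem_subgroupOf.2 hyK) hy1
      (Subtype.ext hy2))]
    simp
  · have h2 := count_zero K hC hab hz2 hod hyK hy2
    rw [h2, Pi.smul_apply, classInd_of_not_isConj]
    · simp
    · intro h
      apply hy2
      obtain ⟨c, hc⟩ := isConj_iff.1 h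
      have h3 : y * y = 1 := by
        rw [← hc]
        calc c * zN hzK * c⁻¹ * (c * zN hzK * c⁻¹) = c * (zN hzK * zN hzK) * c⁻¹ := by group
          _ = 1 := by
            have : zN hzK * zN hzK = 1 := Subtype.ext hz2
            rw [this]; group
      exact congrArg Subtype.val h3

include hTI hC hab hzK hz1 hz2 hfus in
theorem main {x : G} (hx : x ∈ K) (hxx : x * x ≠ 1) {g0 : G}
    (hg0 : g0 ∉ Subgroup.normalizer (K : Set G)) (hlt : (KN K).index ≠ 1)
    (hlin : ∀ χ : G → ℂ, IsIrrCharacter G χ → χ 1 = 1 → χ = fun _ => 1) : False := by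
  classical
  have hftN : Fintype (IrrCharacter ↥(Subgroup.normalizer (K : Set G))) := Fintype.ofFinite _
  have hftG : Fintype (IrrCharacter G) := Fintype.ofFinite _
  have hcard := card_rel (KN K) (hC_KN K hC) (hab_KN K hab)
  have hsums := sums (KN K) (hC_KN K hC) (hab_KN K hab) (z := zN hzK) (Subgroup.mem_subgroupOf.2 hzK)
    (fun h => hz1 (congrArg Subtype.val h))
  rw [card_KN] at hcard hsums
  have hsz := size K hC hab hzK hz1 hz2 hfus hcard hx hxx
  set F := Finset.univ.filter fun χ : IrrCharacter ↥(Subgroup.normalizer (K : Set G)) =>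
      ∃ k ∈ KN K, χ.1 k ≠ χ.1 1 with hF
  obtain ⟨s, hs⟩ : ∃ s, F.card = s := ⟨_, rfl⟩
  rw [hs] at hcard hsz
  obtain ⟨e, he⟩ : ∃ e, (KN K).index = e := ⟨_, rfl⟩
  rw [he] at hcard hsz hsums hlt
  have he0 : e ≠ 0 := by rw [← he]; exact (KN K).index_ne_zero_of_finite
  let eq : F ≃ Fin s := F.equivFinOfCardEq hs
  let lam : Fin s → (↥(Subgroup.normalizer (K : Set G)) → ℂ) := fun i => ((eq.symm i).1).1
  have hlam : ∀ i, lam i ∈ relS K := by
    intro i
    obtain ⟨k, hk, hk2⟩ := (Finset.mem_filter.1 (eq.symm i).2).2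
    exact ⟨(eq.symm i).1.2, k, Subgroup.mem_subgroupOf.1 hk, hk2⟩
  have hlaminj : Function.Injective lam := by
    intro i j hij
    apply eq.symm.injective
    exact Subtype.ext (Subtype.ext hij)
  have hlam1 : ∀ i, lam i 1 = (e : ℂ) := by
    intro i
    rw [degree_rel _ (hC_KN K hC) (hab_KN K hab) (hlam i).1 (relS_ker K (hlam i)), he]
  have hsumF : ∀ g : IrrCharacter ↥(Subgroup.normalizer (K : Set G)) → ℂ,
      ∑ χ ∈ F, g χ = ∑ i : Fin s, g (eq.symm i).1 := by
    intro g
    rw [← Finset.sum_coe_sort F g, ← Equiv.sum_comp eq.symm]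
  have hvan : ∀ i j, ∀ x : ↥(Subgroup.normalizer (K : Set G)), (x : G) ∉ K →
      (lam i - lam j) x = 0 := by
    intro i j x hx
    have hx' : x ∉ KN K := fun h => hx (Subgroup.mem_subgroupOf.1 h)
    rw [Pi.sub_apply, vanish (KN K) (hC_KN K hC) (hlam i).1 (relS_ker K (hlam i)) hx',
      vanish (KN K) (hC_KN K hC) (hlam j).1 (relS_ker K (hlam j)) hx', sub_zero]
  have hD1 : ∀ i j, (lam i - lam j) 1 = 0 := fun i j => by
    rw [Pi.sub_apply, hlam1, hlam1, sub_self]
  have hDcf : ∀ i j, IsClassFunction _ (lam i - lam j) := fun i j =>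
    isClassFunction_sub (isClassFunction_of_isIrr (hlam i).1) (isClassFunction_of_isIrr (hlam j).1)
  obtain ⟨εc, hεc, θ0, hθ0, hθ0inj, hθ0d⟩ := H4.Exceptional.exceptional
    (Subgroup.normalizer (K : Set G)) (K : Set G) hTI s (by omega) lam (fun i => (hlam i).1)
    hlaminj hvan (fun i j => by rw [hlam1, hlam1])
  obtain ⟨ε, hε, hεεc⟩ : ∃ ε : ℤ, (ε = 1 ∨ ε = -1) ∧ (ε : ℂ) = εc := by
    rcases hεc with h | h
    · exact ⟨1, Or.inl rfl, by rw [h]; simp⟩
    · exact ⟨-1, Or.inr rfl, by rw [h]; simp⟩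
  have hε2 : ε * ε = 1 := by rcases hε with h | h <;> rw [h] <;> norm_num
  -- values at `z`
  have hv : ∀ i, ∃ v : ℤ, lam i (zN hzK) = v ∧ (v = e ∨ v = -1) := by
    intro i
    rcases value (KN K) (hC_KN K hC) (hab_KN K hab) (z := zN hzK) (Subgroup.mem_subgroupOf.2 hzK)
      (fun h => hz1 (congrArg Subtype.val h)) (Subtype.ext hz2) (fusN K hzK hfus) (hlam i).1
      (relS_ker K (hlam i)) with h | h
    · exact ⟨e, by rw [h, he]; simp, Or.inl rfl⟩
    · exact ⟨-1, by rw [h]; simp, Or.inr rfl⟩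
  choose v hv hv' using hv
  have hsv1 : ∑ i, v i = -1 := by
    have h1 := hsums.1
    rw [hsumF] at h1
    have h2 : ((∑ i, v i : ℤ) : ℂ) = ((-1 : ℤ) : ℂ) := by
      push_cast
      rw [← h1]
      exact Finset.sum_congr rfl fun i _ => (hv i).symm
    exact_mod_cast h2
  have hsv2 : ∑ i, v i ^ 2 = Nat.card K - e := by
    have h1 := hsums.2
    rw [hsumF] at h1
    have h2 : ((∑ i, v i ^ 2 : ℤ) : ℂ) = ((Nat.card K - e : ℤ) : ℂ) := by
      push_cast
      rw [← h1]
      refine Finset.sum_congr rfl fun i _ => ?_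
      have h3 : ((eq.symm i).1 : ↥(Subgroup.normalizer (K : Set G)) → ℂ) (zN hzK) = v i := hv i
      rw [h3]
      simp [pow_two]
    exact_mod_cast h2
  have hz2' : z * z = 1 := hz2
  have ht : ∀ χ : IrrCharacter G, ∃ a : ℤ, (χ : G → ℂ) z = a := by
    intro χ
    obtain ⟨n, hn⟩ := exists_degree (isCharacter_of_isIrr χ.2)
    obtain ⟨a, ha, -⟩ := int_of_sq (isCharacter_of_isIrr χ.2) hz2' hn
    exact ⟨a, ha⟩
  choose a ha using ht
  have hdg : ∀ χ : IrrCharacter G, ∃ n : ℕ, 0 < n ∧ (χ : G → ℂ) 1 = n := fun χ =>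
    exists_degree_pos χ.2
  choose dg hdg0 hdg using hdg
  let θ : Fin s → IrrCharacter G := fun i => ⟨θ0 i, hθ0 i⟩
  have hθinj : Function.Injective θ := fun i j hij => hθ0inj (congrArg Subtype.val hij)
  have hεne : εc ≠ 0 := by rcases hεc with h | h <;> rw [h] <;> norm_num
  have hdeq : ∀ i j, dg (θ i) = dg (θ j) := by
    intro i j
    have h1 := congrFun (hθ0d i j) 1
    rw [Pi.sub_apply, indFun_one, indFun_one, hlam1, hlam1, sub_self, Pi.smul_apply,
      Pi.sub_apply, smul_eq_mul] at h1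
    have h2 : θ0 i 1 - θ0 j 1 = 0 := by
      rcases mul_eq_zero.1 h1.symm with h3 | h3
      · exact absurd h3 hεne
      · exact h3
    have h3 : θ0 i 1 = dg (θ i) := hdg (θ i)
    have h4 : θ0 j 1 = dg (θ j) := hdg (θ j)
    rw [h3, h4] at h2
    have h5 : (dg (θ i) : ℂ) = dg (θ j) := by linear_combination h2
    exact_mod_cast h5
  have hrel : ∀ i j, v i - v j = ε * (a (θ i) - a (θ j)) := by
    intro i j
    have h1 := congrFun (hθ0d i j) z
    rw [← indFun_sub, Pi.smul_apply, Pi.sub_apply, smul_eq_mul] at h1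
    have h2 := H18.TIFN.ind_apply K hTI hC (lam i - lam j) (hDcf i j) (hvan i j) (hD1 i j) (zN hzK)
    have h3 : ((zN hzK : Subgroup.normalizer (K : Set G)) : G) = z := rfl
    rw [h3, h1, Pi.sub_apply, hv, hv] at h2
    have h4 : θ0 i z = a (θ i) := ha (θ i)
    have h5 : θ0 j z = a (θ j) := ha (θ j)
    rw [h4, h5, ← hεεc] at h2
    exact_mod_cast h2.symm
  have i0 : Fin s := ⟨0, by omega⟩
  set c := a (θ i0) - ε * v i0 with hc
  have hac : ∀ i, a (θ i) = ε * v i + c := by
    intro i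
    have h1 := hrel i i0
    have h2 : ε * (v i - v i0) = a (θ i) - a (θ i0) := by rw [h1, ← mul_assoc, hε2, one_mul]
    rw [hc]; linarith
  -- the principal character
  let one : IrrCharacter G := ⟨fun _ => 1, isIrrCharacter_one⟩
  have hone : ∀ j, θ j ≠ one := by
    intro j hj
    have h1 : ∀ i, θ i = one := by
      intro i
      apply Subtype.ext
      apply hlin _ (hθ0 i)
      have h2 : dg (θ i) = dg one := by rw [hdeq i j, hj]
      have h3 : θ0 i 1 = dg (θ i) := hdg (θ i)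
      rw [h3, h2, ← hdg one]
    have h2 : (⟨0, by omega⟩ : Fin s) = ⟨1, by omega⟩ := hθinj ((h1 _).trans (h1 _).symm)
    simp at h2
  have haone : a one = 1 := by
    have h1 := ha one
    have h2 : ((1 : ℤ) : ℂ) = a one := by rw [← h1]; simp [one]
    exact_mod_cast h2.symm
  have hnot : one ∉ Finset.univ.image θ := by
    intro h
    obtain ⟨j, -, hj⟩ := Finset.mem_image.1 h
    exact hone j hj
  have hcenz : Subgroup.centralizer ({z} : Set G) = K := by
    apply le_antisymm (hC z hzK hz1)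
    intro y hy
    rw [Subgroup.mem_centralizer_singleton_iff]
    exact congrArg Subtype.val (hab ⟨y, hy⟩ ⟨z, hzK⟩)
  have hcol : ∑ χ : IrrCharacter G, a χ ^ 2 = Nat.card K := by
    have h1 := column_orthogonality z z
    rw [if_pos (IsConj.refl z), hcenz] at h1
    have h2 : ((∑ χ : IrrCharacter G, a χ ^ 2 : ℤ) : ℂ) = ((Nat.card K : ℤ) : ℂ) := by
      push_cast
      rw [← h1]
      refine Finset.sum_congr rfl fun χ _ => ?_
      rw [ha]; simp [pow_two]
    exact_mod_cast h2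
  have hle : ∑ i, a (θ i) ^ 2 + 1 ≤ Nat.card K := by
    rw [← hcol]
    have h1 : ∑ χ ∈ insert one (Finset.univ.image θ), a χ ^ 2 ≤ ∑ χ : IrrCharacter G, a χ ^ 2 :=
      Finset.sum_le_univ_sum_of_nonneg fun χ => sq_nonneg _
    rw [Finset.sum_insert hnot, Finset.sum_image (fun i _ j _ h => hθinj h), haone] at h1
    linarith
  have hexp : ∑ i, a (θ i) ^ 2 = (Nat.card K - e) - 2 * ε * c + s * c ^ 2 := by
    have h1 : ∀ i, a (θ i) ^ 2 = v i ^ 2 + 2 * ε * c * v i + c ^ 2 := by
      intro i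
      rw [hac i]
      linear_combination (v i) ^ 2 * hε2
    rw [Finset.sum_congr rfl fun i _ => h1 i, Finset.sum_add_distrib, Finset.sum_add_distrib,
      ← Finset.mul_sum, hsv1, hsv2, Finset.sum_const, Finset.card_univ, Fintype.card_fin,
      nsmul_eq_mul]
    ring
  have hc0 : c = 0 := by
    apply arith2 (s := s) (e := e) (by positivity) hε (by exact_mod_cast hsz)
    rw [hexp] at hle
    linarith
  have hav : ∀ i, a (θ i) = ε * v i := fun i => by rw [hac i, hc0, add_zero]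
  -- indices
  obtain ⟨i, hi⟩ : ∃ i, v i = e := by
    by_contra hcon
    push Not at hcon
    have h1 : ∀ i, v i = -1 := fun i => (hv' i).resolve_left (hcon i)
    rw [Finset.sum_congr rfl fun i _ => h1 i, Finset.sum_const, Finset.card_univ,
      Fintype.card_fin, nsmul_eq_mul] at hsv1
    omega
  obtain ⟨j, hj⟩ : ∃ j, v j = -1 := by
    by_contra hcon
    push Not at hcon
    have h1 : ∀ i, v i = e := fun i => (hv' i).resolve_right (hcon i)
    rw [Finset.sum_congr rfl fun i _ => h1 i, Finset.sum_const, Finset.card_univ,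
      Fintype.card_fin, nsmul_eq_mul] at hsv1
    have : (0 : ℤ) ≤ (s : ℤ) * e := by positivity
    omega
  -- the two evaluations
  have hcf := H18.CharCentral.isClassFunction_conv (isClassFunction_classInd z)
    (isClassFunction_classInd z)
  have hA1 : classInner (H18.CharCentral.conv (classInd z) (classInd z))
      (indFun (Subgroup.normalizer (K : Set G)) (lam i - lam j)) =
      ((e : ℂ) - 1) * ((Nat.card K : ℂ)⁻¹ * (e + 1)) := by
    rw [frobenius' _ _ hcf, inner_conv_N K hC hab hzK hz1 hz2 hfus (hDcf i j) (hvan i j) (hD1 i j),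
      Pi.sub_apply, hv, hv, hi, hj, he]
    simp
  obtain ⟨d, hd⟩ : ∃ d, dg (θ i) = d := ⟨_, rfl⟩
  have hd0 : 0 < d := by rw [← hd]; exact hdg0 _
  have hinn : ∀ k, classInner (H18.CharCentral.conv (classInd z) (classInd z)) (θ0 k) =
      (Nat.card G : ℂ) * ((Nat.card K : ℂ)⁻¹ * (a (θ k) : ℂ)) ^ 2 / d := by
    intro k
    rw [H18.CharCentral.inner_conv (hθ0 k) (isClassFunction_classInd z),
      inner_classInd z (isClassFunction_of_isIrr (hθ0 k)), hcenz]
    have h4 : θ0 k z = a (θ k) := ha (θ k)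
    have h5 : θ0 k 1 = dg (θ k) := hdg (θ k)
    rw [h4, h5, hdeq k i, hd]
    simp
    ring
  have hA2 : classInner (H18.CharCentral.conv (classInd z) (classInd z))
      (indFun (Subgroup.normalizer (K : Set G)) (lam i - lam j)) =
      ε * ((Nat.card G : ℂ) * ((Nat.card K : ℂ)⁻¹ * (a (θ i) : ℂ)) ^ 2 / d -
        (Nat.card G : ℂ) * ((Nat.card K : ℂ)⁻¹ * (a (θ j) : ℂ)) ^ 2 / d) := by
    rw [indFun_sub, hθ0d i j, H18.CharOrtho.inner_smul_right, H18.CharOrtho.inner_sub_right,
      hinn, hinn, ← hεεc]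
    simp
  rw [hA1] at hA2
  have hK0 : (Nat.card K : ℂ) ≠ 0 := by exact_mod_cast (Nat.card_pos (α := K)).ne'
  have hdC : (d : ℂ) ≠ 0 := by exact_mod_cast hd0.ne'
  have hε2C : (ε : ℂ) ^ 2 = 1 := by
    have : ((ε * ε : ℤ) : ℂ) = ((1 : ℤ) : ℂ) := by rw [hε2]
    push_cast at this
    rw [pow_two]; exact this
  have hai : (a (θ i) : ℂ) = ε * e := by rw [hav i, hi]; simp
  have haj : (a (θ j) : ℂ) = -ε := by rw [hav j, hj]; simp
  rw [hai, haj] at hA2
  have he1 : (e : ℂ) - 1 ≠ 0 := by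
    intro h
    apply hlt
    have : (e : ℂ) = 1 := by linear_combination h
    exact_mod_cast this
  have he2 : (e : ℂ) + 1 ≠ 0 := by exact_mod_cast Nat.succ_ne_zero e
  have hfin : (ε : ℂ) * Nat.card G = Nat.card K * d := by
    field_simp at hA2
    have h1 : (((e : ℂ) - 1) * (e + 1)) * ((ε : ℂ) * Nat.card G) =
        (((e : ℂ) - 1) * (e + 1)) * (Nat.card K * d) := by
      linear_combination (-1 : ℂ) * hA2 + (-(ε : ℂ) * Nat.card G * (e ^ 2 - 1)) * hε2C
    exact mul_left_cancel₀ (mul_ne_zero he1 he2) h1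
  have hfinZ : ε * (Nat.card G : ℤ) = Nat.card K * d := by exact_mod_cast hfin
  have hG0 : (0 : ℤ) < Nat.card G := by exact_mod_cast Nat.card_pos
  have hKpos : (0 : ℤ) < Nat.card K := by exact_mod_cast Nat.card_pos
  have hdpos : (0 : ℤ) < d := by exact_mod_cast hd0
  have hε1 : ε = 1 := by
    rcases hε with h | h
    · exact h
    · exfalso
      rw [h] at hfinZ
      have : (0 : ℤ) < Nat.card K * d := mul_pos hKpos hdpos
      omega
  have hG : Nat.card G = Nat.card K * d := by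
    rw [hε1, one_mul] at hfinZ
    exact_mod_cast hfinZ
  -- degrees
  have hdegsum : ∑ χ : IrrCharacter G, dg χ ^ 2 = Nat.card G := by
    have h1 := sum_degree_sq (G := G)
    have h2 : ((∑ χ : IrrCharacter G, dg χ ^ 2 : ℕ) : ℂ) = ((Nat.card G : ℕ) : ℂ) := by
      push_cast
      rw [← h1]
      exact Finset.sum_congr rfl fun χ _ => by rw [hdg]
    exact_mod_cast h2
  have hsd : s * d ^ 2 ≤ Nat.card G := by
    rw [← hdegsum]
    have h1 : ∑ χ ∈ Finset.univ.image θ, dg χ ^ 2 ≤ ∑ χ : IrrCharacter G, dg χ ^ 2 :=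
      Finset.sum_le_univ_sum_of_nonneg fun χ => Nat.zero_le _
    rw [Finset.sum_image (fun i _ j _ h => hθinj h), Finset.sum_congr rfl (fun k _ => by
      rw [hdeq k i, hd]), Finset.sum_const, Finset.card_univ, Fintype.card_fin, smul_eq_mul] at h1
    exact h1
  have hsq := card_sq_le K hTI hg0
  rw [hG] at hsd hsq
  have hKn : 0 < Nat.card K := Nat.card_pos
  have h1 : Nat.card K ≤ d := Nat.le_of_mul_le_mul_left hsq hKn
  have h2 : s * d ≤ Nat.card K := by
    apply Nat.le_of_mul_le_mul_right _ hd0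
    calc s * d * d = s * d ^ 2 := by ring
      _ ≤ Nat.card K * d := hsd
  have h3 : s * d ≤ 1 * d := by omega
  have h4 := Nat.le_of_mul_le_mul_right h3 hd0
  omega

end H65.NY
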