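import Cfsg.Agent.Lib.H65.NX12
import Cfsg.Agent.Lib.H65.NX8
import Cfsg.Agent.Lib.H65.NY3
import Cfsg.Agent.Lib.H73.Hamiltonian

/-!
Class II: contradiction.
-/
set_option autoImplicit false
set_option linter.unusedSectionVars false
set_option linter.style.haveILetI false

namespace H65.NX

open Subgroup
open scoped Pointwise commutatorElement

universe u

/-- the involution in an even order cyclic group -/
theorem invol_pow {G : Type*} [Group G] [Finite G] {a : G} (h : ¬ Odd (orderOf a)) :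
    ∃ n : ℕ, a ^ n ≠ 1 ∧ a ^ n * a ^ n = 1 := by
  rw [Nat.not_odd_iff_even] at h
  obtain ⟨n, hn⟩ := h
  have hpos := orderOf_pos a
  refine ⟨n, ?_, ?_⟩
  · intro h1
    have h2 := Nat.le_of_dvd (by omega) (orderOf_dvd_of_pow_eq_one h1)
    omega
  · rw [← pow_add, ← hn, pow_orderOf_eq_one]

namespace C2

variable {G : Type u} [Group G] [Finite G] {z x z' : G}

theorem l7 (hN : Nest G) (h : C2 z x z') {u i : G} (hu2 : u * u = 1)
    (huz : ¬ u * z = z * u) (hi1 : i ≠ 1) (hi2 : i * i = 1) (hiz : i * z = z * i) :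
    ∃ d, d * i * d⁻¹ = u := by
  have ho : Odd (orderOf (i * u)) := by
    by_contra hno
    obtain ⟨n, hn1, hn2⟩ := invol_pow hno
    have hii : i⁻¹ = i := inv_eq_of_mul_eq_one_left hi2
    have huu : u⁻¹ = u := inv_eq_of_mul_eq_one_left hu2
    have hninv : ((i * u) ^ n)⁻¹ = (i * u) ^ n := inv_eq_of_mul_eq_one_left hn2
    have h1 : i * (i * u) ^ n * i⁻¹ = (i * u) ^ n := by
      rw [← conj_pow]
      have : i * (i * u) * i⁻¹ = (i * u)⁻¹ := by
        rw [mul_inv_rev, hii, huu, ← mul_assoc, hi2, one_mul]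
      rw [this, inv_pow, hninv]
    have h2 : u * (i * u) ^ n * u⁻¹ = (i * u) ^ n := by
      rw [← conj_pow]
      have : u * (i * u) * u⁻¹ = (i * u)⁻¹ := by
        rw [mul_inv_rev, hii, huu]
        calc u * (i * u) * u = u * i * (u * u) := by group
          _ = u * i := by rw [hu2, mul_one]
      rw [this, inv_pow, hninv]
    have h3 := mul_inv_eq_iff_eq_mul.mp h1
    have h4 := mul_inv_eq_iff_eq_mul.mp h2
    have h5 := h.l5 hN hi1 hi2 hiz h3.symm
    exact huz (h.l5 hN hn1 hn2 h5 h4)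
  obtain ⟨d, -, hd⟩ := H5.Dihedral.conj_of_odd hi2 hu2 ho
  exact ⟨d, hd⟩

theorem l7' (hN : Nest G) (h : C2 z x z') {u i : G} (hu2 : u * u = 1)
    (huz : ¬ u * z = z * u) (hi1 : i ≠ 1) (hi2 : i * i = 1) (hiz : i * z = z * i) :
    ∃ k, k * z * k⁻¹ = i := by
  obtain ⟨d, hd⟩ := h.l7 hN hu2 huz hi1 hi2 hiz
  obtain ⟨e, he⟩ := h.l7 hN hu2 huz h.hz1 h.hz2 rfl
  refine ⟨d⁻¹ * e, ?_⟩
  calc d⁻¹ * e * z * (d⁻¹ * e)⁻¹ = d⁻¹ * (e * z * e⁻¹) * d := by group
    _ = i := by rw [he, ← hd]; group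

theorem l8 (hN : Nest G) (h : C2 z x z') {u i : G} (hu2 : u * u = 1)
    (huz : ¬ u * z = z * u) (hi2 : i * i = 1) (hiz : i * z = z * i) :
    i * x = x * i := by
  by_cases hi1 : i = 1
  · rw [hi1, one_mul, mul_one]
  by_contra hix
  obtain ⟨k, hk⟩ := h.l7' hN hu2 huz hi1 hi2 hiz
  refine h.l2 hN hi1 hi2 hiz hix (y := k * x * k⁻¹) ?_ ?_ ?_
  · intro h'; apply h.hx1
    calc x = k⁻¹ * (k * x * k⁻¹) * k := by group
      _ = 1 := by rw [h']; group
  · rw [show orderOf (k * x * k⁻¹) = orderOf x from (MulAut.conj k).orderOf_eq x]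
    exact h.hxo
  · rw [← hk]; exact comm_conj k h.hxz

theorem l9 (hN : Nest G) (h : C2 z x z') {u : G} (hu2 : u * u = 1)
    (huz : ¬ u * z = z * u) {b c : G} (hb : b * z = z * b) (hc : c * z = z * c) :
    c * b * c⁻¹ ∈ zpowers b := by
  by_cases ho : Odd (orderOf b)
  · exact hN.odd' z b c h.hz1 h.hz2 ho hb hc
  obtain ⟨n, hn1, hn2⟩ := invol_pow ho
  have h1 : b ^ n * z = z * b ^ n := (show Commute b z from hb).pow_left n
  have h2 := h.l8 hN hu2 huz hn2 h1
  exact hN.cyc (b ^ n) b c hn1 hn2 (pow_mem (mem_zpowers b) n) ((h.cw hN hn1 hn2 h2 c).mpr hc)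

theorem abel (hN : Nest G) (hZ : ZS G) (h : C2 z x z') {u : G} (hu2 : u * u = 1)
    (huz : ¬ u * z = z * u) {b c : G} (hb : b * z = z * b) (hc : c * z = z * c) :
    b * c = c * b := by
  haveI : Fact (Nat.Prime 2) := ⟨Nat.prime_two⟩
  by_contra hbc
  have hnorm : ∀ H : Subgroup (centralizer ({z} : Set G)), H.Normal := by
    intro H
    constructor
    intro a ha g
    obtain ⟨k, hk⟩ := h.l9 hN hu2 huz (mem_centralizer_singleton_iff.mp a.2)
      (mem_centralizer_singleton_iff.mp g.2)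
    have hk : (a : G) ^ k = (g : G) * a * (g : G)⁻¹ := hk
    have : g * a * g⁻¹ = a ^ k := by
      apply Subtype.ext
      simp only [Subgroup.coe_mul, Subgroup.coe_inv, SubgroupClass.coe_zpow]
      exact hk.symm
    rw [this]
    exact zpow_mem ha k
  obtain ⟨a, b', -, ha, hb', hab1, hab2⟩ := H73.Hamiltonian.exists_pair hnorm
    ⟨⟨b, mem_centralizer_singleton_iff.mpr hb⟩, ⟨c, mem_centralizer_singleton_iff.mpr hc⟩,
      fun h' => hbc (congrArg Subtype.val h')⟩
  have hw2 : ⁅a, b'⁆ * ⁅a, b'⁆ = 1 := by rw [← pow_two, ← hab2, pow_orderOf_eq_one]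
  rw [pow_two] at ha hb'
  obtain ⟨a, haz⟩ := a
  obtain ⟨b', hbz⟩ := b'
  rw [mem_centralizer_singleton_iff] at haz hbz
  have ha : a * a = ⁅a, b'⁆ := congrArg Subtype.val ha
  have hb' : b' * b' = ⁅a, b'⁆ := congrArg Subtype.val hb'
  have hw2 : ⁅a, b'⁆ * ⁅a, b'⁆ = 1 := congrArg Subtype.val hw2
  have hw1 : ⁅a, b'⁆ ≠ 1 := fun h' => hab1 (Subtype.ext h')
  set w := ⁅a, b'⁆ with hw
  clear hab1 hab2 hnorm
  have hwz : w * z = z * w := by rw [← ha]; exact (show Commute a z from haz).mul_left haz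
  have hWp : IsPGroup 2 (h.W hN) := isPGroup_two_of_sq fun w hw => hw.1
  obtain ⟨T, hT⟩ := hWp.exists_le_sylow
  have hTz := h.l4 hN T.2 hT
  have hwx := h.l8 hN hu2 huz hw2 hwz
  obtain ⟨g, hgT, hgw⟩ := hZ T w (hT ⟨hw2, hwx⟩) hw1 hw2
  have hg := inv_conj g hw1 hw2
  have hgx := h.l8 hN hu2 huz hg.2 (hTz _ hgT)
  have hbw : b' * w = w * b' := (h.cw hN hw1 hw2 hwx b').mpr hbz
  have haw : a * w = w * a := (h.cw hN hw1 hw2 hwx a).mpr haz
  have hgb := comm_conj g hbw
  have hgbz : (g * b' * g⁻¹) * z = z * (g * b' * g⁻¹) := (h.cw hN hg.1 hg.2 hgx _).mp hgb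
  have hgbw : (g * b' * g⁻¹) * w = w * (g * b' * g⁻¹) := (h.cw hN hw1 hw2 hwx _).mpr hgbz
  have hag : a * (g * w * g⁻¹) = (g * w * g⁻¹) * a := (h.cw hN hg.1 hg.2 hgx a).mpr haz
  have hbg : b' * (g * w * g⁻¹) = (g * w * g⁻¹) * b' := (h.cw hN hg.1 hg.2 hgx b').mpr hbz
  have hgsq : (g * b' * g⁻¹) * (g * b' * g⁻¹) = g * w * g⁻¹ := by rw [← hb']; group
  have e1 := b2 hN hw1 hw2 hg.1 hg.2 hgw.symm ha hgsq hag hgbw
  have e2 := b2 hN hw1 hw2 hg.1 hg.2 hgw.symm hb' hgsq hbg hgbw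
  have hsq : (b' * (g * b' * g⁻¹)) * (b' * (g * b' * g⁻¹)) = w * (g * w * g⁻¹) := by
    rw [← pow_two, (show Commute b' (g * b' * g⁻¹) from e2).mul_pow, pow_two, pow_two, hb', hgsq]
  have hww : w * (g * w * g⁻¹) = (g * w * g⁻¹) * w := by
    have := (h.cw hN hg.1 hg.2 hgx w).mpr hwz
    exact this
  have hwg1 : w * (g * w * g⁻¹) ≠ 1 := by
    intro h'
    apply hgw
    have := mul_eq_one_iff_eq_inv'.mp h'
    rw [this, inv_eq_of_mul_eq_one_left hw2]
  have hwg2 : (w * (g * w * g⁻¹)) * (w * (g * w * g⁻¹)) = 1 := by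
    rw [← pow_two, (show Commute w (g * w * g⁻¹) from hww).mul_pow, pow_two, pow_two, hw2, hg.2,
      one_mul]
  have e3 := b2 hN hw1 hw2 hwg1 hwg2 (fun h' => hg.1 (mul_eq_left.mp h'.symm)) ha hsq
    ((show Commute a w from haw).mul_right hag)
    ((show Commute b' w from hbw).mul_left hgbw)
  have e4 : a * b' = b' * a := by
    calc a * b' = (a * (b' * (g * b' * g⁻¹))) * (g * b' * g⁻¹)⁻¹ := by group
      _ = b' * ((g * b' * g⁻¹) * a) * (g * b' * g⁻¹)⁻¹ := by rw [e3]; group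
      _ = b' * a := by rw [← e1]; group
  apply hw1
  rw [hw, commutatorElement_def, e4]
  group

/-- class II is contradictory -/
theorem false [IsSimpleGroup G] (hna : ∃ a b : G, a * b ≠ b * a) (hN : Nest G) (hZ : ZS G)
    (h : C2 z x z') : False := by
  classical
  -- an element moving `z` out of its centralizer
  obtain ⟨g0, hg0⟩ : ∃ g : G, ¬ (g * z * g⁻¹) * z = z * (g * z * g⁻¹) := by
    by_contra hcon
    push Not at hcon
    have h1 : Subgroup.normalClosure ({z} : Set G) ≤ centralizer ({z} : Set G) := by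
      rw [Subgroup.normalClosure, closure_le]
      intro y hy
      obtain ⟨a, ha, hay⟩ := Group.mem_conjugatesOfSet_iff.mp hy
      rw [Set.mem_singleton_iff] at ha
      subst ha
      obtain ⟨c, hc⟩ := isConj_iff.1 hay
      rw [SetLike.mem_coe, mem_centralizer_singleton_iff, ← hc]
      exact hcon c
    have h2 : Subgroup.normalClosure ({z} : Set G) = ⊤ := by
      rcases IsSimpleGroup.eq_bot_or_eq_top_of_normal (Subgroup.normalClosure ({z} : Set G))
        Subgroup.normalClosure_normal with h' | h'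
      · exfalso
        have : z ∈ Subgroup.normalClosure ({z} : Set G) :=
          Subgroup.subset_normalClosure (Set.mem_singleton z)
        rw [h', mem_bot] at this
        exact h.hz1 this
      · exact h'
    have h3 : z ∈ center G := by
      rw [mem_center_iff]
      intro y
      have : y ∈ centralizer ({z} : Set G) := h1 (by rw [h2]; trivial)
      exact mem_centralizer_singleton_iff.mp this
    rcases IsSimpleGroup.eq_bot_or_eq_top_of_normal (center G) inferInstance with h' | h'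
    · rw [h', mem_bot] at h3; exact h.hz1 h3
    · obtain ⟨a, b, hab⟩ := hna
      apply hab
      have : b ∈ center G := by rw [h']; trivial
      exact (mem_center_iff.mp this a)
  set u := g0 * z * g0⁻¹ with hu
  have hu2 : u * u = 1 := (inv_conj g0 h.hz1 h.hz2).2
  set K := centralizer ({z} : Set G) with hK
  have memK : ∀ c, c ∈ K ↔ c * z = z * c := fun c => mem_centralizer_singleton_iff
  have hab : ∀ a b : K, a * b = b * a := fun a b =>
    Subtype.ext (h.abel hN hZ hu2 hg0 ((memK _).mp a.2) ((memK _).mp b.2))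
  have hC : ∀ k ∈ K, k ≠ 1 → centralizer ({k} : Set G) ≤ K := by
    intro k hk hk1 c hc
    rw [mem_centralizer_singleton_iff] at hc
    rw [memK] at hk ⊢
    by_cases ho : Odd (orderOf k)
    · apply hN.odd z k c h.hz1 h.hz2 hk1 ho hk
      rw [hc, mul_inv_cancel_right]
      exact mem_zpowers k
    · obtain ⟨n, hn1, hn2⟩ := invol_pow ho
      exact h.l5 hN hn1 hn2 ((show Commute k z from hk).pow_left n)
        ((show Commute c k from hc).pow_right n)
  have hcen : ∀ k ∈ K, k ≠ 1 → ∀ c, c ∈ K ↔ c * k = k * c := by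
    intro k hk hk1 c
    constructor
    · intro hc
      exact congrArg Subtype.val (hab ⟨c, hc⟩ ⟨k, hk⟩)
    · intro hc
      exact hC k hk hk1 (mem_centralizer_singleton_iff.mpr hc)
  have hmemN : ∀ g k : G, k ∈ K → k ≠ 1 → g * k * g⁻¹ ∈ K → g ∈ normalizer (K : Set G) := by
    intro g k hk hk1 hgk
    have hgk1 : g * k * g⁻¹ ≠ 1 := by
      intro h'; apply hk1
      calc k = g⁻¹ * (g * k * g⁻¹) * g := by group
        _ = 1 := by rw [h']; group
    rw [mem_normalizer_iff]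
    intro c
    rw [hcen k hk hk1 c, hcen _ hgk hgk1]
    constructor
    · intro hc
      exact comm_conj g hc
    · intro hc
      have h5 := comm_conj g⁻¹ hc
      have e1 : g⁻¹ * (g * c * g⁻¹) * g⁻¹⁻¹ = c := by group
      have e2 : g⁻¹ * (g * k * g⁻¹) * g⁻¹⁻¹ = k := by group
      rwa [e1, e2] at h5
  have hTI : ∀ g : G, g ∉ normalizer (K : Set G) → ∀ k ∈ K, g * k * g⁻¹ ∈ K → k = 1 := by
    intro g hg k hk hgk
    by_contra hk1
    exact hg (hmemN g k hk hk1 hgk)
  have hzK : z ∈ K := (memK z).mpr rfl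
  have hfus : ∀ w ∈ K, w ≠ 1 → w * w = 1 → ∃ g ∈ normalizer (K : Set G), g * z * g⁻¹ = w := by
    intro w hw hw1 hw2
    obtain ⟨k, hk⟩ := h.l7' hN hu2 hg0 hw1 hw2 ((memK w).mp hw)
    exact ⟨k, hmemN k z hzK h.hz1 (by rw [hk]; exact hw), hk⟩
  have hg0N : g0 ∉ normalizer (K : Set G) := by
    intro h'
    have := (mem_normalizer_iff.mp h' z).mp hzK
    exact hg0 ((memK _).mp this)
  have hlt : (H18.TICoh.KN K).index ≠ 1 := by
    intro h'
    rw [Subgroup.index_eq_one] at h'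
    have hz'K : z' ∈ K := (memK z').mpr (h.zz' hN)
    obtain ⟨g, hgN, hgz⟩ := hfus z' hz'K h.hz'1 h.hz'2
    have h1 : (⟨g, hgN⟩ : normalizer (K : Set G)) ∈ H18.TICoh.KN K := by rw [h']; trivial
    have h2 : g ∈ K := Subgroup.mem_subgroupOf.1 h1
    apply h.hne
    rw [← hgz]
    exact mul_inv_eq_iff_eq_mul.mpr ((memK g).mp h2)
  have hxx : x * x ≠ 1 := by
    intro h'
    apply h.hx1
    have h1 := orderOf_dvd_of_pow_eq_one (show x ^ 2 = 1 by rw [pow_two, h'])
    have h2 : orderOf x = 1 ∨ orderOf x = 2 := (Nat.dvd_prime Nat.prime_two).mp h1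
    rcases h2 with h2 | h2
    · exact orderOf_eq_one_iff.mp h2
    · have h3 := h.hxo
      rw [h2] at h3
      exact absurd h3 (by decide)
  have hlin : ∀ χ : G → ℂ, Cfsg.IsIrrCharacter G χ → χ 1 = 1 → χ = fun _ => 1 := by
    intro χ hχ hχ1
    obtain ⟨f, hf⟩ := H18.CharQuot.exists_hom_of_degree_one
      (H18.CharBasic.isCharacter_of_isIrr hχ) hχ1
    rcases IsSimpleGroup.eq_bot_or_eq_top_of_normal f.ker inferInstance with h' | h'
    · exfalso
      obtain ⟨a, b, hab'⟩ := hna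
      apply hab'
      apply (MonoidHom.ker_eq_bot_iff f).mp h'
      rw [map_mul, map_mul, mul_comm]
    · funext g
      have h1 : g ∈ f.ker := by rw [h']; trivial
      rw [MonoidHom.mem_ker] at h1
      have h2 : χ g = (f g : ℂ) := congrFun hf g
      rw [h2, h1]; simp
  haveI : Fintype G := Fintype.ofFinite G
  haveI : Fintype (normalizer (K : Set G)) := Fintype.ofFinite _
  haveI : Fintype (H18.TICoh.KN K) := Fintype.ofFinite _
  exact H65.NY.main K hTI hC hab hzK h.hz1 h.hz2 hfus ((memK x).mpr h.hxz) hxx hg0N hlt hlin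

end C2

end H65.NX
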