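import Cfsg.Agent.Lib.H65.NX1
import Cfsg.Agent.Lib.H50.AutPSL2
import Cfsg.Agent.Lib.H50.PSLUniq

/-!
The nesting condition for subgroups of `Aut (PSL_2(F))` containing the inner automorphisms:
field automorphisms.
-/
set_option autoImplicit false
set_option linter.unusedSectionVars false
set_option linter.style.haveILetI false

namespace H65.NX

open Subgroup Matrix H50.PSLBasic H50.PSLUniq
open scoped Pointwise

structure NestOn {A : Type*} [Group A] (R : Subgroup A) : Prop where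
  odd : ∀ t ∈ R, ∀ x ∈ R, ∀ g ∈ R, t ≠ 1 → t * t = 1 → x ≠ 1 → Odd (orderOf x) → x * t = t * x →
    g * x * g⁻¹ ∈ zpowers x → g * t = t * g
  odd' : ∀ t ∈ R, ∀ x ∈ R, ∀ c ∈ R, t ≠ 1 → t * t = 1 → Odd (orderOf x) → x * t = t * x →
    c * t = t * c → c * x * c⁻¹ ∈ zpowers x
  b1 : ∀ z ∈ R, ∀ e ∈ R, ∀ c ∈ R, z ≠ 1 → z * z = 1 → e * e = z → c * z = z * c →
    c * e * c⁻¹ = e ∨ c * e * c⁻¹ = e⁻¹

theorem NestOn.of_nest {A : Type*} [Group A] {R : Subgroup A} (h : Nest R) : NestOn R where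
  odd := by
    intro t ht x hx g hg h1 h2 h3 h4 h5 h6
    obtain ⟨k, hk⟩ := h6
    have := h.odd ⟨t, ht⟩ ⟨x, hx⟩ ⟨g, hg⟩ (fun h' => h1 (congrArg Subtype.val h')) (Subtype.ext h2)
      (fun h' => h3 (congrArg Subtype.val h')) (by rwa [Subgroup.orderOf_mk]) (Subtype.ext h5)
      ⟨k, Subtype.ext hk⟩
    exact congrArg Subtype.val this
  odd' := by
    intro t ht x hx c hc h1 h2 h4 h5 h6
    obtain ⟨k, hk⟩ := h.odd' ⟨t, ht⟩ ⟨x, hx⟩ ⟨c, hc⟩ (fun h' => h1 (congrArg Subtype.val h'))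
      (Subtype.ext h2) (by rwa [Subgroup.orderOf_mk]) (Subtype.ext h5) (Subtype.ext h6)
    exact ⟨k, congrArg Subtype.val hk⟩
  b1 := by
    intro z hz e he c hc h1 h2 h3 h4
    rcases H65.NX.b1 h (z := ⟨z, hz⟩) (e := ⟨e, he⟩) (c := ⟨c, hc⟩)
      (fun h' => h1 (congrArg Subtype.val h')) (Subtype.ext h2) (Subtype.ext h3) (Subtype.ext h4)
      with h' | h'
    · exact Or.inl (congrArg Subtype.val h')
    · exact Or.inr (congrArg Subtype.val h')

/-- elements of the group generated commute -/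
theorem NestOn.comm_of_odd' {A : Type*} [Group A] {R : Subgroup A} (h : NestOn R) {t x c : A}
    (ht : t ∈ R) (hx : x ∈ R) (hc : c ∈ R) (h1 : t ≠ 1) (h2 : t * t = 1) (h4 : Odd (orderOf x))
    (h5 : x * t = t * x) (h6 : c * t = t * c) : (c * x * c⁻¹) * x = x * (c * x * c⁻¹) := by
  obtain ⟨k, hk⟩ := h.odd' t ht x hx c hc h1 h2 h4 h5 h6
  have hk : x ^ k = c * x * c⁻¹ := hk
  rw [← hk]
  exact (Commute.zpow_self x k).eq

section psl

variable {F : Type*} [Field F]

/-- an invertible `2 × 2` matrix -/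
def mk2 (a b c d : F) (h : a * d - b * c ≠ 0) : GL (Fin 2) F :=
  Matrix.GeneralLinearGroup.mkOfDetNeZero !![a, b; c, d] (by rw [Matrix.det_fin_two_of]; exact h)

theorem coe_mk2 (a b c d : F) (h : a * d - b * c ≠ 0) :
    ((mk2 a b c d h : GL (Fin 2) F) : Matrix (Fin 2) (Fin 2) F) = !![a, b; c, d] := rfl

theorem mk2_mul (a b c d a' b' c' d' : F) (h : a * d - b * c ≠ 0) (h' : a' * d' - b' * c' ≠ 0) :
    mk2 a b c d h * mk2 a' b' c' d' h' = mk2 (a * a' + b * c') (a * b' + b * d') (c * a' + d * c')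
      (c * b' + d * d') (by
        have : (a * a' + b * c') * (c * b' + d * d') - (a * b' + b * d') * (c * a' + d * c') =
          (a * d - b * c) * (a' * d' - b' * c') := by ring
        rw [this]; exact mul_ne_zero h h') := by
  apply Units.ext
  rw [Units.val_mul, coe_mk2, coe_mk2, coe_mk2]
  simp

theorem glMap_mk2 (σ : F ≃+* F) (a b c d : F) (h : a * d - b * c ≠ 0) :
    glMap σ (mk2 a b c d h) = mk2 (σ a) (σ b) (σ c) (σ d) (by
      rw [← map_mul, ← map_mul, ← map_sub]; exact (map_ne_zero_iff σ σ.injective).mpr h) := by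
  apply Units.ext
  rw [glMap_coe, coe_mk2, coe_mk2]
  ext i j
  fin_cases i <;> fin_cases j <;> rfl

theorem mk2_one (h : (1 : F) * 1 - 0 * 0 ≠ 0) : mk2 (1 : F) 0 0 1 h = 1 := by
  apply Units.ext
  rw [coe_mk2, Units.val_one]
  exact Matrix.one_fin_two.symm

theorem mk2_congr {a b c d a' b' c' d' : F} {h : a * d - b * c ≠ 0} {h' : a' * d' - b' * c' ≠ 0}
    (h1 : a = a') (h2 : b = b') (h3 : c = c') (h4 : d = d') : mk2 a b c d h = mk2 a' b' c' d' h' := by
  subst h1; subst h2; subst h3; subst h4; rfl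

/-- `psi` of explicit matrices -/
theorem psi_mk2_eq_iff {a b c d a' b' c' d' : F} {h : a * d - b * c ≠ 0}
    {h' : a' * d' - b' * c' ≠ 0} {σ τ : F ≃+* F} :
    psi (mk2 a b c d h) σ = psi (mk2 a' b' c' d' h') τ ↔
      σ = τ ∧ ∃ k : F, a = k * a' ∧ b = k * b' ∧ c = k * c' ∧ d = k * d' := by
  rw [psi_eq_psi_iff]
  refine and_congr_right fun _ => exists_congr fun k => ?_
  rw [coe_mk2, coe_mk2]
  constructor
  · intro hk
    refine ⟨?_, ?_, ?_, ?_⟩
    · simpa using congrFun (congrFun hk 0) 0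
    · simpa using congrFun (congrFun hk 0) 1
    · simpa using congrFun (congrFun hk 1) 0
    · simpa using congrFun (congrFun hk 1) 1
  · rintro ⟨h1, h2, h3, h4⟩
    ext i j
    fin_cases i <;> fin_cases j <;> simp [h1, h2, h3, h4]

theorem psi_mk2_mul (a b c d a' b' c' d' : F) (h : a * d - b * c ≠ 0) (h' : a' * d' - b' * c' ≠ 0)
    (σ τ : F ≃+* F) :
    psi (mk2 a b c d h) σ * psi (mk2 a' b' c' d' h') τ =
      psi (mk2 (a * σ a' + b * σ c') (a * σ b' + b * σ d') (c * σ a' + d * σ c')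
      (c * σ b' + d * σ d') (by
        have : (a * σ a' + b * σ c') * (c * σ b' + d * σ d') -
            (a * σ b' + b * σ d') * (c * σ a' + d * σ c') =
          (a * d - b * c) * σ (a' * d' - b' * c') := by
            rw [map_sub, map_mul, map_mul]; ring
        rw [this]; exact mul_ne_zero h ((map_ne_zero_iff σ σ.injective).mpr h'))) (τ.trans σ) := by
  rw [psi_mul, glMap_mk2, mk2_mul]

theorem psi_mk2_eq_one_iff {a b c d : F} {h : a * d - b * c ≠ 0} {σ : F ≃+* F} :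
    psi (mk2 a b c d h) σ = 1 ↔ σ = RingEquiv.refl F ∧ b = 0 ∧ c = 0 ∧ a = d := by
  rw [← psi_one, ← mk2_one (F := F) (by simp), psi_mk2_eq_iff]
  refine and_congr_right fun _ => ?_
  constructor
  · rintro ⟨k, h1, h2, h3, h4⟩
    refine ⟨by rw [h2, mul_zero], by rw [h3, mul_zero], by rw [h1, h4]⟩
  · rintro ⟨h1, h2, h3⟩
    exact ⟨d, by rw [h3, mul_one], by rw [h1, mul_zero], by rw [h2, mul_zero], by rw [mul_one]⟩

end psl

end H65.NX
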