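import Cfsg.Agent.Lib.H65.NX16

/-!
The nesting condition for subgroups of `Aut (PSL_2(F))`: field automorphisms.
-/
set_option autoImplicit false
set_option linter.unusedSectionVars false
set_option linter.style.haveILetI false

namespace H65.NX

open Subgroup Matrix H50.PSLBasic H50.PSLUniq
open scoped Pointwise

section psl

variable {F : Type*} [Field F]

/-- field automorphisms -/
noncomputable def fh (F : Type*) [Field F] :
    (F ≃+* F) →* MulAut (ProjectiveSpecialLinearGroup (Fin 2) F) where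
  toFun σ := psi 1 σ
  map_one' := psi_one
  map_mul' σ τ := by
    rw [psi_mul, map_one, mul_one]
    rfl

theorem fh_eq (σ : F ≃+* F) : fh F σ = psi (mk2 1 0 0 1 (by simp)) σ := by
  show psi 1 σ = _
  rw [mk2_one]

theorem fh_inj : Function.Injective (fh F) := by
  intro σ τ h
  exact (psi_eq_psi_iff.mp h).1

/-- inner automorphisms -/
theorem inn_mem {R : Subgroup (MulAut (ProjectiveSpecialLinearGroup (Fin 2) F))}
    (hInn : ∀ s : ProjectiveSpecialLinearGroup (Fin 2) F, MulAut.conj s ∈ R) {g : GL (Fin 2) F}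
    {c : F} (hc : (g : Matrix (Fin 2) (Fin 2) F).det = c ^ 2) : psi g (RingEquiv.refl F) ∈ R := by
  have h : psi g (RingEquiv.refl F) ∈ Cfsg.Inn (ProjectiveSpecialLinearGroup (Fin 2) F) := by
    rw [psi_mem_inn_iff]
    exact ⟨rfl, c, by rw [hc]; rfl⟩
  obtain ⟨a, ha⟩ := h
  rw [← ha]
  exact hInn a

theorem inn_mem' {R : Subgroup (MulAut (ProjectiveSpecialLinearGroup (Fin 2) F))}
    (hInn : ∀ s : ProjectiveSpecialLinearGroup (Fin 2) F, MulAut.conj s ∈ R) {a b c d : F}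
    {h : a * d - b * c ≠ 0} {k : F} (hk : a * d - b * c = k ^ 2) :
    psi (mk2 a b c d h) (RingEquiv.refl F) ∈ R := by
  apply inn_mem hInn (c := k)
  rw [coe_mk2, Matrix.det_fin_two_of, hk]

/-- field automorphisms of odd prime order -/
theorem odd_false {R : Subgroup (MulAut (ProjectiveSpecialLinearGroup (Fin 2) F))}
    (hInn : ∀ s : ProjectiveSpecialLinearGroup (Fin 2) F, MulAut.conj s ∈ R) (hR : NestOn R)
    {τ : F ≃+* F} (hτ : fh F τ ∈ R) (h1 : τ ≠ 1) (ho : Odd (orderOf τ)) : False := by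
  have ht := inn_mem' hInn (a := 0) (b := 1) (c := -1) (d := 0) (h := by simp) (k := 1) (by simp)
  have hc := inn_mem' hInn (a := 1) (b := 1) (c := 0) (d := 1) (h := by simp) (k := 1) (by simp)
  have hφ1 : fh F τ ≠ 1 := fun h' => h1 (fh_inj (by rw [h', map_one]))
  have hφo : Odd (orderOf (fh F τ)) := by
    rw [orderOf_injective (fh F) fh_inj]; exact ho
  have hcm := hR.odd _ ht _ hτ _ hc (by
      rw [Ne, psi_mk2_eq_one_iff]
      rintro ⟨-, h', -⟩
      exact one_ne_zero h') (by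
      rw [psi_mk2_mul, psi_mk2_eq_one_iff]
      refine ⟨rfl, ?_, ?_, ?_⟩ <;> simp) hφ1 hφo (by
      rw [fh_eq, psi_mk2_mul, psi_mk2_mul, psi_mk2_eq_iff]
      refine ⟨rfl, 1, ?_⟩
      simp) (by
      have h2 : psi (mk2 1 1 0 1 (by simp)) (RingEquiv.refl F) * fh F τ =
          fh F τ * psi (mk2 1 1 0 1 (by simp)) (RingEquiv.refl F) := by
        rw [fh_eq, psi_mk2_mul, psi_mk2_mul, psi_mk2_eq_iff]
        refine ⟨rfl, 1, ?_⟩
        simp
      rw [h2, mul_inv_cancel_right]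
      exact mem_zpowers _)
  rw [psi_mk2_mul, psi_mk2_mul, psi_mk2_eq_iff] at hcm
  obtain ⟨-, k, h2, -⟩ := hcm
  simp at h2

/-- unipotent elements -/
theorem unip_pow {h : (1 : F) * 1 - 1 * 0 ≠ 0} (n : ℕ) :
    psi (mk2 1 1 0 1 h) (RingEquiv.refl F) ^ n =
      psi (mk2 1 (n : F) 0 1 (by simp)) (RingEquiv.refl F) := by
  induction n with
  | zero =>
    rw [pow_zero, eq_comm, psi_mk2_eq_one_iff]
    refine ⟨rfl, ?_, rfl, rfl⟩
    simp
  | succ n ih =>
    rw [pow_succ, ih, psi_mk2_mul, psi_mk2_eq_iff]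
    refine ⟨rfl, 1, ?_⟩
    simp [add_comm]

theorem diag_pow {a : F} {h : a * 1 - 0 * 0 ≠ 0} (n : ℕ) :
    psi (mk2 a 0 0 1 h) (RingEquiv.refl F) ^ n =
      psi (mk2 (a ^ n) 0 0 1 (by
        have : a ≠ 0 := by simpa using h
        simpa using pow_ne_zero n this)) (RingEquiv.refl F) := by
  induction n with
  | zero =>
    rw [pow_zero, eq_comm, psi_mk2_eq_one_iff]
    refine ⟨rfl, rfl, rfl, ?_⟩
    simp
  | succ n ih =>
    rw [pow_succ, ih, psi_mk2_mul, psi_mk2_eq_iff]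
    refine ⟨rfl, 1, ?_⟩
    simp [pow_succ]

/-- field involutions, odd characteristic -/
theorem two_odd_false {R : Subgroup (MulAut (ProjectiveSpecialLinearGroup (Fin 2) F))}
    (hInn : ∀ s : ProjectiveSpecialLinearGroup (Fin 2) F, MulAut.conj s ∈ R) (hR : NestOn R)
    {τ : F ≃+* F} (hτ : fh F τ ∈ R) (h1 : τ ≠ 1) (h2 : τ * τ = 1) {p : ℕ} [CharP F p]
    (hp : Odd p) : False := by
  have hx := inn_mem' hInn (a := 1) (b := 1) (c := 0) (d := 1) (h := by simp) (k := 1) (by simp)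
  have hc := inn_mem' hInn (a := 0) (b := 1) (c := -1) (d := 0) (h := by simp) (k := 1) (by simp)
  have hφ1 : fh F τ ≠ 1 := fun h' => h1 (fh_inj (by rw [h', map_one]))
  have hφ2 : fh F τ * fh F τ = 1 := by rw [← map_mul, h2, map_one]
  have hxo : Odd (orderOf (psi (mk2 1 1 0 1 (by simp)) (RingEquiv.refl F))) := by
    apply Odd.of_dvd_nat hp
    apply orderOf_dvd_of_pow_eq_one
    rw [unip_pow, psi_mk2_eq_one_iff]
    refine ⟨rfl, ?_, rfl, rfl⟩
    simp
  have hcm := hR.comm_of_odd' hτ hx hc hφ1 hφ2 hxo (by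
      rw [fh_eq, psi_mk2_mul, psi_mk2_mul, psi_mk2_eq_iff]
      refine ⟨rfl, 1, ?_⟩
      simp) (by
      rw [fh_eq, psi_mk2_mul, psi_mk2_mul, psi_mk2_eq_iff]
      refine ⟨rfl, 1, ?_⟩
      simp)
  have hci : (psi (mk2 0 1 (-1) 0 (by simp)) (RingEquiv.refl F))⁻¹ =
      psi (mk2 0 1 (-1) 0 (by simp)) (RingEquiv.refl F) := by
    rw [inv_eq_iff_mul_eq_one, psi_mk2_mul, psi_mk2_eq_one_iff]
    refine ⟨rfl, ?_, ?_, ?_⟩ <;> simp
  rw [hci, psi_mk2_mul, psi_mk2_mul, psi_mk2_mul, psi_mk2_mul, psi_mk2_eq_iff] at hcm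
  obtain ⟨-, k, h2, -⟩ := hcm
  simp at h2

/-- field involutions, characteristic two -/
theorem two_even_false [Finite F] [CharP F 2]
    {R : Subgroup (MulAut (ProjectiveSpecialLinearGroup (Fin 2) F))}
    (hInn : ∀ s : ProjectiveSpecialLinearGroup (Fin 2) F, MulAut.conj s ∈ R) (hR : NestOn R)
    {τ : F ≃+* F} (hτ : fh F τ ∈ R) (h1 : τ ≠ 1) (h2 : τ * τ = 1) {a : F} (ha0 : a ≠ 0)
    (ha1 : a ≠ 1) (haτ : τ a = a) : False := by
  have hsq : ∀ b : F, ∃ k : F, b = k ^ 2 := by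
    intro b
    obtain ⟨k, hk⟩ := FiniteField.isSquare_of_char_two (F := F) (by
      rw [ringChar.eq_iff]; infer_instance) b
    exact ⟨k, by rw [hk, pow_two]⟩
  obtain ⟨k, hk⟩ := hsq a
  have hx := inn_mem' hInn (a := a) (b := 0) (c := 0) (d := 1) (h := by simpa using ha0) (k := k)
    (by rw [← hk]; simp)
  have hc := inn_mem' hInn (a := 1) (b := 1) (c := 0) (d := 1) (h := by simp) (k := 1) (by simp)
  have hφ1 : fh F τ ≠ 1 := fun h' => h1 (fh_inj (by rw [h', map_one]))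
  have hφ2 : fh F τ * fh F τ = 1 := by rw [← map_mul, h2, map_one]
  haveI := Fintype.ofFinite F
  have hcard : Odd (Fintype.card F - 1) := by
    obtain ⟨n, hn⟩ := FiniteField.card F 2
    have h3 : (n : ℕ) ≠ 0 := n.pos.ne'
    obtain ⟨m, hm⟩ := Nat.exists_eq_succ_of_ne_zero h3
    rw [hn.2, hm, Nat.succ_eq_add_one, pow_succ]
    have : 0 < 2 ^ m := by positivity
    rw [Nat.odd_iff]
    omega
  have hxo : Odd (orderOf (psi (mk2 a 0 0 1 (by simpa using ha0)) (RingEquiv.refl F))) := by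
    apply Odd.of_dvd_nat hcard
    apply orderOf_dvd_of_pow_eq_one
    rw [diag_pow, psi_mk2_eq_one_iff]
    exact ⟨rfl, rfl, rfl, FiniteField.pow_card_sub_one_eq_one a ha0⟩
  have hcm := hR.comm_of_odd' hτ hx hc hφ1 hφ2 hxo (by
      rw [fh_eq, psi_mk2_mul, psi_mk2_mul, psi_mk2_eq_iff]
      refine ⟨rfl, 1, ?_⟩
      simp [haτ]) (by
      rw [fh_eq, psi_mk2_mul, psi_mk2_mul, psi_mk2_eq_iff]
      refine ⟨rfl, 1, ?_⟩
      simp)
  have hci : (psi (mk2 1 1 0 1 (by simp)) (RingEquiv.refl F))⁻¹ =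
      psi (mk2 1 (-1) 0 1 (by simp)) (RingEquiv.refl F) := by
    rw [inv_eq_iff_mul_eq_one, psi_mk2_mul, psi_mk2_eq_one_iff]
    refine ⟨rfl, ?_, ?_, ?_⟩ <;> simp
  rw [hci, psi_mk2_mul, psi_mk2_mul, psi_mk2_mul, psi_mk2_mul, psi_mk2_eq_iff] at hcm
  obtain ⟨-, k, -, h3, -, h5⟩ := hcm
  simp at h3 h5
  apply ha1
  rw [← h5, one_mul] at h3
  have h6 : (a - 1) * (a - 1) = 0 := by linear_combination h3
  exact sub_eq_zero.mp (mul_self_eq_zero.mp h6)

end psl

end H65.NX
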