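import Cfsg.Agent.Lib.H65.NX17

/-!
The nesting condition for subgroups of `Aut (PSL_2(F))`: conclusion.
-/
set_option autoImplicit false
set_option linter.unusedSectionVars false
set_option linter.style.haveILetI false

namespace H65.NX

open Subgroup Matrix H50.PSLBasic H50.PSLUniq
open scoped Pointwise

section field

variable {F : Type*} [Field F]

theorem isSquare_mul_of_not [Finite F] {a b : F} (ha : ¬ IsSquare a) (hb : ¬ IsSquare b) :
    IsSquare (a * b) := by
  classical
  haveI := Fintype.ofFinite F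
  have ha0 : a ≠ 0 := by rintro rfl; exact ha IsSquare.zero
  have hb0 : b ≠ 0 := by rintro rfl; exact hb IsSquare.zero
  rw [← quadraticChar_one_iff_isSquare (mul_ne_zero ha0 hb0), map_mul,
    quadraticChar_neg_one_iff_not_isSquare.mpr ha, quadraticChar_neg_one_iff_not_isSquare.mpr hb]
  norm_num

theorem isSquare_map_iff (σ : F ≃+* F) {a : F} : IsSquare (σ a) ↔ IsSquare a := by
  constructor
  · rintro ⟨r, hr⟩
    refine ⟨σ.symm r, ?_⟩
    rw [← map_mul, ← hr, σ.symm_apply_apply]
  · rintro ⟨r, rfl⟩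
    exact ⟨σ r, map_mul _ _ _⟩

theorem isSquare_mul_map [Finite F] (σ : F ≃+* F) (a : F) : IsSquare (a * σ a) := by
  by_cases h : IsSquare a
  · exact h.mul ((isSquare_map_iff σ).mpr h)
  · exact isSquare_mul_of_not h (fun h' => h ((isSquare_map_iff σ).mp h'))

/-- `a σ(a) = -1` has a solution if `-1` is not a square of a fixed element -/
theorem exists_norm_neg_one [Finite F] {σ : F ≃+* F} (h1 : σ ≠ 1) (h2 : σ * σ = 1)
    (hc : (2 : F) ≠ 0) (hi : ¬ ∃ b : F, σ b = b ∧ b * b = -1) : ∃ a : F, a * σ a = -1 := by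
  have hσσ : ∀ x, σ (σ x) = x := fun x => by
    have := congrArg (fun τ : F ≃+* F => τ x) h2
    exact this
  obtain ⟨x, hx⟩ : ∃ x, σ x ≠ x := by
    by_contra hcon
    push Not at hcon
    exact h1 (RingEquiv.ext hcon)
  set d := x - σ x with hd
  have hd0 : d ≠ 0 := fun h => hx (sub_eq_zero.mp h).symm
  have hσd : σ d = -d := by rw [hd, map_sub, hσσ]; ring
  let F0 : Subfield F := RingHom.eqLocusField (σ : F →+* F) (RingHom.id F)
  have hmem : ∀ y, y ∈ F0 ↔ σ y = y := fun y => Iff.rfl
  have hdd : d * d ∈ F0 := by rw [hmem, map_mul, hσd]; ring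
  have hns1 : ¬ IsSquare (⟨d * d, hdd⟩ : F0) := by
    rintro ⟨⟨f, hf⟩, hff⟩
    have h3 : d * d = f * f := congrArg Subtype.val hff
    rw [hmem] at hf
    have h4 : (d - f) * (d + f) = 0 := by linear_combination h3
    rcases mul_eq_zero.mp h4 with h5 | h5
    · rw [sub_eq_zero.mp h5, hf] at hσd
      have h6 : 2 * f = 0 := by linear_combination hσd
      rcases mul_eq_zero.mp h6 with h7 | h7
      · exact hc h7
      · exact hd0 (by rw [sub_eq_zero.mp h5, h7])
    · have h6 : d = -f := by linear_combination h5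
      rw [h6, map_neg, hf] at hσd
      have h7 : 2 * f = 0 := by linear_combination -hσd
      rcases mul_eq_zero.mp h7 with h8 | h8
      · exact hc h8
      · exact hd0 (by rw [h6, h8, neg_zero])
  have hns2 : ¬ IsSquare (-1 : F0) := by
    rintro ⟨⟨f, hf⟩, hff⟩
    exact hi ⟨f, hf, (congrArg Subtype.val hff).symm⟩
  obtain ⟨⟨f, hf⟩, hff⟩ := isSquare_mul_of_not hns2 hns1
  have hff' : -1 * (d * d) = f * f := congrArg Subtype.val hff
  rw [hmem] at hf
  obtain ⟨⟨u, hu⟩, ⟨v, hv⟩, huv⟩ := H50.AutPSL2.exists_sq_add_sq (F := F0) (-1)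
  have huv' : -1 = u ^ 2 + v ^ 2 := congrArg Subtype.val huv
  rw [hmem] at hu hv
  have hii : (f / d) * (f / d) = -1 := by
    field_simp
    linear_combination -hff'
  have hσi : σ (f / d) = -(f / d) := by
    rw [map_div₀, hf, hσd, div_neg]
  refine ⟨u + (f / d) * v, ?_⟩
  rw [map_add, map_mul, hu, hv, hσi, huv']
  linear_combination (-v ^ 2) * hii

end field

section psl

variable {F : Type*} [Field F]

/-- the common argument -/
theorem m10_aux {R : Subgroup (MulAut (ProjectiveSpecialLinearGroup (Fin 2) F))}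
    (hInn : ∀ s : ProjectiveSpecialLinearGroup (Fin 2) F, MulAut.conj s ∈ R) (hR : NestOn R)
    {e z : MulAut (ProjectiveSpecialLinearGroup (Fin 2) F)} (he : e ∈ R)
    (hee : e * e = z) (hz : z = psi (mk2 (-1) 0 0 1 (by simp)) (RingEquiv.refl F))
    (hc : (2 : F) ≠ 0) :
    psi (mk2 0 1 (-1) 0 (by simp)) (RingEquiv.refl F) * e *
      psi (mk2 0 1 (-1) 0 (by simp)) (RingEquiv.refl F) = e ∨
    psi (mk2 0 1 (-1) 0 (by simp)) (RingEquiv.refl F) * e *
      psi (mk2 0 1 (-1) 0 (by simp)) (RingEquiv.refl F) =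
      e * psi (mk2 (-1) 0 0 1 (by simp)) (RingEquiv.refl F) := by
  have hcR := inn_mem' hInn (a := 0) (b := 1) (c := -1) (d := 0) (h := by simp) (k := 1) (by simp)
  have hz1 : z ≠ 1 := by
    rw [hz, Ne, psi_mk2_eq_one_iff]
    rintro ⟨-, -, -, h⟩
    apply hc
    linear_combination -h
  have hz2 : z * z = 1 := by
    rw [hz, psi_mk2_mul, psi_mk2_eq_one_iff]
    refine ⟨rfl, ?_, ?_, ?_⟩ <;> simp
  have hci : (psi (mk2 0 1 (-1) 0 (by simp)) (RingEquiv.refl F))⁻¹ =
      psi (mk2 0 1 (-1) 0 (by simp)) (RingEquiv.refl F) := by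
    rw [inv_eq_iff_mul_eq_one, psi_mk2_mul, psi_mk2_eq_one_iff]
    refine ⟨rfl, ?_, ?_, ?_⟩ <;> simp
  have hcz : psi (mk2 0 1 (-1) 0 (by simp)) (RingEquiv.refl F) * z =
      z * psi (mk2 0 1 (-1) 0 (by simp)) (RingEquiv.refl F) := by
    rw [hz, psi_mk2_mul, psi_mk2_mul, psi_mk2_eq_iff]
    refine ⟨rfl, -1, ?_⟩
    simp
  have h1 := hR.b1 z (by rw [← hee]; exact mul_mem he he) e he _ hcR hz1 hz2 hee hcz
  rw [hci] at h1
  have h2 : e⁻¹ = e * psi (mk2 (-1) 0 0 1 (by simp)) (RingEquiv.refl F) := by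
    rw [← hz, inv_eq_iff_mul_eq_one, ← mul_assoc, hee, hz2]
  rwa [h2] at h1

theorem m10_false [Finite F] {R : Subgroup (MulAut (ProjectiveSpecialLinearGroup (Fin 2) F))}
    (hInn : ∀ s : ProjectiveSpecialLinearGroup (Fin 2) F, MulAut.conj s ∈ R) (hR : NestOn R)
    {σ : F ≃+* F} (h1 : σ ≠ 1) (h2 : σ * σ = 1) (hc : (2 : F) ≠ 0)
    (hall : ∀ h : GL (Fin 2) F, ¬ IsSquare (h : Matrix (Fin 2) (Fin 2) F).det → psi h σ ∈ R) :
    False := by
  have hσσ : ∀ x, σ (σ x) = x := fun x => by
    have := congrArg (fun τ : F ≃+* F => τ x) h2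
    exact this
  have hst : σ.trans σ = RingEquiv.refl F := h2
  have hsr : (RingEquiv.refl F).trans σ = σ := rfl
  have hrs : σ.trans (RingEquiv.refl F) = σ := rfl
  by_cases hi : ∃ b : F, σ b = b ∧ b * b = -1
  · obtain ⟨i, hi1, hi2⟩ := hi
    obtain ⟨x, hx⟩ : ∃ x, σ x ≠ x := by
      by_contra hcon
      push Not at hcon
      exact h1 (RingEquiv.ext hcon)
    set a := x - σ x with ha
    have ha0 : a ≠ 0 := fun h => hx (sub_eq_zero.mp h).symm
    have hσa : σ a = -a := by rw [ha, map_sub, hσσ]; ring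
    have hfix : ¬ σ a = a := by
      intro h
      rw [hσa] at h
      have h3 : 2 * a = 0 := by linear_combination -h
      rcases mul_eq_zero.mp h3 with h4 | h4
      · exact hc h4
      · exact ha0 h4
    clear_value a
    have key : ∀ b, σ b = b → a * a = b * b → False := by
      intro b hb hab
      have h4 : (a - b) * (a + b) = 0 := by linear_combination hab
      rcases mul_eq_zero.mp h4 with h5 | h5
      · exact hfix (by rw [sub_eq_zero.mp h5, hb])
      · have h6 : a = -b := by linear_combination h5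
        exact hfix (by rw [h6, map_neg, hb])
    have hns : ¬ IsSquare (-a) := by
      rintro ⟨b, hb⟩
      apply key (i * (b * σ b))
      · rw [map_mul, map_mul, hi1, hσσ]; ring
      · have h3 : σ (-a) = σ b * σ b := by rw [hb, map_mul]
        rw [map_neg, hσa, neg_neg] at h3
        linear_combination a * h3 - (σ b * σ b) * hb - (b * σ b) ^ 2 * hi2
    have heR := hall (mk2 0 1 a 0 (by simpa using ha0)) (by
      rw [coe_mk2, Matrix.det_fin_two_of]
      simpa using hns)
    have hee : psi (mk2 0 1 a 0 (by simpa using ha0)) σ * psi (mk2 0 1 a 0 (by simpa using ha0)) σ =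
        psi (mk2 (-1) 0 0 1 (by simp)) (RingEquiv.refl F) := by
      rw [psi_mk2_mul, psi_mk2_eq_iff]
      refine ⟨hst, a, ?_⟩
      simp [hσa]
    rcases m10_aux hInn hR heR hee rfl hc with h3 | h3
    · rw [psi_mk2_mul, psi_mk2_mul, psi_mk2_eq_iff] at h3
      obtain ⟨-, k, -, h5, h6, -⟩ := h3
      simp at h5 h6
      exact key 1 (map_one σ) (by rw [mul_one]; nth_rw 1 [h5]; exact h6.symm)
    · rw [psi_mk2_mul, psi_mk2_mul, psi_mk2_mul, psi_mk2_eq_iff] at h3
      obtain ⟨-, k, -, h5, h6, -⟩ := h3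
      simp at h5 h6
      apply key i hi1
      rw [hi2]
      nth_rw 1 [h5]
      linear_combination h6
  · obtain ⟨a, ha⟩ := exists_norm_neg_one h1 h2 hc hi
    have ha0 : a ≠ 0 := by
      rintro rfl
      rw [zero_mul] at ha
      exact one_ne_zero (α := F) (by linear_combination ha)
    have hns : ¬ IsSquare a := by
      rintro ⟨b, hb⟩
      apply hi
      refine ⟨b * σ b, by rw [map_mul, hσσ]; ring, ?_⟩
      rw [← ha, hb, map_mul]; ring
    have heR := hall (mk2 a 0 0 1 (by simpa using ha0)) (by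
      rw [coe_mk2, Matrix.det_fin_two_of]
      simpa using hns)
    have hee : psi (mk2 a 0 0 1 (by simpa using ha0)) σ * psi (mk2 a 0 0 1 (by simpa using ha0)) σ =
        psi (mk2 (-1) 0 0 1 (by simp)) (RingEquiv.refl F) := by
      rw [psi_mk2_mul, psi_mk2_eq_iff]
      refine ⟨hst, 1, ?_⟩
      simp [ha]
    have key : a * a ≠ -1 := by
      intro h
      apply hi
      refine ⟨a, ?_, h⟩
      exact mul_left_cancel₀ ha0 (ha.trans h.symm)
    rcases m10_aux hInn hR heR hee rfl hc with h3 | h3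
    · rw [psi_mk2_mul, psi_mk2_mul, psi_mk2_eq_iff] at h3
      obtain ⟨-, k, h4, -, -, h7⟩ := h3
      simp at h4 h7
      have h8 : a * a = 1 := by
        rw [← h7] at h4
        linear_combination h4
      have h9 : (a - 1) * (a + 1) = 0 := by linear_combination h8
      have h10 : σ a = a := by
        rcases mul_eq_zero.mp h9 with h | h
        · rw [sub_eq_zero.mp h, map_one]
        · have : a = -1 := by linear_combination h
          rw [this, map_neg, map_one]
      rw [h10, h8] at ha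
      apply hc
      linear_combination ha
    · rw [psi_mk2_mul, psi_mk2_mul, psi_mk2_mul, psi_mk2_eq_iff] at h3
      obtain ⟨-, k, h4, -, -, h7⟩ := h3
      simp at h4 h7
      apply key
      rw [← h7] at h4
      linear_combination h4

end psl

end H65.NX
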