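import Cfsg.Agent.Lib.H65.NX8

/-!
Class III: the Sylow 2-subgroups are abelian in the TI case.
-/
set_option autoImplicit false
set_option linter.unusedSectionVars false
set_option linter.style.haveILetI false

namespace H65.NX

open Subgroup
open scoped Pointwise

section gen

variable {G : Type*} [Group G]

theorem invol_unique {a i : G} {k : ℕ} (ho : orderOf a = 2 ^ (k + 1)) (hi : i ∈ zpowers a)
    (h1 : i ≠ 1) (h2 : i * i = 1) : i = a ^ 2 ^ k := by
  obtain ⟨m, hm⟩ := hi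
  have hm : a ^ m = i := hm
  have h3 : a ^ (m * 2) = 1 := by rw [zpow_mul, hm, zpow_ofNat, pow_two, h2]
  have h4 : ((2 ^ (k + 1) : ℕ) : ℤ) ∣ m * 2 := by rw [← ho]; exact orderOf_dvd_iff_zpow_eq_one.mpr h3
  have h5 : ((2 : ℤ) ^ k) ∣ m := by
    rw [pow_succ] at h4; push_cast at h4
    exact (mul_dvd_mul_iff_right two_ne_zero).mp h4
  obtain ⟨l, rfl⟩ := h5
  have hw : (a ^ 2 ^ k) * (a ^ 2 ^ k) = 1 := by
    rw [← pow_two, ← pow_mul, ← pow_succ, ← ho, pow_orderOf_eq_one]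
  have h6 : i = (a ^ 2 ^ k) ^ l := by
    rw [← hm, zpow_mul]; norm_cast
  rcases Int.even_or_odd' l with ⟨j, rfl | rfl⟩
  · exfalso; apply h1; rw [h6, zpow_mul, zpow_ofNat, pow_two, hw, one_zpow]
  · rw [h6, zpow_add, zpow_mul, zpow_ofNat, pow_two, hw, one_zpow, one_mul, zpow_one]

theorem pow_ne_one' {a : G} {k : ℕ} (ho : orderOf a = 2 ^ (k + 1)) : a ^ 2 ^ k ≠ 1 := by
  intro h
  have h1 := orderOf_dvd_of_pow_eq_one h
  rw [ho] at h1
  have h2 := Nat.le_of_dvd (by positivity) h1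
  have h3 : 2 ^ (k + 1) = 2 ^ k * 2 := pow_succ _ _
  have h4 : 0 < 2 ^ k := by positivity
  omega

theorem pow_sq_one {a : G} {k : ℕ} (ho : orderOf a = 2 ^ (k + 1)) : a ^ 2 ^ k * a ^ 2 ^ k = 1 := by
  rw [← pow_two, ← pow_mul, ← pow_succ, ← ho, pow_orderOf_eq_one]

variable [Finite G]

theorem exists_order {T : Subgroup G} (hT : IsPGroup 2 T) {a : G} (ha : a ∈ T) (h1 : a ≠ 1) :
    ∃ k, orderOf a = 2 ^ (k + 1) := by
  obtain ⟨k, hk⟩ := orderOf_of_mem_two hT ha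
  obtain ⟨j, rfl⟩ := Nat.exists_eq_succ_of_ne_zero (n := k) (by
    rintro rfl
    rw [pow_zero, orderOf_eq_one_iff] at hk
    exact h1 hk)
  exact ⟨j, hk⟩

theorem comm_of_ne (hN : Nest G) {T : Subgroup G} (hT2 : IsPGroup 2 T)
    (hT : ∀ u ∈ T, u * u = 1 → ∀ c ∈ T, c * u = u * c)
    {a b : G} (ha : a ∈ T) (hb : b ∈ T) {k l : ℕ} (hoa : orderOf a = 2 ^ (k + 1))
    (hob : orderOf b = 2 ^ (l + 1)) (hne : a ^ 2 ^ k ≠ b ^ 2 ^ l) : a * b = b * a := by
  have h1 : b * a * b⁻¹ ∈ zpowers a := by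
    refine hN.cyc (a ^ 2 ^ k) a b (pow_ne_one' hoa) (pow_sq_one hoa) (pow_mem (mem_zpowers a) _) ?_
    exact hT _ (pow_mem ha _) (pow_sq_one hoa) b hb
  have h2 : a * b * a⁻¹ ∈ zpowers b := by
    refine hN.cyc (b ^ 2 ^ l) b a (pow_ne_one' hob) (pow_sq_one hob) (pow_mem (mem_zpowers b) _) ?_
    exact hT _ (pow_mem hb _) (pow_sq_one hob) a ha
  by_contra hab
  set y := a * b * a⁻¹ * b⁻¹ with hy
  have hy1 : y ≠ 1 := by
    intro h
    apply hab
    calc a * b = y * (b * a) := by rw [hy]; group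
      _ = b * a := by rw [h, one_mul]
  have hyb : y ∈ zpowers b := mul_mem h2 (inv_mem (mem_zpowers b))
  have hya : y ∈ zpowers a := by
    have : y = a * (b * a * b⁻¹)⁻¹ := by rw [hy]; group
    rw [this]
    exact mul_mem (mem_zpowers a) (inv_mem h1)
  have hyT : y ∈ T := by
    have : zpowers a ≤ T := by rwa [zpowers_le]
    exact this hya
  obtain ⟨m, hm⟩ := exists_order hT2 hyT hy1
  apply hne
  rw [← invol_unique hoa (pow_mem hya _) (pow_ne_one' hm) (pow_sq_one hm),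
    ← invol_unique hob (pow_mem hyb _) (pow_ne_one' hm) (pow_sq_one hm)]

theorem abelian_of_central (hN : Nest G) (h3 : C3 G) (hZ : ZS G)
    (hT : ∀ T : Sylow 2 G, ∀ u ∈ (T : Subgroup G), u * u = 1 → ∀ c ∈ (T : Subgroup G), c * u = u * c)
    (T : Sylow 2 G) : ∀ a ∈ (T : Subgroup G), ∀ b ∈ (T : Subgroup G), a * b = b * a := by
  haveI : Fact (Nat.Prime 2) := ⟨Nat.prime_two⟩
  intro a ha b hb
  by_cases ha1 : a = 1
  · rw [ha1, one_mul, mul_one]
  by_cases hb1 : b = 1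
  · rw [hb1, one_mul, mul_one]
  obtain ⟨k, hoa⟩ := exists_order T.2 ha ha1
  obtain ⟨l, hob⟩ := exists_order T.2 hb hb1
  by_cases hne : a ^ 2 ^ k = b ^ 2 ^ l
  swap
  · exact comm_of_ne hN T.2 (hT T) ha hb hoa hob hne
  set w := b ^ 2 ^ l with hw
  obtain ⟨g, hgT, hgw⟩ := hZ T w (pow_mem hb _) (pow_ne_one' hob) (pow_sq_one hob)
  have hw1 : w ≠ 1 := pow_ne_one' hob
  have hw2 : w * w = 1 := pow_sq_one hob
  have hcj : ∀ x y : G, g * (x * y) * g⁻¹ = (g * x * g⁻¹) * (g * y * g⁻¹) := by intro x y; group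
  have hw'1 : g * w * g⁻¹ ≠ 1 := by
    intro h; apply hw1
    calc w = g⁻¹ * (g * w * g⁻¹) * g := by group
      _ = 1 := by rw [h]; group
  have hw'2 : (g * w * g⁻¹) * (g * w * g⁻¹) = 1 := by rw [← hcj, hw2, mul_one, mul_inv_cancel]
  have hmemg : ∀ x ∈ (T : Subgroup G), g * x * g⁻¹ ∈ ((g • T : Sylow 2 G) : Subgroup G) := by
    intro x hx
    show g * x * g⁻¹ ∈ (MulAut.conj g • (T : Subgroup G))
    rw [Subgroup.mem_pointwise_smul_iff_inv_smul_mem]
    have h6 : (MulAut.conj g)⁻¹ • (g * x * g⁻¹) = x := by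
      rw [← map_inv]; simp [MulAut.smul_def, mul_assoc]
    rwa [h6]
  have hle : ∀ x ∈ ((g • T : Sylow 2 G) : Subgroup G), x ∈ (T : Subgroup G) := by
    intro x hx
    apply h3 T (g * w * g⁻¹) hgT hw'1 hw'2 (fun t ht => hT T _ hgT hw'2 t ht)
    exact hT (g • T) _ (hmemg w (pow_mem hb _)) hw'2 x hx
  have hb'T : g * b * g⁻¹ ∈ (T : Subgroup G) := hle _ (hmemg b hb)
  set b' := g * b * g⁻¹ with hb'
  have hob' : orderOf b' = 2 ^ (l + 1) := by
    rw [← hob, hb']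
    exact (MulAut.conj g).orderOf_eq b
  have hw' : b' ^ 2 ^ l = g * w * g⁻¹ := by rw [hb', conj_pow]
  have h1 : b * b' = b' * b := by
    refine comm_of_ne hN T.2 (hT T) hb hb'T hob hob' ?_
    rw [hw']; exact hgw.symm
  have h2 : a * b' = b' * a := by
    refine comm_of_ne hN T.2 (hT T) ha hb'T hoa hob' ?_
    rw [hw', hne]; exact hgw.symm
  have hpow : (b * b') ^ 2 ^ l = w * (g * w * g⁻¹) := by
    rw [(show Commute b b' from h1).mul_pow, hw']
  have hpne : w * (g * w * g⁻¹) ≠ 1 := by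
    intro h
    apply hgw
    have h5 := mul_eq_one_iff_eq_inv.mp h
    rw [inv_eq_of_mul_eq_one_left hw'2] at h5
    exact h5.symm
  have hobb : orderOf (b * b') = 2 ^ (l + 1) := by
    apply orderOf_eq_prime_pow
    · rw [hpow]; exact hpne
    · rw [(show Commute b b' from h1).mul_pow, ← hob, pow_orderOf_eq_one, one_mul, hob, ← hob',
        pow_orderOf_eq_one]
  have h4 : a * (b * b') = (b * b') * a := by
    refine comm_of_ne hN T.2 (hT T) ha (mul_mem hb hb'T) hoa hobb ?_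
    rw [hpow, hne]
    intro h
    apply hw'1
    exact (mul_eq_left.mp h.symm)
  calc a * b = (a * (b * b')) * b'⁻¹ := by group
    _ = b * (b' * a) * b'⁻¹ := by rw [h4]; group
    _ = b * a := by rw [← h2]; group

end gen

end H65.NX
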