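import Cfsg.Agent.Lib.H21.BrauerDeg
import Cfsg.Agent.Lib.H81.ClassCount

/-!
Frobenius group with abelian kernel in which all involutions are conjugate: character values at an
involution.
-/
set_option autoImplicit false
set_option linter.unusedSectionVars false
set_option linter.style.haveILetI false

namespace H65.NY

open Cfsg H21.BrauerDeg H18.CharBasic H18.CharOrtho H18.CharInd H18.CharQuot H18.TICoh
open scoped ComplexConjugate

universe u

/-- the value of a character at an element of order dividing `2` -/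
theorem int_of_sq {N : Type u} [Group N] [Finite N] {χ : N → ℂ} (hχ : IsCharacter N χ) {z : N}
    (hz : z * z = 1) {d : ℕ} (hd : χ 1 = d) : ∃ a : ℤ, χ z = a ∧ a ≤ d := by
  classical
  obtain ⟨n, ρ, rfl⟩ := hχ
  obtain ⟨b, μ, h1, h2, h3⟩ := H4.Eigen.exists_eigen ρ (n := 2) two_ne_zero
    (show z ^ 2 = 1 by rw [pow_two, hz])
  have h4 : ∀ i, μ i = 1 ∨ μ i = -1 := fun i => by
    have := h2 i
    rw [pow_two] at this
    exact mul_self_eq_one_iff.mp this
  have h5 : ρ.character z = ∑ i, μ i := by simpa using h3 1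
  have h6 : (d : ℂ) = (Module.finrank ℂ (Fin n → ℂ) : ℂ) := by
    rw [← hd]
    have := h3 0
    simpa using this
  have h7 : d = Module.finrank ℂ (Fin n → ℂ) := by exact_mod_cast h6
  refine ⟨∑ i, (if μ i = 1 then 1 else -1 : ℤ), ?_, ?_⟩
  · rw [h5]
    push_cast
    refine Finset.sum_congr rfl fun i _ => ?_
    split_ifs with h
    · exact h
    · exact (h4 i).resolve_left h
  · calc ∑ i, (if μ i = 1 then 1 else -1 : ℤ) ≤ ∑ i : Fin (Module.finrank ℂ (Fin n → ℂ)), (1 : ℤ) := by
          refine Finset.sum_le_sum fun i _ => ?_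
          split_ifs <;> norm_num
      _ = d := by rw [h7]; simp

section normal

variable {N : Type u} [Group N] [Fintype N] (K : Subgroup N) [hK : K.Normal]
  (hC : ∀ k ∈ K, k ≠ 1 → Subgroup.centralizer ({k} : Set N) ≤ K) (hab : ∀ a b : K, a * b = b * a)
  {z : N} (hzK : z ∈ K) (hz1 : z ≠ 1) (hz2 : z * z = 1)
  (hfus : ∀ w ∈ K, w ≠ 1 → w * w = 1 → IsConj z w)

include hC hab in
theorem centralizer_eq {k : N} (hk : k ∈ K) (hk1 : k ≠ 1) :
    Subgroup.centralizer ({k} : Set N) = K := by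
  apply le_antisymm (hC k hk hk1)
  intro x hx
  rw [Subgroup.mem_centralizer_singleton_iff]
  exact congrArg Subtype.val (hab ⟨x, hx⟩ ⟨k, hk⟩)

/-- the subgroup of elements of order dividing `2` -/
def WW (hab : ∀ a b : K, a * b = b * a) : Subgroup N where
  carrier := {w | w ∈ K ∧ w * w = 1}
  one_mem' := ⟨one_mem _, one_mul 1⟩
  mul_mem' := by
    rintro a b ⟨ha, ha2⟩ ⟨hb, hb2⟩
    refine ⟨mul_mem ha hb, ?_⟩
    have h : a * b = b * a := congrArg Subtype.val (hab ⟨a, ha⟩ ⟨b, hb⟩)
    calc a * b * (a * b) = a * (b * a) * b := by group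
      _ = (a * a) * (b * b) := by rw [← h]; group
      _ = 1 := by rw [ha2, hb2, one_mul]
  inv_mem' := by
    rintro a ⟨ha, ha2⟩
    exact ⟨inv_mem ha, by rw [← mul_inv_rev, ha2, inv_one]⟩

include hK hC hab hzK hz1 hz2 hfus in
theorem card_WW : Nat.card (WW K hab) = K.index + 1 := by
  classical
  have h1 := card_isConj_eq_index z
  rw [centralizer_eq K hC hab hzK hz1] at h1
  rw [← h1]
  have h2 : ∀ w : N, IsConj z w ↔ w ∈ WW K hab ∧ w ≠ 1 := by
    intro w
    constructor
    · intro h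
      obtain ⟨c, rfl⟩ := isConj_iff.1 h
      refine ⟨⟨hK.conj_mem _ hzK c, ?_⟩, ?_⟩
      · calc c * z * c⁻¹ * (c * z * c⁻¹) = c * (z * z) * c⁻¹ := by group
          _ = 1 := by rw [hz2]; group
      · intro h'; apply hz1
        calc z = c⁻¹ * (c * z * c⁻¹) * c := by group
          _ = 1 := by rw [h']; group
    · rintro ⟨⟨h3, h4⟩, h5⟩
      exact hfus w h3 h5 h4
  have h3 : Nat.card {x : N // IsConj z x} = Nat.card {w : WW K hab // w ≠ 1} := by
    refine Nat.card_congr ⟨fun x => ⟨⟨x.1, ((h2 _).mp x.2).1⟩, fun h => ((h2 _).mp x.2).2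
      (congrArg Subtype.val h)⟩, fun x => ⟨x.1.1, (h2 _).mpr ⟨x.1.2, fun h => x.2 (Subtype.ext h)⟩⟩,
      fun _ => rfl, fun _ => rfl⟩
  rw [h3]
  have h4 : Fintype (WW K hab) := Fintype.ofFinite _
  rw [Nat.card_eq_fintype_card, Nat.card_eq_fintype_card, Fintype.card_subtype_compl,
    Fintype.card_subtype_eq]
  have : 0 < Fintype.card (WW K hab) := Fintype.card_pos
  omega

include hK hC hab hzK hz1 hz2 hfus in
/-- the value of a relevant character at an involution -/
theorem value {χ : N → ℂ} (hχ : IsIrrCharacter N χ) (hker : ∃ k ∈ K, χ k ≠ χ 1) :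
    χ z = (K.index : ℂ) ∨ χ z = -1 := by
  classical
  have hd := degree_rel K hC hab hχ hker
  obtain ⟨a, ha, hale⟩ := int_of_sq (isCharacter_of_isIrr hχ) hz2 hd
  have h4 : Fintype (WW K hab) := Fintype.ofFinite _
  obtain ⟨n, hn⟩ := H81.ClassCount.exists_mult (WW K hab) (isCharacter_of_isIrr hχ)
  have hcf := isClassFunction_of_isIrr hχ
  have h5 : ∀ u : WW K hab, u ≠ 1 → χ u = a := by
    intro u hu
    have h6 := hfus u u.2.1 (fun h => hu (Subtype.ext h)) u.2.2
    obtain ⟨c, hc⟩ := isConj_iff.1 h6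
    rw [← ha, ← hc]
    exact hcf z c
  have h6 : ∑ u : WW K hab, conj (χ (u : N)) = (K.index : ℂ) + K.index * a := by
    rw [← Finset.add_sum_erase _ _ (Finset.mem_univ (1 : WW K hab))]
    rw [Finset.sum_congr rfl (fun u hu => by rw [h5 u (Finset.ne_of_mem_erase hu)]),
      Finset.sum_const, Finset.card_erase_of_mem (Finset.mem_univ _), Finset.card_univ,
      ← Nat.card_eq_fintype_card, card_WW K hC hab hzK hz1 hz2 hfus]
    simp only [OneMemClass.coe_one, hd]
    simp
  rw [h6, card_WW K hC hab hzK hz1 hz2 hfus] at hn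
  have h7 : (K.index : ℤ) * (1 + a) = (K.index + 1) * n := by
    have : (((K.index : ℤ) * (1 + a) : ℤ) : ℂ) = (((K.index + 1) * n : ℤ) : ℂ) := by
      push_cast; push_cast at hn; linear_combination hn
    exact_mod_cast this
  have he : (0 : ℤ) < K.index := by
    exact_mod_cast Nat.pos_of_ne_zero K.index_ne_zero_of_finite
  have hdvd : ((K.index : ℤ) + 1) ∣ 1 + a := by
    have hcop : IsCoprime ((K.index : ℤ) + 1) (K.index : ℤ) := ⟨1, -1, by ring⟩
    exact hcop.dvd_of_dvd_mul_left ⟨n, h7⟩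
  obtain ⟨j, hj⟩ := hdvd
  have hj0 : 0 ≤ j := by
    have h8 : (K.index : ℤ) * (K.index + 1) * j = (K.index + 1) * n := by rw [← h7, hj]; ring
    have h9 : (K.index : ℤ) * j = n := by
      have : ((K.index : ℤ) + 1) * (K.index * j) = (K.index + 1) * n := by rw [← h8]; ring
      exact mul_left_cancel₀ (by positivity) this
    by_contra hneg
    push Not at hneg
    have : (K.index : ℤ) * j < 0 := mul_neg_of_pos_of_neg he hneg
    have : (0 : ℤ) ≤ n := by positivity
    omega
  have hj1 : j ≤ 1 := by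
    by_contra hgt
    push Not at hgt
    have h10 : ((K.index : ℤ) + 1) * 2 ≤ (K.index + 1) * j := by
      apply mul_le_mul_of_nonneg_left (by omega) (by positivity)
    omega
  have h11 : j = 0 ∨ j = 1 := by omega
  rcases h11 with rfl | rfl
  · right
    have : a = -1 := by linarith
    rw [ha, this]; simp
  · left
    have : a = K.index := by linarith
    rw [ha, this]; simp

include hK hC hab hzK hz1 in
theorem sums [Fintype (IrrCharacter N)] [DecidablePred fun χ : IrrCharacter N =>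
    ∃ k ∈ K, (χ : N → ℂ) k ≠ (χ : N → ℂ) 1] :
    ∑ χ ∈ Finset.univ.filter (fun χ : IrrCharacter N => ∃ k ∈ K, (χ : N → ℂ) k ≠ (χ : N → ℂ) 1),
      (χ : N → ℂ) z = -1 ∧
    ∑ χ ∈ Finset.univ.filter (fun χ : IrrCharacter N => ∃ k ∈ K, (χ : N → ℂ) k ≠ (χ : N → ℂ) 1),
      (χ : N → ℂ) z * conj ((χ : N → ℂ) z) = Nat.card K - K.index := by
  classical
  have hcr := card_rel K hC hab
  set R := Finset.univ.filter (fun χ : IrrCharacter N => ∃ k ∈ K, (χ : N → ℂ) k ≠ (χ : N → ℂ) 1)
    with hR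
  set R' := Finset.univ.filter (fun χ : IrrCharacter N => ¬ ∃ k ∈ K, (χ : N → ℂ) k ≠ (χ : N → ℂ) 1)
    with hR'
  have he : (K.index : ℂ) ≠ 0 := by exact_mod_cast K.index_ne_zero_of_finite
  have hdeg : ∀ χ ∈ R, (χ : N → ℂ) 1 = K.index := by
    intro χ hχ
    exact degree_rel K hC hab χ.2 (Finset.mem_filter.1 hχ).2
  have hnon : ∀ χ ∈ R', (χ : N → ℂ) z = (χ : N → ℂ) 1 := by
    intro χ hχ
    have := (Finset.mem_filter.1 hχ).2
    push Not at this
    exact this z hzK
  have hsplit : ∀ g : IrrCharacter N → ℂ, ∑ χ, g χ = ∑ χ ∈ R, g χ + ∑ χ ∈ R', g χ := by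
    intro g
    rw [hR, hR', Finset.sum_filter_add_sum_filter_not]
  have hE : ∑ χ ∈ R', (χ : N → ℂ) 1 ^ 2 = K.index := by
    have h1 := sum_degree_sq (G := N)
    rw [hsplit, Finset.sum_congr rfl (fun χ hχ => by rw [hdeg χ hχ]), Finset.sum_const,
      nsmul_eq_mul, ← Subgroup.card_mul_index K, ← hcr] at h1
    push_cast at h1
    linear_combination h1
  have hc1 : ∀ χ : IrrCharacter N, conj ((χ : N → ℂ) 1) = (χ : N → ℂ) 1 := fun χ =>
    conj_char_one (isCharacter_of_isIrr χ.2)
  constructor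
  · have h1 := column_orthogonality z (1 : N)
    rw [if_neg (fun h => hz1 (by
      obtain ⟨c, hc⟩ := isConj_iff.1 h
      calc z = c⁻¹ * (c * z * c⁻¹) * c := by group
        _ = 1 := by rw [hc]; group)), hsplit,
      Finset.sum_congr rfl (fun χ hχ => by rw [hc1, hdeg χ hχ]),
      ← Finset.sum_mul] at h1
    have h2 : ∑ χ ∈ R', (χ : N → ℂ) z * conj ((χ : N → ℂ) 1) = K.index := by
      rw [← hE]
      refine Finset.sum_congr rfl fun χ hχ => ?_
      rw [hnon χ hχ, hc1, pow_two]
    rw [h2] at h1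
    have h3 : (∑ χ ∈ R, (χ : N → ℂ) z + 1) * (K.index : ℂ) = 0 := by linear_combination h1
    rcases mul_eq_zero.1 h3 with h4 | h4
    · linear_combination h4
    · exact absurd h4 he
  · have h1 := column_orthogonality z z
    rw [if_pos (IsConj.refl z), hsplit, centralizer_eq K hC hab hzK hz1] at h1
    have h2 : ∑ χ ∈ R', (χ : N → ℂ) z * conj ((χ : N → ℂ) z) = K.index := by
      rw [← hE]
      refine Finset.sum_congr rfl fun χ hχ => ?_
      rw [hnon χ hχ, hc1, pow_two]
    rw [h2] at h1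
    linear_combination h1

end normal

end H65.NY
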