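import Cfsg.Agent.Lib.H65.NY1
import Cfsg.Agent.Lib.H18.CharCentral

/-!
No simple group has an abelian TI subgroup `K` with Frobenius normalizer, with `K` of even order,
all involutions of `K` conjugate, and `K` not elementary abelian.
-/
set_option autoImplicit false
set_option linter.unusedSectionVars false
set_option linter.style.haveILetI false

namespace H65.NY

open Cfsg H21.BrauerDeg H18.CharBasic H18.CharOrtho H18.CharInd H18.CharQuot H18.TICoh
open scoped ComplexConjugate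

universe u

section arith

theorem arith1 {s e m t : ℕ} (h1 : s * e + 1 = m) (h2 : m = (e + 1) * t) (ht : 2 ≤ t) :
    e + 2 ≤ s := by
  have h3 : t < s := by
    by_contra h
    push Not at h
    have : s * e ≤ t * e := Nat.mul_le_mul_right e h
    nlinarith
  obtain ⟨r, rfl⟩ := Nat.exists_eq_add_of_lt h3
  have h4 : e * (r + 1) + 1 = t := by nlinarith
  have h5 : e ≤ e * (r + 1) := Nat.le_mul_of_pos_right e (Nat.succ_pos r)
  omega

theorem arith2 {s e c ε : ℤ} (h4 : 0 ≤ e) (hε : ε = 1 ∨ ε = -1) (hs : e + 2 ≤ s)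
    (h : s * c ^ 2 - 2 * ε * c + 1 ≤ e) : c = 0 := by
  by_contra hc
  have h1 : 1 ≤ c ^ 2 := by
    have : 0 < c ^ 2 := by positivity
    omega
  have h2 : ε * c ≤ c ^ 2 := by
    rcases hε with rfl | rfl
    · nlinarith [sq_nonneg (c - 1), Int.le_self_sq c]
    · nlinarith [Int.le_self_sq (-c)]
  have h3 : (e + 2) * c ^ 2 ≤ s * c ^ 2 := mul_le_mul_of_nonneg_right hs (by positivity)
  nlinarith

end arith

section count

variable {G : Type u} [Group G] [Finite G] (K : Subgroup G)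
  (hC : ∀ k ∈ K, k ≠ 1 → Subgroup.centralizer ({k} : Set G) ≤ K)
  (hab : ∀ a b : K, a * b = b * a) {z : G} (hzK : z ∈ K) (hz1 : z ≠ 1) (hz2 : z * z = 1)
  (hodd : ∀ i ∈ Subgroup.normalizer (K : Set G), i * i = 1 → i ∈ K)
  (hfus : ∀ w ∈ K, w ≠ 1 → w * w = 1 → IsConj z w)

include hC hab hodd in
theorem pair_mem {y i j : G} (hy : y ∈ K) (hy1 : y ≠ 1) (hi : i * i = 1) (hj : j * j = 1)
    (hij : i * j = y) : i ∈ K ∧ j ∈ K := by
  have hii : i⁻¹ = i := inv_eq_of_mul_eq_one_left hi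
  have hjj : j⁻¹ = j := inv_eq_of_mul_eq_one_left hj
  have h1 : i * y * i⁻¹ = y⁻¹ := by
    rw [← hij, mul_inv_rev, hii, hjj, ← mul_assoc, hi, one_mul]
  have h2 : ∀ k ∈ K, i * k * i⁻¹ ∈ K := by
    intro k hk
    apply hC y hy hy1
    rw [Subgroup.mem_centralizer_singleton_iff]
    have h3 : k * y⁻¹ = y⁻¹ * k := congrArg Subtype.val (hab ⟨k, hk⟩ ⟨y⁻¹, inv_mem hy⟩)
    have h4 : i * y⁻¹ * i⁻¹ = y := by
      calc i * y⁻¹ * i⁻¹ = (i * y * i⁻¹)⁻¹ := by group
        _ = y := by rw [h1, inv_inv]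
    calc i * k * i⁻¹ * y = i * k * i⁻¹ * (i * y⁻¹ * i⁻¹) := by rw [h4]
      _ = i * (k * y⁻¹) * i⁻¹ := by group
      _ = (i * y⁻¹ * i⁻¹) * (i * k * i⁻¹) := by rw [h3]; group
      _ = y * (i * k * i⁻¹) := by rw [h4]
  have h3 : i ∈ Subgroup.normalizer (K : Set G) := by
    rw [Subgroup.mem_normalizer_iff]
    intro k
    constructor
    · exact h2 k
    · intro hk
      have := h2 _ hk
      have h4 : i * (i * k * i⁻¹) * i⁻¹ = k := by
        calc i * (i * k * i⁻¹) * i⁻¹ = (i * i) * k * (i * i)⁻¹ := by group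
          _ = k := by rw [hi]; group
      rwa [h4] at this
  have h4 := hodd i h3 hi
  refine ⟨h4, ?_⟩
  have : j = i⁻¹ * y := by rw [← hij]; group
  rw [this]
  exact mul_mem (inv_mem h4) hy

include hC hab hz2 hodd in
theorem count_zero {y : G} (hy : y ∈ K) (hy2 : y * y ≠ 1) :
    Nat.card {p : G × G // IsConj z p.1 ∧ IsConj z p.2 ∧ p.1 * p.2 = y} = 0 := by
  rw [Nat.card_eq_zero]
  left
  constructor
  rintro ⟨⟨i, j⟩, hi, hj, hij⟩
  simp only at hi hj hij
  have hsq : ∀ w, IsConj z w → w * w = 1 := by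
    intro w hw
    obtain ⟨c, rfl⟩ := isConj_iff.1 hw
    calc c * z * c⁻¹ * (c * z * c⁻¹) = c * (z * z) * c⁻¹ := by group
      _ = 1 := by rw [hz2]; group
  have hy1 : y ≠ 1 := by rintro rfl; exact hy2 (one_mul 1)
  obtain ⟨h1, h2⟩ := pair_mem K hC hab hodd hy hy1 (hsq i hi) (hsq j hj) hij
  apply hy2
  have h3 : i * j = j * i := congrArg Subtype.val (hab ⟨i, h1⟩ ⟨j, h2⟩)
  calc y * y = i * (j * i) * j := by rw [← hij]; group
    _ = (i * i) * (j * j) := by rw [← h3]; group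
    _ = 1 := by rw [hsq i hi, hsq j hj, one_mul]

include hC hab hz1 hz2 hodd hfus in
theorem count_inv {y : G} (hy : y ∈ K) (hy1 : y ≠ 1) (hy2 : y * y = 1) :
    Nat.card {p : G × G // IsConj z p.1 ∧ IsConj z p.2 ∧ p.1 * p.2 = y} + 2 =
      Nat.card {w : G // w ∈ K ∧ w * w = 1} := by
  classical
  have hsq : ∀ w, IsConj z w → w * w = 1 ∧ w ≠ 1 := by
    intro w hw
    obtain ⟨c, rfl⟩ := isConj_iff.1 hw
    constructor
    · calc c * z * c⁻¹ * (c * z * c⁻¹) = c * (z * z) * c⁻¹ := by group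
        _ = 1 := by rw [hz2]; group
    · intro h'; apply hz1
      calc z = c⁻¹ * (c * z * c⁻¹) * c := by group
        _ = 1 := by rw [h']; group
  let A := {w : G // w ∈ K ∧ w * w = 1}
  have hA : Fintype A := Fintype.ofFinite _
  let a1 : A := ⟨1, one_mem _, one_mul 1⟩
  let ay : A := ⟨y, hy, hy2⟩
  have hne : ay ≠ a1 := fun h => hy1 (congrArg Subtype.val h)
  have h1 : Nat.card {p : G × G // IsConj z p.1 ∧ IsConj z p.2 ∧ p.1 * p.2 = y} =
      Nat.card {w : A // w ≠ a1 ∧ w ≠ ay} := by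
    refine Nat.card_congr ⟨fun p => ⟨⟨p.1.1, ?_⟩, ?_⟩, fun w => ⟨(w.1.1, w.1.1⁻¹ * y), ?_⟩, ?_, ?_⟩
    · obtain ⟨⟨i, j⟩, hi, hj, hij⟩ := p
      exact ⟨(pair_mem K hC hab hodd hy hy1 (hsq i hi).1 (hsq j hj).1 hij).1, (hsq i hi).1⟩
    · obtain ⟨⟨i, j⟩, hi, hj, hij⟩ := p
      simp only at hi hj hij
      refine ⟨fun h => (hsq i hi).2 (congrArg Subtype.val h), fun h => (hsq j hj).2 ?_⟩
      have h2 : i = y := congrArg Subtype.val h
      rw [h2] at hij
      exact mul_eq_left.mp hij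
    · obtain ⟨⟨i, hiK, hi2⟩, hi1, hiy⟩ := w
      have hi1' : i ≠ 1 := fun h => hi1 (Subtype.ext h)
      have hiy' : i ≠ y := fun h => hiy (Subtype.ext h)
      have hii : i⁻¹ = i := inv_eq_of_mul_eq_one_left hi2
      have hcomm : i * y = y * i := congrArg Subtype.val (hab ⟨i, hiK⟩ ⟨y, hy⟩)
      refine ⟨hfus i hiK hi1' hi2, ?_, by simp⟩
      simp only
      apply hfus _ (mul_mem (inv_mem hiK) hy)
      · intro h
        apply hiy'
        have := mul_eq_one_iff_eq_inv.mp h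
        rw [hii] at this
        rw [this, inv_eq_of_mul_eq_one_left hy2]
      · rw [hii]
        calc i * y * (i * y) = i * (y * i) * y := by group
          _ = (i * i) * (y * y) := by rw [← hcomm]; group
          _ = 1 := by rw [hi2, hy2, one_mul]
    · rintro ⟨⟨i, j⟩, hi, hj, hij⟩
      simp only at hij
      apply Subtype.ext
      simp only [Prod.mk.injEq, true_and]
      rw [← hij]; group
    · rintro ⟨⟨i, hiK, hi2⟩, hi1, hiy⟩
      rfl
  rw [h1]
  have h2 : Nat.card {w : A // w ≠ a1 ∧ w ≠ ay} = ((Finset.univ.erase a1).erase ay).card := by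
    rw [Nat.card_eq_fintype_card, Fintype.card_subtype]
    congr 1
    ext w
    simp only [Finset.mem_filter, Finset.mem_univ, true_and, Finset.mem_erase, and_true]
    tauto
  rw [h2, Finset.card_erase_of_mem (Finset.mem_erase.mpr ⟨hne, Finset.mem_univ _⟩),
    Finset.card_erase_of_mem (Finset.mem_univ _), Finset.card_univ, Nat.card_eq_fintype_card]
  have h3 : 2 ≤ Fintype.card A := by
    have : 1 < Fintype.card A := Fintype.one_lt_card_iff.mpr ⟨ay, a1, hne⟩
    omega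
  have h4 : Fintype.card A = Fintype.card {w : G // w ∈ K ∧ w * w = 1} := Fintype.card_congr (Equiv.refl _)
  omega

end count

end H65.NY
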