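import Cfsg.Agent.Lib.H88.F4
import Cfsg.Agent.S3762
import Cfsg.Agent.Lib.H2.GenCent
import Cfsg.Agent.Lib.H3.ClassTwo
import Cfsg.Agent.Lib.H1.OddRank
import Cfsg.Agent.Lib.H68.TwoGen
import Cfsg.Agent.Lib.H13.Cores

set_option autoImplicit false
set_option linter.unusedVariables false
set_option linter.style.haveILetI false
set_option linter.unusedTactic false
set_option linter.unreachableTactic false

/-! S3814, piece PA, step f: `K`-normal `q`-subgroups are cyclic. -/

namespace H65.PAf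

open Subgroup H88.F4
open scoped commutatorElement

universe u

variable {G : Type u} [Group G]

/-- the subgroup `{x^i y^j}` for commuting `x, y` -/
def pr (x y : G) (h : Commute x y) : Subgroup G where
  carrier := {g | ∃ i j : ℤ, g = x ^ i * y ^ j}
  one_mem' := ⟨0, 0, by simp⟩
  mul_mem' := by
    rintro a b ⟨i, j, rfl⟩ ⟨k, l, rfl⟩
    refine ⟨i + k, j + l, ?_⟩
    have h1 : Commute (y ^ j) (x ^ k) := (h.symm.zpow_zpow j k)
    rw [zpow_add, zpow_add, mul_assoc, ← mul_assoc (y ^ j), h1.eq]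
    group
  inv_mem' := by
    rintro a ⟨i, j, rfl⟩
    refine ⟨-i, -j, ?_⟩
    have h1 : Commute (y ^ (-j)) (x ^ (-i)) := (h.symm.zpow_zpow (-j) (-i))
    rw [mul_inv_rev, ← zpow_neg, ← zpow_neg, h1.eq]

theorem sup_le_pr {x y : G} (h : Commute x y) : zpowers x ⊔ zpowers y ≤ pr x y h := by
  refine sup_le ?_ ?_
  · rw [zpowers_le]; exact ⟨1, 0, by simp⟩
  · rw [zpowers_le]; exact ⟨0, 1, by simp⟩

theorem comm_sup {x y : G} (h : Commute x y) {a b : G} (ha : a ∈ zpowers x ⊔ zpowers y)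
    (hb : b ∈ zpowers x ⊔ zpowers y) : Commute a b := by
  obtain ⟨i, j, rfl⟩ := sup_le_pr h ha
  obtain ⟨k, l, rfl⟩ := sup_le_pr h hb
  have h1 : Commute x (x ^ k * y ^ l) := (Commute.refl x).zpow_right k |>.mul_right (h.zpow_right l)
  have h2 : Commute y (x ^ k * y ^ l) := (h.symm.zpow_right k).mul_right ((Commute.refl y).zpow_right l)
  exact (h1.zpow_left i).mul_left (h2.zpow_left j)

theorem pow_sup {t : ℕ} {x y : G} (h : Commute x y) (hx : x ^ t = 1) (hy : y ^ t = 1) {a : G}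
    (ha : a ∈ zpowers x ⊔ zpowers y) : a ^ t = 1 := by
  obtain ⟨i, j, rfl⟩ := sup_le_pr h ha
  rw [(h.zpow_zpow i j).mul_pow, ← zpow_natCast, ← zpow_natCast, ← zpow_mul, ← zpow_mul, mul_comm i,
    mul_comm j, zpow_mul, zpow_mul, zpow_natCast, zpow_natCast, hx, hy, one_zpow, one_zpow, one_mul]

variable [Finite G]

/-- generation by centralizers -/
theorem r2_gen {t : ℕ} (ht : t.Prime) (E W M : Subgroup G) (hE : R2 t E)
    (hEW : E ≤ normalizer (W : Set G)) (hW : ¬ t ∣ Nat.card W)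
    (hM : ∀ z ∈ E, orderOf z = t → ∀ w ∈ W, Commute z w → w ∈ M) : W ≤ M := by
  obtain ⟨x, hxE, y, hyE, hx, hy, hxy, hn⟩ := hE
  have hxt : x ^ t = 1 := by rw [← hx]; exact pow_orderOf_eq_one x
  have hyt : y ^ t = 1 := by rw [← hy]; exact pow_orderOf_eq_one y
  have hx1 : x ≠ 1 := by
    intro h
    rw [h, orderOf_one] at hx
    exact ht.one_lt.ne hx
  set A : Subgroup G := zpowers x ⊔ zpowers y with hA
  have hAE : A ≤ E := sup_le (by rwa [zpowers_le]) (by rwa [zpowers_le])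
  have hAc : IsMulCommutative A := ⟨⟨fun a b => Subtype.ext (comm_sup hxy a.2 b.2).eq⟩⟩
  have hAn : ¬ IsCyclic A :=
    H68.TwoGen.not_isCyclic_subgroup ht (x := y) (y := x)
      ((le_sup_right : zpowers y ≤ A) (mem_zpowers y)) ((le_sup_left : zpowers x ≤ A) (mem_zpowers x))
      hyt hxt hx1 hn
  have hcard : Nat.card A = t ^ 2 := by
    have := H68.TwoGen.card_sup_zpowers ht (x := y) (y := x) hyt hxt hx1 hn hxy.symm
    rw [hA, sup_comm]; exact this
  have hcop : (Nat.card A).Coprime (Nat.card W) := by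
    rw [hcard]
    exact Nat.Coprime.pow_left 2 ((Nat.Prime.coprime_iff_not_dvd ht).2 hW)
  have h1 := H2.GenCent.main A W hAc hAn (hAE.trans hEW) hcop
  rw [← h1]
  refine iSup₂_le ?_
  rintro a ⟨ha, ha1⟩ w hw
  have hat : a ^ t = 1 := pow_sup hxy hxt hyt ha
  haveI := Fact.mk ht
  have hao : orderOf a = t := orderOf_eq_prime hat ha1
  have hw2 := mem_centralizer_singleton_iff.1 (mem_inf.1 hw).2
  exact hM a (hAE ha) hao w (mem_inf.1 hw).1 (by first | exact hw2.symm | exact hw2)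

/-- a `t`-group (`t` odd) without `C_t × C_t` is cyclic -/
theorem cyc {t : ℕ} (ht : t.Prime) (h2 : t ≠ 2) (P : Subgroup G) (hP : IsPGroup t P)
    (h : ¬ R2 t P) : IsCyclic P := by
  haveI := Fact.mk ht
  apply H1.OddRank.isCyclic_of_pRankLE_one h2 hP
  intro A hA hexp
  by_contra hlt
  push Not at hlt
  rw [pow_one] at hlt
  apply h
  haveI : Nontrivial A := Finite.one_lt_card_iff_nontrivial.1 (ht.one_lt.trans hlt)
  obtain ⟨x, hx1⟩ := exists_ne (1 : A)
  have hxo : orderOf (x : P) = t := by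
    apply orderOf_eq_prime (hexp x x.2)
    intro h; exact hx1 (Subtype.ext h)
  have hne : ∃ y ∈ A, y ∉ zpowers (x : P) := by
    by_contra hcon
    push Not at hcon
    have h3 : A ≤ zpowers (x : P) := hcon
    have h4 := card_le_of_le h3
    rw [Nat.card_zpowers, hxo] at h4
    omega
  obtain ⟨y, hy, hyx⟩ := hne
  have hy1 : y ≠ 1 := fun h => hyx (h ▸ one_mem _)
  have hyo : orderOf y = t := orderOf_eq_prime (hexp y hy) hy1
  refine ⟨((x : P) : G), (x : P).2, (y : G), y.2, ?_, ?_, ?_, ?_⟩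
  · rw [← hxo]; exact orderOf_coe _
  · rw [← hyo]; exact orderOf_coe _
  · have := hA.is_comm.comm x ⟨y, hy⟩
    have h5 := congrArg (fun z : A => ((z : P) : G)) this
    exact h5
  · rintro ⟨k, hk⟩
    apply hyx
    refine ⟨k, ?_⟩
    ext
    simpa using hk

/-- a noncyclic `q`-group of symplectic type (`q` odd): the derived group is central of order `q` -/
theorem struct {P : Type*} [Group P] [Finite P] {q : ℕ} (hq : q.Prime) (h2 : q ≠ 2)
    (hP : IsPGroup q P)
    (hs : ∀ A : Subgroup P, A.Characteristic → IsMulCommutative A → IsCyclic A)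
    (hnc : ¬ IsCyclic P) : Nat.card (commutator P) = q ∧ commutator P ≤ center P := by
  haveI := Fact.mk hq
  obtain ⟨E, R, hER, htop, hE, hR⟩ := Cfsg.Agent.S3762.result hP hs
  have hRc : IsCyclic R := by
    rcases hR with h | ⟨h, _⟩
    · exact h
    · exact absurd h h2
  rcases hE with hE | hE
  · exfalso
    rw [hE, bot_sup_eq] at htop
    apply hnc
    rw [htop] at hRc
    exact (Subgroup.topEquiv (G := P)).isCyclic.1 hRc
  have hRcomm : ∀ a ∈ R, ∀ b ∈ R, a * b = b * a := by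
    intro a ha b hb
    haveI := hRc
    letI := IsCyclic.commGroup (α := R)
    have := mul_comm (⟨a, ha⟩ : R) ⟨b, hb⟩
    exact congrArg Subtype.val this
  have hEn : E.Normal := by
    rw [← normalizer_eq_top_iff, eq_top_iff, ← htop]
    refine sup_le le_normalizer ?_
    intro r hr
    rw [mem_normalizer_iff]
    intro e
    constructor
    · intro he
      rw [← hER e he r hr, mul_inv_cancel_right]; exact he
    · intro he
      have h1 := hER _ he r hr
      have h3 : e = r * e * r⁻¹ := by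
        have h4 : r * e * r⁻¹ * r = r * (r * e * r⁻¹) := h1
        have h5 : r * e = r * (r * e * r⁻¹) := by rw [← h4]; group
        exact mul_left_cancel h5
      rw [h3]; exact he
  obtain ⟨⟨_, _, hEc⟩, hEz⟩ := hE
  set Z : Subgroup P := (center E).map E.subtype with hZ
  have hZcard : Nat.card Z = q := by
    rw [hZ, Nat.card_congr ((center E).equivMapOfInjective E.subtype E.subtype_injective).toEquiv.symm]
    exact hEz
  have hmem : ∀ g : P, ∃ e ∈ E, ∃ r ∈ R, e * r = g := by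
    intro g
    have : g ∈ E ⊔ R := by rw [htop]; exact mem_top g
    exact mem_sup_of_normal_left.1 this
  have hZc : Z ≤ center P := by
    rintro _ ⟨z, hz, rfl⟩
    rw [mem_center_iff]
    intro g
    obtain ⟨e, he, r, hr, rfl⟩ := hmem g
    have h1 : e * (z : P) = (z : P) * e := by
      have := mem_center_iff.1 hz ⟨e, he⟩
      exact congrArg Subtype.val this
    have h3 : (z : P) * r = r * (z : P) := hER _ z.2 _ hr
    change e * r * (z : P) = (z : P) * (e * r)
    rw [mul_assoc, ← h3, ← mul_assoc, h1, mul_assoc]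
  have hle : commutator P ≤ Z := by
    rw [commutator_eq_closure, closure_le]
    rintro _ ⟨a, b, rfl⟩
    obtain ⟨e, he, r, hr, rfl⟩ := hmem a
    obtain ⟨f, hf, s, hs', rfl⟩ := hmem b
    have h1 : Commute e s := hER e he s hs'
    have h3 : Commute f r := hER f hf r hr
    have h4 : Commute r s := hRcomm r hr s hs'
    have h5 : ⁅e * r, f * s⁆ = ⁅e, f⁆ := by
      simp only [commutatorElement_def, mul_inv_rev]
      calc e * r * (f * s) * (r⁻¹ * e⁻¹) * (s⁻¹ * f⁻¹)
          = e * (r * f) * (s * r⁻¹) * (e⁻¹ * s⁻¹) * f⁻¹ := by group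
        _ = e * (f * r) * (r⁻¹ * s) * (s⁻¹ * e⁻¹) * f⁻¹ := by
            rw [← h3.eq, (h4.symm.inv_right).eq, (h1.inv_inv).eq]
        _ = e * f * e⁻¹ * f⁻¹ := by group
    rw [h5]
    refine ⟨⁅(⟨e, he⟩ : E), ⟨f, hf⟩⁆, ?_, rfl⟩
    rw [← hEc, commutator_def]
    exact commutator_mem_commutator (mem_top _) (mem_top _)
  refine ⟨?_, hle.trans hZc⟩
  have hdvd : Nat.card (commutator P) ∣ q := by
    rw [← hZcard]; exact card_dvd_of_le hle
  rcases (Nat.dvd_prime hq).1 hdvd with h | h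
  · exfalso
    have hb : commutator P = ⊥ := eq_bot_of_card_eq _ h
    have hcomm : ∀ a b : P, a * b = b * a := by
      intro a b
      have : ⁅a, b⁆ ∈ commutator P := commutator_mem_commutator (mem_top _) (mem_top _)
      rw [hb, mem_bot] at this
      exact commutatorElement_eq_one_iff_mul_comm.1 this
    have := hs ⊤ inferInstance ⟨⟨fun a b => Subtype.ext (hcomm a b)⟩⟩
    exact hnc ((Subgroup.topEquiv (G := P)).isCyclic.1 this)
  · exact h

theorem not_dvd_card {t r : ℕ} (ht : t.Prime) (hr : r.Prime) (htr : t ≠ r) {W : Subgroup G}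
    (hW : IsPGroup t W) : ¬ r ∣ Nat.card W := by
  have := Fact.mk ht
  intro hd
  obtain ⟨k, hk⟩ := IsPGroup.iff_card.1 hW
  rw [hk] at hd
  exact htr ((Nat.prime_dvd_prime_iff_eq hr ht).1 (hr.dvd_of_dvd_pow hd)).symm

theorem gen {t : ℕ} (ht : t.Prime) {x y : G} (hx : orderOf x = t) (hy : y ∈ zpowers x)
    (hy1 : y ≠ 1) : x ∈ zpowers y := by
  have := Fact.mk ht
  have h1 : orderOf y = t := by
    apply orderOf_eq_prime _ hy1
    obtain ⟨i, rfl⟩ := hy
    change (x ^ i) ^ t = 1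
    rw [← zpow_natCast, ← zpow_mul, mul_comm, zpow_mul, zpow_natCast, ← hx, pow_orderOf_eq_one,
      one_zpow]
  have h2 : zpowers y ≤ zpowers x := by rwa [zpowers_le]
  have h3 : zpowers y = zpowers x := by
    apply eq_of_le_of_card_ge h2
    rw [Nat.card_zpowers, Nat.card_zpowers, h1, hx]
  rw [h3]; exact mem_zpowers x

theorem commute_gen {t : ℕ} (ht : t.Prime) {x y : G} (hx : orderOf x = t) (hy : y ∈ zpowers x)
    (hy1 : y ≠ 1) {v : G} (h : Commute y v) : Commute x v := by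
  obtain ⟨k, hk⟩ := gen ht hx hy hy1
  rw [← hk]
  exact h.zpow_left k

theorem paf {p : ℕ} {τ : Finset ℕ} {V K : Subgroup G} (h : Env p τ V K)
    (hcyc : ∀ t ∈ τ, ∀ A ≤ K, K ≤ normalizer (A : Set G) → IsPGroup t A →
      (∀ a ∈ A, ∀ b ∈ A, Commute a b) → ¬ R2 t A)
    {q s : ℕ} (hq : q ∈ τ) (hs : s ∈ τ) (hqs : q ≠ s) (hq2 : q ≠ 2)
    (hb : ∀ w ∈ K, ∀ y ∈ K, orderOf w = q → orderOf y = s → Commute w y → Fpf w V)
    (Q : Subgroup G) (hQ : Q ≤ K) (hKQ : K ≤ normalizer (Q : Set G)) (hQq : IsPGroup q Q) :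
    IsCyclic Q := by
  by_contra hnc
  have hqp : q.Prime := (h.hτp q hq).1
  have hsp : s.Prime := (h.hτp s hs).1
  have := Fact.mk hqp
  -- characteristic abelian subgroups of Q are cyclic
  have hsymp : ∀ A : Subgroup Q, A.Characteristic → IsMulCommutative A → IsCyclic A := by
    intro A hA hAc
    have h1 : K ≤ normalizer ((A.map Q.subtype : Subgroup G) : Set G) :=
      hKQ.trans (H13.Cores.normalizer_le_normalizer_map Q A)
    have h2 : A.map Q.subtype ≤ K := (map_subtype_le A).trans hQ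
    have h3 : IsPGroup q (A.map Q.subtype : Subgroup G) := (hQq.to_subgroup A).map _
    have h4 : ∀ a ∈ A.map Q.subtype, ∀ b ∈ A.map Q.subtype, Commute a b := by
      rintro _ ⟨a, ha, rfl⟩ _ ⟨b, hb, rfl⟩
      have := hAc.is_comm.comm ⟨a, ha⟩ ⟨b, hb⟩
      exact congrArg (fun z : A => ((z : Q) : G)) this
    have h5 := hcyc q hq _ h2 h1 h3 h4
    have h6 : IsCyclic (A.map Q.subtype : Subgroup G) := cyc hqp hq2 _ h3 h5
    exact (A.equivMapOfInjective Q.subtype Q.subtype_injective).isCyclic.2 h6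
  obtain ⟨hDcard, hDc⟩ := struct hqp hq2 hQq hsymp hnc
  set D : Subgroup G := (commutator Q).map Q.subtype with hD
  have hDcard' : Nat.card D = q := by
    rw [hD, Nat.card_congr
      ((commutator Q).equivMapOfInjective Q.subtype Q.subtype_injective).toEquiv.symm]
    exact hDcard
  have hDQ : D ≤ Q := map_subtype_le _
  have hDcent : ∀ d ∈ D, ∀ g ∈ Q, Commute d g := by
    rintro _ ⟨d, hd, rfl⟩ g hg
    have := mem_center_iff.1 (hDc hd) ⟨g, hg⟩
    exact (congrArg Subtype.val this).symm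
  have hcommD : ∀ a ∈ Q, ∀ b ∈ Q, ⁅a, b⁆ ∈ D := by
    intro a ha b hb
    refine ⟨⁅(⟨a, ha⟩ : Q), ⟨b, hb⟩⁆, ?_, rfl⟩
    exact commutator_mem_commutator (mem_top _) (mem_top _)
  have hKD : K ≤ normalizer (D : Set G) :=
    hKQ.trans (H13.Cores.normalizer_le_normalizer_map Q (commutator Q))
  have hDpow : ∀ d ∈ D, d ^ q = 1 := by
    intro d hd
    have := pow_card_eq_one' (x := (⟨d, hd⟩ : D))
    rw [hDcard'] at this
    exact congrArg Subtype.val this
  have hDo : ∀ d ∈ D, d ≠ 1 → orderOf d = q := fun d hd h1 => orderOf_eq_prime (hDpow d hd) h1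
  have hDq : IsPGroup q D := hQq.to_le hDQ
  -- (3)
  obtain ⟨n, hnD, hn1, hnV⟩ : ∃ n ∈ D, n ≠ 1 ∧ Fpf n V := by
    by_contra hcon
    push Not at hcon
    have h1 : D ≤ ⊥ := by
      apply r2_gen hsp K D ⊥ (h.r2 s hs) hKD (not_dvd_card hqp hsp hqs hDq)
      intro y hy hyo w hw hyw
      rw [mem_bot]
      by_contra hw1
      exact hcon w hw hw1 (hb w (hQ (hDQ hw)) y hy (hDo w hw hw1) hyo hyw.symm)
    have h2 := card_le_of_le h1
    rw [card_bot, hDcard'] at h2
    exact absurd h2 (not_le.2 hqp.one_lt)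
  have hno : orderOf n = q := hDo n hnD hn1
  have hDz : ∀ d ∈ D, d ≠ 1 → zpowers d = D := by
    intro d hd h1
    apply eq_of_le_of_card_ge
    · rwa [zpowers_le]
    · rw [Nat.card_zpowers, hDo d hd h1, hDcard']
  -- (4)
  let Om : Subgroup G :=
    { carrier := {x | x ∈ Q ∧ x ^ q = 1}
      one_mem' := ⟨one_mem _, one_pow _⟩
      mul_mem' := by
        rintro a b ⟨ha, ha1⟩ ⟨hb, hb1⟩
        refine ⟨mul_mem ha hb, ?_⟩
        have hc := hcommD b hb a ha
        obtain ⟨k, hk⟩ := H3.ClassTwo.prime_dvd_choose_two hqp hq2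
        rw [H3.ClassTwo.mul_pow_eq (hDcent _ hc a ha) (hDcent _ hc b hb), ha1, hb1, hk, pow_mul,
          hDpow _ hc, one_pow, one_mul, one_mul]
      inv_mem' := by
        rintro a ⟨ha, ha1⟩
        exact ⟨inv_mem ha, by rw [inv_pow, ha1, inv_one]⟩ }
  have hOm : ∀ x, x ∈ Om ↔ x ∈ Q ∧ x ^ q = 1 := fun x => Iff.rfl
  have hOQ : Om ≤ Q := fun x hx => ((hOm x).1 hx).1
  have hKOm : K ≤ normalizer (Om : Set G) := by
    intro g hg
    rw [mem_normalizer_iff]
    intro x
    have h1 := mem_normalizer_iff.1 (hKQ hg) x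
    rw [hOm, hOm, conj_pow]
    refine and_congr h1 ?_
    constructor
    · intro hx; rw [hx, mul_one, mul_inv_cancel]
    · intro hx
      have : x ^ q = g⁻¹ * (g * x ^ q * g⁻¹) * g := by group
      rw [this, hx, mul_one, inv_mul_cancel]
  have hR2Q : R2 q Q := by
    by_contra hr
    exact hnc (cyc hqp hq2 Q hQq hr)
  obtain ⟨x, hxQ, y, hyQ, hx, hy, hxy, hyx⟩ := hR2Q
  have hOD : ¬ Om ≤ D := by
    intro hle
    have hxD : x ∈ D := hle ((hOm x).2 ⟨hxQ, by rw [← hx]; exact pow_orderOf_eq_one x⟩)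
    have hyD : y ∈ D := hle ((hOm y).2 ⟨hyQ, by rw [← hy]; exact pow_orderOf_eq_one y⟩)
    have hx1 : x ≠ 1 := by
      intro h; rw [h, orderOf_one] at hx; exact hqp.one_lt.ne hx
    apply hyx
    rw [hDz x hxD hx1]; exact hyD
  have hOmq : IsPGroup q Om := hQq.to_le hOQ
  obtain ⟨e, heO, heD, heV⟩ : ∃ e ∈ Om, e ∉ D ∧ Fpf e V := by
    by_contra hcon
    push Not at hcon
    apply hOD
    apply r2_gen hsp K Om D (h.r2 s hs) hKOm (not_dvd_card hqp hsp hqs hOmq)
    intro y hy hyo w hw hyw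
    by_contra hwD
    have hw1 : w ≠ 1 := fun h => hwD (h ▸ one_mem _)
    exact hcon w hw hwD (hb w (hQ (hOQ hw)) y hy (orderOf_eq_prime ((hOm w).1 hw).2 hw1) hyo hyw.symm)
  have heQ : e ∈ Q := hOQ heO
  have hep : e ^ q = 1 := ((hOm e).1 heO).2
  have he1 : e ≠ 1 := fun h => heD (h ▸ one_mem _)
  have heo : orderOf e = q := orderOf_eq_prime hep he1
  have hnp : n ^ q = 1 := hDpow n hnD
  have hnz : zpowers n = D := hDz n hnD hn1
  have hen : e ∉ zpowers n := by rw [hnz]; exact heD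
  -- (5)
  obtain ⟨g, hgQ, hge⟩ : ∃ g ∈ Q, ¬ Commute g e := by
    by_contra hcon
    push Not at hcon
    have hcc : IsCyclic (center Q) := hsymp (center Q) inferInstance inferInstance
    have h1 : IsCyclic ((center Q).map Q.subtype : Subgroup G) :=
      ((center Q).equivMapOfInjective Q.subtype Q.subtype_injective).isCyclic.1 hcc
    refine H68.TwoGen.not_isCyclic_subgroup hqp (x := e) (y := n) (H := (center Q).map Q.subtype)
      ?_ ?_ hep hnp hn1 hen h1
    · refine ⟨⟨e, heQ⟩, ?_, rfl⟩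
      rw [SetLike.mem_coe, mem_center_iff]
      intro g
      exact Subtype.ext (hcon g g.2).eq
    · refine ⟨⟨n, hDQ hnD⟩, ?_, rfl⟩
      rw [SetLike.mem_coe, mem_center_iff]
      intro g
      exact Subtype.ext (hDcent n hnD g g.2).symm.eq
  set c : G := ⁅g, e⁆ with hc
  have hcD : c ∈ D := hcommD g hgQ e heQ
  have hc1 : c ≠ 1 := fun h => hge (commutatorElement_eq_one_iff_mul_comm.1 h)
  have hgek : ∀ k : ℕ, g ^ k * e * (g ^ k)⁻¹ = c ^ k * e := by
    intro k
    induction k with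
    | zero => simp
    | succ k ih =>
      have h1 : g * e * g⁻¹ = c * e := by rw [hc, commutatorElement_def]; group
      have h2 : Commute (c ^ k) g := (hDcent c hcD g hgQ).pow_left k
      calc g ^ (k + 1) * e * (g ^ (k + 1))⁻¹ = g * (g ^ k * e * (g ^ k)⁻¹) * g⁻¹ := by
            rw [pow_succ', mul_inv_rev]; simp only [mul_assoc]
        _ = g * (c ^ k * e) * g⁻¹ := by rw [ih]
        _ = c ^ k * (g * e * g⁻¹) := by rw [← mul_assoc g, ← h2.eq]; simp only [mul_assoc]
        _ = c ^ k * (c * e) := by rw [h1]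
        _ = c ^ (k + 1) * e := by rw [pow_succ, mul_assoc]
  -- (6)
  have hnK : n ∈ K := hQ (hDQ hnD)
  have heK : e ∈ K := hQ heQ
  have hne : Commute n e := hDcent n hnD e heQ
  have hen' : Commute e n := hne.symm
  set B : Subgroup G := zpowers e ⊔ zpowers n with hB
  have hBR : R2 q B := ⟨n, (le_sup_right : zpowers n ≤ B) (mem_zpowers n), e,
    (le_sup_left : zpowers e ≤ B) (mem_zpowers e), hno, heo, hne, hen⟩
  have hBK : B ≤ K := sup_le (by rwa [zpowers_le]) (by rwa [zpowers_le])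
  have hVp : IsPGroup p V := by
    intro v
    exact ⟨1, by ext; simpa using h.ea.2 v v.2⟩
  have hpq : p ≠ q := (h.hτp q hq).2.symm
  apply h.ntriv
  rw [eq_bot_iff]
  refine r2_gen hqp B V ⊥ hBR (hBK.trans h.nrm) (not_dvd_card h.hp hqp hpq hVp) ?_
  intro z hzB hzo v hv hzv
  rw [mem_bot]
  obtain ⟨i, j, hz⟩ := sup_le_pr hen' hzB
  have hz1 : z ≠ 1 := by
    intro h; rw [h, orderOf_one] at hzo; exact hqp.one_lt.ne hzo
  by_cases hi : e ^ i = 1
  · rw [hi, one_mul] at hz
    have hzn : z ∈ zpowers n := ⟨j, hz.symm⟩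
    exact hnV v hv (commute_gen hqp hno hzn hz1 hzv)
  · -- `n ^ j` is a power of `c ^ i`
    have hci : c ^ i ≠ 1 := by
      intro hci
      apply hi
      have h1 : (q : ℤ) ∣ i := by
        rw [← hDo c hcD hc1]; exact orderOf_dvd_iff_zpow_eq_one.2 hci
      rw [← orderOf_dvd_iff_zpow_eq_one, heo]; exact h1
    have h1 : n ^ j ∈ zpowers (c ^ i) := by
      rw [hDz (c ^ i) (zpow_mem hcD i) hci]; exact zpow_mem hnD j
    have h2 : n ^ j ∈ Submonoid.powers (c ^ i) := mem_powers_iff_mem_zpowers.2 h1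
    obtain ⟨k, hk⟩ := h2
    have hk' : (c ^ i) ^ k = n ^ j := hk
    have h3 : z = g ^ k * e ^ i * (g ^ k)⁻¹ := by
      have h4 : Commute (c ^ k) e := (hDcent c hcD e heQ).pow_left k
      have h5 : g ^ k * e ^ i * (g ^ k)⁻¹ = (g ^ k * e * (g ^ k)⁻¹) ^ i := (conj_zpow).symm
      rw [h5, hgek k, h4.mul_zpow, hz, ← hk', ← zpow_natCast, ← zpow_natCast, ← zpow_mul, ← zpow_mul,
        mul_comm (k : ℤ) i]
      rw [zpow_mul, ((hDcent c hcD e heQ).zpow_left i).zpow_right i |>.symm.zpow_right (k : ℤ) |>.eq]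
    have hgK : g ^ k ∈ K := pow_mem (hQ hgQ) k
    have hw : (g ^ k)⁻¹ * v * g ^ k ∈ V := by
      have := mem_normalizer_iff.1 (h.nrm (inv_mem hgK)) v
      rw [inv_inv] at this
      exact this.1 hv
    have h4 : Commute (e ^ i) ((g ^ k)⁻¹ * v * g ^ k) := by
      have h5 : z * v = v * z := hzv
      rw [h3] at h5
      change e ^ i * ((g ^ k)⁻¹ * v * g ^ k) = (g ^ k)⁻¹ * v * g ^ k * e ^ i
      have h6 : e ^ i * ((g ^ k)⁻¹ * v * g ^ k) =
          (g ^ k)⁻¹ * (g ^ k * e ^ i * (g ^ k)⁻¹ * v) * g ^ k := by group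
      rw [h6, h5]; group
    have h5 : Commute e ((g ^ k)⁻¹ * v * g ^ k) := commute_gen hqp heo ⟨i, rfl⟩ hi h4
    have h6 := heV _ hw h5
    have h7 : v = g ^ k * ((g ^ k)⁻¹ * v * g ^ k) * (g ^ k)⁻¹ := by group
    rw [h7, h6, mul_one, mul_inv_cancel]

end H65.PAf
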