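import Cfsg.Agent.Lib.H65.Amalg

set_option autoImplicit false

/-! Reduction of the 2-local theorem to the amalgam argument. -/

namespace H65.Red

open Subgroup Cfsg H65.Sect H65.MaxLocal H65.TheoremB H65.Vert H65.Amalg H28.Cj H28.RelSyl

universe u

variable {X : Type u} [Group X] [Finite X]

/-- a minimal invariant subgroup of a 2-group is elementary abelian -/
theorem el_of_minInv {H Z Q : Subgroup X} (hQ : IsPGroup 2 Q) (hZQ : Z ≤ Q) (hm : H65.Semi.MinInv H Z) :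
    IsElementaryAbelian 2 Z := by
  obtain ⟨hZ1, hHZ, hmin⟩ := hm
  have hZp : IsPGroup 2 Z := hQ.to_le hZQ
  have hcen : Z ⊓ centralizer (Z : Set X) = Z := by
    apply hmin _ inf_le_left
    · exact H65.Semi.le_normalizer_inf hHZ (H1.Coprime2.le_normalizer_centralizer hHZ)
    · intro hb
      have h1 : Nontrivial Z := (Subgroup.nontrivial_iff_ne_bot Z).mpr hZ1
      have h2 := hZp.center_nontrivial
      obtain ⟨z, hz⟩ := (nontrivial_iff_exists_ne (1 : center Z)).mp h2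
      apply hz
      have h3 : ((z : Z) : X) ∈ Z ⊓ centralizer (Z : Set X) := by
        refine mem_inf.mpr ⟨(z : Z).2, ?_⟩
        rw [mem_centralizer_iff]
        intro y hy
        have := (Subgroup.mem_center_iff.mp z.2 ⟨y, hy⟩)
        exact congrArg (fun x : Z => (x : X)) this
      rw [hb, mem_bot] at h3
      exact Subtype.ext (Subtype.ext h3)
  have hcomm : ∀ x ∈ Z, ∀ y ∈ Z, x * y = y * x := fun x hx y hy => by
    have := (inf_eq_left.mp hcen) hy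
    exact mem_centralizer_iff.mp this x hx
  let U : Subgroup X :=
    { carrier := {x | x ∈ Z ∧ x * x = 1}
      one_mem' := ⟨one_mem _, by simp⟩
      mul_mem' := by
        rintro a b ⟨ha1, ha2⟩ ⟨hb1, hb2⟩
        refine ⟨mul_mem ha1 hb1, ?_⟩
        have := hcomm b hb1 a ha1
        calc a * b * (a * b) = a * (b * a) * b := by group
          _ = a * (a * b) * b := by rw [this]
          _ = (a * a) * (b * b) := by group
          _ = 1 := by rw [ha2, hb2, one_mul]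
      inv_mem' := by
        rintro a ⟨ha1, ha2⟩
        refine ⟨inv_mem ha1, ?_⟩
        rw [← mul_inv_rev, ha2, inv_one] }
  have hU : U = Z := by
    apply hmin U (fun x hx => hx.1)
    · apply H1.Coprime.le_normalizer_of_conj_mem
      rintro b hb x ⟨hx1, hx2⟩
      refine ⟨(mem_normalizer_iff.mp (hHZ hb) x).mp hx1, ?_⟩
      have : b * x * b⁻¹ * (b * x * b⁻¹) = b * (x * x) * b⁻¹ := by group
      rw [this, hx2]; group
    · intro hb
      have h1 : 2 ∣ Nat.card Z := by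
        obtain ⟨n, hn⟩ := IsPGroup.iff_card.mp hZp
        cases n with
        | zero =>
          rw [pow_zero] at hn
          exact absurd (Subgroup.card_eq_one.mp hn) hZ1
        | succ n => rw [hn, pow_succ]; exact Dvd.intro_left _ rfl
      obtain ⟨x, hx⟩ := exists_prime_orderOf_dvd_card' 2 h1
      have h2 : (x : X) ∈ U := by
        refine ⟨x.2, ?_⟩
        have h3 := pow_orderOf_eq_one x
        rw [hx, pow_two] at h3
        exact congrArg (fun x : Z => (x : X)) h3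
      rw [hb, mem_bot] at h2
      have : x = 1 := Subtype.ext h2
      rw [this, orderOf_one] at hx
      omega
  refine el_of_comm hcomm ?_
  intro x hx
  rw [← hU] at hx
  exact hx.2

theorem isSyl_of_isSylOf {S M : Subgroup X} (h : IsSylOf 2 S M) : IsSyl 2 S M := by
  obtain ⟨P, hP, hSP⟩ := exists_isSyl_ge h.2.1 h.1
  have := h.2.2 P hP.isPGroup hP.le hSP
  rwa [this] at hP

/-- a subgroup between a Sylow 2-subgroup and a maximal 2-local -/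
theorem mk_vert {M S H : Subgroup X} (hsol : Group.IsSolvable M)
    (hfree : ¬ Involves (Equiv.Perm (Fin 4)) M) (hchar : IsOfCharacteristicTwo M)
    (hS : IsSylOf 2 S M) (hS1 : S ≠ ⊥) (hSH : S ≤ H) (hHM : H ≤ M) :
    opc 2 H ≤ S ∧ ∃ Z, Vert H Z := by
  have hSH' : IsSylOf 2 S H := ⟨hSH, hS.2.1, fun T hT hTH hST => hS.2.2 T hT (hTH.trans hHM) hST⟩
  have hM : M ⊓ centralizer (opc 2 M : Set X) ≤ opc 2 M := by
    intro x hx
    obtain ⟨hxM, hxc⟩ := mem_inf.mp hx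
    have h1 : (⟨x, hxM⟩ : M) ∈ centralizer (pCore 2 M : Set M) := by
      rw [mem_centralizer_iff]
      intro y hy
      have := mem_centralizer_iff.mp hxc (y : X) ⟨y, hy, rfl⟩
      exact Subtype.ext this
    exact ⟨_, hchar h1, rfl⟩
  have h1 : opc 2 M ≤ opc 2 H :=
    le_opc ((opc_le_of_isSylOf hS).trans hSH) (hHM.trans le_normalizer_opc) isPGroup_opc
  have hch : H ⊓ centralizer (opc 2 H : Set X) ≤ opc 2 H := by
    refine le_trans ?_ h1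
    refine le_trans ?_ hM
    exact inf_le_inf hHM (centralizer_le h1)
  have hne : opc 2 H ≠ ⊥ := by
    intro hb
    rw [hb] at hch
    have : H ≤ ⊥ := by
      refine le_trans ?_ hch
      refine le_inf le_rfl ?_
      rw [le_centralizer_iff]
      exact bot_le
    exact hS1 (le_bot_iff.mp (hSH.trans this))
  obtain ⟨Z, hZ, hZm⟩ := H65.Semi.exists_minInv hne (le_normalizer_opc (p := 2) (M := H))
  refine ⟨opc_le_of_isSylOf hSH', Z, ?_, ?_, hch, hZ, hZm.2.1, hZm.1, el_of_minInv isPGroup_opc hZ hZm, ?_⟩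
  · exact Group.isSolvable_of_isSolvable_injective (f := Subgroup.inclusion hHM) (Subgroup.inclusion_injective _)
  · intro hi
    exact hfree (H51.Involves.involves_of_injective (Subgroup.inclusion hHM) (Subgroup.inclusion_injective _) hi)
  · intro U hU hHU
    by_cases h : U = ⊥
    · exact Or.inl h
    · exact Or.inr (hZm.2.2 U hU hHU h)

theorem isSylOf_of_le {M S H : Subgroup X} (hS : IsSylOf 2 S M) (hSH : S ≤ H) (hHM : H ≤ M) : IsSylOf 2 S H :=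
  ⟨hSH, hS.2.1, fun T hT hTH hST => hS.2.2 T hT (hTH.trans hHM) hST⟩

variable (hloc : ∀ M : Subgroup X, IsTwoLocal M → Group.IsSolvable M ∧ IsOfCharacteristicTwo ↥M ∧
  ¬ Involves (Equiv.Perm (Fin 4)) ↥M)

include hloc

theorem caseI {S M₁ M₂ : Subgroup X} (hS1 : S ≠ ⊥) (h1 : IsMaxLoc 2 M₁) (h2 : IsMaxLoc 2 M₂) (hne : M₁ ≠ M₂)
    (hS₁ : S ≤ M₁) (hS₂ : S ≤ M₂) (hsyl : ∀ M, IsMaxLoc 2 M → S ≤ M → IsSylOf 2 S M) : False := by
  classical
  -- choose a pair with maximal intersection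
  let Ψ : Set (Subgroup X) := {B | ∃ M₁ M₂ : Subgroup X, IsMaxLoc 2 M₁ ∧ IsMaxLoc 2 M₂ ∧ M₁ ≠ M₂ ∧ S ≤ M₁ ∧
    S ≤ M₂ ∧ B = M₁ ⊓ M₂}
  obtain ⟨B, ⟨M, M', hM, hM', hMM', hSM, hSM', hB⟩, hmax⟩ :=
    (Set.toFinite Ψ).exists_maximal ⟨M₁ ⊓ M₂, M₁, M₂, h1, h2, hne, hS₁, hS₂, rfl⟩
  have hSB : S ≤ B := hB ▸ le_inf hSM hSM'
  have hBM : B < M := by
    refine lt_of_le_of_ne (hB ▸ inf_le_left) fun h => hMM' ?_
    have : M ≤ M' := by rw [← h, hB]; exact inf_le_right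
    exact (hM.2 M' hM'.1 this).symm
  have hBM' : B < M' := by
    refine lt_of_le_of_ne (hB ▸ inf_le_right) fun h => hMM' ?_
    have : M' ≤ M := by rw [← h, hB]; exact inf_le_left
    exact hM'.2 M hM.1 this
  -- minimal overgroups
  have hmin : ∀ L : Subgroup X, B < L → ∃ H : Subgroup X, B < H ∧ H ≤ L ∧ ∀ T : Subgroup X, B ≤ T → T ≤ H → T ≠ H → T = B := by
    intro L hL
    obtain ⟨H, hH, hHmin⟩ := (Set.toFinite {H : Subgroup X | B < H ∧ H ≤ L}).exists_minimal ⟨L, hL, le_rfl⟩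
    refine ⟨H, hH.1, hH.2, fun T hBT hTH hT => ?_⟩
    by_contra hcon
    exact hT (le_antisymm hTH (hHmin ⟨lt_of_le_of_ne hBT (Ne.symm hcon), hTH.trans hH.2⟩ hTH))
  obtain ⟨H₁, hBH₁, hHM₁, hmin₁⟩ := hmin M hBM
  obtain ⟨H₂, hBH₂, hHM₂, hmin₂⟩ := hmin M' hBM'
  have hinf : H₁ ⊓ H₂ = B := by
    apply le_antisymm
    · rw [hB]; exact inf_le_inf hHM₁ hHM₂
    · exact le_inf hBH₁.le hBH₂.le
  obtain ⟨o1, Z₁, hV₁⟩ := mk_vert (hloc M hM.1).1 (hloc M hM.1).2.2 (hloc M hM.1).2.1 (hsyl M hM hSM) hS1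
    (hSB.trans hBH₁.le) hHM₁
  obtain ⟨o2, Z₂, hV₂⟩ := mk_vert (hloc M' hM'.1).1 (hloc M' hM'.1).2.2 (hloc M' hM'.1).2.1 (hsyl M' hM' hSM') hS1
    (hSB.trans hBH₂.le) hHM₂
  let K : Subgroup X → Subgroup X := fun H => sSup {N | N ≤ B ∧ H ≤ normalizer (N : Set X)}
  have hKB : ∀ H, K H ≤ B := fun H => sSup_le fun N hN => hN.1
  have hKn : ∀ H, H ≤ normalizer (K H : Set X) := fun H => H65.Semi.le_normalizer_sSup fun N hN => hN.2
  have hs1 : IsSyl 2 S H₁ := isSyl_of_isSylOf (isSylOf_of_le (hsyl M hM hSM) (hSB.trans hBH₁.le) hHM₁)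
  have hs2 : IsSyl 2 S H₂ := isSyl_of_isSylOf (isSylOf_of_le (hsyl M' hM' hSM') (hSB.trans hBH₂.le) hHM₂)
  have hX : ∀ Y : Subgroup X, IsPGroup 2 Y → H₁ ≤ normalizer (Y : Set X) → H₂ ≤ normalizer (Y : Set X) → Y = ⊥ := by
    intro Y hY hY1 hY2
    by_contra hYb
    obtain ⟨M₃, hM₃, hN⟩ := exists_maxLoc_ge (⟨Y, hY, hYb, rfl⟩ : IsLoc 2 (normalizer (Y : Set X)))
    have key : ∀ (L H : Subgroup X), IsMaxLoc 2 L → B < H → H ≤ L → S ≤ L → H ≤ normalizer (Y : Set X) → M₃ = L := by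
      intro L H hL hBH hHL hSL hHY
      by_contra hcon
      have h3 : M₃ ⊓ L ∈ Ψ := ⟨M₃, L, hM₃, hL, hcon, hSB.trans (hBH.le.trans (hHY.trans hN)), hSL, rfl⟩
      have h4 : B ≤ M₃ ⊓ L := le_inf (hBH.le.trans (hHY.trans hN)) (hBH.le.trans hHL)
      have h5 := hmax h3 h4
      exact absurd (le_inf (hHY.trans hN) hHL |>.trans h5) (not_le_of_gt hBH)
    exact hMM' ((key M H₁ hM hBH₁ hHM₁ hSM hY1).symm.trans (key M' H₂ hM' hBH₂ hHM₂ hSM' hY2))
  have hKgen : ∀ H : Subgroup X, B < H → (∀ T : Subgroup X, B ≤ T → T ≤ H → T ≠ H → T = B) →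
      ∀ N : Subgroup X, N ≤ H → H ≤ normalizer (N : Set X) → N ⊔ B ≠ H → ∀ P : Subgroup X, P ≤ N →
        IsPGroup 2 P → P ≤ K H := by
    intro H hBH hm N hN hHN hne' P hP _
    have h3 := hm (N ⊔ B) le_sup_right (sup_le hN hBH.le) hne'
    have h4 : N ≤ B := by rw [← h3]; exact le_sup_left
    exact hP.trans (le_sSup ⟨h4, hHN⟩)
  have e1 : Edge (⟨H₁, K H₁, Z₁⟩ : Tri X) ⟨H₂, K H₂, Z₂⟩ := by
    refine ⟨hV₁, (hKB _).trans hBH₁.le, (hKB _).trans hBH₂.le, hKn _, ?_, ⟨S, hs1, hs2⟩, ?_, ?_⟩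
    · exact le_sSup ⟨o1.trans hSB, le_normalizer_opc⟩
    · show ∀ N : Subgroup X, N ≤ H₁ → H₁ ≤ normalizer (N : Set X) → N ⊔ (H₁ ⊓ H₂) ≠ H₁ → _
      rw [hinf]
      exact hKgen H₁ hBH₁ hmin₁
    · exact fun Y _ _ hY hY1 hY2 => hX Y hY hY1 hY2
  have e2 : Edge (⟨H₂, K H₂, Z₂⟩ : Tri X) ⟨H₁, K H₁, Z₁⟩ := by
    refine ⟨hV₂, (hKB _).trans hBH₂.le, (hKB _).trans hBH₁.le, hKn _, ?_, ⟨S, hs2, hs1⟩, ?_, ?_⟩
    · exact le_sSup ⟨o2.trans hSB, le_normalizer_opc⟩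
    · show ∀ N : Subgroup X, N ≤ H₂ → H₂ ≤ normalizer (N : Set X) → N ⊔ (H₂ ⊓ H₁) ≠ H₂ → _
      rw [inf_comm, hinf]
      exact hKgen H₂ hBH₂ hmin₂
    · exact fun Y _ _ hY hY1 hY2 => hX Y hY hY2 hY1
  exact H65.Amalg.main (B := fun i => if i then ⟨H₁, K H₁, Z₁⟩ else ⟨H₂, K H₂, Z₂⟩) (by
    intro i
    cases i
    · exact e2
    · exact e1)

theorem caseII {S L M₁ : Subgroup X} (hS1 : S ≠ ⊥) (hSp : IsPGroup 2 S) (hL : IsMaxLoc 2 L) (h1 : IsMaxLoc 2 M₁)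
    (hne : M₁ ≠ L) (hSL : S ≤ L) (hS₁ : S ≤ M₁) (hsyl : IsSylOf 2 S M₁)
    (huniq : ∀ T : Subgroup X, S < T → IsPGroup 2 T → ∀ M, IsMaxLoc 2 M → T ≤ M → M = L)
    (hnot : ¬ IsSylOf 2 S L) : False := by
  classical
  obtain ⟨T, hST, hTL, hTN, hT⟩ := exists_gt_normalizer hSL hSp hnot
  obtain ⟨t₀, ht₀T, ht₀S⟩ := SetLike.exists_of_lt hST
  -- an element of T outside S whose square is in S
  obtain ⟨t, htT, htS, ht2⟩ : ∃ t ∈ T, t ∉ S ∧ t * t ∈ S := by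
    obtain ⟨k, hk⟩ := hT ⟨t₀, ht₀T⟩
    have hk' : t₀ ^ (2 ^ k) = 1 := by
      have := congrArg (fun x : T => (x : X)) hk
      simpa using this
    have hex : ∃ k, t₀ ^ (2 ^ k) ∈ S := ⟨k, by rw [hk']; exact one_mem _⟩
    have h3 := Nat.find_spec hex
    have h4 : Nat.find hex ≠ 0 := by
      intro h0
      rw [h0, pow_zero, pow_one] at h3
      exact ht₀S h3
    obtain ⟨m, hm⟩ := Nat.exists_eq_succ_of_ne_zero h4
    refine ⟨t₀ ^ (2 ^ m), pow_mem ht₀T _, Nat.find_min hex (by omega), ?_⟩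
    rw [hm] at h3
    have h5 : t₀ ^ 2 ^ m * t₀ ^ 2 ^ m = t₀ ^ (2 ^ (m.succ)) := by
      rw [← pow_add]; congr 1; rw [Nat.succ_eq_add_one, pow_succ]; ring
    rw [h5]; exact h3
  -- minimal H₁
  obtain ⟨H₁, ⟨hSH, hHM, hHL⟩, hHmin⟩ := (Set.toFinite {H : Subgroup X | S ≤ H ∧ H ≤ M₁ ∧ ¬ H ≤ L}).exists_minimal
    ⟨M₁, hS₁, le_rfl, fun h => hne (h1.2 L hL.1 h).symm⟩
  obtain ⟨o1, Z₁, hV₁⟩ := mk_vert (hloc M₁ h1.1).1 (hloc M₁ h1.1).2.2 (hloc M₁ h1.1).2.1 hsyl hS1 hSH hHM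
  have hs1 : IsSyl 2 S H₁ := isSyl_of_isSylOf (isSylOf_of_le hsyl hSH hHM)
  have hStS : cj t S = S := H65.Semi.map_conj_eq_of_mem_normalizer (hTN htT)
  have hs2 : IsSyl 2 S (cj t H₁) := by
    have := hs1.cj t
    rwa [hStS] at this
  have hSH2 : S ≤ cj t H₁ := hs2.le
  have hprop : ∀ Y : Subgroup X, S ≤ Y → Y ≤ H₁ → Y ≠ H₁ → Y ≤ L := by
    intro Y hSY hYH hYne
    by_contra hcon
    exact hYne (le_antisymm hYH (hHmin ⟨hSY, hYH.trans hHM, hcon⟩ hYH))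
  have htt : cj t (cj t H₁) = H₁ := by
    rw [cj_cj]
    exact H65.Semi.map_conj_eq_of_mem_normalizer (le_normalizer (hSH ht2))
  have e1 : Edge (⟨H₁, opc 2 H₁, Z₁⟩ : Tri X) (tj t ⟨H₁, opc 2 H₁, Z₁⟩) := by
    refine ⟨hV₁, opc_le, o1.trans hSH2, le_normalizer_opc, le_rfl, ⟨S, hs1, hs2⟩, ?_, ?_⟩
    · intro N hN hHN hne' P hP hPp
      have hSN : S ≤ N ⊔ (H₁ ⊓ cj t H₁) := (le_inf hSH hSH2).trans le_sup_right
      have hNL : N ⊔ (H₁ ⊓ cj t H₁) ≤ L := hprop _ hSN (sup_le hN inf_le_left) hne'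
      have hsN : IsSyl 2 (S ⊓ N) N := hs1.inf_normal hHN hN
      have hfr := hsN.frattini_sup hHN hN
      have hSnorm : S ≤ H₁ ⊓ normalizer ((S ⊓ N : Subgroup X) : Set X) :=
        le_inf hSH (H65.Semi.le_normalizer_inf le_normalizer (hSH.trans hHN))
      have hall : H₁ ⊓ normalizer ((S ⊓ N : Subgroup X) : Set X) = H₁ := by
        by_contra hcon
        apply hHL
        have h3 := hprop _ hSnorm inf_le_left hcon
        calc H₁ = N ⊔ (H₁ ⊓ normalizer ((S ⊓ N : Subgroup X) : Set X)) := hfr.symm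
          _ ≤ L := sup_le (le_sup_left.trans hNL) h3
      have h4 : P ≤ S ⊓ N := hsN.le_of_normal (hN.trans (inf_eq_left.mp hall)) hPp hP
      exact h4.trans (le_opc (inf_le_right.trans hN) (inf_eq_left.mp hall) (hSp.to_le inf_le_left))
    · intro Y hY1 hY2 hYp hn1 hn2
      by_contra hYb
      set J := H₁ ⊔ cj t H₁ with hJ
      have hJt : cj t J = J := by
        rw [hJ, cj_sup, htt, sup_comm]
      have htJ : t ∈ normalizer (opc 2 J : Set X) := by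
        rw [mem_normalizer_iff_cj]
        show (opc 2 J).map (MulAut.conj t).toMonoidHom = _
        rw [← opc_map_conj]
        exact congrArg (opc 2) hJt
      have hYO : Y ≤ opc 2 J := le_opc (hY1.trans le_sup_left) (sup_le hn1 hn2) hYp
      have hOb : opc 2 J ≠ ⊥ := fun hb => hYb (le_bot_iff.mp (hb ▸ hYO))
      obtain ⟨M₃, hM₃, hN⟩ := exists_maxLoc_ge (⟨opc 2 J, isPGroup_opc, hOb, rfl⟩ : IsLoc 2 (normalizer (opc 2 J : Set X)))
      have hH3 : H₁ ≤ M₃ := (le_sup_left.trans le_normalizer_opc).trans hN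
      have ht3 : t ∈ M₃ := hN htJ
      have h5 : S ⊔ zpowers t ≤ T := sup_le hST.le (zpowers_le.mpr htT)
      have h6 : S < S ⊔ zpowers t := by
        refine lt_of_le_of_ne le_sup_left fun h => htS ?_
        rw [h]; exact mem_sup_right (mem_zpowers t)
      have h7 := huniq _ h6 (hT.to_le h5) M₃ hM₃ (sup_le (hSH.trans hH3) (zpowers_le.mpr ht3))
      exact hHL (h7 ▸ hH3)
  have e2 : Edge (tj t (⟨H₁, opc 2 H₁, Z₁⟩ : Tri X)) ⟨H₁, opc 2 H₁, Z₁⟩ := by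
    have h3 := e1.conj t
    rw [tj_tj, e1.tj_eq (show t * t ∈ H₁ from hSH ht2)] at h3
    exact h3
  exact H65.Amalg.main (B := fun i => if i then ⟨H₁, opc 2 H₁, Z₁⟩ else tj t ⟨H₁, opc 2 H₁, Z₁⟩) (by
    intro i
    cases i
    · exact e2
    · exact e1)

theorem main {M₁ M₂ : Subgroup X} (h1 : IsMaxLoc 2 M₁) (h2 : IsMaxLoc 2 M₂) (hne : M₁ ≠ M₂)
    (h12 : 2 ∣ Nat.card (M₁ ⊓ M₂ : Subgroup X)) : False := by
  classical
  let Φ : Set (Subgroup X) := {S | S ≠ ⊥ ∧ IsPGroup 2 S ∧ ∃ M₁ M₂ : Subgroup X, IsMaxLoc 2 M₁ ∧ IsMaxLoc 2 M₂ ∧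
    M₁ ≠ M₂ ∧ S ≤ M₁ ∧ S ≤ M₂}
  have hne' : Φ.Nonempty := by
    obtain ⟨x, hx⟩ := exists_prime_orderOf_dvd_card' 2 h12
    refine ⟨zpowers (x : X), ?_, ?_, M₁, M₂, h1, h2, hne, zpowers_le.mpr (mem_inf.mp x.2).1,
      zpowers_le.mpr (mem_inf.mp x.2).2⟩
    · intro hb
      rw [zpowers_eq_bot] at hb
      have : x = 1 := Subtype.ext hb
      rw [this, orderOf_one] at hx
      omega
    · rw [IsPGroup.iff_card, Nat.card_zpowers, Subgroup.orderOf_coe, hx]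
      exact ⟨1, (pow_one 2).symm⟩
  obtain ⟨S, ⟨hS1, hSp, L₁, L₂, hL1, hL2, hL12, hSL1, hSL2⟩, hmax⟩ := (Set.toFinite Φ).exists_maximal hne'
  have huniq : ∀ T : Subgroup X, S < T → IsPGroup 2 T → ∀ M M', IsMaxLoc 2 M → IsMaxLoc 2 M' → T ≤ M → T ≤ M' →
      M = M' := by
    intro T hST hT M M' hM hM' hTM hTM'
    by_contra hcon
    have : T ∈ Φ := ⟨fun hb => hS1 (le_bot_iff.mp (hb ▸ hST.le)), hT, M, M', hM, hM', hcon, hTM, hTM'⟩
    exact absurd (hmax this hST.le) (not_le_of_gt hST)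
  by_cases hall : ∀ M, IsMaxLoc 2 M → S ≤ M → IsSylOf 2 S M
  · exact caseI hloc hS1 hL1 hL2 hL12 hSL1 hSL2 hall
  · push Not at hall
    obtain ⟨L, hL, hSL, hnot⟩ := hall
    obtain ⟨T₀, hST₀, hT₀L, hT₀N, hT₀⟩ := exists_gt_normalizer hSL hSp hnot
    obtain ⟨M₀, hM₀, hN₀⟩ := exists_maxLoc_ge (⟨S, hSp, hS1, rfl⟩ : IsLoc 2 (normalizer (S : Set X)))
    have hLM₀ : L = M₀ := huniq T₀ hST₀ hT₀ L M₀ hL hM₀ hT₀L (hT₀N.trans hN₀)
    subst hLM₀
    -- uniqueness of L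
    have hu : ∀ T : Subgroup X, S < T → IsPGroup 2 T → ∀ M, IsMaxLoc 2 M → T ≤ M → M = L := by
      intro T hST hT M hM hTM
      have h3 := lt_inf_normalizer_of_isPGroup hT hST
      exact huniq _ h3 (hT.to_le inf_le_left) M L hM hL (inf_le_left.trans hTM) (inf_le_right.trans hN₀)
    have hex : ∃ M, IsMaxLoc 2 M ∧ S ≤ M ∧ M ≠ L := by
      by_cases h : L₁ = L
      · exact ⟨L₂, hL2, hSL2, fun h' => hL12 (h.trans h'.symm)⟩
      · exact ⟨L₁, hL1, hSL1, h⟩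
    obtain ⟨M, hM, hSM, hML⟩ := hex
    have hsyl : IsSylOf 2 S M := by
      by_contra hcon
      obtain ⟨T, hST, hTM, _, hT⟩ := exists_gt_normalizer hSM hSp hcon
      exact hML (hu T hST hT M hM hTM)
    exact caseII hloc hS1 hSp hL hM hML hSL hSM hsyl hu hnot

end H65.Red
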