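import Cfsg.Agent.Lib.H65.Semi
import Cfsg.Agent.Lib.H28.RelHall

set_option autoImplicit false

/-! Sections `V/W` of a group on which a subgroup `L` acts; kernel of the action and fixed points, ambient form. -/

namespace H65.Sect

open Subgroup

variable {X : Type*} [Group X]

/-- the elements normalizing `V` and `W` and acting trivially on `V/W` -/
def act (V W : Subgroup X) : Subgroup X where
  carrier := {g | g ∈ normalizer (V : Set X) ∧ g ∈ normalizer (W : Set X) ∧ ∀ v ∈ V, g * v * g⁻¹ * v⁻¹ ∈ W}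
  one_mem' := ⟨one_mem _, one_mem _, fun v _ => by simp [one_mem]⟩
  mul_mem' := by
    rintro g h ⟨hg1, hg2, hg3⟩ ⟨hh1, hh2, hh3⟩
    refine ⟨mul_mem hg1 hh1, mul_mem hg2 hh2, fun v hv => ?_⟩
    have h1 : h * v * h⁻¹ ∈ V := (mem_normalizer_iff.mp hh1 v).mp hv
    have h2 := mul_mem (hg3 _ h1) (hh3 v hv)
    have h3 : g * h * v * (g * h)⁻¹ * v⁻¹ = g * (h * v * h⁻¹) * g⁻¹ * (h * v * h⁻¹)⁻¹ * (h * v * h⁻¹ * v⁻¹) := by
      group
    rw [h3]; exact h2
  inv_mem' := by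
    rintro g ⟨hg1, hg2, hg3⟩
    refine ⟨inv_mem hg1, inv_mem hg2, fun v hv => ?_⟩
    have h1 : g⁻¹ * v * g⁻¹⁻¹ ∈ V := (mem_normalizer_iff.mp (inv_mem hg1) v).mp hv
    have h2 := inv_mem (hg3 _ h1)
    have h3 : g⁻¹ * v * g⁻¹⁻¹ * v⁻¹ = (g * (g⁻¹ * v * g⁻¹⁻¹) * g⁻¹ * (g⁻¹ * v * g⁻¹⁻¹)⁻¹)⁻¹ := by group
    rw [h3]; exact h2

theorem mem_act {V W : Subgroup X} {g : X} : g ∈ act V W ↔
    g ∈ normalizer (V : Set X) ∧ g ∈ normalizer (W : Set X) ∧ ∀ v ∈ V, g * v * g⁻¹ * v⁻¹ ∈ W := Iff.rfl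

/-- the elements of `V` centralized by `A` modulo `W` -/
def fix (V W A : Subgroup X) : Subgroup X where
  carrier := {v | v ∈ V ∧ v ∈ normalizer (W : Set X) ∧ ∀ a ∈ A, a * v * a⁻¹ * v⁻¹ ∈ W}
  one_mem' := ⟨one_mem _, one_mem _, fun a _ => by simp [one_mem]⟩
  mul_mem' := by
    rintro u v ⟨hu1, hu2, hu3⟩ ⟨hv1, hv2, hv3⟩
    refine ⟨mul_mem hu1 hv1, mul_mem hu2 hv2, fun a ha => ?_⟩
    have h1 : u * (a * v * a⁻¹ * v⁻¹) * u⁻¹ ∈ W := (mem_normalizer_iff.mp hu2 _).mp (hv3 a ha)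
    have h2 := mul_mem (hu3 a ha) h1
    have h3 : a * (u * v) * a⁻¹ * (u * v)⁻¹ = a * u * a⁻¹ * u⁻¹ * (u * (a * v * a⁻¹ * v⁻¹) * u⁻¹) := by group
    rw [h3]; exact h2
  inv_mem' := by
    rintro v ⟨hv1, hv2, hv3⟩
    refine ⟨inv_mem hv1, inv_mem hv2, fun a ha => ?_⟩
    have h1 : v⁻¹ * (a * v * a⁻¹ * v⁻¹)⁻¹ * v⁻¹⁻¹ ∈ W :=
      (mem_normalizer_iff.mp (inv_mem hv2) _).mp (inv_mem (hv3 a ha))
    have h3 : a * v⁻¹ * a⁻¹ * v⁻¹⁻¹ = v⁻¹ * (a * v * a⁻¹ * v⁻¹)⁻¹ * v⁻¹⁻¹ := by group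
    rw [h3]; exact h1

theorem mem_fix {V W A : Subgroup X} {v : X} : v ∈ fix V W A ↔
    v ∈ V ∧ v ∈ normalizer (W : Set X) ∧ ∀ a ∈ A, a * v * a⁻¹ * v⁻¹ ∈ W := Iff.rfl

theorem fix_le (V W A : Subgroup X) : fix V W A ≤ V := fun _ h => h.1

theorem fix_anti {V W A B : Subgroup X} (h : A ≤ B) : fix V W B ≤ fix V W A :=
  fun _ hv => ⟨hv.1, hv.2.1, fun a ha => hv.2.2 a (h ha)⟩

theorem fix_bot (V A : Subgroup X) : fix V ⊥ A = V ⊓ centralizer (A : Set X) := by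
  ext v
  rw [mem_fix, mem_inf, mem_centralizer_iff]
  constructor
  · rintro ⟨h1, -, h3⟩
    refine ⟨h1, fun a ha => ?_⟩
    have := h3 a ha
    rw [mem_bot, mul_inv_eq_one, mul_inv_eq_iff_eq_mul] at this
    exact this
  · rintro ⟨h1, h3⟩
    refine ⟨h1, ?_, fun a ha => ?_⟩
    · rw [normalizer_eq_top]; exact mem_top _
    · rw [mem_bot, mul_inv_eq_one, mul_inv_eq_iff_eq_mul]
      exact h3 a ha

theorem act_bot (V : Subgroup X) : act V ⊥ = centralizer (V : Set X) := by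
  ext g
  rw [mem_act, mem_centralizer_iff]
  constructor
  · rintro ⟨-, -, h3⟩ v hv
    have := h3 v hv
    rw [mem_bot, mul_inv_eq_one, mul_inv_eq_iff_eq_mul] at this
    exact this.symm
  · intro h
    refine ⟨?_, ?_, fun v hv => ?_⟩
    · exact centralizer_le_normalizer _ (mem_centralizer_iff.mpr h)
    · rw [normalizer_eq_top]; exact mem_top _
    · rw [mem_bot, mul_inv_eq_one, mul_inv_eq_iff_eq_mul]
      exact (h v hv).symm

/-- `V/W` is an elementary abelian 2-section normalized by `L`. -/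
structure Sec (L V W : Subgroup X) : Prop where
  le : W ≤ V
  nV : L ≤ normalizer (V : Set X)
  nW : L ≤ normalizer (W : Set X)
  VW : V ≤ normalizer (W : Set X)
  comm : ∀ x ∈ V, ∀ y ∈ V, x * y * x⁻¹ * y⁻¹ ∈ W
  sq : ∀ x ∈ V, x * x ∈ W

theorem Sec.mono {L L' V W : Subgroup X} (h : Sec L V W) (hL : L' ≤ L) : Sec L' V W :=
  ⟨h.le, hL.trans h.nV, hL.trans h.nW, h.VW, h.comm, h.sq⟩

theorem Sec.lower {L V U W : Subgroup X} (h : Sec L V W) (hWU : W ≤ U) (hUV : U ≤ V)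
    (hU : L ≤ normalizer (U : Set X)) : Sec L U W :=
  ⟨hWU, hU, h.nW, hUV.trans h.VW, fun x hx y hy => h.comm x (hUV hx) y (hUV hy), fun x hx => h.sq x (hUV hx)⟩

theorem Sec.le_normalizer {L V U W : Subgroup X} (h : Sec L V W) (hWU : W ≤ U) (hUV : U ≤ V) :
    V ≤ normalizer (U : Set X) := by
  rw [le_normalizer_iff]
  intro v hv u hu
  have := mul_mem (hWU (h.comm v hv u (hUV hu))) hu
  simpa [mul_assoc] using this

theorem Sec.upper {L V U W : Subgroup X} (h : Sec L V W) (hWU : W ≤ U) (hUV : U ≤ V)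
    (hU : L ≤ normalizer (U : Set X)) : Sec L V U :=
  ⟨hUV, h.nV, hU, h.le_normalizer hWU hUV, fun x hx y hy => hWU (h.comm x hx y hy), fun x hx => hWU (h.sq x hx)⟩

theorem act_mem_normalizer {V U W : Subgroup X} (hWU : W ≤ U) (hUV : U ≤ V) {g : X} (hg : g ∈ act V W) :
    g ∈ normalizer (U : Set X) := by
  have key : ∀ g ∈ act V W, ∀ u ∈ U, g * u * g⁻¹ ∈ U := by
    intro g hg u hu
    have := mul_mem (hWU (hg.2.2 u (hUV hu))) hu
    simpa [mul_assoc] using this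
  rw [mem_normalizer_iff]
  intro u
  refine ⟨key g hg u, fun h => ?_⟩
  have := key g⁻¹ (inv_mem hg) _ h
  simpa [mul_assoc] using this

theorem act_le_upper {V U W : Subgroup X} (hWU : W ≤ U) (hUV : U ≤ V) : act V W ≤ act V U :=
  fun _ hg => ⟨hg.1, act_mem_normalizer hWU hUV hg, fun v hv => hWU (hg.2.2 v hv)⟩

theorem act_le_lower {V U W : Subgroup X} (hWU : W ≤ U) (hUV : U ≤ V) : act V W ≤ act U W :=
  fun _ hg => ⟨act_mem_normalizer hWU hUV hg, hg.2.1, fun v hv => hg.2.2 v (hUV hv)⟩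

/-- elements acting trivially on `V/U` and `U/W` square to elements acting trivially on `V/W` -/
theorem sq_mem_act {L V U W : Subgroup X} (h : Sec L V W) (hUV : U ≤ V) {g : X}
    (h1 : g ∈ act V U) (h2 : g ∈ act U W) : g * g ∈ act V W := by
  refine ⟨mul_mem h1.1 h1.1, mul_mem h2.2.1 h2.2.1, fun v hv => ?_⟩
  have hu : g * v * g⁻¹ * v⁻¹ ∈ U := h1.2.2 v hv
  set u := g * v * g⁻¹ * v⁻¹ with hu'
  have e1 : g * v * g⁻¹ = u * v := by rw [hu']; group
  have e2 : g * g * v * (g * g)⁻¹ * v⁻¹ = (g * u * g⁻¹ * u⁻¹) * (u * u) := by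
    calc g * g * v * (g * g)⁻¹ * v⁻¹ = g * (g * v * g⁻¹) * g⁻¹ * v⁻¹ := by group
      _ = g * (u * v) * g⁻¹ * v⁻¹ := by rw [e1]
      _ = g * u * g⁻¹ * (g * v * g⁻¹ * v⁻¹) := by group
      _ = g * u * g⁻¹ * u := by rw [← hu']
      _ = _ := by group
  rw [e2]
  exact mul_mem (h2.2.2 u hu) (h.sq u (hUV hu))

theorem fix_inf {L V U W A : Subgroup X} (h : Sec L V W) (hUV : U ≤ V) : fix V W A ⊓ U = fix U W A := by
  ext v
  constructor
  · rintro ⟨h1, h2⟩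
    exact ⟨h2, h1.2.1, h1.2.2⟩
  · intro h1
    exact ⟨⟨hUV h1.1, h.VW (hUV h1.1), h1.2.2⟩, h1.1⟩

theorem fix_le_fix_upper {L V U W A : Subgroup X} (h : Sec L V W) (hWU : W ≤ U) (hUV : U ≤ V) :
    fix V W A ≤ fix V U A :=
  fun _ hv => ⟨hv.1, h.le_normalizer hWU hUV hv.1, fun a ha => hWU (hv.2.2 a ha)⟩

theorem le_fix {L V W A : Subgroup X} (h : Sec L V W) (hA : A ≤ normalizer (W : Set X)) : W ≤ fix V W A :=
  fun w hw => ⟨h.le hw, le_normalizer hw, fun _ ha =>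
    mul_mem ((mem_normalizer_iff.mp (hA ha) w).mp hw) (inv_mem hw)⟩

theorem sup_le_fix {L V U W A : Subgroup X} (h : Sec L V W) (hWU : W ≤ U) (hUV : U ≤ V)
    (hA : A ≤ normalizer (U : Set X)) : fix V W A ⊔ U ≤ fix V U A := by
  refine sup_le (fix_le_fix_upper h hWU hUV) ?_
  intro u hu
  exact ⟨hUV hu, le_normalizer hu, fun _ ha => mul_mem ((mem_normalizer_iff.mp (hA ha) u).mp hu) (inv_mem hu)⟩

/-- index of `F` in `F ⊔ U` -/
theorem relIndex_sup_right' [Finite X] {F U : Subgroup X} (h : F ≤ normalizer (U : Set X)) :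
    F.relIndex (F ⊔ U) = F.relIndex U := by
  have h1 := H28.RelHall.card_sup_mul_card_inf h
  have h2 : Nat.card F * F.relIndex (F ⊔ U) = Nat.card (F ⊔ U : Subgroup X) := by
    have := Subgroup.relIndex_mul_relIndex ⊥ F (F ⊔ U) bot_le le_sup_left
    rwa [relIndex_bot_left, relIndex_bot_left] at this
  have h3 : Nat.card (F ⊓ U : Subgroup X) * F.relIndex U = Nat.card U := by
    have := Subgroup.relIndex_mul_relIndex ⊥ (F ⊓ U) U bot_le inf_le_right
    rwa [relIndex_bot_left, relIndex_bot_left, inf_relIndex_right] at this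
  have h4 : Nat.card F * Nat.card (F ⊓ U : Subgroup X) * F.relIndex (F ⊔ U) =
      Nat.card F * Nat.card (F ⊓ U : Subgroup X) * F.relIndex U := by
    calc Nat.card F * Nat.card (F ⊓ U : Subgroup X) * F.relIndex (F ⊔ U)
        = (Nat.card F * F.relIndex (F ⊔ U)) * Nat.card (F ⊓ U : Subgroup X) := by ring
      _ = Nat.card F * (Nat.card (F ⊓ U : Subgroup X) * F.relIndex U) := by rw [h2, h1, h3]
      _ = _ := by ring
  exact Nat.eq_of_mul_eq_mul_left (Nat.mul_pos Nat.card_pos Nat.card_pos) h4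

theorem relIndex_pos' [Finite X] (H K : Subgroup X) : 0 < H.relIndex K :=
  Nat.pos_of_ne_zero Subgroup.index_ne_zero_of_finite

theorem relIndex_anti [Finite X] {H K L : Subgroup X} (h : H ≤ K) : K.relIndex L ≤ H.relIndex L :=
  Nat.le_of_dvd (relIndex_pos' _ _) (relIndex_dvd_of_le_left L h)

/-- additivity of the index of fixed points along a chain -/
theorem relIndex_fix_mul_le [Finite X] {L V U W A : Subgroup X} (h : Sec L V W) (hWU : W ≤ U) (hUV : U ≤ V)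
    (hA : A ≤ normalizer (U : Set X)) :
    (fix V U A).relIndex V * (fix U W A).relIndex U ≤ (fix V W A).relIndex V := by
  have h1 : fix V W A ≤ normalizer (U : Set X) := (fix_le V W A).trans (h.le_normalizer hWU hUV)
  have h2 := Subgroup.relIndex_mul_relIndex (fix V W A) (fix V W A ⊔ U) V le_sup_left
    (sup_le (fix_le V W A) hUV)
  rw [← h2, mul_comm, relIndex_sup_right' h1, ← inf_relIndex_right (fix V W A) U, fix_inf h hUV]
  exact Nat.mul_le_mul_left _ (relIndex_anti (sup_le_fix h hWU hUV hA))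

end H65.Sect
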