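import Cfsg.Agent.Lib.H65.Irr

set_option autoImplicit false

/-! The strong inequality on arbitrary elementary abelian 2-sections of solvable groups acting without section `S₃`;
the radical `Rd L V W` (preimage of `O₂(L/C_L(V/W))`). -/

namespace H65.SectGen

open Subgroup Cfsg H65.Sect H65.Irr

universe u

variable {X : Type u} [Group X]

/-- every element of `N` has a `2`-power power in `K` -/
def Mod2 (N K : Subgroup X) : Prop := ∀ n ∈ N, ∃ k : ℕ, n ^ (2 ^ k) ∈ K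

theorem Mod2.mono {N N' K K' : Subgroup X} (h : Mod2 N K) (hN : N' ≤ N) (hK : K ≤ K') : Mod2 N' K' := by
  intro n hn
  obtain ⟨k, hk⟩ := h n (hN hn)
  exact ⟨k, hK hk⟩

theorem pow_mem_of_le {K : Subgroup X} {x : X} {k m : ℕ} (h : x ^ (2 ^ k) ∈ K) (hkm : k ≤ m) : x ^ (2 ^ m) ∈ K := by
  obtain ⟨r, rfl⟩ := Nat.exists_eq_add_of_le hkm
  rw [pow_add, pow_mul]
  exact pow_mem h _

theorem normalizer_act (V W : Subgroup X) :
    normalizer (V : Set X) ⊓ normalizer (W : Set X) ≤ normalizer ((act V W : Subgroup X) : Set X) := by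
  rw [le_normalizer_iff]
  rintro l hl g hg
  obtain ⟨hl1, hl2⟩ := mem_inf.mp hl
  refine ⟨mul_mem (mul_mem hl1 hg.1) (inv_mem hl1), mul_mem (mul_mem hl2 hg.2.1) (inv_mem hl2), fun v hv => ?_⟩
  have h1 := hg.2.2 _ ((mem_normalizer_iff.mp (inv_mem hl1) v).mp hv)
  have h2 := (mem_normalizer_iff.mp hl2 _).mp h1
  have h3 : l * g * l⁻¹ * v * (l * g * l⁻¹)⁻¹ * v⁻¹ =
      l * (g * (l⁻¹ * v * l⁻¹⁻¹) * g⁻¹ * (l⁻¹ * v * l⁻¹⁻¹)⁻¹) * l⁻¹ := by group
  rw [h3]; exact h2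

theorem le_normalizer_act {L V W : Subgroup X} (h : Sec L V W) :
    L ≤ normalizer ((act V W : Subgroup X) : Set X) :=
  (le_inf h.nV h.nW).trans (normalizer_act V W)

theorem gen [Finite X] {L : Subgroup X} (hsol : Group.IsSolvable L) : ∀ (n : ℕ) (V W A : Subgroup X),
    W.relIndex V = n → Sec L V W → SF L (act V W) → A ≤ L → (∀ a ∈ A, a * a ∈ act V W) →
    (∀ a ∈ A, ∀ b ∈ A, a * b * a⁻¹ * b⁻¹ ∈ act V W) →
    ∃ N : Subgroup X, N ≤ L ∧ L ≤ normalizer (N : Set X) ∧ Mod2 N (act V W) ∧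
      ((A ⊓ N).relIndex A) ^ 2 ≤ (fix V W A).relIndex V := by
  intro n
  induction n using Nat.strong_induction_on with
  | _ n ih =>
  intro V W A hn h hSF hAL hA1 hA2
  by_cases hirr : ∀ U : Subgroup X, W ≤ U → U ≤ V → L ≤ normalizer (U : Set X) → U = W ∨ U = V
  · refine ⟨L ⊓ act V W, inf_le_left, ?_, ?_, ?_⟩
    · exact H65.Semi.le_normalizer_inf le_normalizer (le_normalizer_act h)
    · intro x hx
      exact ⟨0, by simpa using (mem_inf.mp hx).2⟩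
    · have : A ⊓ (L ⊓ act V W) = A ⊓ act V W := by rw [← inf_assoc, inf_eq_left.mpr hAL]
      rw [this]
      exact irr h hsol hSF hirr hAL hA1 hA2
  push Not at hirr
  obtain ⟨U, hWU, hUV, hLU, hUW', hUV'⟩ := hirr
  have hmul := Subgroup.relIndex_mul_relIndex W U V hWU hUV
  have h1 : W.relIndex U ≠ 1 := by
    rw [Ne, relIndex_eq_one]
    intro hle
    exact hUW' (le_antisymm hle hWU)
  have h2 : U.relIndex V ≠ 1 := by
    rw [Ne, relIndex_eq_one]
    intro hle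
    exact hUV' (le_antisymm hUV hle)
  have p1 := relIndex_pos' W U
  have p2 := relIndex_pos' U V
  have lt1 : W.relIndex U < n := by rw [← hn, ← hmul]; nlinarith [Nat.lt_of_le_of_ne p2 (Ne.symm h2)]
  have lt2 : U.relIndex V < n := by rw [← hn, ← hmul]; nlinarith [Nat.lt_of_le_of_ne p1 (Ne.symm h1)]
  have a1 := act_le_upper (X := X) hWU hUV
  have a2 := act_le_lower (X := X) hWU hUV
  obtain ⟨N1, hN1, hN1n, hN1m, hN1i⟩ := ih _ lt2 V U A rfl (h.upper hWU hUV hLU) (hSF.mono le_rfl a1) hAL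
    (fun a ha => a1 (hA1 a ha)) (fun a ha b hb => a1 (hA2 a ha b hb))
  obtain ⟨N2, hN2, hN2n, hN2m, hN2i⟩ := ih _ lt1 U W (A ⊓ N1) rfl (h.lower hWU hUV hLU) (hSF.mono le_rfl a2)
    (inf_le_left.trans hAL) (fun a ha => a2 (hA1 a (mem_inf.mp ha).1))
    (fun a ha b hb => a2 (hA2 a (mem_inf.mp ha).1 b (mem_inf.mp hb).1))
  refine ⟨N1 ⊓ N2, inf_le_left.trans hN1, H65.Semi.le_normalizer_inf hN1n hN2n, ?_, ?_⟩
  · intro x hx
    obtain ⟨k, hk⟩ := hN1m x (mem_inf.mp hx).1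
    obtain ⟨m, hm⟩ := hN2m x (mem_inf.mp hx).2
    refine ⟨max k m + 1, ?_⟩
    rw [pow_succ, pow_mul, pow_two]
    exact sq_mem_act h hUV (pow_mem_of_le hk (le_max_left _ _)) (pow_mem_of_le hm (le_max_right _ _))
  · have e1 := Subgroup.relIndex_mul_relIndex (A ⊓ (N1 ⊓ N2)) (A ⊓ N1) A
      (inf_le_inf_left _ inf_le_left) inf_le_left
    have e2 : A ⊓ (N1 ⊓ N2) = (A ⊓ N1) ⊓ N2 := by rw [inf_assoc]
    rw [← e1, e2, mul_pow, mul_comm]
    refine le_trans ?_ (relIndex_fix_mul_le h hWU hUV (hAL.trans hLU))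
    apply Nat.mul_le_mul hN1i
    exact hN2i.trans (relIndex_anti (fix_anti inf_le_left))

/-- the largest normal subgroup of `L` acting as a 2-group on `V/W` -/
def Rd (L V W : Subgroup X) : Subgroup X :=
  sSup {N : Subgroup X | N ≤ L ∧ L ≤ normalizer (N : Set X) ∧ Mod2 N (act V W)}

theorem exists_rad [Finite X] {L V W : Subgroup X} (h : Sec L V W) :
    ∃ R : Subgroup X, (R ≤ L ∧ L ≤ normalizer (R : Set X) ∧ Mod2 R (act V W)) ∧
      ∀ N : Subgroup X, N ≤ L → L ≤ normalizer (N : Set X) → Mod2 N (act V W) → N ≤ R := by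
  set K : Subgroup L := (act V W).subgroupOf L with hK
  have hKn : K.Normal := by
    rw [hK, ← Subgroup.inf_subgroupOf_left]
    exact (Subgroup.normal_subgroupOf_iff_le_normalizer inf_le_left).mpr
      (H65.Semi.le_normalizer_inf le_normalizer (le_normalizer_act h))
  let R0 : Subgroup L := (pCore 2 (L ⧸ K)).comap (QuotientGroup.mk' K)
  have hR0n : R0.Normal := inferInstance
  refine ⟨R0.map L.subtype, ⟨Subgroup.map_subtype_le _, ?_, ?_⟩, ?_⟩
  · rw [le_normalizer_iff]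
    rintro l hl _ ⟨x, hx, rfl⟩
    exact ⟨⟨l, hl⟩ * x * ⟨l, hl⟩⁻¹, hR0n.conj_mem x hx ⟨l, hl⟩, rfl⟩
  · rintro _ ⟨x, hx, rfl⟩
    obtain ⟨k, hk⟩ := (H1.Cores.isPGroup_pCore (G := L ⧸ K) 2) ⟨QuotientGroup.mk' K x, hx⟩
    refine ⟨k, ?_⟩
    have h1 : (QuotientGroup.mk' K x) ^ (2 ^ k) = 1 := congrArg Subtype.val hk
    rw [← map_pow] at h1
    have h2 : x ^ (2 ^ k) ∈ K := (QuotientGroup.eq_one_iff _).mp h1
    exact h2
  · intro N hNL hLN hN
    have hNn : (N.subgroupOf L).Normal := (Subgroup.normal_subgroupOf_iff_le_normalizer hNL).mpr hLN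
    have h1 : (N.subgroupOf L).map (QuotientGroup.mk' K) ≤ pCore 2 (L ⧸ K) := by
      apply H1.Cores.le_pCore
      · exact hNn.map _ (QuotientGroup.mk'_surjective K)
      · rintro ⟨_, x, hx, rfl⟩
        obtain ⟨k, hk⟩ := hN x hx
        refine ⟨k, Subtype.ext ?_⟩
        show (QuotientGroup.mk' K x) ^ (2 ^ k) = 1
        rw [← map_pow]
        exact (QuotientGroup.eq_one_iff _).mpr hk
    intro x hx
    exact ⟨⟨x, hNL hx⟩, h1 ⟨⟨x, hNL hx⟩, hx, rfl⟩, rfl⟩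

theorem rd_spec [Finite X] {L V W : Subgroup X} (h : Sec L V W) :
    Rd L V W ≤ L ∧ L ≤ normalizer (Rd L V W : Set X) ∧ Mod2 (Rd L V W) (act V W) := by
  obtain ⟨R, hR, hmax⟩ := exists_rad h
  have : Rd L V W = R := le_antisymm (sSup_le fun N hN => hmax N hN.1 hN.2.1 hN.2.2) (le_sSup hR)
  rw [this]; exact hR

theorem rd_le [Finite X] {L V W : Subgroup X} (h : Sec L V W) : Rd L V W ≤ L := (rd_spec h).1
theorem le_normalizer_rd [Finite X] {L V W : Subgroup X} (h : Sec L V W) :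
    L ≤ normalizer (Rd L V W : Set X) := (rd_spec h).2.1
theorem rd_mod2 [Finite X] {L V W : Subgroup X} (h : Sec L V W) : Mod2 (Rd L V W) (act V W) := (rd_spec h).2.2

theorem le_rd {L V W N : Subgroup X} (h1 : N ≤ L) (h2 : L ≤ normalizer (N : Set X))
    (h3 : Mod2 N (act V W)) : N ≤ Rd L V W := le_sSup ⟨h1, h2, h3⟩

theorem gen_rd [Finite X] {L V W A : Subgroup X} (hsol : Group.IsSolvable L) (h : Sec L V W) (hSF : SF L (act V W))
    (hAL : A ≤ L) (hA1 : ∀ a ∈ A, a * a ∈ act V W) (hA2 : ∀ a ∈ A, ∀ b ∈ A, a * b * a⁻¹ * b⁻¹ ∈ act V W) :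
    ((A ⊓ Rd L V W).relIndex A) ^ 2 ≤ (fix V W A).relIndex V := by
  obtain ⟨N, h1, h2, h3, h4⟩ := gen hsol _ V W A rfl h hSF hAL hA1 hA2
  exact le_trans (Nat.pow_le_pow_left (relIndex_anti (inf_le_inf_left _ (le_rd h1 h2 h3))) 2) h4

theorem mod2_inf {L V U W N : Subgroup X} (h : Sec L V W) (hUV : U ≤ V)
    (h1 : Mod2 N (act V U)) (h2 : Mod2 N (act U W)) : Mod2 N (act V W) := by
  intro x hx
  obtain ⟨k, hk⟩ := h1 x hx
  obtain ⟨m, hm⟩ := h2 x hx
  refine ⟨max k m + 1, ?_⟩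
  rw [pow_succ, pow_mul, pow_two]
  exact sq_mem_act h hUV (pow_mem_of_le hk (le_max_left _ _)) (pow_mem_of_le hm (le_max_right _ _))

end H65.SectGen
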