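import Cfsg.Agent.Lib.H65.SectGen
import Cfsg.Agent.Lib.H65.RegOrb
import Cfsg.Agent.Lib.H55.BaerSuzuki
import Cfsg.Agent.Lib.H26.PxQ

set_option autoImplicit false

/-! Quadratic offenders on modules on which `O₂` acts with the strong inequality. -/

namespace H65.TheoremB

open Subgroup Cfsg H65.Sect H65.Irr H65.SectGen H65.MaxLocal

universe u

variable {X : Type u} [Group X]

theorem comm_of_el {A : Subgroup X} (hA : IsElementaryAbelian 2 A) : ∀ x ∈ A, ∀ y ∈ A, x * y = y * x :=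
  fun x hx y hy => congrArg Subtype.val (hA.1.is_comm.comm (⟨x, hx⟩ : A) ⟨y, hy⟩)

theorem el_of_comm {A : Subgroup X} (h1 : ∀ x ∈ A, ∀ y ∈ A, x * y = y * x) (h2 : ∀ x ∈ A, x * x = 1) :
    IsElementaryAbelian 2 A :=
  ⟨⟨⟨fun x y => Subtype.ext (h1 x x.2 y y.2)⟩⟩, fun x hx => by rw [pow_two]; exact h2 x hx⟩

theorem sq_of_el {A : Subgroup X} (hA : IsElementaryAbelian 2 A) : ∀ x ∈ A, x * x = 1 :=
  fun x hx => by rw [← pow_two]; exact hA.2 x hx

theorem isPGroup_of_el {A : Subgroup X} (hA : IsElementaryAbelian 2 A) : IsPGroup 2 A :=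
  fun x => ⟨1, by apply Subtype.ext; simpa using hA.2 x x.2⟩

theorem el_mono {A B : Subgroup X} (hA : IsElementaryAbelian 2 A) (h : B ≤ A) : IsElementaryAbelian 2 B :=
  el_of_comm (fun x hx y hy => comm_of_el hA x (h hx) y (h hy)) (fun x hx => sq_of_el hA x (h hx))

theorem sec_bot {L V : Subgroup X} (hV : IsElementaryAbelian 2 V) (hLV : L ≤ normalizer (V : Set X)) :
    Sec L V ⊥ := by
  have h0 : normalizer ((⊥ : Subgroup X) : Set X) = ⊤ := normalizer_eq_top _
  refine ⟨bot_le, hLV, by rw [h0]; exact le_top, by rw [h0]; exact le_top, ?_, ?_⟩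
  · intro x hx y hy
    rw [mem_bot, mul_inv_eq_one, mul_inv_eq_iff_eq_mul]
    exact comm_of_el hV x hx y hy
  · intro x hx
    rw [mem_bot]; exact sq_of_el hV x hx

theorem mem_of_pow {K : Subgroup X} {x : X} (hx : Odd (orderOf x)) {k : ℕ} (h : x ^ (2 ^ k) ∈ K) : x ∈ K := by
  have h1 : Nat.Coprime (2 ^ k) (orderOf x) := Nat.Coprime.pow_left _ (Nat.coprime_two_left.mpr hx)
  obtain ⟨m, hm⟩ := exists_pow_eq_self_of_coprime h1
  rw [← hm]; exact pow_mem h m

theorem mem_of_sq {K : Subgroup X} {x : X} (hx : Odd (orderOf x)) (h : x * x ∈ K) : x ∈ K :=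
  mem_of_pow (k := 1) hx (by rw [pow_one, pow_two]; exact h)

theorem fix_sup {V W A B : Subgroup X} (hA : A ≤ normalizer (W : Set X)) (hB : B ≤ normalizer (W : Set X)) :
    fix V W A ⊓ fix V W B ≤ fix V W (A ⊔ B) := by
  intro v hv
  obtain ⟨h1, h2⟩ := mem_inf.mp hv
  refine ⟨h1.1, h1.2.1, ?_⟩
  let S : Subgroup X :=
    { carrier := {g | g ∈ normalizer (W : Set X) ∧ g * v * g⁻¹ * v⁻¹ ∈ W}
      one_mem' := ⟨one_mem _, by simp [one_mem]⟩
      mul_mem' := by
        rintro g k ⟨hg1, hg2⟩ ⟨hk1, hk2⟩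
        refine ⟨mul_mem hg1 hk1, ?_⟩
        have h3 := mul_mem ((mem_normalizer_iff.mp hg1 _).mp hk2) hg2
        have h4 : g * k * v * (g * k)⁻¹ * v⁻¹ = g * (k * v * k⁻¹ * v⁻¹) * g⁻¹ * (g * v * g⁻¹ * v⁻¹) := by group
        rw [h4]; exact h3
      inv_mem' := by
        rintro g ⟨hg1, hg2⟩
        refine ⟨inv_mem hg1, ?_⟩
        have h3 := (mem_normalizer_iff.mp (inv_mem hg1) _).mp (inv_mem hg2)
        have h4 : g⁻¹ * v * g⁻¹⁻¹ * v⁻¹ = g⁻¹ * (g * v * g⁻¹ * v⁻¹)⁻¹ * g⁻¹⁻¹ := by group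
        rw [h4]; exact h3 }
  have h3 : A ⊔ B ≤ S := sup_le (fun a ha => ⟨hA ha, h1.2.2 a ha⟩) (fun b hb => ⟨hB hb, h2.2.2 b hb⟩)
  exact fun a ha => (h3 ha).2

theorem fix_ne [Finite X] {L V W D : Subgroup X} (h : Sec L V W) (hDL : D ≤ L) (hD : IsPGroup 2 D) (hVW : V ≠ W) :
    fix V W D ≠ W := by
  have h2f : Fact (Nat.Prime 2) := ⟨Nat.prime_two⟩
  obtain ⟨Y, _, _, i, j, hij, hi, hj⟩ := exists_model h
  have hVp : IsPGroup 2 i.range := by
    rintro ⟨_, v, rfl⟩
    refine ⟨1, Subtype.ext ?_⟩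
    show (i v) ^ (2 ^ 1) = 1
    rw [pow_one, ← map_pow, hi, pow_two]
    exact h.sq v v.2
  have hV1 : i.range ≠ ⊥ := by
    intro hb
    apply hVW
    apply le_antisymm _ h.le
    intro v hv
    have : i ⟨v, hv⟩ ∈ i.range := ⟨_, rfl⟩
    rw [hb, mem_bot, hi] at this
    exact this
  have hD' : IsPGroup 2 ((D.subgroupOf L).map j) := (hD.comap_of_injective _ L.subtype_injective).map _
  have h1 := H65.PBasic.inf_centralizer_ne_bot ((D.subgroupOf L).map j) i.range hD' hVp (by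
    rw [le_normalizer_iff]
    rintro _ ⟨l, _, rfl⟩ _ ⟨v, rfl⟩
    rw [hij]; exact ⟨_, rfl⟩) hV1
  obtain ⟨⟨y, hy⟩, hy1⟩ := Subgroup.ne_bot_iff_exists_ne_one.mp h1
  obtain ⟨⟨v, rfl⟩, hyc⟩ := mem_inf.mp hy
  have hv1 : (v : X) ∉ W := by
    intro hv
    exact hy1 (Subtype.ext ((hi v).mpr hv))
  intro heq
  apply hv1
  rw [← heq]
  refine ⟨v.2, h.VW v.2, fun a ha => ?_⟩
  have h2 := mem_centralizer_iff.mp hyc (j ⟨a, hDL ha⟩) ⟨⟨a, hDL ha⟩, ha, rfl⟩
  have h3 : i (psi h ⟨a, hDL ha⟩ v * v⁻¹) = 1 := by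
    rw [map_mul, map_inv, ← hij, h2, mul_inv_cancel_right, mul_inv_cancel]
  exact (hi _).mp h3

section Main

variable [Finite X] {V M : Subgroup X} (hV : IsElementaryAbelian 2 V) (hMV : M ≤ normalizer (V : Set X))
  (hfaith : M ⊓ centralizer (V : Set X) = ⊥) (hsol : Group.IsSolvable M) (hSF : SF M ⊥)
  (hR : ∀ P : Subgroup X, P ≤ opc 2 M → IsElementaryAbelian 2 P →
    Nat.card P ^ 2 ≤ (V ⊓ centralizer (P : Set X)).relIndex V)

include hV hMV hfaith hsol hSF hR

theorem core {L A W : Subgroup X} (hLM : L ≤ M) (hAL : A ≤ L) (hA : IsElementaryAbelian 2 A)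
    (hT : ∀ N : Subgroup X, IsPGroup 2 N → N ≤ L → L ≤ normalizer (N : Set X) → A ⊓ N ≤ opc 2 M)
    (ht : V ⊓ centralizer ((A ⊓ opc 2 M : Subgroup X) : Set X) = V ⊓ centralizer (A : Set X))
    (hWV : W ≤ V) (hLW : L ≤ normalizer (W : Set X))
    (hirr : ∀ U : Subgroup X, W ≤ U → U ≤ V → L ≤ normalizer (U : Set X) → U = W ∨ U = V)
    (hk1 : 1 < (A ⊓ opc 2 M).relIndex (A ⊓ Rd L W ⊥))
    (hk2 : W.relIndex V ≤ ((A ⊓ opc 2 M).relIndex (A ⊓ Rd L W ⊥)) ^ 4) : False := by
  have h2f : Fact (Nat.Prime 2) := ⟨Nat.prime_two⟩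
  set R := opc 2 M with hRdef
  set κ := (A ⊓ R).relIndex (A ⊓ Rd L W ⊥) with hκ
  have hMR : M ≤ normalizer (R : Set X) := le_normalizer_opc
  have hWel := el_mono hV hWV
  have hsecV : Sec L V ⊥ := sec_bot hV (hLM.trans hMV)
  have hsecW : Sec L W ⊥ := sec_bot hWel hLW
  have hsecVW : Sec L V W := hsecV.upper bot_le hWV hLW
  have hsolL : Group.IsSolvable L := by
    have := hsol
    exact Group.isSolvable_of_isSolvable_injective (Subgroup.inclusion_injective hLM)
  let D : Subgroup X := R ⊓ L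
  have hDL : D ≤ L := inf_le_right
  have hDp : IsPGroup 2 D := isPGroup_opc.to_le inf_le_left
  have hLD : L ≤ normalizer (D : Set X) := H65.Semi.le_normalizer_inf (hLM.trans hMR) le_normalizer
  -- D acts trivially on V/W
  have hVW : V ≠ W := by
    intro h
    have h0 : ∀ z : X, z ∈ centralizer (W : Set X) → z ∈ centralizer (V : Set X) := by
      intro z hz; rwa [h]
    have h1 : A ⊓ Rd L W ⊥ ≤ A ⊓ R := by
      refine le_inf inf_le_left (hT _ ?_ (rd_le hsecW) (le_normalizer_rd hsecW))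
      intro x
      obtain ⟨k, hk⟩ := rd_mod2 hsecW x x.2
      refine ⟨k, Subtype.ext ?_⟩
      rw [act_bot] at hk
      have h2 : (x : X) ^ (2 ^ k) ∈ M ⊓ centralizer (V : Set X) :=
        mem_inf.mpr ⟨pow_mem (hLM (rd_le hsecW x.2)) _, h0 _ hk⟩
      rw [hfaith, mem_bot] at h2
      exact h2
    have h2 : κ = 1 := relIndex_eq_one.mpr h1
    omega
  have hDact : ∀ d ∈ D, ∀ v ∈ V, d * v * d⁻¹ * v⁻¹ ∈ W := by
    have hF1 : W ≤ fix V W D := le_fix hsecVW (hDL.trans hLW)
    have hF2 : L ≤ normalizer (fix V W D : Set X) := by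
      rw [le_normalizer_iff]
      rintro l hl v ⟨hv1, hv2, hv3⟩
      have hlV := hsecV.nV hl
      have hlW := hLW hl
      refine ⟨(mem_normalizer_iff.mp hlV v).mp hv1, mul_mem (mul_mem hlW hv2) (inv_mem hlW), fun a ha => ?_⟩
      have h1 := hv3 _ ((mem_normalizer_iff.mp (inv_mem (hLD hl)) a).mp ha)
      have h2 := (mem_normalizer_iff.mp hlW _).mp h1
      have h3 : a * (l * v * l⁻¹) * a⁻¹ * (l * v * l⁻¹)⁻¹ =
          l * (l⁻¹ * a * l⁻¹⁻¹ * v * (l⁻¹ * a * l⁻¹⁻¹)⁻¹ * v⁻¹) * l⁻¹ := by group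
      rw [h3]; exact h2
    rcases hirr _ hF1 (fix_le _ _ _) hF2 with h | h
    · exact absurd h (fix_ne hsecVW hDL hDp hVW)
    · intro d hd v hv
      rw [← h] at hv
      exact hv.2.2 d hd
  let E : Subgroup X := D ⊓ centralizer (W : Set X)
  have hLC : L ≤ normalizer ((centralizer (W : Set X) : Subgroup X) : Set X) := by
    have := le_normalizer_act hsecW
    rwa [act_bot] at this
  have hLE : L ≤ normalizer (E : Set X) := H65.Semi.le_normalizer_inf hLD hLC
  have hEL : E ≤ L := inf_le_left.trans hDL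
  have hER : E ≤ R := inf_le_left.trans inf_le_left
  -- elements of M centralizing V are trivial
  have hone : ∀ m ∈ M, (∀ v ∈ V, m * v = v * m) → m = 1 := by
    intro m hm h
    have : m ∈ M ⊓ centralizer (V : Set X) :=
      mem_inf.mpr ⟨hm, mem_centralizer_iff.mpr fun v hv => (h v hv).symm⟩
    rw [hfaith, mem_bot] at this
    exact this
  have hEW : ∀ e ∈ E, ∀ w ∈ W, e * w = w * e := fun e he w hw =>
    (mem_centralizer_iff.mp (mem_inf.mp he).2 w hw).symm
  have hact : ∀ e ∈ E, ∀ v ∈ V, e * v * e⁻¹ = (e * v * e⁻¹ * v⁻¹) * v := fun e _ v _ => by group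
  have hEel : IsElementaryAbelian 2 E := by
    apply el_of_comm
    · intro e he f hf
      have h1 : e * f * (f * e)⁻¹ = 1 := by
        apply hone _ (mul_mem (mul_mem (hLM (hEL he)) (hLM (hEL hf))) (inv_mem (mul_mem (hLM (hEL hf)) (hLM (hEL he)))))
        have key : ∀ v ∈ V, e * f * v * (e * f)⁻¹ = f * e * v * (f * e)⁻¹ := by
          intro v hv
          have hwe := hDact e (mem_inf.mp he).1 v hv
          have hwf := hDact f (mem_inf.mp hf).1 v hv
          set we := e * v * e⁻¹ * v⁻¹ with hwe'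
          set wf := f * v * f⁻¹ * v⁻¹ with hwf'
          have e1 : f * v * f⁻¹ = wf * v := by rw [hwf']; group
          have e2 : e * v * e⁻¹ = we * v := by rw [hwe']; group
          calc e * f * v * (e * f)⁻¹ = e * (f * v * f⁻¹) * e⁻¹ := by group
            _ = e * wf * v * e⁻¹ := by rw [e1]; group
            _ = wf * (e * v * e⁻¹) := by rw [hEW e he wf hwf]; group
            _ = (wf * we) * v := by rw [e2]; group
            _ = (we * wf) * v := by rw [comm_of_el hWel wf hwf we hwe]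
            _ = we * (f * v * f⁻¹) := by rw [e1]; group
            _ = (we * f) * v * f⁻¹ := by group
            _ = (f * we) * v * f⁻¹ := by rw [hEW f hf we hwe]
            _ = f * (e * v * e⁻¹) * f⁻¹ := by rw [e2]; group
            _ = f * e * v * (f * e)⁻¹ := by group
        intro v hv
        have hv' : (f * e)⁻¹ * v * (f * e) ∈ V := by
          have h3 := hMV (inv_mem (mul_mem (hLM (hEL hf)) (hLM (hEL he))))
          have := (mem_normalizer_iff.mp h3 v).mp hv
          rwa [inv_inv] at this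
        have h4 := key _ hv'
        have h5 : f * e * ((f * e)⁻¹ * v * (f * e)) * (f * e)⁻¹ = v := by group
        rw [h5] at h4
        calc e * f * (f * e)⁻¹ * v = (e * f * ((f * e)⁻¹ * v * (f * e)) * (e * f)⁻¹) * (e * f * (f * e)⁻¹) := by
              group
          _ = v * (e * f * (f * e)⁻¹) := by rw [h4]
      exact mul_inv_eq_one.mp h1
    · intro e he
      apply hone _ (mul_mem (hLM (hEL he)) (hLM (hEL he)))
      intro v hv
      have hwe := hDact e (mem_inf.mp he).1 v hv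
      set we := e * v * e⁻¹ * v⁻¹ with hwe'
      have e2 : e * v * e⁻¹ = we * v := by rw [hwe']; group
      have h3 : e * e * v * (e * e)⁻¹ = v := by
        calc e * e * v * (e * e)⁻¹ = e * (e * v * e⁻¹) * e⁻¹ := by group
          _ = (e * we) * v * e⁻¹ := by rw [e2]; group
          _ = we * (e * v * e⁻¹) := by rw [hEW e he we hwe]; group
          _ = (we * we) * v := by rw [e2]; group
          _ = v := by rw [sq_of_el hWel we hwe, one_mul]
      calc e * e * v = (e * e * v * (e * e)⁻¹) * (e * e) := by group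
        _ = v * (e * e) := by rw [h3]
  have hEcard : Nat.card E ≤ κ ^ 2 := by
    have h1 := hR E hER hEel
    have h2 : (V ⊓ centralizer (E : Set X)).relIndex V ≤ W.relIndex V := by
      apply relIndex_anti
      refine le_inf hWV ?_
      rw [le_centralizer_iff]; exact inf_le_right
    have h3 : Nat.card E ^ 2 ≤ (κ ^ 2) ^ 2 := by
      calc Nat.card E ^ 2 ≤ κ ^ 4 := h1.trans (h2.trans hk2)
        _ = (κ ^ 2) ^ 2 := by ring
    exact (Nat.pow_le_pow_iff_left (by norm_num)).mp h3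
  have hsecE : Sec L E ⊥ := sec_bot hEel hLE
  have hAc := comm_of_el hA
  set A' := A ⊓ Rd L W ⊥ with hA'
  have hA'L : A' ≤ L := inf_le_left.trans hAL
  have hgen := gen_rd hsolL hsecE (hSF.mono hLM bot_le) hA'L
    (fun a ha => by rw [sq_of_el hA a (mem_inf.mp ha).1]; exact one_mem _)
    (fun a ha b hb => by rw [hAc a (mem_inf.mp ha).1 b (mem_inf.mp hb).1]; simp [one_mem])
  rw [fix_bot] at hgen
  by_cases hcase : A' ⊓ Rd L E ⊥ ≤ R
  · have h1 : κ ≤ (A' ⊓ Rd L E ⊥).relIndex A' :=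
      relIndex_anti (le_inf (inf_le_left.trans inf_le_left) hcase)
    have h2 : κ ^ 2 ≤ (E ⊓ centralizer (A' : Set X)).relIndex E :=
      le_trans (Nat.pow_le_pow_left h1 2) hgen
    by_cases hE : E = ⊥
    · rw [hE, relIndex_bot_right] at h2
      nlinarith
    · have h3 := H65.PBasic.inf_centralizer_ne_bot A' E (isPGroup_of_el (el_mono hA inf_le_left))
        (isPGroup_of_el hEel) (hA'L.trans hLE) hE
      have h4 := Subgroup.relIndex_mul_relIndex ⊥ (E ⊓ centralizer (A' : Set X)) E bot_le inf_le_left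
      rw [relIndex_bot_left, relIndex_bot_left] at h4
      have h5 : 2 ≤ Nat.card (E ⊓ centralizer (A' : Set X) : Subgroup X) := by
        have h6 : Nat.card (E ⊓ centralizer (A' : Set X) : Subgroup X) ≠ 1 := by
          rw [Ne, Subgroup.card_eq_one]; exact h3
        have h7 : 0 < Nat.card (E ⊓ centralizer (A' : Set X) : Subgroup X) := Nat.card_pos
        omega
      have h8 : 0 < (E ⊓ centralizer (A' : Set X)).relIndex E := relIndex_pos' _ _
      nlinarith
  · obtain ⟨a, ha, haR⟩ := SetLike.not_le_iff_exists.mp hcase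
    obtain ⟨haA', haE⟩ := mem_inf.mp ha
    obtain ⟨haA, haW⟩ := mem_inf.mp haA'
    have haL : a ∈ L := hAL haA
    have haa : a * a = 1 := sq_of_el hA a haA
    -- Baer-Suzuki in L
    obtain ⟨f, hfL, hfo, hfa, hf1⟩ : ∃ f ∈ L, Odd (orderOf f) ∧ a * f * a⁻¹ = f⁻¹ ∧ f ≠ 1 := by
      by_contra hcon
      push Not at hcon
      have h1 := H55.BaerSuzuki.exists_normal_of_involution (⟨a, haL⟩ : L) (Subtype.ext haa) (by
        intro x hx1 hx2
        apply Subtype.ext
        apply hcon x x.2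
        · rw [Subgroup.orderOf_coe]; exact hx1
        · exact congrArg Subtype.val hx2)
      obtain ⟨N, hNn, hNp, hN⟩ := h1
      apply haR
      apply hT (N.map L.subtype) (hNp.map _) (Subgroup.map_subtype_le _)
      · rw [le_normalizer_iff]
        rintro l hl _ ⟨x, hx, rfl⟩
        exact ⟨⟨l, hl⟩ * x * ⟨l, hl⟩⁻¹, hNn.conj_mem x hx ⟨l, hl⟩, rfl⟩
      · exact mem_inf.mpr ⟨haA, ⟨⟨a, haL⟩, hN, rfl⟩⟩
    have hfmem : ∀ K : Subgroup X, L ≤ normalizer (K : Set X) → a ∈ K → f ∈ K := by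
      intro K hK ha
      apply mem_of_sq hfo
      have h1 : f * a⁻¹ * f⁻¹ ∈ K := (mem_normalizer_iff.mp (hK hfL) _).mp (inv_mem ha)
      have h2 := mul_mem ha h1
      have h3 : a * (f * a⁻¹ * f⁻¹) = f⁻¹ * f⁻¹ := by
        calc a * (f * a⁻¹ * f⁻¹) = (a * f * a⁻¹) * f⁻¹ := by group
          _ = f⁻¹ * f⁻¹ := by rw [hfa]
      rw [h3, ← mul_inv_rev] at h2
      exact (inv_mem_iff).mp h2
    have hfW : f ∈ centralizer (W : Set X) := by
      have h1 := hfmem _ (le_normalizer_rd hsecW) haW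
      obtain ⟨k, hk⟩ := rd_mod2 hsecW f h1
      rw [act_bot] at hk
      exact mem_of_pow hfo hk
    have hfE : f ∈ centralizer (E : Set X) := by
      have h1 := hfmem _ (le_normalizer_rd hsecE) haE
      obtain ⟨k, hk⟩ := rd_mod2 hsecE f h1
      rw [act_bot] at hk
      exact mem_of_pow hfo hk
    have hfD : ∀ d ∈ D, f * d = d * f := by
      intro d hd
      have h1 : f * d * f⁻¹ * d⁻¹ ∈ E := by
        refine mem_inf.mpr ⟨mul_mem ((mem_normalizer_iff.mp (hLD hfL) d).mp hd) (inv_mem hd), ?_⟩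
        have h3 : d * f⁻¹ * d⁻¹ ∈ centralizer (W : Set X) :=
          (mem_normalizer_iff.mp (hLC (hDL hd)) _).mp (inv_mem hfW)
        have h4 := mul_mem hfW h3
        have h5 : f * d * f⁻¹ * d⁻¹ = f * (d * f⁻¹ * d⁻¹) := by group
        rw [h5]; exact h4
      set e := f * d * f⁻¹ * d⁻¹ with he
      have e1 : f * d * f⁻¹ = e * d := by rw [he]; group
      have e2 : f * e = e * f := (mem_centralizer_iff.mp hfE e h1).symm
      have h6 : (f * f) * d * (f * f)⁻¹ = d := by
        calc (f * f) * d * (f * f)⁻¹ = f * (f * d * f⁻¹) * f⁻¹ := by group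
          _ = (f * e) * d * f⁻¹ := by rw [e1]; group
          _ = e * (f * d * f⁻¹) := by rw [e2]; group
          _ = (e * e) * d := by rw [e1]; group
          _ = d := by rw [sq_of_el hEel e h1, one_mul]
      have h7 : f * f ∈ centralizer {d} := by
        rw [mem_centralizer_singleton_iff]
        exact mul_inv_eq_iff_eq_mul.mp h6
      exact mem_centralizer_singleton_iff.mp (mem_of_sq hfo h7)
    have hARD : A ⊓ R ≤ D := le_inf inf_le_right (inf_le_left.trans hAL)
    have hfV : f ∈ normalizer (V : Set X) := hsecV.nV hfL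
    -- f centralizes V ∩ C(A ∩ R)
    have hU : ∀ g : X, g ∈ normalizer (V : Set X) → (∀ c ∈ A ⊓ R, g * c = c * g) →
        ∀ u ∈ V ⊓ centralizer ((A ⊓ R : Subgroup X) : Set X),
          g * u * g⁻¹ ∈ V ⊓ centralizer ((A ⊓ R : Subgroup X) : Set X) := by
      intro g hg hgc u hu
      refine mem_inf.mpr ⟨(mem_normalizer_iff.mp hg u).mp (mem_inf.mp hu).1, ?_⟩
      have h1 : g ∈ centralizer ((A ⊓ R : Subgroup X) : Set X) :=
        mem_centralizer_iff.mpr fun c hc => (hgc c hc).symm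
      exact mul_mem (mul_mem h1 (mem_inf.mp hu).2) (inv_mem h1)
    have hfc : ∀ c ∈ A ⊓ R, f * c = c * f := fun c hc => hfD c (hARD hc)
    have hfc' : ∀ c ∈ A ⊓ R, f⁻¹ * c = c * f⁻¹ := by
      intro c hc
      have h1 := hfc c hc
      calc f⁻¹ * c = f⁻¹ * (c * f) * f⁻¹ := by group
        _ = f⁻¹ * (f * c) * f⁻¹ := by rw [h1]
        _ = c * f⁻¹ := by group
    have hau : ∀ u ∈ V ⊓ centralizer ((A ⊓ R : Subgroup X) : Set X), a * u = u * a := by
      intro u hu
      rw [ht] at hu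
      exact mem_centralizer_iff.mp (mem_inf.mp hu).2 a haA
    have hfu : ∀ u ∈ V ⊓ centralizer ((A ⊓ R : Subgroup X) : Set X), f * u = u * f := by
      intro u hu
      have h1 : f⁻¹ * u * f⁻¹⁻¹ ∈ V ⊓ centralizer ((A ⊓ R : Subgroup X) : Set X) :=
        hU f⁻¹ (inv_mem hfV) hfc' u hu
      rw [inv_inv] at h1
      have h2 := hau _ h1
      have h3 := hau u hu
      have e1 : f * f = f * a * f⁻¹ * a⁻¹ := by
        have : a * f⁻¹ * a⁻¹ = f := by
          have h4 := congrArg (·⁻¹) hfa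
          simpa [mul_assoc] using h4
        calc f * f = f * (a * f⁻¹ * a⁻¹) := by rw [this]
          _ = _ := by group
      have h6 : (f * f) * u * (f * f)⁻¹ = u := by
        rw [e1]
        calc f * a * f⁻¹ * a⁻¹ * u * (f * a * f⁻¹ * a⁻¹)⁻¹
            = f * a * f⁻¹ * (a⁻¹ * (u * a)) * f * a⁻¹ * f⁻¹ := by group
          _ = f * a * f⁻¹ * (a⁻¹ * (a * u)) * f * a⁻¹ * f⁻¹ := by rw [h3]
          _ = f * (a * (f⁻¹ * u * f)) * a⁻¹ * f⁻¹ := by group
          _ = f * ((f⁻¹ * u * f) * a) * a⁻¹ * f⁻¹ := by rw [h2]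
          _ = u := by group
      have h7 : f * f ∈ centralizer {u} := by
        rw [mem_centralizer_singleton_iff]
        exact mul_inv_eq_iff_eq_mul.mp h6
      exact mem_centralizer_singleton_iff.mp (mem_of_sq hfo h7)
    -- P × Q
    have h1 : ⁅V, zpowers f⁆ = ⊥ := by
      apply H26.PxQ.commutator_eq_bot_pxq (p := 2) (P := A ⊓ R) (isPGroup_of_el (el_mono hA inf_le_left)) ?_
        (isPGroup_of_el hV) ?_ ((inf_le_left.trans hAL).trans hsecV.nV) (zpowers_le.mpr hfV) ?_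
      · intro z hz
        obtain ⟨i, rfl⟩ := mem_zpowers_iff.mp hz
        have h3 : orderOf (f ^ i) ∣ orderOf f := by
          apply orderOf_dvd_of_pow_eq_one
          rw [← zpow_natCast, ← zpow_mul, mul_comm, zpow_mul, zpow_natCast, pow_orderOf_eq_one, one_zpow]
        exact Nat.Coprime.coprime_dvd_left h3 (Nat.coprime_two_right.mpr hfo)
      · rw [Subgroup.commutator_comm, Subgroup.commutator_eq_bot_iff_le_centralizer, zpowers_le,
          mem_centralizer_iff]
        exact fun c hc => (hfc c hc).symm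
      · rw [Subgroup.commutator_comm, Subgroup.commutator_eq_bot_iff_le_centralizer, zpowers_le,
          mem_centralizer_iff]
        exact fun u hu => (hfu u hu).symm
    rw [Subgroup.commutator_comm, Subgroup.commutator_eq_bot_iff_le_centralizer, zpowers_le] at h1
    apply hf1
    have h2 : f ∈ M ⊓ centralizer (V : Set X) := mem_inf.mpr ⟨hLM hfL, h1⟩
    rw [hfaith, mem_bot] at h2
    exact h2

end Main

end H65.TheoremB
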