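import Cfsg.Agent.Lib.H65.TheoremB

set_option autoImplicit false

/-! Quadratic offenders on modules on which `O₂` acts with the strong inequality, main theorem. -/

namespace H65.TheoremB2

open Subgroup Cfsg H65.Sect H65.Irr H65.SectGen H65.MaxLocal H65.TheoremB

universe u

variable {X : Type u} [Group X]

theorem le_normalizer_fix {L V W D : Subgroup X} (h : Sec L V W) (hLD : L ≤ normalizer (D : Set X)) :
    L ≤ normalizer (fix V W D : Set X) := by
  rw [le_normalizer_iff]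
  rintro l hl v ⟨hv1, hv2, hv3⟩
  have hlV := h.nV hl
  have hlW := h.nW hl
  refine ⟨(mem_normalizer_iff.mp hlV v).mp hv1, mul_mem (mul_mem hlW hv2) (inv_mem hlW), fun a ha => ?_⟩
  have h1 := hv3 _ ((mem_normalizer_iff.mp (inv_mem (hLD hl)) a).mp ha)
  have h2 := (mem_normalizer_iff.mp hlW _).mp h1
  have h3 : a * (l * v * l⁻¹) * a⁻¹ * (l * v * l⁻¹)⁻¹ =
      l * (l⁻¹ * a * l⁻¹⁻¹ * v * (l⁻¹ * a * l⁻¹⁻¹)⁻¹ * v⁻¹) * l⁻¹ := by group
  rw [h3]; exact h2

section Main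

variable [Finite X] {V M : Subgroup X} (hV : IsElementaryAbelian 2 V) (hMV : M ≤ normalizer (V : Set X))
  (hfaith : M ⊓ centralizer (V : Set X) = ⊥) (hsol : Group.IsSolvable M) (hSF : SF M ⊥)

include hV hMV hfaith

omit [Finite X] in
theorem isPGroup_of_mod2 {N : Subgroup X} (hN : N ≤ M) (h : Mod2 N (act V ⊥)) : IsPGroup 2 N := by
  intro x
  obtain ⟨k, hk⟩ := h x x.2
  refine ⟨k, Subtype.ext ?_⟩
  rw [act_bot] at hk
  have h2 : (x : X) ^ (2 ^ k) ∈ M ⊓ centralizer (V : Set X) := mem_inf.mpr ⟨pow_mem (hN x.2) _, hk⟩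
  rw [hfaith, mem_bot] at h2
  exact h2

include hsol hSF

theorem tight (hR : ∀ P : Subgroup X, P ≤ opc 2 M → IsElementaryAbelian 2 P →
    Nat.card P ^ 2 ≤ (V ⊓ centralizer (P : Set X)).relIndex V) {A : Subgroup X} (hAM : A ≤ M)
    (hA : IsElementaryAbelian 2 A) (hle : (V ⊓ centralizer (A : Set X)).relIndex V ≤ Nat.card A) :
    ((A ⊓ opc 2 M).relIndex A) ^ 2 = (V ⊓ centralizer (A : Set X)).relIndex V ∧
      V ⊓ centralizer ((A ⊓ opc 2 M : Subgroup X) : Set X) = V ⊓ centralizer (A : Set X) := by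
  set R := opc 2 M with hRdef
  have hsec : Sec M V ⊥ := sec_bot hV hMV
  have hAc := comm_of_el hA
  have hgen := gen_rd hsol hsec (hSF.mono le_rfl bot_le) hAM
    (fun a ha => by rw [sq_of_el hA a ha]; exact one_mem _)
    (fun a ha b hb => by rw [hAc a ha b hb]; simp [one_mem])
  rw [fix_bot] at hgen
  have h1 : Rd M V ⊥ ≤ R := le_opc (rd_le hsec) (le_normalizer_rd hsec)
    (isPGroup_of_mod2 hV hMV hfaith (rd_le hsec) (rd_mod2 hsec))
  have h2 : (A ⊓ R).relIndex A ≤ (A ⊓ Rd M V ⊥).relIndex A := relIndex_anti (inf_le_inf_left _ h1)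
  have h3 : ((A ⊓ R).relIndex A) ^ 2 ≤ (V ⊓ centralizer (A : Set X)).relIndex V :=
    (Nat.pow_le_pow_left h2 2).trans hgen
  have h4 := Subgroup.relIndex_mul_relIndex ⊥ (A ⊓ R) A bot_le inf_le_left
  rw [relIndex_bot_left, relIndex_bot_left] at h4
  have h5 := hR (A ⊓ R) inf_le_right (el_mono hA inf_le_left)
  have h6 : V ⊓ centralizer (A : Set X) ≤ V ⊓ centralizer ((A ⊓ R : Subgroup X) : Set X) :=
    inf_le_inf_left _ (centralizer_le (show ((A ⊓ R : Subgroup X) : Set X) ⊆ A from fun x hx => hx.1))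
  have h7 := relIndex_anti (L := V) h6
  have h8 := Subgroup.relIndex_mul_relIndex _ _ V h6 inf_le_left
  have hv0 := relIndex_pos' (V ⊓ centralizer (A : Set X)) V
  have hu0 := relIndex_pos' (V ⊓ centralizer ((A ⊓ R : Subgroup X) : Set X)) V
  set v := (V ⊓ centralizer (A : Set X)).relIndex V with hv
  set u := (V ⊓ centralizer ((A ⊓ R : Subgroup X) : Set X)).relIndex V with hu
  set t := (A ⊓ R).relIndex A with ht
  set s := Nat.card (A ⊓ R : Subgroup X) with hs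
  rw [← h4] at hle
  have h9 : v * v ≤ s ^ 2 * t ^ 2 := by
    calc v * v ≤ (s * t) * (s * t) := Nat.mul_le_mul hle hle
      _ = s ^ 2 * t ^ 2 := by ring
  have h10 : v ≤ s ^ 2 := by
    have : v * v ≤ s ^ 2 * v := h9.trans (Nat.mul_le_mul_left _ h3)
    exact Nat.le_of_mul_le_mul_right this hv0
  have h11 : v ≤ t ^ 2 := by
    have : v * v ≤ v * t ^ 2 := h9.trans (Nat.mul_le_mul_right _ (h5.trans h7))
    exact Nat.le_of_mul_le_mul_left this hv0
  refine ⟨le_antisymm h3 h11, ?_⟩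
  have h12 : u = v := le_antisymm h7 (h10.trans h5)
  rw [h12] at h8
  have h13 : (V ⊓ centralizer (A : Set X)).relIndex (V ⊓ centralizer ((A ⊓ R : Subgroup X) : Set X)) = 1 := by
    have : (V ⊓ centralizer (A : Set X)).relIndex (V ⊓ centralizer ((A ⊓ R : Subgroup X) : Set X)) * v = 1 * v := by
      rw [h8, one_mul]
    exact Nat.eq_of_mul_eq_mul_right hv0 this
  exact le_antisymm (relIndex_eq_one.mp h13) h6

theorem eqs {L A W : Subgroup X} (hLM : L ≤ M) (hAL : A ≤ L) (hA : IsElementaryAbelian 2 A)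
    (hT : ∀ N : Subgroup X, IsPGroup 2 N → N ≤ L → L ≤ normalizer (N : Set X) → A ⊓ N ≤ opc 2 M)
    (ht : ((A ⊓ opc 2 M).relIndex A) ^ 2 = (V ⊓ centralizer (A : Set X)).relIndex V)
    (hWV : W ≤ V) (hLW : L ≤ normalizer (W : Set X)) :
    ((A ⊓ opc 2 M).relIndex (A ⊓ Rd L W ⊥)) ^ 2 = ((V ⊓ centralizer (A : Set X)) ⊔ W).relIndex V ∧
      A ⊓ Rd L W ⊥ ⊓ Rd L V W ≤ A ⊓ opc 2 M := by
  set R := opc 2 M with hRdef
  have hMR : M ≤ normalizer (R : Set X) := le_normalizer_opc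
  have hWel := el_mono hV hWV
  have hsecV : Sec L V ⊥ := sec_bot hV (hLM.trans hMV)
  have hsecW : Sec L W ⊥ := sec_bot hWel hLW
  have hsecVW : Sec L V W := hsecV.upper bot_le hWV hLW
  have hAc := comm_of_el hA
  have hsolL : Group.IsSolvable L := by
    have := hsol
    exact Group.isSolvable_of_isSolvable_injective (Subgroup.inclusion_injective hLM)
  set A' := A ⊓ Rd L W ⊥ with hA'
  have hA'L : A' ≤ L := inf_le_left.trans hAL
  have g1 := gen_rd hsolL hsecW (hSF.mono hLM bot_le) hAL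
    (fun a ha => by rw [sq_of_el hA a ha]; exact one_mem _)
    (fun a ha b hb => by rw [hAc a ha b hb]; simp [one_mem])
  rw [fix_bot] at g1
  have g2 := gen_rd hsolL hsecVW (hSF.mono hLM bot_le) hA'L
    (fun a ha => by rw [sq_of_el hA a (mem_inf.mp ha).1]; exact one_mem _)
    (fun a ha b hb => by rw [hAc a (mem_inf.mp ha).1 b (mem_inf.mp hb).1]; simp [one_mem])
  have hN : A' ⊓ Rd L V W ≤ A ⊓ R := by
    refine le_inf (inf_le_left.trans inf_le_left) ?_
    have h1 : Mod2 (Rd L W ⊥ ⊓ Rd L V W) (act V ⊥) :=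
      mod2_inf hsecV hWV ((rd_mod2 hsecVW).mono inf_le_right le_rfl) ((rd_mod2 hsecW).mono inf_le_left le_rfl)
    have h2 := hT (Rd L W ⊥ ⊓ Rd L V W)
      (isPGroup_of_mod2 hV hMV hfaith ((inf_le_left.trans (rd_le hsecW)).trans hLM) h1)
      (inf_le_left.trans (rd_le hsecW))
      (H65.Semi.le_normalizer_inf (le_normalizer_rd hsecW) (le_normalizer_rd hsecVW))
    rwa [← inf_assoc] at h2
  have hAR : A ⊓ R ≤ A' := by
    refine le_inf inf_le_left ?_
    have h1 : R ⊓ L ≤ Rd L W ⊥ := by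
      apply le_rd inf_le_right (H65.Semi.le_normalizer_inf (hLM.trans hMR) le_normalizer)
      intro x hx
      obtain ⟨k, hk⟩ := (isPGroup_opc (p := 2) (M := M)) ⟨x, (mem_inf.mp hx).1⟩
      have h2 : x ^ (2 ^ k) = 1 := congrArg Subtype.val hk
      exact ⟨k, by rw [h2]; exact one_mem _⟩
    exact (le_inf inf_le_right (inf_le_left.trans hAL)).trans h1
  refine ⟨?_, hN⟩
  have k1 : (A ⊓ R).relIndex A' ≤ (A' ⊓ Rd L V W).relIndex A' := relIndex_anti hN
  have k2 : (fix V W A').relIndex V ≤ ((V ⊓ centralizer (A : Set X)) ⊔ W).relIndex V := by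
    apply relIndex_anti
    refine sup_le ?_ (le_fix hsecVW (hA'L.trans hLW))
    intro v hv
    refine ⟨(mem_inf.mp hv).1, hsecVW.VW (mem_inf.mp hv).1, fun a ha => ?_⟩
    have h3 := mem_centralizer_iff.mp (mem_inf.mp hv).2 a (mem_inf.mp ha).1
    rw [h3, mul_inv_cancel_right, mul_inv_cancel]; exact one_mem _
  have k3 : ((A ⊓ R).relIndex A') ^ 2 ≤ ((V ⊓ centralizer (A : Set X)) ⊔ W).relIndex V :=
    ((Nat.pow_le_pow_left k1 2).trans g2).trans k2
  have k4 := Subgroup.relIndex_mul_relIndex (A ⊓ R) A' A hAR inf_le_left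
  have k5 := Subgroup.relIndex_mul_relIndex (V ⊓ centralizer (A : Set X)) ((V ⊓ centralizer (A : Set X)) ⊔ W) V
    le_sup_left (sup_le inf_le_left hWV)
  rw [relIndex_sup_right' (inf_le_left.trans hsecVW.VW)] at k5
  have k6 : (V ⊓ centralizer (A : Set X)).relIndex W = (W ⊓ centralizer (A : Set X)).relIndex W := by
    rw [← inf_relIndex_right (V ⊓ centralizer (A : Set X)) W]
    congr 1
    rw [inf_right_comm, inf_eq_right.mpr hWV]
  rw [k6] at k5
  set x := (A ⊓ R).relIndex A' with hx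
  set y := A'.relIndex A with hy
  set p := ((V ⊓ centralizer (A : Set X)) ⊔ W).relIndex V with hp
  set q := (W ⊓ centralizer (A : Set X)).relIndex W with hq
  have hy0 : 0 < y := relIndex_pos' _ _
  have hq0 : 0 < q := relIndex_pos' _ _
  have hp0 : 0 < p := relIndex_pos' _ _
  have k7 : x ^ 2 * y ^ 2 = p * q := by
    rw [← mul_pow, k4, ht, ← k5, mul_comm]
  apply le_antisymm k3
  have k8 : p * q ≤ x ^ 2 * q := by
    rw [← k7]; exact Nat.mul_le_mul_left _ g1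
  exact Nat.le_of_mul_le_mul_right k8 hq0

theorem main (hR : ∀ P : Subgroup X, P ≤ opc 2 M → IsElementaryAbelian 2 P →
    Nat.card P ^ 2 ≤ (V ⊓ centralizer (P : Set X)).relIndex V) {A : Subgroup X} (hAM : A ≤ M)
    (hA : IsElementaryAbelian 2 A) (hle : (V ⊓ centralizer (A : Set X)).relIndex V ≤ Nat.card A)
    (hquad : ∀ a ∈ A, ∀ b ∈ A, ∀ v ∈ V, b * (a * v * a⁻¹ * v⁻¹) = (a * v * a⁻¹ * v⁻¹) * b) : A = ⊥ := by
  classical
  by_contra hA1
  obtain ⟨y, hyM, hyT⟩ := H65.RegOrb.exists_T hsol hAM hA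
  set B := A.map (MulAut.conj y).toMonoidHom with hB
  have hyV := hMV hyM
  have hVy : V.map (MulAut.conj y).toMonoidHom = V := H65.Semi.map_conj_eq_of_mem_normalizer hyV
  have hBM : B ≤ M := by
    rintro _ ⟨a, ha, rfl⟩
    exact mul_mem (mul_mem hyM (hAM ha)) (inv_mem hyM)
  have hBel : IsElementaryAbelian 2 B := by
    apply el_of_comm
    · rintro _ ⟨a, ha, rfl⟩ _ ⟨b, hb, rfl⟩
      rw [← map_mul, ← map_mul, comm_of_el hA a ha b hb]
    · rintro _ ⟨a, ha, rfl⟩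
      rw [← map_mul, sq_of_el hA a ha, map_one]
  have hVC : (V ⊓ centralizer (A : Set X)).map (MulAut.conj y).toMonoidHom = V ⊓ centralizer (B : Set X) := by
    ext z
    constructor
    · rintro ⟨w, hw, rfl⟩
      refine mem_inf.mpr ⟨(mem_normalizer_iff.mp hyV w).mp (mem_inf.mp hw).1, ?_⟩
      rw [mem_centralizer_iff]
      rintro _ ⟨a, ha, rfl⟩
      rw [← map_mul, ← map_mul, mem_centralizer_iff.mp (mem_inf.mp hw).2 a ha]
    · intro hz
      refine ⟨y⁻¹ * z * y, mem_inf.mpr ⟨?_, ?_⟩, by simp [mul_assoc]⟩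
      · have := (mem_normalizer_iff.mp (inv_mem hyV) z).mp (mem_inf.mp hz).1
        rwa [inv_inv] at this
      · rw [mem_centralizer_iff]
        intro a ha
        have h1 : (y * a * y⁻¹) * z = z * (y * a * y⁻¹) :=
          mem_centralizer_iff.mp (mem_inf.mp hz).2 _ ⟨a, ha, rfl⟩
        calc a * (y⁻¹ * z * y) = y⁻¹ * ((y * a * y⁻¹) * z) * y := by group
          _ = y⁻¹ * (z * (y * a * y⁻¹)) * y := by rw [h1]
          _ = y⁻¹ * z * y * a := by group
  have hBle : (V ⊓ centralizer (B : Set X)).relIndex V ≤ Nat.card B := by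
    have h1 : (V ⊓ centralizer (B : Set X)).relIndex V = (V ⊓ centralizer (A : Set X)).relIndex V := by
      have e4 := Subgroup.relIndex_map_map_of_injective (V ⊓ centralizer (A : Set X)) V
        (f := (MulAut.conj y).toMonoidHom) (MulAut.conj y).injective
      rw [hVC, hVy] at e4
      exact e4
    have h2 : Nat.card B = Nat.card A :=
      Nat.card_congr (A.equivMapOfInjective _ (MulAut.conj y).injective).toEquiv.symm
    rw [h1, h2]; exact hle
  have hBquad : ∀ a ∈ B, ∀ b ∈ B, ∀ v ∈ V, b * (a * v * a⁻¹ * v⁻¹) = (a * v * a⁻¹ * v⁻¹) * b := by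
    rintro _ ⟨a, ha, rfl⟩ _ ⟨b, hb, rfl⟩ v hv
    rw [← hVy] at hv
    obtain ⟨v, hv, rfl⟩ := hv
    simp only [← map_mul, ← map_inv]
    rw [hquad a ha b hb v hv]
  set L := A ⊔ B with hL
  have hLM : L ≤ M := sup_le hAM hBM
  have hLV := hLM.trans hMV
  have hTA : ∀ N : Subgroup X, IsPGroup 2 N → N ≤ L → L ≤ normalizer (N : Set X) → A ⊓ N ≤ opc 2 M :=
    fun N h1 h2 h3 => (hyT N h1 h2 h3).1
  have hTB : ∀ N : Subgroup X, IsPGroup 2 N → N ≤ L → L ≤ normalizer (N : Set X) → B ⊓ N ≤ opc 2 M :=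
    fun N h1 h2 h3 => (hyT N h1 h2 h3).2
  obtain ⟨htA1, htA2⟩ := tight hV hMV hfaith hsol hSF hR hAM hA hle
  obtain ⟨htB1, htB2⟩ := tight hV hMV hfaith hsol hSF hR hBM hBel hBle
  have hVab : IsMulCommutative V := hV.1
  have hVc := comm_of_el hV
  have hsecV : Sec L V ⊥ := sec_bot hV hLV
  have hWn : ∀ W : Subgroup X, W ≤ V → V ≤ normalizer (W : Set X) := fun W hW =>
    H65.Semi.le_normalizer_of_comm le_rfl hW
  -- commutators
  set C1 := V ⊓ centralizer (A : Set X) with hC1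
  set C2 := V ⊓ centralizer (B : Set X) with hC2
  have hcomm : ∀ (A : Subgroup X), A ≤ M →
      (∀ a ∈ A, ∀ b ∈ A, ∀ v ∈ V, b * (a * v * a⁻¹ * v⁻¹) = (a * v * a⁻¹ * v⁻¹) * b) →
      ⁅A, V⁆ ≤ V ⊓ centralizer (A : Set X) := by
    intro A hAM hq
    rw [Subgroup.commutator_le]
    intro a ha v hv
    refine mem_inf.mpr ⟨mul_mem ((mem_normalizer_iff.mp (hMV (hAM ha)) v).mp hv) (inv_mem hv), ?_⟩
    rw [mem_centralizer_iff]
    intro b hb
    exact hq a ha b hb v hv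
  have hD1 : ⁅A, V⁆ ≤ C1 := hcomm A hAM hquad
  have hD2 : ⁅B, V⁆ ≤ C2 := hcomm B hBM hBquad
  have hC1V : C1 ≤ V := inf_le_left
  have hC2V : C2 ≤ V := inf_le_left
  have hnorm : ∀ (A W : Subgroup X), ⁅A, V⁆ ≤ W → W ≤ V → A ≤ normalizer (W : Set X) := by
    intro A W hAW hWV
    rw [le_normalizer_iff]
    intro a ha w hw
    have h1 := mul_mem (hAW (Subgroup.commutator_mem_commutator ha (hWV hw))) hw
    rw [commutatorElement_def] at h1
    simpa [mul_assoc] using h1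
  -- W0
  set C := C1 ⊓ C2 with hC
  set W0 := ⁅A, V⁆ ⊔ ⁅B, V⁆ ⊔ C with hW0
  have hW0V : W0 ≤ V := sup_le (sup_le (hD1.trans hC1V) (hD2.trans hC2V)) (inf_le_left.trans hC1V)
  have hAW0 : ⁅A, V⁆ ≤ W0 := le_sup_left.trans le_sup_left
  have hBW0 : ⁅B, V⁆ ≤ W0 := le_sup_right.trans le_sup_left
  have hLW0 : L ≤ normalizer (W0 : Set X) := sup_le (hnorm A W0 hAW0 hW0V) (hnorm B W0 hBW0 hW0V)
  have hLact : L ≤ act V W0 := by
    refine sup_le ?_ ?_
    · intro a ha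
      exact ⟨hMV (hAM ha), hLW0 (mem_sup_left ha), fun v hv => hAW0 (Subgroup.commutator_mem_commutator ha hv)⟩
    · intro a ha
      exact ⟨hMV (hBM ha), hLW0 (mem_sup_right ha), fun v hv => hBW0 (Subgroup.commutator_mem_commutator ha hv)⟩
  have hLRd : L ≤ Rd L V W0 := le_rd le_rfl le_normalizer (fun x hx => ⟨0, by simpa using hLact hx⟩)
  have e5 : ∀ (A : Subgroup X), A ≤ L → IsElementaryAbelian 2 A →
      (∀ N : Subgroup X, IsPGroup 2 N → N ≤ L → L ≤ normalizer (N : Set X) → A ⊓ N ≤ opc 2 M) →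
      ((A ⊓ opc 2 M).relIndex A) ^ 2 = (V ⊓ centralizer (A : Set X)).relIndex V →
      V ≤ (V ⊓ centralizer (A : Set X)) ⊔ W0 := by
    intro A hAL hA hT ht
    obtain ⟨h1, h2⟩ := eqs hV hMV hfaith hsol hSF hLM hAL hA hT ht hW0V hLW0
    have h3 : A ⊓ Rd L W0 ⊥ ≤ A ⊓ opc 2 M := by
      rwa [inf_eq_left.mpr (inf_le_left.trans (hAL.trans hLRd))] at h2
    rw [relIndex_eq_one.mpr h3, one_pow, eq_comm, relIndex_eq_one] at h1
    exact h1
  have hVA : V ≤ C1 ⊔ ⁅B, V⁆ := by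
    refine (e5 A le_sup_left hA hTA htA1).trans (sup_le le_sup_left (sup_le (sup_le ?_ le_sup_right) ?_))
    · exact hD1.trans le_sup_left
    · exact inf_le_left.trans le_sup_left
  have hVB : V ≤ C2 ⊔ ⁅A, V⁆ := by
    refine (e5 B le_sup_right hBel hTB htB1).trans (sup_le le_sup_left (sup_le (sup_le le_sup_right ?_) ?_))
    · exact hD2.trans le_sup_left
    · exact inf_le_right.trans le_sup_left
  -- C1 = D1 ⊔ C
  have hmod : ∀ C1 C2 D1 : Subgroup X, C1 ≤ V → C2 ≤ V → D1 ≤ C1 → V ≤ C2 ⊔ D1 → C1 ≤ D1 ⊔ (C1 ⊓ C2) := by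
    intro C1 C2 D1 h1 h2 h3 h4 x hx
    obtain ⟨c, hc, d, hd, rfl⟩ := (H65.Semi.mem_sup_iff (h2.trans (hWn D1 (h3.trans h1)))).mp (h4 (h1 hx))
    have h5 : c ∈ C1 := by
      have := mul_mem hx (inv_mem (h3 hd))
      rwa [mul_inv_cancel_right] at this
    exact mul_mem (mem_sup_right (mem_inf.mpr ⟨h5, hc⟩)) (mem_sup_left hd)
  have hC1' : C1 ≤ ⁅A, V⁆ ⊔ C := hmod C1 C2 _ hC1V hC2V hD1 hVB
  have hC2' : C2 ≤ ⁅B, V⁆ ⊔ C := by
    have := hmod C2 C1 _ hC2V hC1V hD2 hVA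
    rwa [inf_comm C2 C1] at this
  -- (6a)
  have h6a : ∀ (A C1 : Subgroup X), ⁅A, V⁆ ≤ V ⊓ centralizer (A : Set X) → C1 ≤ ⁅A, V⁆ ⊔ C →
      ∀ W : Subgroup X, C ≤ W → W ≤ V → A ≤ normalizer (W : Set X) → V ≤ C1 ⊔ W → V ≤ W := by
    intro A C1 hD hC1' W hCW hWV hAW hVW
    have h1 : V ≤ ⁅A, V⁆ ⊔ W := hVW.trans (sup_le (hC1'.trans (sup_le_sup_left hCW _)) le_sup_right)
    have h2 : ⁅A, V⁆ ≤ W := by
      rw [Subgroup.commutator_le]
      intro a ha v hv
      obtain ⟨d, hd, w, hw, rfl⟩ := (H65.Semi.mem_sup_iff ((hD.trans inf_le_left).trans (hWn W hWV))).mp (h1 hv)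
      rw [commutatorElement_def]
      have h3 : a * d = d * a := mem_centralizer_iff.mp (mem_inf.mp (hD hd)).2 a ha
      have h4 : a * (d * w) * a⁻¹ * (d * w)⁻¹ = d * (a * w * a⁻¹ * w⁻¹) * d⁻¹ := by
        calc a * (d * w) * a⁻¹ * (d * w)⁻¹ = (a * d) * w * a⁻¹ * (d * w)⁻¹ := by group
          _ = (d * a) * w * a⁻¹ * (d * w)⁻¹ := by rw [h3]
          _ = _ := by group
      rw [h4]
      have h5 : d ∈ normalizer (W : Set X) := hWn W hWV (mem_inf.mp (hD hd)).1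
      exact (mem_normalizer_iff.mp h5 _).mp (mul_mem ((mem_normalizer_iff.mp (hAW ha) w).mp hw) (inv_mem hw))
    exact h1.trans (sup_le h2 le_rfl)
  -- V is not centralized
  have hC1ne : ¬ V ≤ C1 := by
    intro h
    apply hA1
    rw [eq_bot_iff, ← hfaith]
    refine le_inf hAM ?_
    rw [le_centralizer_iff]
    exact h.trans inf_le_right
  have hLC : L ≤ normalizer (C : Set X) := by
    rw [le_normalizer_iff]
    intro l hl c hc
    have h1 : L ≤ centralizer {c} := by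
      refine sup_le ?_ ?_
      · intro a ha
        rw [mem_centralizer_singleton_iff]
        exact mem_centralizer_iff.mp (mem_inf.mp (mem_inf.mp hc).1).2 a ha
      · intro a ha
        rw [mem_centralizer_singleton_iff]
        exact mem_centralizer_iff.mp (mem_inf.mp (mem_inf.mp hc).2).2 a ha
    rw [mem_centralizer_singleton_iff.mp (h1 hl), mul_inv_cancel_right]
    exact hc
  obtain ⟨W, hCW, hW⟩ := Finite.exists_le_maximal
    (p := fun W : Subgroup X => W ≤ V ∧ ¬ V ≤ W ∧ L ≤ normalizer (W : Set X)) (a := C)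
    ⟨inf_le_left.trans hC1V, fun h => hC1ne (h.trans inf_le_left), hLC⟩
  obtain ⟨⟨hWV, hVW, hLW⟩, hWmax⟩ := hW
  have hirr : ∀ U : Subgroup X, W ≤ U → U ≤ V → L ≤ normalizer (U : Set X) → U = W ∨ U = V := by
    intro U hWU hUV hLU
    by_cases h : V ≤ U
    · right; exact le_antisymm hUV h
    · left; exact le_antisymm (hWmax ⟨hUV, h, hLU⟩ hWU) hWU
  have hsecVW : Sec L V W := hsecV.upper bot_le hWV hLW
  obtain ⟨eA, -⟩ := eqs hV hMV hfaith hsol hSF hLM le_sup_left hA hTA htA1 hWV hLW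
  obtain ⟨eB, -⟩ := eqs hV hMV hfaith hsol hSF hLM le_sup_right hBel hTB htB1 hWV hLW
  have hF : fix V W A ⊓ fix V W B ≤ W := by
    refine (fix_sup (le_sup_left.trans hLW) (le_sup_right.trans hLW)).trans ?_
    rcases hirr (fix V W L) (le_fix hsecVW hLW) (fix_le _ _ _) (le_normalizer_fix hsecVW le_normalizer) with h | h
    · exact h.le
    · exfalso
      apply hVW
      refine h6a A C1 hD1 hC1' W hCW hWV (le_sup_left.trans hLW) (hVA.trans (sup_le_sup_left ?_ _))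
      rw [Subgroup.commutator_le]
      intro b hb v hv
      rw [← h] at hv
      exact hv.2.2 b (mem_sup_right hb)
  have hidx : W.relIndex V ≤ ((A ⊓ opc 2 M).relIndex (A ⊓ Rd L W ⊥)) ^ 2 *
      ((B ⊓ opc 2 M).relIndex (B ⊓ Rd L W ⊥)) ^ 2 := by
    rw [eA, eB]
    have hle1 : ∀ A : Subgroup X, A ≤ L → (V ⊓ centralizer (A : Set X)) ⊔ W ≤ fix V W A := by
      intro A hAL
      refine sup_le ?_ (le_fix hsecVW (hAL.trans hLW))
      intro v hv
      refine ⟨(mem_inf.mp hv).1, hsecVW.VW (mem_inf.mp hv).1, fun a ha => ?_⟩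
      have h3 := mem_centralizer_iff.mp (mem_inf.mp hv).2 a ha
      rw [h3, mul_inv_cancel_right, mul_inv_cancel]; exact one_mem _
    calc W.relIndex V ≤ (fix V W A ⊓ fix V W B).relIndex V := relIndex_anti hF
      _ ≤ (fix V W A).relIndex V * (fix V W B).relIndex V := Subgroup.relIndex_inf_le
      _ ≤ _ := Nat.mul_le_mul (relIndex_anti (hle1 A le_sup_left)) (relIndex_anti (hle1 B le_sup_right))
  have hkA : 1 < (A ⊓ opc 2 M).relIndex (A ⊓ Rd L W ⊥) := by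
    have h1 := relIndex_pos' (A ⊓ opc 2 M) (A ⊓ Rd L W ⊥)
    rcases Nat.lt_or_ge 1 ((A ⊓ opc 2 M).relIndex (A ⊓ Rd L W ⊥)) with h | h
    · exact h
    exfalso
    have h2 : (A ⊓ opc 2 M).relIndex (A ⊓ Rd L W ⊥) = 1 := by omega
    rw [h2, one_pow, eq_comm, relIndex_eq_one] at eA
    exact hVW (h6a A C1 hD1 hC1' W hCW hWV (le_sup_left.trans hLW) eA)
  have hkB : 1 < (B ⊓ opc 2 M).relIndex (B ⊓ Rd L W ⊥) := by
    have h1 := relIndex_pos' (B ⊓ opc 2 M) (B ⊓ Rd L W ⊥)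
    rcases Nat.lt_or_ge 1 ((B ⊓ opc 2 M).relIndex (B ⊓ Rd L W ⊥)) with h | h
    · exact h
    exfalso
    have h2 : (B ⊓ opc 2 M).relIndex (B ⊓ Rd L W ⊥) = 1 := by omega
    rw [h2, one_pow, eq_comm, relIndex_eq_one] at eB
    exact hVW (h6a B C2 hD2 hC2' W hCW hWV (le_sup_right.trans hLW) eB)
  rcases le_total ((B ⊓ opc 2 M).relIndex (B ⊓ Rd L W ⊥)) ((A ⊓ opc 2 M).relIndex (A ⊓ Rd L W ⊥)) with h | h
  · refine core hV hMV hfaith hsol hSF hR hLM le_sup_left hA hTA htA2 hWV hLW hirr hkA (hidx.trans ?_)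
    calc _ ≤ ((A ⊓ opc 2 M).relIndex (A ⊓ Rd L W ⊥)) ^ 2 * ((A ⊓ opc 2 M).relIndex (A ⊓ Rd L W ⊥)) ^ 2 :=
          Nat.mul_le_mul_left _ (Nat.pow_le_pow_left h 2)
      _ = _ := by ring
  · refine core hV hMV hfaith hsol hSF hR hLM le_sup_right hBel hTB htB2 hWV hLW hirr hkB (hidx.trans ?_)
    calc _ ≤ ((B ⊓ opc 2 M).relIndex (B ⊓ Rd L W ⊥)) ^ 2 * ((B ⊓ opc 2 M).relIndex (B ⊓ Rd L W ⊥)) ^ 2 :=
          Nat.mul_le_mul_right _ (Nat.pow_le_pow_left h 2)
      _ = _ := by ring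

end Main

end H65.TheoremB2
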