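import Cfsg.Agent.Lib.H65.Tri1

set_option autoImplicit false

/-! Reduction: primitive groups with a suborbit of length 3. -/

namespace H65.Tri

open Subgroup H28.Cj H65.Dih

variable {X : Type*} [Group X] {T P : Subgroup X}

/-- odd order elements of `T` lie in the core of `T` in `P` if the index is 3 -/
theorem odd_conj_mem [Finite X] (hTP : T ≤ P) (h3 : T.relIndex P = 3) {x g : X} (hx : x ∈ T)
    (hodd : Odd (orderOf x)) (hg : g ∈ P) : g * x * g⁻¹ ∈ T := by
  by_cases hn : P ≤ normalizer (T : Set X)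
  · exact (mem_normalizer_iff.mp (hn hg) x).mp hx
  · obtain ⟨Q, f, hQT, hPnQ, hrel, h6, hNQ, hf⟩ := core_data hTP h3 hn
    have hx2 : x ^ 2 ∈ Q := by
      have h1 := Subgroup.sq_mem_of_index_two (H := Q.subgroupOf T) hrel ⟨x, hx⟩
      exact h1
    have hxQ : x ∈ Q := by
      obtain ⟨k, hk⟩ := hodd
      have h1 : x = (x ^ 2) ^ (k + 1) := by
        rw [← pow_mul]
        have h2 : 2 * (k + 1) = orderOf x + 1 := by omega
        rw [h2, pow_succ, pow_orderOf_eq_one, one_mul]
      rw [h1]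
      exact pow_mem hx2 _
    exact hQT ((mem_normalizer_iff.mp (hPnQ hg) x).mp hxQ)

theorem pair [Finite X] {P : Subgroup X} {g : X} (h3 : (P ⊓ cj g P).relIndex P = 3)
    (core : ∀ N : Subgroup X, N ≤ P → P ≤ normalizer (N : Set X) → cj g P ≤ normalizer (N : Set X) → N = ⊥) :
    Nonempty (P ≃* Multiplicative (ZMod 3)) ∨ Nonempty (P ≃* Equiv.Perm (Fin 3)) ∨
      Nonempty (P ≃* DihedralGroup 6) ∨ Nonempty (P ≃* Equiv.Perm (Fin 4)) ∨
      Nonempty (P ≃* Equiv.Perm (Fin 4) × Multiplicative (ZMod 2)) := by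
  set T := P ⊓ cj g P with hT
  have hTP : T ≤ P := inf_le_left
  have hTP' : T ≤ cj g P := inf_le_right
  have h3' : T.relIndex (cj g P) = 3 := by
    have h1 := (T.subgroupOf P).card_mul_index
    have h2 := (T.subgroupOf (cj g P)).card_mul_index
    rw [Nat.card_congr (Subgroup.subgroupOfEquivOfLe hTP).toEquiv] at h1
    rw [Nat.card_congr (Subgroup.subgroupOfEquivOfLe hTP').toEquiv, card_cj, ← h1] at h2
    have h4 : (T.subgroupOf (cj g P)).index = (T.subgroupOf P).index :=
      Nat.eq_of_mul_eq_mul_left Nat.card_pos h2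
    exact h4.trans h3
  -- `T` is a 2-group
  have hT2 : IsPGroup 2 T := by
    set O : Subgroup X := closure {x | x ∈ T ∧ Odd (orderOf x)} with hO
    have hOT : O ≤ T := by
      rw [hO, closure_le]
      exact fun x hx => hx.1
    have key : ∀ R : Subgroup X, T ≤ R → T.relIndex R = 3 → R ≤ normalizer (O : Set X) := by
      intro R hTR hR
      rw [le_normalizer_iff_forall_cj]
      have h1 : ∀ r ∈ R, cj r O ≤ O := by
        intro r hr
        rw [cj_le_iff, hO, closure_le]
        rintro x ⟨hx, hxo⟩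
        show x ∈ cj r⁻¹ O
        rw [mem_cj, inv_inv]
        apply Subgroup.subset_closure
        refine ⟨odd_conj_mem hTR hR hx hxo hr, ?_⟩
        have : orderOf (r * x * r⁻¹) = orderOf x := by
          rw [← MulAut.conj_apply, MulEquiv.orderOf_eq]
        rwa [this]
      intro r hr
      apply le_antisymm (h1 r hr)
      rw [le_cj_iff]
      exact h1 _ (inv_mem hr)
    have hOb := core O (hOT.trans hTP) (key P hTP h3) (key _ hTP' h3')
    intro x
    obtain ⟨k, m, hm, hkm⟩ := Nat.exists_eq_two_pow_mul_odd (orderOf_pos (x : X)).ne'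
    refine ⟨k, ?_⟩
    have h1 : (x : X) ^ 2 ^ k ∈ O := by
      apply Subgroup.subset_closure
      refine ⟨pow_mem x.2 _, ?_⟩
      rw [orderOf_pow_of_dvd (by positivity) ⟨m, hkm⟩, hkm, Nat.mul_div_cancel_left _ (by positivity)]
      exact hm
    rw [hOb, mem_bot] at h1
    exact Subtype.ext (by simpa using h1)
  have : Fact (Nat.Prime 2) := ⟨Nat.prime_two⟩
  -- choose `y`
  obtain ⟨h, hh, hle⟩ := H39.SylowAux.exists_conj_le (p := 2) (cj g P) T (cj g T) hTP' hT2 (by rw [h3']; norm_num)
    (cj_le_cj.mpr hTP) (isPGroup_cj.mpr hT2)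
  have hle' : cj (h * g) T ≤ T := by rw [← cj_cj]; exact hle
  have hyT : cj (h * g) T = T := Subgroup.eq_of_le_of_card_ge hle' (card_cj _ T).ge
  have hyP : cj (h * g) P = cj g P := by rw [← cj_cj]; exact cj_eq_self_of_mem hh
  exact main hTP hT2 h3 hyT (fun N hN h1 h2 => core N (hN.trans hTP) h1 (by rwa [hyP] at h2))

end H65.Tri
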