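import Cfsg.Agent.Lib.H65.Model

set_option autoImplicit false
set_option linter.dupNamespace false

/-! Vertices of the amalgam: a solvable `S₄`-free group of characteristic 2 with a minimal normal subgroup `Z`. -/

namespace H65.Vert

open Subgroup Cfsg H65.Sect H65.Irr H65.SectGen H65.MaxLocal H65.TheoremB

universe u

variable {X : Type u} [Group X]

structure Vert (H Z : Subgroup X) : Prop where
  sol : Group.IsSolvable H
  free : ¬ Involves (Equiv.Perm (Fin 4)) H
  char2 : H ⊓ centralizer (opc 2 H : Set X) ≤ opc 2 H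
  ZO : Z ≤ opc 2 H
  nZ : H ≤ normalizer (Z : Set X)
  Z1 : Z ≠ ⊥
  Zel : IsElementaryAbelian 2 Z
  Zmin : ∀ U : Subgroup X, U ≤ Z → H ≤ normalizer (U : Set X) → U = ⊥ ∨ U = Z

theorem Vert.ZH {H Z : Subgroup X} (h : Vert H Z) : Z ≤ H := h.ZO.trans opc_le

theorem opc_map_conj {p : ℕ} (M : Subgroup X) (g : X) :
    opc p (M.map (MulAut.conj g).toMonoidHom) = (opc p M).map (MulAut.conj g).toMonoidHom := by
  apply le_antisymm _ (map_conj_opc M g)
  have h1 := map_conj_opc (p := p) (M.map (MulAut.conj g).toMonoidHom) g⁻¹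
  rw [H65.Semi.map_conj_inv_map_conj] at h1
  have h2 := Subgroup.map_mono (f := (MulAut.conj g).toMonoidHom) h1
  rwa [H65.Semi.map_conj_map_conj_inv] at h2

theorem centralizer_map_conj (K : Subgroup X) (g : X) :
    centralizer ((K.map (MulAut.conj g).toMonoidHom : Subgroup X) : Set X) =
      (centralizer (K : Set X)).map (MulAut.conj g).toMonoidHom := by
  have key : ∀ (K : Subgroup X) (g : X), (centralizer (K : Set X)).map (MulAut.conj g).toMonoidHom ≤
      centralizer ((K.map (MulAut.conj g).toMonoidHom : Subgroup X) : Set X) := by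
    rintro K g _ ⟨c, hc, rfl⟩
    rw [mem_centralizer_iff]
    rintro _ ⟨k, hk, rfl⟩
    rw [← map_mul, ← map_mul, mem_centralizer_iff.mp hc k hk]
  apply le_antisymm _ (key K g)
  have h1 := Subgroup.map_mono (f := (MulAut.conj g).toMonoidHom) (key (K.map (MulAut.conj g).toMonoidHom) g⁻¹)
  rwa [H65.Semi.map_conj_map_conj_inv, H65.Semi.map_conj_inv_map_conj] at h1

theorem el_map_conj {A : Subgroup X} (hA : IsElementaryAbelian 2 A) (g : X) :
    IsElementaryAbelian 2 (A.map (MulAut.conj g).toMonoidHom) := by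
  apply el_of_comm
  · rintro _ ⟨a, ha, rfl⟩ _ ⟨b, hb, rfl⟩
    rw [← map_mul, ← map_mul, comm_of_el hA a ha b hb]
  · rintro _ ⟨a, ha, rfl⟩
    rw [← map_mul, sq_of_el hA a ha, map_one]

theorem Vert.conj {H Z : Subgroup X} (h : Vert H Z) (g : X) :
    Vert (H.map (MulAut.conj g).toMonoidHom) (Z.map (MulAut.conj g).toMonoidHom) := by
  let e : H ≃* H.map (MulAut.conj g).toMonoidHom := H.equivMapOfInjective _ (MulAut.conj g).injective
  refine ⟨?_, ?_, ?_, ?_, ?_, ?_, el_map_conj h.Zel g, ?_⟩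
  · have := h.sol
    exact Group.isSolvable_of_surjective (f := e.toMonoidHom) e.surjective
  · intro hi
    exact h.free (H51.Involves.involves_of_injective e.symm.toMonoidHom e.symm.injective hi)
  · rw [opc_map_conj, centralizer_map_conj, ← Subgroup.map_inf_eq _ _ _ (MulAut.conj g).injective]
    exact Subgroup.map_mono h.char2
  · rw [opc_map_conj]
    exact Subgroup.map_mono h.ZO
  · rw [normalizer_map_conj]
    exact Subgroup.map_mono h.nZ
  · intro hb
    exact h.Z1 ((Subgroup.map_eq_bot_iff_of_injective _ (MulAut.conj g).injective).mp hb)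
  · intro U hU hHU
    have h1 : U.map (MulAut.conj g⁻¹).toMonoidHom ≤ Z := by
      have := Subgroup.map_mono (f := (MulAut.conj g⁻¹).toMonoidHom) hU
      rwa [H65.Semi.map_conj_inv_map_conj] at this
    have h2 : H ≤ normalizer ((U.map (MulAut.conj g⁻¹).toMonoidHom : Subgroup X) : Set X) := by
      rw [normalizer_map_conj]
      have := Subgroup.map_mono (f := (MulAut.conj g⁻¹).toMonoidHom) hHU
      rwa [H65.Semi.map_conj_inv_map_conj] at this
    rcases h.Zmin _ h1 h2 with h3 | h3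
    · left
      exact (Subgroup.map_eq_bot_iff_of_injective _ (MulAut.conj g⁻¹).injective).mp h3
    · right
      rw [← h3, H65.Semi.map_conj_map_conj_inv]

variable [Finite X]

theorem Vert.strong0 {H Z P : Subgroup X} (h : Vert H Z) (hP : P ≤ H)
    (h1 : ∀ a ∈ P, a * a ∈ centralizer (Z : Set X))
    (h2 : ∀ a ∈ P, ∀ b ∈ P, a * b * a⁻¹ * b⁻¹ ∈ centralizer (Z : Set X)) :
    ((P ⊓ centralizer (Z : Set X)).relIndex P) ^ 2 ≤ (Z ⊓ centralizer (P : Set X)).relIndex Z := by
  have hsec : Sec H Z ⊥ := sec_bot h.Zel h.nZ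
  have h3 := irr hsec h.sol (H65.S4Lem.sf_of_s4free hsec le_rfl h.ZH h.free)
    (fun U _ hU hHU => h.Zmin U hU hHU) hP (by rw [act_bot]; exact h1) (by rw [act_bot]; exact h2)
  rwa [act_bot, fix_bot] at h3

theorem Vert.strong {H Z P : Subgroup X} (h : Vert H Z) (hP : P ≤ H ⊔ centralizer (Z : Set X))
    (h1 : ∀ a ∈ P, a * a ∈ centralizer (Z : Set X))
    (h2 : ∀ a ∈ P, ∀ b ∈ P, a * b * a⁻¹ * b⁻¹ ∈ centralizer (Z : Set X)) :
    ((P ⊓ centralizer (Z : Set X)).relIndex P) ^ 2 ≤ (Z ⊓ centralizer (P : Set X)).relIndex Z := by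
  set C := centralizer (Z : Set X) with hC
  have hHC : H ≤ normalizer (C : Set X) := by
    have := le_normalizer_act (sec_bot (L := H) h.Zel h.nZ)
    rwa [act_bot] at this
  have hPC : P ≤ normalizer (C : Set X) := hP.trans (sup_le hHC le_normalizer)
  let P' : Subgroup X := (P ⊔ C) ⊓ H
  have hP'C : P' ≤ normalizer (C : Set X) := inf_le_right.trans hHC
  have e1 : P' ⊔ C = P ⊔ C := by
    apply le_antisymm
    · exact sup_le inf_le_left le_sup_right
    · refine sup_le ?_ le_sup_right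
      intro x hx
      obtain ⟨y, hy, c, hc, rfl⟩ := (H65.Semi.mem_sup_iff hHC).mp (hP hx)
      have h3 : y ∈ P ⊔ C := by
        have := mul_mem (mem_sup_left hx : y * c ∈ P ⊔ C) (mem_sup_right (inv_mem hc) : c⁻¹ ∈ P ⊔ C)
        rwa [mul_inv_cancel_right] at this
      exact mul_mem (mem_sup_left (mem_inf.mpr ⟨h3, hy⟩)) (mem_sup_right hc)
  have hCn : ∀ x ∈ P ⊔ C, ∃ p ∈ P, ∃ c ∈ C, x = p * c := by
    intro x hx
    obtain ⟨y, hy, c, hc, rfl⟩ := (H65.Semi.mem_sup_iff hPC).mp hx
    exact ⟨y, hy, c, hc, rfl⟩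
  have hconj : ∀ p ∈ P, ∀ c ∈ C, p * c * p⁻¹ ∈ C := fun p hp c hc => (mem_normalizer_iff.mp (hPC hp) c).mp hc
  have g1 : ∀ a ∈ P', a * a ∈ C := by
    intro a ha
    obtain ⟨p, hp, c, hc, rfl⟩ := hCn a (mem_inf.mp ha).1
    have h3 : p * c * (p * c) = (p * c * p⁻¹) * (p * p) * c := by group
    rw [h3]
    exact mul_mem (mul_mem (hconj p hp c hc) (h1 p hp)) hc
  have g2 : ∀ a ∈ P', ∀ b ∈ P', a * b * a⁻¹ * b⁻¹ ∈ C := by
    intro a ha b hb
    obtain ⟨p, hp, c, hc, rfl⟩ := hCn a (mem_inf.mp ha).1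
    obtain ⟨q, hq, d, hd, rfl⟩ := hCn b (mem_inf.mp hb).1
    have h4 : p * c * (q * d) * (p * c)⁻¹ * (q * d)⁻¹ =
        (p * c * p⁻¹) * ((p * q) * (d * c⁻¹) * (p * q)⁻¹) * (p * q * p⁻¹ * q⁻¹) * (q * d⁻¹ * q⁻¹) := by group
    rw [h4]
    exact mul_mem (mul_mem (mul_mem (hconj p hp c hc) (hconj _ (mul_mem hp hq) _ (mul_mem hd (inv_mem hc))))
      (h2 p hp q hq)) (hconj q hq _ (inv_mem hd))
  have h3 := h.strong0 (P := P') inf_le_right g1 g2
  have e2 : (P' ⊓ C).relIndex P' = (P ⊓ C).relIndex P := by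
    rw [inf_relIndex_left, inf_relIndex_left, ← H28.RelHall.relIndex_sup_eq hP'C, e1,
      H28.RelHall.relIndex_sup_eq hPC]
  have e3 : Z ⊓ centralizer (P' : Set X) = Z ⊓ centralizer (P : Set X) := by
    have key : ∀ Q : Subgroup X, Z ⊓ centralizer (Q : Set X) = Z ⊓ centralizer ((Q ⊔ C : Subgroup X) : Set X) := by
      intro Q
      apply le_antisymm
      · refine le_inf inf_le_left ?_
        rw [le_centralizer_iff]
        refine sup_le ?_ ?_
        · rw [le_centralizer_iff]; exact inf_le_right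
        · rw [hC]; exact centralizer_le inf_le_left
      · exact inf_le_inf_left _ (centralizer_le (show (Q : Set X) ⊆ (Q ⊔ C : Subgroup X) from
          fun x hx => mem_sup_left hx))
    rw [key P', e1, ← key P]
  rw [e2, e3] at h3
  exact h3

/-- the chain argument -/
theorem chain {V : Subgroup X} {S : Set (Subgroup X)} (hS : V ≤ sSup S) (hSV : ∀ U ∈ S, U ≤ V) :
    ∀ (n : ℕ) (P : Subgroup X), Nat.card P = n →
    (∀ Q ≤ P, ∀ U ∈ S, ((Q ⊓ centralizer (U : Set X)).relIndex Q) ^ 2 ≤ (U ⊓ centralizer (Q : Set X)).relIndex U) →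
    ((P ⊓ centralizer (V : Set X)).relIndex P) ^ 2 ≤ (V ⊓ centralizer (P : Set X)).relIndex V := by
  intro n
  induction n using Nat.strong_induction_on with
  | _ n ih =>
  intro P hn hP
  by_cases hPV : P ≤ centralizer (V : Set X)
  · have h1 : (P ⊓ centralizer (V : Set X)).relIndex P = 1 := relIndex_eq_one.mpr (le_inf le_rfl hPV)
    rw [h1, one_pow]
    exact relIndex_pos' _ _
  have hex : ∃ U ∈ S, ¬ P ≤ centralizer (U : Set X) := by
    by_contra hcon
    push Not at hcon
    apply hPV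
    rw [le_centralizer_iff]
    refine hS.trans (sSup_le fun U hU => ?_)
    rw [le_centralizer_iff]
    exact hcon U hU
  obtain ⟨U, hU, hPU⟩ := hex
  set P1 := P ⊓ centralizer (U : Set X) with hP1
  have hP1P : P1 ≤ P := inf_le_left
  have hlt : Nat.card P1 < n := by
    rw [← hn]
    rcases Nat.lt_or_ge (Nat.card P1) (Nat.card P) with h | h
    · exact h
    · exact absurd (inf_eq_left.mp (Subgroup.eq_of_le_of_card_ge hP1P h)) hPU
  have h1 := ih _ hlt P1 rfl (fun Q hQ => hP Q (hQ.trans hP1P))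
  have h2 := hP P le_rfl U hU
  have e1 : P1 ⊓ centralizer (V : Set X) = P ⊓ centralizer (V : Set X) := by
    apply le_antisymm (inf_le_inf_right _ hP1P)
    refine le_inf (le_inf inf_le_left (inf_le_right.trans (centralizer_le (hSV U hU)))) inf_le_right
  have e2 := Subgroup.relIndex_mul_relIndex (P ⊓ centralizer (V : Set X)) P1 P
    (by rw [← e1]; exact inf_le_left) hP1P
  have e3 : V ⊓ centralizer (P : Set X) ≤ V ⊓ centralizer (P1 : Set X) :=
    inf_le_inf_left _ (centralizer_le hP1P)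
  have e4 := Subgroup.relIndex_mul_relIndex _ _ V e3 inf_le_left
  have e5 : U ≤ V ⊓ centralizer (P1 : Set X) := by
    refine le_inf (hSV U hU) ?_
    rw [le_centralizer_iff]; exact inf_le_right
  have e6 : (U ⊓ centralizer (P : Set X)).relIndex U ≤
      (V ⊓ centralizer (P : Set X)).relIndex (V ⊓ centralizer (P1 : Set X)) := by
    have e7 : (U ⊓ centralizer (P : Set X)).relIndex U = (V ⊓ centralizer (P : Set X)).relIndex U := by
      rw [← inf_relIndex_right (V ⊓ centralizer (P : Set X)) U]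
      congr 1
      rw [inf_right_comm, inf_eq_right.mpr (hSV U hU)]
    rw [e7]
    exact relIndex_le_of_le_right e5 (relIndex_pos' _ _).ne'
  rw [← e2, ← e4, mul_pow, ← e1, mul_comm]
  exact Nat.mul_le_mul (h2.trans e6) h1

end H65.Vert
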